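import Mathlib
import Cfsg.Agent.Lib.H2.PGrp

/-!
# S3250: simple groups of length 8 with Sylow 2-subgroups of order 128: interface
-/

set_option autoImplicit false
set_option linter.unusedVariables false

namespace H67.L8

open Subgroup

universe u

section
variable {G : Type u} [Group G]

/-- essential subgroups of the Sylow 2-subgroup `S` -/
structure Es (S E : Subgroup G) : Prop where
  le : E ≤ S
  cen : ∀ c ∈ S, (∀ e ∈ E, c * e = e * c) → c ∈ E
  nt : ∃ g ∈ normalizer (E : Set G), g ∉ S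
  rad : ∀ Q : Subgroup G, IsPGroup 2 Q → E ≤ Q → Q ≤ S →
    normalizer (E : Set G) ≤ normalizer (Q : Set G) → Q = E
  syl : ∀ Q : Subgroup G, IsPGroup 2 Q → Q ≤ normalizer (E : Set G) →
    S ⊓ normalizer (E : Set G) ≤ Q → Q ≤ S

/-- the conditions on `S` -/
structure Hyp (S : Subgroup G) : Prop where
  pg : IsPGroup 2 S
  card : Nat.card S = 2 ^ 7
  nrm : ∀ K : Subgroup G, K ≤ S → K ≠ ⊥ → (∀ s ∈ S, ∀ k ∈ K, s * k * s⁻¹ ∈ K) →
    ∀ g : G, (∀ k ∈ K, g * k * g⁻¹ ∈ K) → g ∈ S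
  c6 : ∀ X M : Subgroup G, IsPGroup 2 X → X < M → M ≠ ⊤ → Nat.card X ≤ 2 ^ 6
  c5 : ∀ X H M : Subgroup G, IsPGroup 2 X → X < H → H < M → M ≠ ⊤ → Nat.card X ≤ 2 ^ 5
  c3 : ∀ E H1 H2 H3 M : Subgroup G, IsPGroup 2 E → E < H1 → H1 < H2 → H2 < H3 → H3 < M →
    M ≠ ⊤ → Nat.card E ≤ 2 ^ 3

theorem mem_nz {H : Subgroup G} [Finite G] {g : G} (h : ∀ k ∈ H, g * k * g⁻¹ ∈ H) : g ∈ normalizer (H : Set G) := by
  have hinj : Function.Injective (fun k : H => (⟨g * k * g⁻¹, h k k.2⟩ : H)) := by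
    intro a b hab
    have := congrArg Subtype.val hab
    simp only [mul_left_inj, mul_right_inj] at this
    exact Subtype.ext this
  have hsurj := Finite.surjective_of_injective hinj
  rw [mem_normalizer_iff]
  intro k
  refine ⟨fun hk => h k hk, fun hk => ?_⟩
  obtain ⟨a, ha⟩ := hsurj ⟨_, hk⟩
  have := congrArg Subtype.val ha
  simp only [mul_left_inj, mul_right_inj] at this
  rw [← this]; exact a.2

theorem nz_conj {H : Subgroup G} {g k : G} (hg : g ∈ normalizer (H : Set G)) (hk : k ∈ H) : g * k * g⁻¹ ∈ H :=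
  (mem_normalizer_iff.1 hg k).1 hk

theorem nz_conj' {H : Subgroup G} {g k : G} (hg : g ∈ normalizer (H : Set G)) (hk : k ∈ H) : g⁻¹ * k * g ∈ H := by
  have := nz_conj (inv_mem hg) hk
  rwa [inv_inv] at this

theorem two_mul_le [Finite G] {H K : Subgroup G} (h : H < K) : 2 * Nat.card H ≤ Nat.card K := by
  have h1 := card_dvd_of_le h.le
  obtain ⟨c, hc⟩ := h1
  have hpos : 0 < Nat.card H := Nat.card_pos
  have hne : Nat.card H ≠ Nat.card K := by
    intro he
    exact h.ne (eq_of_le_of_card_ge h.le he.ge)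
  rw [hc]
  have : 2 ≤ c := by
    rcases c with _ | _ | c
    · exfalso
      have := Nat.card_pos (α := K)
      omega
    · exfalso; apply hne; omega
    · omega
  nlinarith

section base
variable [Finite G] {S E : Subgroup G}

theorem Hyp.S_ne_bot (h : Hyp S) : S ≠ ⊥ := by
  rintro rfl
  have := h.card
  rw [card_bot] at this
  norm_num at this

/-- the centralizer of a central element of `S` -/
theorem Hyp.cz (h : Hyp S) {z : G} (hz : z ∈ S) (hz1 : z ≠ 1) (hzc : ∀ s ∈ S, s * z = z * s) {g : G}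
    (hg : g * z = z * g) : g ∈ S := by
  refine h.nrm (zpowers z) (by rwa [zpowers_le]) ?_ ?_ g ?_
  · rwa [Ne, zpowers_eq_bot]
  · intro s hs k hk
    obtain ⟨n, rfl⟩ := mem_zpowers_iff.1 hk
    have h1 : Commute s z := hzc s hs
    rw [(h1.zpow_right n).eq, mul_assoc, mul_inv_cancel, mul_one]
    exact hk
  · intro k hk
    obtain ⟨n, rfl⟩ := mem_zpowers_iff.1 hk
    have h1 : Commute g z := hg
    rw [(h1.zpow_right n).eq, mul_assoc, mul_inv_cancel, mul_one]
    exact hk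

theorem Es.mem_of_central (hE : Es S E) {z : G} (hz : z ∈ S) (hzc : ∀ s ∈ S, s * z = z * s) : z ∈ E :=
  hE.cen z hz fun e he => (hzc e (hE.le he)).symm

theorem Es.pg (h : Hyp S) (hE : Es S E) : IsPGroup 2 E := h.pg.to_le hE.le

/-- there is a nontrivial central element of order two in `S` -/
theorem Hyp.exists_z (h : Hyp S) : ∃ z ∈ S, z ≠ 1 ∧ z * z = 1 ∧ ∀ s ∈ S, s * z = z * s := by
  haveI : Fact (Nat.Prime 2) := ⟨Nat.prime_two⟩
  haveI : Nontrivial S := (nontrivial_iff_ne_bot S).2 h.S_ne_bot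
  have hcn := h.pg.center_nontrivial
  have hcp : IsPGroup 2 (Subgroup.center S) := h.pg.to_subgroup _
  have hdvd : 2 ∣ Nat.card (Subgroup.center S) := by
    obtain ⟨k, hk⟩ := IsPGroup.iff_card.mp hcp
    rw [hk]
    apply dvd_pow_self
    rintro rfl
    rw [pow_zero] at hk
    exact absurd hk (by
      have := Finite.one_lt_card (α := Subgroup.center S)
      omega)
  obtain ⟨z, hz⟩ := exists_prime_orderOf_dvd_card' 2 hdvd
  refine ⟨((z : S) : G), (z : S).2, ?_, ?_, ?_⟩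
  · intro h1
    have : z = 1 := Subtype.ext (Subtype.ext h1)
    rw [this, orderOf_one] at hz
    omega
  · have := pow_orderOf_eq_one z
    rw [hz, pow_two] at this
    exact congrArg (fun x : Subgroup.center S => ((x : S) : G)) this
  · intro s hs
    exact congrArg Subtype.val (mem_center_iff.1 z.2 ⟨s, hs⟩)

theorem Es.ne_bot (h : Hyp S) (hE : Es S E) : E ≠ ⊥ := by
  rintro rfl
  obtain ⟨z, hz, hz1, -, hzc⟩ := h.exists_z
  exact hz1 (mem_bot.1 (hE.mem_of_central hz hzc))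

theorem Es.not_normal (h : Hyp S) (hE : Es S E) : ∃ s ∈ S, s ∉ normalizer (E : Set G) := by
  by_contra hcon
  push Not at hcon
  obtain ⟨g, hg, hgS⟩ := hE.nt
  exact hgS (h.nrm E hE.le (hE.ne_bot h) (fun s hs k hk => nz_conj (hcon s hs) hk) g fun k hk => nz_conj hg hk)

theorem Es.nz_ne_top (h : Hyp S) (hE : Es S E) : normalizer (E : Set G) ≠ ⊤ := by
  intro htop
  obtain ⟨s, hs, hs2⟩ := hE.not_normal h
  exact hs2 (by rw [htop]; exact mem_top s)

theorem Es.X_lt_M (hE : Es S E) : S ⊓ normalizer (E : Set G) < normalizer (E : Set G) := by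
  refine lt_of_le_of_ne inf_le_right ?_
  intro he
  obtain ⟨g, hg, hgS⟩ := hE.nt
  rw [← he] at hg
  exact hgS hg.1

theorem Es.X_pg (h : Hyp S) (hE : Es S E) : IsPGroup 2 (S ⊓ normalizer (E : Set G) : Subgroup G) := h.pg.to_le inf_le_left

/-- `|N_S(E)| ≤ 64` -/
theorem Es.card_X_le (h : Hyp S) (hE : Es S E) : Nat.card (S ⊓ normalizer (E : Set G) : Subgroup G) ≤ 2 ^ 6 :=
  h.c6 _ _ (hE.X_pg h) hE.X_lt_M (hE.nz_ne_top h)

theorem Es.E_le_X (hE : Es S E) : E ≤ S ⊓ normalizer (E : Set G) := le_inf hE.le le_normalizer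

/-- `E < N_S(E)` -/
theorem Es.E_lt_X (h : Hyp S) (hE : Es S E) : E < S ⊓ normalizer (E : Set G) := by
  haveI : Fact (Nat.Prime 2) := ⟨Nat.prime_two⟩
  refine H2.PGrp.lt_inf_normalizer h.pg (lt_of_le_of_ne hE.le ?_)
  rintro rfl
  obtain ⟨s, hs, hs2⟩ := hE.not_normal h
  exact hs2 (le_normalizer hs)

/-- an element normalizing `X = N_S(E)` outside `X` -/
theorem Es.exists_x (h : Hyp S) (hE : Es S E) : ∃ x ∈ S, x ∉ normalizer (E : Set G) ∧
    ∀ y ∈ S ⊓ normalizer (E : Set G), x * y * x⁻¹ ∈ S ⊓ normalizer (E : Set G) ∧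
      x⁻¹ * y * x ∈ S ⊓ normalizer (E : Set G) := by
  haveI : Fact (Nat.Prime 2) := ⟨Nat.prime_two⟩
  have hlt : S ⊓ normalizer (E : Set G) < S := by
    refine lt_of_le_of_ne inf_le_left ?_
    intro he
    obtain ⟨s, hs, hs2⟩ := hE.not_normal h
    rw [← he] at hs
    exact hs2 hs.2
  obtain ⟨x, hxS, hxX, hxN⟩ := H2.PGrp.exists_mem_normalizer h.pg hlt
  refine ⟨x, hxS, fun hx => hxX ⟨hxS, hx⟩, fun y hy => ⟨nz_conj hxN hy, nz_conj' hxN hy⟩⟩

/-- the key fact: an element of `N(E)` commuting with all `N(E)`-conjugates of a central element of `S` is in `E` -/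
theorem Es.key (h : Hyp S) (hE : Es S E) {z : G} (hz : z ∈ S) (hz1 : z ≠ 1) (hzc : ∀ s ∈ S, s * z = z * s)
    {t : G} (ht : t ∈ normalizer (E : Set G))
    (hc : ∀ m ∈ normalizer (E : Set G), t * (m * z * m⁻¹) = (m * z * m⁻¹) * t) : t ∈ E := by
  set M := normalizer (E : Set G) with hM
  let Q : Subgroup G :=
    { carrier := {t | t ∈ M ∧ ∀ m ∈ M, t * (m * z * m⁻¹) = (m * z * m⁻¹) * t}
      one_mem' := ⟨one_mem _, fun m _ => by simp⟩
      mul_mem' := by
        rintro a b ⟨ha, ha2⟩ ⟨hb, hb2⟩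
        refine ⟨mul_mem ha hb, fun m hm => ?_⟩
        rw [mul_assoc, hb2 m hm, ← mul_assoc, ha2 m hm, mul_assoc]
      inv_mem' := by
        rintro a ⟨ha, ha2⟩
        refine ⟨inv_mem ha, fun m hm => ?_⟩
        have h1 : Commute a (m * z * m⁻¹) := ha2 m hm
        exact h1.inv_left.eq }
  have hQS : Q ≤ S := by
    rintro a ⟨ha, ha2⟩
    have := ha2 1 (one_mem _)
    simp only [one_mul, inv_one, mul_one] at this
    exact h.cz hz hz1 hzc this
  have hzE : z ∈ E := hE.mem_of_central hz hzc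
  have hEQ : E ≤ Q := by
    intro e he
    refine ⟨le_normalizer he, fun m hm => ?_⟩
    have h1 : m⁻¹ * e * m ∈ E := nz_conj' hm he
    have h2 := hzc _ (hE.le h1)
    calc e * (m * z * m⁻¹) = m * ((m⁻¹ * e * m) * z) * m⁻¹ := by group
      _ = m * (z * (m⁻¹ * e * m)) * m⁻¹ := by rw [h2]
      _ = (m * z * m⁻¹) * e := by group
  have hQ : Q = E := by
    refine hE.rad Q (h.pg.to_le hQS) hEQ hQS ?_
    intro g hg
    apply mem_nz
    rintro a ⟨ha, ha2⟩
    refine ⟨mul_mem (mul_mem hg ha) (inv_mem hg), fun m hm => ?_⟩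
    have h2 := ha2 (g⁻¹ * m) (mul_mem (inv_mem hg) hm)
    calc g * a * g⁻¹ * (m * z * m⁻¹) = g * (a * (g⁻¹ * m * z * (g⁻¹ * m)⁻¹)) * g⁻¹ := by group
      _ = g * ((g⁻¹ * m * z * (g⁻¹ * m)⁻¹) * a) * g⁻¹ := by rw [h2]
      _ = m * z * m⁻¹ * (g * a * g⁻¹) := by group
  have : t ∈ Q := ⟨ht, hc⟩
  rwa [hQ] at this

/-- conjugates of central elements are central in `E` -/
theorem Es.conj_central (hE : Es S E) {z : G} (hzc : ∀ s ∈ S, s * z = z * s)
    {m e : G} (hm : m ∈ normalizer (E : Set G)) (he : e ∈ E) : e * (m * z * m⁻¹) = (m * z * m⁻¹) * e := by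
  have h1 : m⁻¹ * e * m ∈ E := nz_conj' hm he
  have h2 := hzc _ (hE.le h1)
  calc e * (m * z * m⁻¹) = m * ((m⁻¹ * e * m) * z) * m⁻¹ := by group
    _ = m * (z * (m⁻¹ * e * m)) * m⁻¹ := by rw [h2]
    _ = (m * z * m⁻¹) * e := by group

/-- `N(E)` does not centralize `z` -/
theorem Es.exists_move (h : Hyp S) (hE : Es S E) {z : G} (hz : z ∈ S) (hz1 : z ≠ 1) (hzc : ∀ s ∈ S, s * z = z * s) :
    ∃ m ∈ normalizer (E : Set G), m * z * m⁻¹ ≠ z := by
  obtain ⟨g, hg, hgS⟩ := hE.nt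
  refine ⟨g, hg, fun he => hgS (h.cz hz hz1 hzc ?_)⟩
  calc g * z = g * z * g⁻¹ * g := by group
    _ = z * g := by rw [he]

end base

end

end H67.L8
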