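import Mathlib

/-!
Geometric sums `S t x = 1 + x + ... + x^(t-1)` for `x ≡ 1 mod p`, `p` an odd prime.
-/

set_option autoImplicit false

namespace H67.GeomSum

open Finset

/-- the geometric sum `1 + x + ... + x^(t-1)` -/
def S (t : ℕ) (x : ℤ) : ℤ := ∑ i ∈ range t, x ^ i

theorem sub_one_mul_S (t : ℕ) (x : ℤ) : (x - 1) * S t x = x ^ t - 1 := mul_geom_sum x t

@[simp] theorem S_zero (x : ℤ) : S 0 x = 0 := by simp [S]

@[simp] theorem S_one (x : ℤ) : S 1 x = 1 := by simp [S]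

theorem S_at_one (t : ℕ) : S t 1 = t := by simp [S]

theorem S_succ (t : ℕ) (x : ℤ) : S (t + 1) x = S t x + x ^ t := by
  simp [S, sum_range_succ]

theorem S_succ' (t : ℕ) (x : ℤ) : S (t + 1) x = 1 + x * S t x := by
  simp only [S, sum_range_succ', pow_zero, mul_sum]
  rw [add_comm]
  congr 1
  apply sum_congr rfl
  intro i _
  rw [pow_succ']

theorem S_add (s t : ℕ) (x : ℤ) : S (s + t) x = S s x + x ^ s * S t x := by
  simp only [S, sum_range_add, mul_sum, pow_add]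

variable {p : ℕ}

theorem dvd_S_iff (hp : p.Prime) (hp2 : p ≠ 2) {x : ℤ} (h : (p : ℤ) ∣ x - 1) (t e : ℕ) :
    (p : ℤ) ^ e ∣ S t x ↔ p ^ e ∣ t := by
  have hodd : Odd p := hp.odd_of_ne_two hp2
  by_cases hx : x = 1
  · subst hx
    rw [S_at_one]
    exact_mod_cast Iff.rfl
  · have hx' : x - 1 ≠ 0 := sub_ne_zero.2 hx
    have hnp : ¬ (p : ℤ) ∣ x := by
      intro h1
      have h2 := dvd_sub h1 h
      have : x - (x - 1) = 1 := by ring
      rw [this] at h2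
      exact (Nat.prime_iff_prime_int.1 hp).not_isUnit (isUnit_of_dvd_one h2)
    have key := Int.emultiplicity_pow_sub_pow hp hodd (x := x) (y := 1) h hnp t
    rw [one_pow, ← sub_one_mul_S, emultiplicity_mul (Nat.prime_iff_prime_int.1 hp)] at key
    have hfin : emultiplicity (p : ℤ) (x - 1) ≠ ⊤ := by
      rw [← finiteMultiplicity_iff_emultiplicity_ne_top]
      exact FiniteMultiplicity.of_prime_left (Nat.prime_iff_prime_int.1 hp) hx'
    have key2 : emultiplicity (p : ℤ) (S t x) = emultiplicity p t :=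
      (ENat.addLECancellable_of_ne_top hfin).inj.1 key
    rw [pow_dvd_iff_le_emultiplicity, pow_dvd_iff_le_emultiplicity, key2]

theorem not_dvd_of_dvd_sub_one (hp : p.Prime) {x : ℤ} (h : (p : ℤ) ∣ x - 1) : ¬ (p : ℤ) ∣ x := by
  intro h1
  have h2 := dvd_sub h1 h
  have : x - (x - 1) = 1 := by ring
  rw [this] at h2
  exact (Nat.prime_iff_prime_int.1 hp).not_isUnit (isUnit_of_dvd_one h2)

/-- `t ↦ S t x mod p^n` is injective on `[0, p^n)`. -/
theorem S_inj (hp : p.Prime) (hp2 : p ≠ 2) {x : ℤ} (h : (p : ℤ) ∣ x - 1) (n : ℕ) {s t : ℕ}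
    (hst : (p : ℤ) ^ n ∣ S s x - S t x) : s ≡ t [MOD p ^ n] := by
  wlog hle : t ≤ s generalizing s t
  · exact (this (by rw [← dvd_neg, neg_sub]; exact hst) (le_of_not_ge hle)).symm
  obtain ⟨d, rfl⟩ := Nat.exists_eq_add_of_le hle
  rw [S_add, add_sub_cancel_left] at hst
  have hcop : IsCoprime ((p : ℤ) ^ n) (x ^ t) := by
    apply IsCoprime.pow
    rw [Int.isCoprime_iff_gcd_eq_one]
    rcases (Nat.coprime_or_dvd_of_prime hp x.natAbs) with h1 | h1
    · exact h1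
    · exact absurd (Int.natCast_dvd.2 h1) (not_dvd_of_dvd_sub_one hp h)
  have h3 := hcop.dvd_of_dvd_mul_left hst
  rw [dvd_S_iff hp hp2 h] at h3
  rw [Nat.ModEq.comm, Nat.modEq_iff_dvd' (Nat.le_add_right _ _)]
  simpa using h3

/-- `t ↦ S t x mod p^n` is a bijection of `[0,p^n)` with `ZMod (p^n)`. -/
theorem S_bij (hp : p.Prime) (hp2 : p ≠ 2) {x : ℤ} (h : (p : ℤ) ∣ x - 1) (n : ℕ) [NeZero (p ^ n)] :
    Function.Bijective (fun t : ZMod (p ^ n) => ((S t.val x : ℤ) : ZMod (p ^ n))) := by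
  apply Finite.injective_iff_bijective.1
  intro s t hst
  simp only at hst
  have h1 : (p : ℤ) ^ n ∣ S s.val x - S t.val x := by
    have h2 : ((S s.val x - S t.val x : ℤ) : ZMod (p ^ n)) = 0 := by
      push_cast; exact sub_eq_zero.2 hst
    rw [ZMod.intCast_zmod_eq_zero_iff_dvd] at h2
    exact_mod_cast h2
  have h3 := S_inj hp hp2 h n h1
  rw [← ZMod.natCast_eq_natCast_iff] at h3
  simpa using h3

theorem sum_zmod_eq_zero (hp : p.Prime) (hp2 : p ≠ 2) (n : ℕ) [NeZero (p ^ n)] :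
    ∑ t : ZMod (p ^ n), t = 0 := by
  have h1 : ∑ t : ZMod (p ^ n), t = ∑ t : ZMod (p ^ n), -t := by
    exact (Equiv.sum_comp (Equiv.neg (ZMod (p ^ n))) (fun t => t)).symm
  rw [sum_neg_distrib] at h1
  have h2 : (2 : ZMod (p ^ n)) * ∑ t : ZMod (p ^ n), t = 0 := by
    rw [two_mul]; nth_rewrite 1 [h1]; simp
  have hu : IsUnit (2 : ZMod (p ^ n)) := by
    have : ((2 : ℕ) : ZMod (p ^ n)) = 2 := by norm_cast
    rw [← this, ZMod.isUnit_iff_coprime]
    apply Nat.Coprime.pow_right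
    rw [Nat.coprime_two_left]
    exact hp.odd_of_ne_two hp2
  exact (hu.mul_right_eq_zero).1 h2

/-- `p^n` divides the sum of the geometric sums `S i x` over `i < p^n` (`p` odd). -/
theorem dvd_sum_S (hp : p.Prime) (hp2 : p ≠ 2) {x : ℤ} (h : (p : ℤ) ∣ x - 1) (n : ℕ) :
    ((p ^ n : ℕ) : ℤ) ∣ ∑ i ∈ range (p ^ n), S i x := by
  have : NeZero (p ^ n) := ⟨pow_ne_zero _ hp.ne_zero⟩
  rw [← ZMod.intCast_zmod_eq_zero_iff_dvd]
  push_cast
  have h1 : ∑ i ∈ range (p ^ n), ((S i x : ℤ) : ZMod (p ^ n)) =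
      ∑ t : ZMod (p ^ n), ((S t.val x : ℤ) : ZMod (p ^ n)) := by
    refine sum_bij' (fun (i : ℕ) _ => (i : ZMod (p ^ n))) (fun (t : ZMod (p ^ n)) _ => t.val)
      ?_ ?_ ?_ ?_ ?_
    · intro i _; exact mem_univ _
    · intro t _; exact mem_range.2 (ZMod.val_lt t)
    · intro i hi; exact ZMod.val_cast_of_lt (mem_range.1 hi)
    · intro t _; simp
    · intro i hi; rw [ZMod.val_cast_of_lt (mem_range.1 hi)]
  rw [h1, Function.Bijective.sum_comp (S_bij hp hp2 h n) (fun t => t)]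
  exact sum_zmod_eq_zero hp hp2 n

theorem S_sub_self (t : ℕ) (x : ℤ) : S t x - t = (x - 1) * ∑ i ∈ range t, S i x := by
  induction t with
  | zero => simp
  | succ t ih =>
    rw [sum_range_succ, mul_add, ← ih, sub_one_mul_S, S_succ]
    push_cast; ring

/-- `S (p^c) x ≡ p^c` modulo `(x - 1) p^c` for odd `p` and `x ≡ 1 mod p`. -/
theorem S_pow_sub (hp : p.Prime) (hp2 : p ≠ 2) {x : ℤ} (h : (p : ℤ) ∣ x - 1) (c : ℕ) :
    (x - 1) * ((p ^ c : ℕ) : ℤ) ∣ S (p ^ c) x - ((p ^ c : ℕ) : ℤ) := by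
  rw [S_sub_self]
  exact mul_dvd_mul_left _ (dvd_sum_S hp hp2 h c)

/-- every residue mod `p^n` is `S t x` for some `t`. -/
theorem exists_S_eq (hp : p.Prime) (hp2 : p ≠ 2) {x : ℤ} (h : (p : ℤ) ∣ x - 1) (n : ℕ)
    (y : ZMod (p ^ n)) : ∃ t : ℕ, ((S t x : ℤ) : ZMod (p ^ n)) = y := by
  have : NeZero (p ^ n) := ⟨pow_ne_zero _ hp.ne_zero⟩
  obtain ⟨t, ht⟩ := (S_bij hp hp2 h n).2 y
  exact ⟨t.val, ht⟩

end H67.GeomSum
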