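import Mathlib
import Cfsg.Agent.Lib.H67.L8a

/-!
# S3250: the noncentral normal four-group, part 1: `v ∉ E`
-/

set_option autoImplicit false
set_option linter.unusedVariables false
set_option linter.unusedSectionVars false

namespace H67.L8

open Subgroup

universe u

section
variable {G : Type u} [Group G]

/-- a four-group `⟨z, v⟩` normal in `S` -/
structure ZV (S : Subgroup G) (z v : G) : Prop where
  hz : z ∈ S
  hz1 : z ≠ 1
  hz2 : z * z = 1
  hzc : ∀ s ∈ S, s * z = z * s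
  hv : v ∈ S
  hv1 : v ≠ 1
  hvz : v ≠ z
  hv2 : v * v = 1
  hvc : ∀ s ∈ S, s * v * s⁻¹ = v ∨ s * v * s⁻¹ = v * z

variable [Finite G] {S E : Subgroup G} {z v : G}

theorem ZV.vz (d : ZV S z v) : v * z = z * v := d.hzc v d.hv

omit [Finite G] in
theorem eqc {a b c : G} (h : a * b * a⁻¹ = c) : a * b = c * a := mul_inv_eq_iff_eq_mul.1 h

omit [Finite G] in
theorem eqc' {a b c : G} (h : a * b = c * a) : a * b * a⁻¹ = c := mul_inv_eq_iff_eq_mul.2 h

omit [Finite G] in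
theorem inv_eq_self' {a : G} (h : a * a = 1) : a⁻¹ = a := inv_eq_of_mul_eq_one_left h

theorem ZV.conj (hE : Es S E) (d : ZV S z v) {m e : G} (hm : m ∈ normalizer (E : Set G)) (he : e ∈ E) :
    e * (m * v * m⁻¹) * e⁻¹ = m * v * m⁻¹ ∨ e * (m * v * m⁻¹) * e⁻¹ = m * v * m⁻¹ * (m * z * m⁻¹) := by
  have h1 : m⁻¹ * e * m ∈ E := nz_conj' hm he
  have h3 : e * (m * v * m⁻¹) * e⁻¹ = m * ((m⁻¹ * e * m) * v * (m⁻¹ * e * m)⁻¹) * m⁻¹ := by group
  rcases d.hvc _ (hE.le h1) with h2 | h2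
  · left; rw [h3, h2]
  · right; rw [h3, h2]; group

/-- the action of `v^m` on `E` -/
theorem ZV.act (hE : Es S E) (d : ZV S z v) {m e : G} (hm : m ∈ normalizer (E : Set G)) (he : e ∈ E) :
    (m * v * m⁻¹) * e * (m * v * m⁻¹)⁻¹ = e ∨ (m * v * m⁻¹) * e * (m * v * m⁻¹)⁻¹ = e * (m * z * m⁻¹) := by
  have h1 : m⁻¹ * e * m ∈ E := nz_conj' hm he
  set f := m⁻¹ * e * m with hf
  have hfe : e = m * f * m⁻¹ := by rw [hf]; group
  have h3 : (m * v * m⁻¹) * e * (m * v * m⁻¹)⁻¹ = m * (v * f * v⁻¹) * m⁻¹ := by rw [hfe]; group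
  have hv' : v⁻¹ = v := inv_eq_self' d.hv2
  have hz' : z⁻¹ = z := inv_eq_self' d.hz2
  have hfz := d.hzc f (hE.le h1)
  rcases d.hvc _ (hE.le h1) with h2 | h2
  · left
    have h4 : v * f * v⁻¹ = f := eqc' (eqc h2).symm
    rw [h3, h4, ← hfe]
  · right
    have h4 : v * f * v⁻¹ = f * z := by
      have h5 : f * v = v * z * f := eqc h2
      have h6 : v * (f * v) = z * f := by
        calc v * (f * v) = v * (v * z * f) := by rw [h5]
          _ = (v * v) * (z * f) := by simp only [mul_assoc]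
          _ = z * f := by rw [d.hv2, one_mul]
      rw [hv', mul_assoc, h6, hfz]
    rw [h3, h4]
    rw [hfe]; group

theorem ZV.act' (hE : Es S E) (d : ZV S z v) {e : G} (he : e ∈ E) :
    v * e * v⁻¹ = e ∨ v * e * v⁻¹ = e * z := by
  have := d.act hE (one_mem _) he
  simpa using this

theorem ZV.zE (hE : Es S E) (d : ZV S z v) : z ∈ E := hE.mem_of_central d.hz d.hzc

theorem ZV.vM (hE : Es S E) (d : ZV S z v) : v ∈ normalizer (E : Set G) := by
  apply mem_nz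
  intro e he
  rcases d.act' hE he with h | h
  · rw [h]; exact he
  · rw [h]; exact mul_mem he (d.zE hE)

/-- the data of the case `v ∉ E` -/
structure W2 (S E : Subgroup G) (z v z₁ v₁ : G) : Prop where
  zE : z ∈ E
  z1E : z₁ ∈ E
  zc : ∀ e ∈ E, e * z = z * e
  z1c : ∀ e ∈ E, e * z₁ = z₁ * e
  z11 : z₁ * z₁ = 1
  vz : v * z * v⁻¹ = z
  vz1 : v * z₁ * v⁻¹ = z₁ * z
  v1z : v₁ * z * v₁⁻¹ = z * z₁
  v1z1 : v₁ * z₁ * v₁⁻¹ = z₁
  vact : ∀ e ∈ E, v * e * v⁻¹ = e ∨ v * e * v⁻¹ = e * z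
  v1act : ∀ e ∈ E, v₁ * e * v₁⁻¹ = e ∨ v₁ * e * v₁⁻¹ = e * z₁
  v1M : v₁ ∈ normalizer (E : Set G)
  con : ∃ m ∈ normalizer (E : Set G), z₁ = m * z * m⁻¹ ∧ v₁ = m * v * m⁻¹

theorem exists_w2 (h : Hyp S) (hE : Es S E) (d : ZV S z v) (hs : ∃ s ∈ E, s * v ≠ v * s) (hvE : v ∉ E) :
    ∃ z₁ v₁, W2 S E z v z₁ v₁ := by
  have hvM := d.vM hE
  have hex : ∃ m ∈ normalizer (E : Set G), v * (m * z * m⁻¹) ≠ (m * z * m⁻¹) * v := by
    by_contra hcon
    push Not at hcon
    exact hvE (hE.key h d.hz d.hz1 d.hzc hvM hcon)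
  obtain ⟨m, hm, hmz⟩ := hex
  set z₁ := m * z * m⁻¹ with hz₁
  set v₁ := m * v * m⁻¹ with hv₁
  have hzE := d.zE hE
  have hz1E : z₁ ∈ E := nz_conj hm hzE
  have hv' : v⁻¹ = v := inv_eq_self' d.hv2
  have hz' : z⁻¹ = z := inv_eq_self' d.hz2
  have hz11 : z₁ * z₁ = 1 := by
    rw [hz₁]
    calc m * z * m⁻¹ * (m * z * m⁻¹) = m * (z * z) * m⁻¹ := by group
      _ = 1 := by rw [d.hz2]; group
  have hvz1 : v * z₁ * v⁻¹ = z₁ * z := by
    rcases d.act' hE hz1E with h1 | h1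
    · exfalso
      exact hmz (eqc h1)
    · exact h1
  have hzz1 : z ≠ z₁ := by
    intro he
    rw [← he] at hmz
    exact hmz d.vz
  have hz1ne : z₁ ≠ 1 := by
    intro he
    rw [he] at hmz
    simp at hmz
  have hz1c : ∀ e ∈ E, e * z₁ = z₁ * e := fun e he => hE.conj_central d.hzc hm he
  have hzc : ∀ e ∈ E, e * z = z * e := fun e he => d.hzc e (hE.le he)
  have hv1M : v₁ ∈ normalizer (E : Set G) := mul_mem (mul_mem hm hvM) (inv_mem hm)
  have hv1act : ∀ e ∈ E, v₁ * e * v₁⁻¹ = e ∨ v₁ * e * v₁⁻¹ = e * z₁ := fun e he => d.act hE hm he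
  refine ⟨z₁, v₁, hzE, hz1E, hzc, hz1c, hz11, by rw [d.vz]; group, hvz1, ?_, ?_, fun e he => d.act' hE he, hv1act, hv1M,
    m, hm, rfl, rfl⟩
  · rcases hv1act z hzE with h1 | h1
    · exfalso
      -- `v₁ ∈ S`
      have hv1S : v₁ ∈ S := by
        refine h.cz d.hz d.hz1 d.hzc ?_
        calc v₁ * z = v₁ * z * v₁⁻¹ * v₁ := by group
          _ = z * v₁ := by rw [h1]
      obtain ⟨s, hs, hsv⟩ := hs
      have hsv' : s * v * s⁻¹ = v * z := by
        rcases d.hvc s (hE.le hs) with h2 | h2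
        · exfalso; apply hsv
          calc s * v = s * v * s⁻¹ * s := by group
            _ = v * s := by rw [h2]
        · exact h2
      -- `v v₁ v⁻¹ = v₁` or `v₁ z`
      have h3 : ∃ y : G, (y = 1 ∨ y = z) ∧ v * v₁ * v⁻¹ = y * v₁ := by
        rcases d.hvc v₁ hv1S with h2 | h2
        · refine ⟨1, Or.inl rfl, ?_⟩
          rw [one_mul]
          exact eqc' (eqc h2).symm
        · refine ⟨z, Or.inr rfl, ?_⟩
          have h4 : v₁ * v = v * z * v₁ := eqc h2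
          have h5 : v * (v₁ * v) = z * v₁ := by
            calc v * (v₁ * v) = v * (v * z * v₁) := by rw [h4]
              _ = (v * v) * (z * v₁) := by simp only [mul_assoc]
              _ = z * v₁ := by rw [d.hv2, one_mul]
          rw [hv', mul_assoc, h5]
      obtain ⟨y, hy, hyv⟩ := h3
      have hyc : ∀ e ∈ E, e * y = y * e := by
        rcases hy with rfl | rfl
        · intro e _; simp
        · exact hzc
      -- the element `e = v (m s m⁻¹) v⁻¹`
      have h6 : (m * s * m⁻¹) * v₁ * (m * s * m⁻¹)⁻¹ = v₁ * z₁ := by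
        calc (m * s * m⁻¹) * v₁ * (m * s * m⁻¹)⁻¹ = m * (s * v * s⁻¹) * m⁻¹ := by rw [hv₁]; group
          _ = v₁ * z₁ := by rw [hsv']; rw [hv₁, hz₁]; group
      set e := v * (m * s * m⁻¹) * v⁻¹ with he
      have heE : e ∈ E := nz_conj hvM (nz_conj hm hs)
      have h7 : e * (y * v₁) * e⁻¹ = y * v₁ * (z₁ * z) := by
        rw [← hyv]
        calc e * (v * v₁ * v⁻¹) * e⁻¹ = v * ((m * s * m⁻¹) * v₁ * (m * s * m⁻¹)⁻¹) * v⁻¹ := by rw [he]; group
          _ = v * v₁ * v⁻¹ * (v * z₁ * v⁻¹) := by rw [h6]; group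
          _ = v * v₁ * v⁻¹ * (z₁ * z) := by rw [hvz1]
      have h8 : e * (y * v₁) * e⁻¹ = y * (e * v₁ * e⁻¹) := by
        calc e * (y * v₁) * e⁻¹ = (e * y) * v₁ * e⁻¹ := by group
          _ = (y * e) * v₁ * e⁻¹ := by rw [hyc e heE]
          _ = y * (e * v₁ * e⁻¹) := by group
      rw [h8] at h7
      have h9 : e * v₁ * e⁻¹ = v₁ * (z₁ * z) := by
        have := congrArg (fun t => y⁻¹ * t) h7
        simpa [mul_assoc] using this
      rcases d.conj hE hm heE with h10 | h10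
      · rw [← hv₁] at h10
        rw [h10] at h9
        have h11 : z₁ * z = 1 := by
          have := congrArg (fun t => v₁⁻¹ * t) h9
          simpa [mul_assoc] using this.symm
        exact hzz1 (by rw [← inv_eq_self' hz11]; exact eq_inv_of_mul_eq_one_right h11)
      · rw [← hv₁, ← hz₁] at h10
        rw [h10] at h9
        have h11 : z₁ = z₁ * z := mul_left_cancel h9
        exact d.hz1 (by simpa using h11.symm)
    · exact h1
  · calc v₁ * z₁ * v₁⁻¹ = m * (v * z * v⁻¹) * m⁻¹ := by rw [hv₁, hz₁]; group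
      _ = z₁ := by rw [d.vz]; rw [hz₁]; group

end

end H67.L8
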