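import Mathlib
import Cfsg.Agent.Lib.H67.L8b

/-!
# S3250: the noncentral normal four-group, part 2: the final contradiction for `v ∉ E`
-/

set_option autoImplicit false
set_option linter.unusedVariables false
set_option linter.unusedSectionVars false

namespace H67.L8

open Subgroup

universe u

section
variable {G : Type u} [Group G] [Finite G] {S E : Subgroup G} {z v z₁ v₁ : G}

/-- the centralizer of `v`, `v₁` in `E` -/
def CE (E : Subgroup G) (v v₁ : G) : Subgroup G where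
  carrier := {e | e ∈ E ∧ v * e * v⁻¹ = e ∧ v₁ * e * v₁⁻¹ = e}
  one_mem' := ⟨one_mem _, by simp, by simp⟩
  mul_mem' := by
    rintro a b ⟨ha, ha1, ha2⟩ ⟨hb, hb1, hb2⟩
    refine ⟨mul_mem ha hb, ?_, ?_⟩
    · calc v * (a * b) * v⁻¹ = (v * a * v⁻¹) * (v * b * v⁻¹) := by group
        _ = a * b := by rw [ha1, hb1]
    · calc v₁ * (a * b) * v₁⁻¹ = (v₁ * a * v₁⁻¹) * (v₁ * b * v₁⁻¹) := by group
        _ = a * b := by rw [ha2, hb2]
  inv_mem' := by
    rintro a ⟨ha, ha1, ha2⟩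
    refine ⟨inv_mem ha, ?_, ?_⟩
    · calc v * a⁻¹ * v⁻¹ = (v * a * v⁻¹)⁻¹ := by group
        _ = a⁻¹ := by rw [ha1]
    · calc v₁ * a⁻¹ * v₁⁻¹ = (v₁ * a * v₁⁻¹)⁻¹ := by group
        _ = a⁻¹ := by rw [ha2]

theorem mem_CE {e : G} : e ∈ CE E v v₁ ↔ e ∈ E ∧ v * e * v⁻¹ = e ∧ v₁ * e * v₁⁻¹ = e := Iff.rfl

theorem zz1_ne (d : ZV S z v) (w : W2 S E z v z₁ v₁) : z₁ ≠ 1 ∧ z ≠ z₁ := by
  constructor
  · intro he
    have := w.vz1
    rw [he] at this
    simp only [mul_one, mul_inv_cancel, one_mul] at this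
    exact d.hz1 this.symm
  · intro he
    have := w.vz1
    rw [← he, w.vz] at this
    exact d.hz1 (by simpa using this.symm)

theorem z_not_CE (d : ZV S z v) (w : W2 S E z v z₁ v₁) : z ∉ CE E v v₁ := by
  rintro ⟨-, -, h⟩
  rw [w.v1z] at h
  exact (zz1_ne d w).1 (by simpa using h)

/-- the four-group `W` as a predicate -/
def InW (z z₁ w : G) : Prop := w = 1 ∨ w = z ∨ w = z₁ ∨ w = z₁ * z

theorem InW.sq (d : ZV S z v) (w : W2 S E z v z₁ v₁) {x : G} (hx : InW z z₁ x) : x * x = 1 := by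
  rcases hx with rfl | rfl | rfl | rfl
  · simp
  · exact d.hz2
  · exact w.z11
  · calc z₁ * z * (z₁ * z) = z₁ * (z * z₁) * z := by group
      _ = z₁ * (z₁ * z) * z := by rw [w.zc z₁ w.z1E]
      _ = (z₁ * z₁) * (z * z) := by group
      _ = 1 := by rw [w.z11, d.hz2, one_mul]

theorem InW.central (w : W2 S E z v z₁ v₁) {x : G} (hx : InW z z₁ x) {e : G} (he : e ∈ E) : e * x = x * e := by
  rcases hx with rfl | rfl | rfl | rfl
  · simp
  · exact w.zc e he
  · exact w.z1c e he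
  · rw [← mul_assoc, w.z1c e he, mul_assoc, w.zc e he, mul_assoc]

theorem InW.mem (w : W2 S E z v z₁ v₁) {x : G} (hx : InW z z₁ x) : x ∈ E := by
  rcases hx with rfl | rfl | rfl | rfl
  · exact one_mem _
  · exact w.zE
  · exact w.z1E
  · exact mul_mem w.z1E w.zE

/-- `E = C W` -/
theorem decomp (d : ZV S z v) (w : W2 S E z v z₁ v₁) {e : G} (he : e ∈ E) :
    ∃ c ∈ CE E v v₁, ∃ x, InW z z₁ x ∧ e = c * x := by
  have hzE := w.zE
  have hz1E := w.z1E
  have key : ∀ f ∈ E, v * f * v⁻¹ = f → ∃ c ∈ CE E v v₁, ∃ x, (x = 1 ∨ x = z) ∧ f = c * x := by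
    intro f hf hvf
    rcases w.v1act f hf with h1 | h1
    · exact ⟨f, ⟨hf, hvf, h1⟩, 1, Or.inl rfl, by simp⟩
    · refine ⟨f * z, ⟨mul_mem hf hzE, ?_, ?_⟩, z, Or.inr rfl, ?_⟩
      · calc v * (f * z) * v⁻¹ = (v * f * v⁻¹) * (v * z * v⁻¹) := by group
          _ = f * z := by rw [hvf, w.vz]
      · calc v₁ * (f * z) * v₁⁻¹ = (v₁ * f * v₁⁻¹) * (v₁ * z * v₁⁻¹) := by group
          _ = f * (z₁ * z) * z₁ := by rw [h1, w.v1z]; simp only [mul_assoc]
          _ = f * (z * z₁) * z₁ := by rw [w.zc z₁ hz1E]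
          _ = f * z * (z₁ * z₁) := by simp only [mul_assoc]
          _ = f * z := by rw [w.z11, mul_one]
      · rw [mul_assoc, d.hz2, mul_one]
  rcases w.vact e he with h1 | h1
  · obtain ⟨c, hc, x, hx, h2⟩ := key e he h1
    exact ⟨c, hc, x, by rcases hx with rfl | rfl <;> simp [InW], h2⟩
  · obtain ⟨c, hc, x, hx, h2⟩ := key (e * z₁) (mul_mem he hz1E) (by
      calc v * (e * z₁) * v⁻¹ = (v * e * v⁻¹) * (v * z₁ * v⁻¹) := by group
        _ = e * (z * z₁) * z := by rw [h1, w.vz1]; simp only [mul_assoc]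
        _ = e * (z₁ * z) * z := by rw [w.zc z₁ hz1E]
        _ = e * z₁ * (z * z) := by simp only [mul_assoc]
        _ = e * z₁ := by rw [d.hz2, mul_one])
    refine ⟨c, hc, z₁ * x, ?_, ?_⟩
    · rcases hx with rfl | rfl
      · right; right; left; simp
      · right; right; right; rfl
    · have hxE : x ∈ E := by
        rcases hx with rfl | rfl
        · exact one_mem _
        · exact hzE
      calc e = e * z₁ * z₁ := by rw [mul_assoc, w.z11, mul_one]
        _ = c * x * z₁ := by rw [h2]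
        _ = c * (z₁ * x) := by rw [mul_assoc, w.z1c x hxE]

/-- squares of elements of `E` are in `C` -/
theorem sq_mem (d : ZV S z v) (w : W2 S E z v z₁ v₁) {e : G} (he : e ∈ E) : e * e ∈ CE E v v₁ := by
  obtain ⟨c, hc, x, hx, rfl⟩ := decomp d w he
  have h1 : c * x * (c * x) = c * c := by
    calc c * x * (c * x) = c * (x * c) * x := by group
      _ = c * (c * x) * x := by rw [hx.central w hc.1]
      _ = c * c * (x * x) := by group
      _ = c * c := by rw [hx.sq d w, mul_one]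
  rw [h1]
  exact mul_mem hc hc

/-- commutators of elements of `E` are in `C` -/
theorem comm_mem (d : ZV S z v) (w : W2 S E z v z₁ v₁) {e f : G} (he : e ∈ E) (hf : f ∈ E) :
    e * f * e⁻¹ * f⁻¹ ∈ CE E v v₁ := by
  obtain ⟨c, hc, x, hx, rfl⟩ := decomp d w he
  obtain ⟨c', hc', x', hx', rfl⟩ := decomp d w hf
  have h1 : c * x * (c' * x') * (c * x)⁻¹ * (c' * x')⁻¹ = c * c' * c⁻¹ * c'⁻¹ := by
    have e1 : x * (c' * x') = c' * x' * x := (hx.central w (mul_mem hc'.1 (hx'.mem w))).symm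
    have e2 : x' * c⁻¹ = c⁻¹ * x' := (hx'.central w (inv_mem hc.1)).symm
    calc c * x * (c' * x') * (c * x)⁻¹ * (c' * x')⁻¹ = c * (x * (c' * x')) * x⁻¹ * c⁻¹ * (c' * x')⁻¹ := by group
      _ = c * (c' * x' * x) * x⁻¹ * c⁻¹ * (c' * x')⁻¹ := by rw [e1]
      _ = c * c' * (x' * c⁻¹) * x'⁻¹ * c'⁻¹ := by group
      _ = c * c' * (c⁻¹ * x') * x'⁻¹ * c'⁻¹ := by rw [e2]
      _ = c * c' * c⁻¹ * c'⁻¹ := by group
  rw [h1]
  exact mul_mem (mul_mem (mul_mem hc hc') (inv_mem hc)) (inv_mem hc')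

/-- the final contradiction -/
theorem final (h : Hyp S) (hE : Es S E) (d : ZV S z v) (w : W2 S E z v z₁ v₁) (hvE : v ∉ E)
    (hidx : ∀ y ∈ S ⊓ normalizer (E : Set G), y ∉ E → v * y ∈ E) : False := by
  obtain ⟨x, hxS, hxM, hxX⟩ := hE.exists_x h
  have hvX : v ∈ S ⊓ normalizer (E : Set G) := ⟨d.hv, d.vM hE⟩
  have hEX := hE.E_le_X
  have hzx : x⁻¹ * z * x = z := by
    have := d.hzc x hxS
    calc x⁻¹ * z * x = x⁻¹ * (z * x) := by group
      _ = x⁻¹ * (x * z) := by rw [this]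
      _ = z := by group
  have hv' : v⁻¹ = v := inv_eq_self' d.hv2
  -- product of two elements of `X` outside `E`
  have hprod : ∀ a ∈ S ⊓ normalizer (E : Set G), ∀ b ∈ S ⊓ normalizer (E : Set G), a ∉ E → b ∉ E → a * b ∈ E := by
    intro a ha b hb haE hbE
    have h1 := inv_mem (hidx _ (inv_mem ha) (fun h' => haE (by simpa using inv_mem h')))
    have h2 := hidx b hb hbE
    have h3 : (v * a⁻¹)⁻¹ * (v * b) = a * b := by group
    rw [← h3]
    exact mul_mem h1 h2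
  have hxvE : x⁻¹ * v * x ∉ E := by
    intro h1
    have h2 := d.hvc x⁻¹ (inv_mem hxS)
    rw [inv_inv] at h2
    rcases h2 with h2 | h2
    · rw [h2] at h1; exact hvE h1
    · rw [h2] at h1
      apply hvE
      have := mul_mem h1 w.zE
      rwa [mul_assoc, d.hz2, mul_one] at this
  have hstep : ∀ y ∈ S ⊓ normalizer (E : Set G), x⁻¹ * y * x ∉ E → x⁻¹ * (y * v) * x ∈ E := by
    intro y hy hyE
    have h1 := hprod _ (hxX y hy).2 _ (hxX v hvX).2 hyE hxvE
    have h2 : x⁻¹ * y * x * (x⁻¹ * v * x) = x⁻¹ * (y * v) * x := by group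
    rwa [h2] at h1
  have hvz1 := eqc w.vz1
  -- `z₁`
  have hz1 : x⁻¹ * z₁ * x ∈ E := by
    by_contra hcon
    have h1 := hstep z₁ (hEX w.z1E) hcon
    have h2 := sq_mem d w h1
    have h3 : x⁻¹ * (z₁ * v) * x * (x⁻¹ * (z₁ * v) * x) = z := by
      calc x⁻¹ * (z₁ * v) * x * (x⁻¹ * (z₁ * v) * x) = x⁻¹ * (z₁ * (v * z₁) * v) * x := by group
        _ = x⁻¹ * (z₁ * (z₁ * z * v) * v) * x := by rw [hvz1]
        _ = x⁻¹ * ((z₁ * z₁) * z * (v * v)) * x := by simp only [mul_assoc]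
        _ = x⁻¹ * z * x := by rw [w.z11, d.hv2, one_mul, mul_one]
        _ = z := hzx
    rw [h3] at h2
    exact z_not_CE d w h2
  have hC : ∀ c ∈ CE E v v₁, x⁻¹ * c * x ∈ E := by
    intro c hc
    by_contra hcon
    have h1 := hstep c (hEX hc.1) hcon
    have h2 := comm_mem d w h1 hz1
    have hcz : c * z₁ = z₁ * c := w.z1c c hc.1
    have hczz : c * z = z * c := w.zc c hc.1
    have hcc : c * (z₁ * z) = z₁ * z * c := by rw [← mul_assoc, hcz, mul_assoc, hczz, ← mul_assoc]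
    have h3 : x⁻¹ * (c * v) * x * (x⁻¹ * z₁ * x) * (x⁻¹ * (c * v) * x)⁻¹ * (x⁻¹ * z₁ * x)⁻¹ = z := by
      calc x⁻¹ * (c * v) * x * (x⁻¹ * z₁ * x) * (x⁻¹ * (c * v) * x)⁻¹ * (x⁻¹ * z₁ * x)⁻¹
          = x⁻¹ * (c * (v * z₁ * v⁻¹) * c⁻¹ * z₁⁻¹) * x := by group
        _ = x⁻¹ * ((c * (z₁ * z)) * c⁻¹ * z₁⁻¹) * x := by rw [w.vz1]
        _ = x⁻¹ * ((z₁ * z * c) * c⁻¹ * z₁⁻¹) * x := by rw [hcc]
        _ = x⁻¹ * ((z₁ * z) * z₁⁻¹) * x := by group
        _ = x⁻¹ * ((z * z₁) * z₁⁻¹) * x := by rw [w.zc z₁ w.z1E]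
        _ = x⁻¹ * z * x := by group
        _ = z := hzx
    rw [h3] at h2
    exact z_not_CE d w h2
  apply hxM
  have h1 : x⁻¹ ∈ normalizer (E : Set G) := by
    apply mem_nz
    intro e he
    rw [inv_inv]
    obtain ⟨c, hc, y, hy, rfl⟩ := decomp d w he
    have h2 : x⁻¹ * (c * y) * x = x⁻¹ * c * x * (x⁻¹ * y * x) := by group
    rw [h2]
    refine mul_mem (hC c hc) ?_
    rcases hy with rfl | rfl | rfl | rfl
    · simp
    · rw [hzx]; exact w.zE
    · exact hz1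
    · have h3 : x⁻¹ * (z₁ * z) * x = x⁻¹ * z₁ * x * (x⁻¹ * z * x) := by group
      rw [h3, hzx]
      exact mul_mem hz1 w.zE
  have := inv_mem h1
  rwa [inv_inv] at this

end

end H67.L8
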