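import Mathlib
import Cfsg.Agent.Lib.H67.L8c

/-!
# S3250: the noncentral normal four-group, part 3: the order of `E` for `v ∉ E`
-/

set_option autoImplicit false
set_option linter.unusedVariables false
set_option linter.unusedSectionVars false

namespace H67.L8

open Subgroup

universe u

section
variable {G : Type u} [Group G] [Finite G] {S E : Subgroup G} {z v z₁ v₁ : G}

/-- a subgroup of index two -/
theorem idx2 {X E : Subgroup G} (hEX : E ≤ X) (hc : Nat.card X ≤ 2 * Nat.card E) {a b : G} (ha : a ∈ X) (hb : b ∈ X)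
    (haE : a ∉ E) (hbE : b ∉ E) : a * b ∈ E := by
  have hlt : E < X := lt_of_le_of_ne hEX (by rintro rfl; exact haE ha)
  have h1 := two_mul_le hlt
  have h2 : (E.subgroupOf X).index = 2 := by
    have h3 := (E.subgroupOf X).card_mul_index
    rw [Nat.card_congr (subgroupOfEquivOfLe hEX).toEquiv] at h3
    have hpos : 0 < Nat.card E := Nat.card_pos
    have h4 : Nat.card E * (E.subgroupOf X).index = Nat.card E * 2 := by rw [h3]; omega
    exact Nat.eq_of_mul_eq_mul_left hpos h4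
  have h5 := (mul_mem_iff_of_index_two h2 (a := ⟨a, ha⟩) (b := ⟨b, hb⟩)).2
    ⟨fun h => absurd (mem_subgroupOf.1 h) haE, fun h => absurd (mem_subgroupOf.1 h) hbE⟩
  exact mem_subgroupOf.1 h5

/-- the conjugates of `z` under `N(E)` -/
def Om (E : Subgroup G) (z : G) : Set G := {y | ∃ m ∈ normalizer (E : Set G), y = m * z * m⁻¹}

/-- orbit-stabilizer -/
theorem card_Om (h : Hyp S) (hE : Es S E) (d : ZV S z v) :
    Nat.card (normalizer (E : Set G)) = (Om E z).ncard * Nat.card (S ⊓ normalizer (E : Set G) : Subgroup G) := by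
  set M := normalizer (E : Set G) with hM
  set X := S ⊓ M with hX
  have hXM : X ≤ M := inf_le_right
  have hrel : ∀ a b : M, (QuotientGroup.leftRel (X.subgroupOf M)) a b ↔
      (a : G) * z * (a : G)⁻¹ = (b : G) * z * (b : G)⁻¹ := by
    intro a b
    rw [QuotientGroup.leftRel_apply, mem_subgroupOf]
    constructor
    · intro h1
      have h2 := d.hzc _ h1.1
      simp only [coe_mul, InvMemClass.coe_inv] at h2
      calc (a : G) * z * (a : G)⁻¹ = a * (z * ((a : G)⁻¹ * b)) * (b : G)⁻¹ := by group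
        _ = a * (((a : G)⁻¹ * b) * z) * (b : G)⁻¹ := by rw [h2]
        _ = (b : G) * z * (b : G)⁻¹ := by group
    · intro h1
      refine ⟨?_, (a⁻¹ * b).2⟩
      refine h.cz d.hz d.hz1 d.hzc ?_
      simp only [coe_mul, InvMemClass.coe_inv]
      calc (a : G)⁻¹ * b * z = (a : G)⁻¹ * (b * z * (b : G)⁻¹) * b := by group
        _ = (a : G)⁻¹ * (a * z * (a : G)⁻¹) * b := by rw [h1]
        _ = z * ((a : G)⁻¹ * b) := by group
  let f : M ⧸ (X.subgroupOf M) → G := Quotient.lift (fun m : M => (m : G) * z * (m : G)⁻¹)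
    (fun a b hab => (hrel a b).1 hab)
  have hf : Function.Injective f := by
    intro a b
    induction a using Quotient.inductionOn with
    | h a =>
      induction b using Quotient.inductionOn with
      | h b =>
        intro hab
        exact Quotient.sound ((hrel a b).2 hab)
  have hr : Set.range f = Om E z := by
    ext y
    constructor
    · rintro ⟨q, rfl⟩
      induction q using Quotient.inductionOn with
      | h a => exact ⟨a, a.2, rfl⟩
    · rintro ⟨m, hm, rfl⟩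
      exact ⟨Quotient.mk _ ⟨m, hm⟩, rfl⟩
  have h1 : Nat.card (M ⧸ (X.subgroupOf M)) = (Om E z).ncard := by
    rw [← hr, ← Set.image_univ, Set.ncard_image_of_injective _ hf, Set.ncard_univ]
  have h2 := card_eq_card_quotient_mul_card_subgroup (X.subgroupOf M)
  rw [h1, Nat.card_congr (subgroupOfEquivOfLe hXM).toEquiv] at h2
  exact h2

/-- `|M : X|` is odd -/
theorem odd_Om (h : Hyp S) (hE : Es S E) (d : ZV S z v) : ¬ 2 ∣ (Om E z).ncard := by
  haveI : Fact (Nat.Prime 2) := ⟨Nat.prime_two⟩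
  have h0 := card_Om h hE d
  set M := normalizer (E : Set G) with hM
  set X := S ⊓ M with hX
  have hXM : X ≤ M := inf_le_right
  have h1 : IsPGroup 2 (X.comap M.subtype) :=
    (hE.X_pg h).comap_of_injective M.subtype M.subtype_injective
  obtain ⟨P, hP⟩ := h1.exists_le_sylow
  have h2 : (P : Subgroup M).map M.subtype ≤ S := by
    refine hE.syl _ (P.2.map _) ?_ ?_
    · rintro _ ⟨p, _, rfl⟩; exact p.2
    · intro y hy
      exact ⟨⟨y, hy.2⟩, hP (mem_comap.2 hy), rfl⟩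
  have h3 : (P : Subgroup M) = X.subgroupOf M := by
    apply le_antisymm
    · intro p hp
      exact mem_subgroupOf.2 ⟨h2 ⟨p, hp, rfl⟩, p.2⟩
    · exact hP
  have h4 := P.not_dvd_index
  have h5 := (P : Subgroup M).card_mul_index
  have h6 : Nat.card (P : Subgroup M) = Nat.card X := by
    rw [h3, Nat.card_congr (subgroupOfEquivOfLe hXM).toEquiv]
  rw [h6, h0, mul_comm] at h5
  have hpos : 0 < Nat.card X := Nat.card_pos
  have h7 := Nat.eq_of_mul_eq_mul_right hpos h5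
  rwa [h7] at h4

/-- `3` divides `|M|` -/
theorem three_dvd (d : ZV S z v) (w : W2 S E z v z₁ v₁) (hvM : v ∈ normalizer (E : Set G)) :
    3 ∣ Nat.card (normalizer (E : Set G)) := by
  set τ := v * v₁ with hτ
  have hτM : τ ∈ normalizer (E : Set G) := mul_mem hvM w.v1M
  have hzE := w.zE
  have hz1E := w.z1E
  have hne := zz1_ne d w
  have t1 : τ * z * τ⁻¹ = z₁ := by
    calc τ * z * τ⁻¹ = v * (v₁ * z * v₁⁻¹) * v⁻¹ := by rw [hτ]; group
      _ = (v * z * v⁻¹) * (v * z₁ * v⁻¹) := by rw [w.v1z]; group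
      _ = z * (z₁ * z) := by rw [w.vz, w.vz1]
      _ = z * (z * z₁) := by rw [w.zc z₁ hz1E]
      _ = z₁ := by rw [← mul_assoc, d.hz2, one_mul]
  have t2 : τ * z₁ * τ⁻¹ = z₁ * z := by
    calc τ * z₁ * τ⁻¹ = v * (v₁ * z₁ * v₁⁻¹) * v⁻¹ := by rw [hτ]; group
      _ = z₁ * z := by rw [w.v1z1, w.vz1]
  have t3 : τ * (z₁ * z) * τ⁻¹ = z := by
    calc τ * (z₁ * z) * τ⁻¹ = (τ * z₁ * τ⁻¹) * (τ * z * τ⁻¹) := by group
      _ = z₁ * z * z₁ := by rw [t1, t2]
      _ = z * z₁ * z₁ := by rw [w.zc z₁ hz1E]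
      _ = z := by rw [mul_assoc, w.z11, mul_one]
  -- iterates
  have hk : ∀ k : ℕ, τ ^ (3 * k) * z * (τ ^ (3 * k))⁻¹ = z := by
    intro k
    induction k with
    | zero => simp
    | succ k ih =>
      calc τ ^ (3 * (k + 1)) * z * (τ ^ (3 * (k + 1)))⁻¹
          = τ ^ 3 * (τ ^ (3 * k) * z * (τ ^ (3 * k))⁻¹) * (τ ^ 3)⁻¹ := by
            rw [show 3 * (k + 1) = 3 + 3 * k by ring, pow_add]; group
        _ = τ ^ 3 * z * (τ ^ 3)⁻¹ := by rw [ih]
        _ = τ * (τ * (τ * z * τ⁻¹) * τ⁻¹) * τ⁻¹ := by rw [pow_succ, pow_two]; group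
        _ = z := by rw [t1, t2, t3]
  have h1 : 3 ∣ orderOf τ := by
    set N := orderOf τ with hN
    have h2 : τ ^ N = 1 := pow_orderOf_eq_one τ
    have h3 : N = N % 3 + 3 * (N / 3) := (Nat.mod_add_div N 3).symm
    have h4 : τ ^ (N % 3) * z * (τ ^ (N % 3))⁻¹ = z := by
      have h5 : τ ^ (N % 3) * τ ^ (3 * (N / 3)) = 1 := by rw [← pow_add, ← h3, h2]
      have h6 : τ ^ (3 * (N / 3)) = (τ ^ (N % 3))⁻¹ := eq_inv_of_mul_eq_one_right h5
      have h7 := hk (N / 3)
      rw [h6] at h7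
      calc τ ^ (N % 3) * z * (τ ^ (N % 3))⁻¹
          = τ ^ (N % 3) * ((τ ^ (N % 3))⁻¹ * z * (τ ^ (N % 3))⁻¹⁻¹) * (τ ^ (N % 3))⁻¹ := by rw [h7]
        _ = z := by group
    have h5 : N % 3 < 3 := Nat.mod_lt _ (by norm_num)
    rcases (by omega : N % 3 = 0 ∨ N % 3 = 1 ∨ N % 3 = 2) with h6 | h6 | h6
    · exact Nat.dvd_of_mod_eq_zero h6
    · exfalso
      rw [h6, pow_one, t1] at h4
      exact hne.2 h4.symm
    · exfalso
      rw [h6] at h4
      have h7 : τ ^ 2 * z * (τ ^ 2)⁻¹ = z₁ * z := by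
        calc τ ^ 2 * z * (τ ^ 2)⁻¹ = τ * (τ * z * τ⁻¹) * τ⁻¹ := by rw [pow_two]; group
          _ = z₁ * z := by rw [t1, t2]
      rw [h7] at h4
      exact hne.1 (by simpa using h4)
  refine h1.trans ?_
  have := orderOf_dvd_natCard (⟨τ, hτM⟩ : normalizer (E : Set G))
  rwa [← Subgroup.orderOf_coe] at this

theorem Om_sub (hE : Es S E) (d : ZV S z v) : Om E z ⊆ (E : Set G) \ {1} := by
  rintro y ⟨m, hm, rfl⟩
  refine ⟨nz_conj hm (d.zE hE), ?_⟩
  intro h1
  simp only [Set.mem_singleton_iff] at h1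
  apply d.hz1
  calc z = m⁻¹ * (m * z * m⁻¹) * m := by group
    _ = 1 := by rw [h1]; group

/-- the small case: `|E| ≤ 8` -/
theorem Om_small (h : Hyp S) (hE : Es S E) (d : ZV S z v) (w : W2 S E z v z₁ v₁) (h8 : Nat.card E ≤ 8) :
    ∀ y ∈ Om E z, y = z ∨ y = z₁ ∨ y = z₁ * z := by
  have h1 := card_Om h hE d
  have h2 := odd_Om h hE d
  have h3 := three_dvd d w (d.vM hE)
  have hne := zz1_ne d w
  have h4 : 3 ∣ (Om E z).ncard := by
    haveI : Fact (Nat.Prime 2) := ⟨Nat.prime_two⟩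
    rw [h1] at h3
    rcases (Nat.Prime.dvd_mul Nat.prime_three).1 h3 with h5 | h5
    · exact h5
    · exfalso
      obtain ⟨k, hk⟩ := IsPGroup.iff_card.1 (hE.X_pg h)
      rw [hk] at h5
      have := (Nat.prime_dvd_prime_iff_eq Nat.prime_three Nat.prime_two).1 (Nat.prime_three.dvd_of_dvd_pow h5)
      omega
  have h5 : (Om E z).ncard ≤ 7 := by
    have h6 := Set.ncard_le_ncard (Om_sub hE d) (Set.toFinite _)
    rw [Set.ncard_sdiff_singleton_of_mem (one_mem E)] at h6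
    have h7 : (E : Set G).ncard = Nat.card E := rfl
    omega
  have h6 : (Om E z).ncard = 3 ∨ (Om E z).ncard = 0 := by omega
  have hz0 : z ∈ Om E z := ⟨1, one_mem _, by simp⟩
  have hz1 : z₁ ∈ Om E z := by
    obtain ⟨m, hm, h7, -⟩ := w.con
    exact ⟨m, hm, h7⟩
  have hz2 : z₁ * z ∈ Om E z := by
    obtain ⟨m, hm, h7, -⟩ := w.con
    refine ⟨v * m, mul_mem (d.vM hE) hm, ?_⟩
    rw [← w.vz1, h7]; group
  have h7 : (Om E z).ncard = 3 := by
    rcases h6 with h6 | h6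
    · exact h6
    · exfalso
      rw [Set.ncard_eq_zero (Set.toFinite _)] at h6
      rw [h6] at hz0
      exact hz0
  have h8 : ({z, z₁, z₁ * z} : Set G).ncard = 3 := by
    rw [Set.ncard_eq_three]
    refine ⟨z, z₁, z₁ * z, hne.2, ?_, ?_, rfl⟩
    · intro h9
      exact hne.1 (by simpa using h9.symm)
    · intro h9
      exact d.hz1 (by simpa using h9.symm)
  have h9 : ({z, z₁, z₁ * z} : Set G) = Om E z := by
    apply Set.eq_of_subset_of_ncard_le _ _ (Set.toFinite _)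
    · rintro y (rfl | rfl | rfl)
      · exact hz0
      · exact hz1
      · exact hz2
    · rw [h7, h8]
  intro y hy
  rw [← h9] at hy
  simpa using hy

theorem hidx_small (h : Hyp S) (hE : Es S E) (d : ZV S z v) (w : W2 S E z v z₁ v₁)
    (hO : ∀ y ∈ Om E z, y = z ∨ y = z₁ ∨ y = z₁ * z) :
    ∀ y ∈ S ⊓ normalizer (E : Set G), y ∉ E → v * y ∈ E := by
  intro y hy hyE
  have hne := zz1_ne d w
  have hyz : y * z * y⁻¹ = z := by rw [d.hzc y hy.1]; group
  have hyz1 : y * z₁ * y⁻¹ = z₁ * z := by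
    have h1 : y * z₁ * y⁻¹ ∈ Om E z := by
      obtain ⟨m, hm, h7, -⟩ := w.con
      exact ⟨y * m, mul_mem hy.2 hm, by rw [h7]; group⟩
    rcases hO _ h1 with h2 | h2 | h2
    · exfalso
      apply hne.2
      have h3 : y * z₁ * y⁻¹ = y * z * y⁻¹ := by rw [h2, hyz]
      exact (mul_left_cancel (mul_right_cancel h3)).symm
    · exfalso
      apply hyE
      refine hE.key h d.hz d.hz1 d.hzc hy.2 ?_
      intro m hm
      rcases hO _ ⟨m, hm, rfl⟩ with h3 | h3 | h3
      · rw [h3]; exact eqc hyz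
      · rw [h3]; exact eqc h2
      · rw [h3]
        apply eqc
        calc y * (z₁ * z) * y⁻¹ = (y * z₁ * y⁻¹) * (y * z * y⁻¹) := by group
          _ = z₁ * z := by rw [h2, hyz]
    · exact h2
  have hvM := d.vM hE
  have g1 : v * y * z₁ * (v * y)⁻¹ = z₁ := by
    calc v * y * z₁ * (v * y)⁻¹ = v * (y * z₁ * y⁻¹) * v⁻¹ := by group
      _ = (v * z₁ * v⁻¹) * (v * z * v⁻¹) := by rw [hyz1]; group
      _ = z₁ * z * z := by rw [w.vz, w.vz1]
      _ = z₁ := by rw [mul_assoc, d.hz2, mul_one]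
  have g0 : v * y * z * (v * y)⁻¹ = z := by
    calc v * y * z * (v * y)⁻¹ = v * (y * z * y⁻¹) * v⁻¹ := by group
      _ = z := by rw [hyz, w.vz]
  refine hE.key h d.hz d.hz1 d.hzc (mul_mem hvM hy.2) ?_
  intro m hm
  rcases hO _ ⟨m, hm, rfl⟩ with h3 | h3 | h3
  · rw [h3]; exact eqc g0
  · rw [h3]; exact eqc g1
  · rw [h3]
    apply eqc
    calc v * y * (z₁ * z) * (v * y)⁻¹ = (v * y * z₁ * (v * y)⁻¹) * (v * y * z * (v * y)⁻¹) := by group
      _ = z₁ * z := by rw [g1, g0]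

/-- the statement of BURN -/
def Burn (G : Type u) [Group G] [Finite G] : Prop := ∀ {S : Subgroup G} (h : Hyp S) {E : Subgroup G} (hE : Es S E)
  (hE4 : Nat.card E = 2 ^ 4) (hX : Nat.card (S ⊓ normalizer (E : Set G) : Subgroup G) = 2 ^ 6)
  (hor : (∀ a ∈ S ⊓ normalizer (E : Set G), a * a ∈ E) ∨ 3 ∣ Nat.card (normalizer (E : Set G))), False

/-- (A2) -/
theorem caseA2 (hburn : Burn G) (h : Hyp S) (hE : Es S E) (d : ZV S z v) (hs : ∃ s ∈ E, s * v ≠ v * s)
    (hvE : v ∉ E) : False := by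
  obtain ⟨z₁, v₁, w⟩ := exists_w2 h hE d hs hvE
  haveI : Fact (Nat.Prime 2) := ⟨Nat.prime_two⟩
  have hvX : v ∈ S ⊓ normalizer (E : Set G) := ⟨d.hv, d.vM hE⟩
  have hX6 := hE.card_X_le h
  have hlt := two_mul_le (hE.E_lt_X h)
  obtain ⟨e, he⟩ := IsPGroup.iff_card.1 (hE.pg h)
  obtain ⟨f, hf⟩ := IsPGroup.iff_card.1 (hE.X_pg h)
  by_cases h8 : Nat.card E ≤ 8
  · exact final h hE d w hvE (hidx_small h hE d w (Om_small h hE d w h8))
  have hcases : Nat.card (S ⊓ normalizer (E : Set G) : Subgroup G) ≤ 2 * Nat.card E ∨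
      (Nat.card E = 2 ^ 4 ∧ Nat.card (S ⊓ normalizer (E : Set G) : Subgroup G) = 2 ^ 6) := by
    rw [he] at h8 hlt ⊢
    rw [hf] at hX6 hlt ⊢
    have hf6 : f ≤ 6 := (Nat.pow_le_pow_iff_right (by norm_num)).1 hX6
    have he4 : 4 ≤ e := by
      by_contra hcon
      have : (2 : ℕ) ^ e ≤ 2 ^ 3 := Nat.pow_le_pow_right (by norm_num) (by omega)
      omega
    have hef : e + 1 ≤ f := by
      rw [← pow_succ'] at hlt
      exact (Nat.pow_le_pow_iff_right (by norm_num)).1 hlt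
    rcases (by omega : f = e + 1 ∨ (e = 4 ∧ f = 6)) with h9 | ⟨h9, h10⟩
    · left; rw [h9, pow_succ']
    · right; exact ⟨by rw [h9], by rw [h10]⟩
  rcases hcases with h9 | ⟨h9, h10⟩
  · exact final h hE d w hvE fun y hy hyE => idx2 hE.E_le_X h9 hvX hy hvE hyE
  · exact hburn h hE h9 h10 (Or.inr (three_dvd d w (d.vM hE)))

end

end H67.L8
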