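import Mathlib
import Cfsg.Agent.Lib.H67.L8d

/-!
# S3250: the noncentral normal four-group, part 4: `v ∈ E`
-/

set_option autoImplicit false
set_option linter.unusedVariables false
set_option linter.unusedSectionVars false

namespace H67.L8

open Subgroup

universe u

section
variable {G : Type u} [Group G] [Finite G] {S E : Subgroup G} {z v : G}

/-- centralizer of one element in a subgroup -/
def CX (X : Subgroup G) (v : G) : Subgroup G where
  carrier := {e | e ∈ X ∧ e * v = v * e}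
  one_mem' := ⟨one_mem _, by simp⟩
  mul_mem' := by
    rintro a b ⟨ha, ha1⟩ ⟨hb, hb1⟩
    exact ⟨mul_mem ha hb, by rw [mul_assoc, hb1, ← mul_assoc, ha1, mul_assoc]⟩
  inv_mem' := by
    rintro a ⟨ha, ha1⟩
    have h : Commute a v := ha1
    exact ⟨inv_mem ha, h.inv_left.eq⟩

/-- the center of `E` -/
def ZE (E : Subgroup G) : Subgroup G where
  carrier := {e | e ∈ E ∧ ∀ f ∈ E, f * e = e * f}
  one_mem' := ⟨one_mem _, by simp⟩
  mul_mem' := by
    rintro a b ⟨ha, ha1⟩ ⟨hb, hb1⟩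
    refine ⟨mul_mem ha hb, fun f hf => ?_⟩
    rw [← mul_assoc, ha1 f hf, mul_assoc, hb1 f hf, mul_assoc]
  inv_mem' := by
    rintro a ⟨ha, ha1⟩
    refine ⟨inv_mem ha, fun f hf => ?_⟩
    have h : Commute f a := ha1 f hf
    exact h.inv_right.eq

/-- adjoining an element commuting with a subgroup -/
theorem comm_sup {A : Subgroup G} {v y : G} (h1 : ∀ a ∈ A, a * y = y * a) (h2 : v * y = y * v) {b : G}
    (hb : b ∈ A ⊔ zpowers v) : b * y = y * b := by
  have hle : A ⊔ zpowers v ≤ centralizer ({y} : Set G) := by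
    refine sup_le (fun a ha => ?_) ?_
    · rw [mem_centralizer_singleton_iff]; exact h1 a ha
    · rw [zpowers_le, mem_centralizer_singleton_iff]; exact h2
  have := hle hb
  rwa [mem_centralizer_singleton_iff] at this

theorem caseA1 (h : Hyp S) (hE : Es S E) (d : ZV S z v) (hs : ∃ s ∈ E, s * v ≠ v * s)
    (hvE : v ∈ E) : False := by
  obtain ⟨s, hsE, hsv⟩ := hs
  haveI : Fact (Nat.Prime 2) := ⟨Nat.prime_two⟩
  have hzE := d.zE hE
  have hsv' : s * v * s⁻¹ = v * z := by
    rcases d.hvc s (hE.le hsE) with h2 | h2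
    · exact absurd (eqc h2) hsv
    · exact h2
  obtain ⟨m, hm, hmz⟩ := hE.exists_move h d.hz d.hz1 d.hzc
  set z₁ := m * z * m⁻¹ with hz₁
  set v₁ := m * v * m⁻¹ with hv₁
  have hz1E : z₁ ∈ E := nz_conj hm hzE
  have hv1E : v₁ ∈ E := nz_conj hm hvE
  have hz1ne : z₁ ≠ 1 := by
    intro h1
    apply d.hz1
    calc z = m⁻¹ * (m * z * m⁻¹) * m := by group
      _ = 1 := by rw [← hz₁, h1]; group
  have hz11 : z₁ * z₁ = 1 := by
    calc z₁ * z₁ = m * (z * z) * m⁻¹ := by rw [hz₁]; group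
      _ = 1 := by rw [d.hz2]; group
  have hv11 : v₁ * v₁ = 1 := by
    calc v₁ * v₁ = m * (v * v) * m⁻¹ := by rw [hv₁]; group
      _ = 1 := by rw [d.hv2]; group
  have hzc : ∀ e ∈ E, e * z = z * e := fun e he => d.hzc e (hE.le he)
  have hz1c : ∀ e ∈ E, e * z₁ = z₁ * e := fun e he => hE.conj_central d.hzc hm he
  -- all conjugates of `v` commute with `v`
  have hcommv : ∀ n ∈ normalizer (E : Set G), (n * v * n⁻¹) * v = v * (n * v * n⁻¹) := by
    intro n hn
    have hnE : n * v * n⁻¹ ∈ E := nz_conj hn hvE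
    by_cases hnz : n * z * n⁻¹ = z
    · have hnS : n ∈ S := h.cz d.hz d.hz1 d.hzc (eqc hnz)
      rcases d.hvc n hnS with h1 | h1
      · rw [h1]
      · rw [h1, mul_assoc, ← d.vz]
    · -- both commutators
      set vn := n * v * n⁻¹ with hvn
      have hvn2 : vn * vn = 1 := by
        calc vn * vn = n * (v * v) * n⁻¹ := by rw [hvn]; group
          _ = 1 := by rw [d.hv2]; group
      have hznne : n * z * n⁻¹ ≠ 1 := by
        intro h1
        apply d.hz1
        calc z = n⁻¹ * (n * z * n⁻¹) * n := by group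
          _ = 1 := by rw [h1]; group
      rcases d.hvc vn (hE.le hnE) with h1 | h1
      · exact eqc h1
      · exfalso
        rcases d.conj hE hn hvE with h2 | h2
        · rw [← hvn] at h2
          have h3 := eqc h2
          have h4 : vn * v * vn⁻¹ = v := eqc' h3.symm
          rw [h4] at h1
          exact d.hz1 (by simpa using h1.symm)
        · rw [← hvn] at h2
          -- `v vn v⁻¹ = vn zn`, `vn v vn⁻¹ = v z`
          have h3 : v * vn = vn * (n * z * n⁻¹) * v := eqc h2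
          have h4 : vn * v = v * z * vn := eqc h1
          have hznc : v * (n * z * n⁻¹) = (n * z * n⁻¹) * v := hE.conj_central d.hzc hn hvE
          have h5 : vn * v = v * vn * z := by rw [h4, mul_assoc, mul_assoc, hzc vn hnE]
          have h6 : v * vn = vn * v * (n * z * n⁻¹) := by
            calc v * vn = vn * (n * z * n⁻¹) * v := h3
              _ = vn * ((n * z * n⁻¹) * v) := mul_assoc _ _ _
              _ = vn * (v * (n * z * n⁻¹)) := by rw [hznc]
              _ = vn * v * (n * z * n⁻¹) := (mul_assoc _ _ _).symm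
          have h7 : vn * v = vn * v * ((n * z * n⁻¹) * z) := by
            calc vn * v = v * vn * z := h5
              _ = vn * v * (n * z * n⁻¹) * z := by rw [h6]
              _ = vn * v * ((n * z * n⁻¹) * z) := by rw [mul_assoc]
          have h8 : (n * z * n⁻¹) * z = 1 := by simpa using h7.symm
          apply hnz
          rw [eq_inv_of_mul_eq_one_left h8, inv_eq_self' d.hz2]
  have hvv1 : v₁ * v = v * v₁ := hcommv m hm
  set s₁ := m * s * m⁻¹ with hs₁
  have hs1E : s₁ ∈ E := nz_conj hm hsE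
  have hs1v1 : s₁ * v₁ * s₁⁻¹ = v₁ * z₁ := by
    calc s₁ * v₁ * s₁⁻¹ = m * (s * v * s⁻¹) * m⁻¹ := by rw [hs₁, hv₁]; group
      _ = v₁ * z₁ := by rw [hsv', hv₁, hz₁]; group
  -- the chain `Z < A < B < E`
  set Z := ZE E with hZ
  have hZE : Z ≤ E := fun y hy => hy.1
  have hzZ : z ∈ Z := ⟨hzE, hzc⟩
  have hz1Z : z₁ ∈ Z := ⟨hz1E, hz1c⟩
  have hvZ : v ∉ Z := fun h1 => hsv (h1.2 s hsE)
  set A := Z ⊔ zpowers v with hA
  set B := A ⊔ zpowers v₁ with hB
  have hZA : Z < A := by
    refine lt_of_le_of_ne le_sup_left ?_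
    intro h1
    exact hvZ (by rw [h1]; exact (le_sup_right : zpowers v ≤ A) (mem_zpowers v))
  have hvA : v ∈ A := (le_sup_right : zpowers v ≤ A) (mem_zpowers v)
  -- elements of `A` have commutators in `⟨z⟩`
  let Tz : Subgroup G :=
    { carrier := {a | a ∈ E ∧ ∀ e ∈ E, e * a * e⁻¹ = a ∨ e * a * e⁻¹ = a * z}
      one_mem' := ⟨one_mem _, fun e _ => by left; simp⟩
      mul_mem' := by
        rintro a b ⟨ha, ha1⟩ ⟨hb, hb1⟩
        refine ⟨mul_mem ha hb, fun e he => ?_⟩
        have h1 : e * (a * b) * e⁻¹ = (e * a * e⁻¹) * (e * b * e⁻¹) := by group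
        rw [h1]
        rcases ha1 e he with h2 | h2 <;> rcases hb1 e he with h3 | h3
        · left; rw [h2, h3]
        · right; rw [h2, h3, mul_assoc]
        · right; rw [h2, h3, mul_assoc, ← hzc b hb, mul_assoc]
        · left
          rw [h2, h3]
          calc a * z * (b * z) = a * (z * b) * z := by simp only [mul_assoc]
            _ = a * (b * z) * z := by rw [hzc b hb]
            _ = a * b * (z * z) := by simp only [mul_assoc]
            _ = a * b := by rw [d.hz2, mul_one]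
      inv_mem' := by
        rintro a ⟨ha, ha1⟩
        refine ⟨inv_mem ha, fun e he => ?_⟩
        have h1 : e * a⁻¹ * e⁻¹ = (e * a * e⁻¹)⁻¹ := by group
        rw [h1]
        rcases ha1 e he with h2 | h2
        · left; rw [h2]
        · right; rw [h2, mul_inv_rev, inv_eq_self' d.hz2, ← hzc _ (inv_mem ha)] }
  have hATz : A ≤ Tz := by
    refine sup_le ?_ ?_
    · intro y hy
      refine ⟨hy.1, fun e he => Or.inl ?_⟩
      rw [hy.2 e he]; group
    · rw [zpowers_le]
      exact ⟨hvE, fun e he => d.hvc e (hE.le he)⟩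
  have hv1A : v₁ ∉ A := by
    intro h1
    rcases (hATz h1).2 s₁ hs1E with h2 | h2
    · rw [hs1v1] at h2
      exact hz1ne (by simpa using h2)
    · rw [hs1v1] at h2
      exact hmz (mul_left_cancel h2)
  have hv1B : v₁ ∈ B := (le_sup_right : zpowers v₁ ≤ B) (mem_zpowers v₁)
  have hAB : A < B := by
    refine lt_of_le_of_ne le_sup_left ?_
    intro h1
    exact hv1A (by rw [h1]; exact hv1B)
  have hBE : B ≤ E := sup_le (sup_le hZE (by rwa [zpowers_le])) (by rwa [zpowers_le])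
  have hBv : ∀ b ∈ B, b * v = v * b := by
    intro b hb
    refine comm_sup (fun a ha => ?_) hvv1 hb
    exact comm_sup (fun y hy => (hy.2 v hvE).symm) rfl ha
  have hBv1 : ∀ b ∈ B, b * v₁ = v₁ * b := by
    intro b hb
    refine comm_sup (fun a ha => ?_) rfl hb
    exact comm_sup (fun y hy => (hy.2 v₁ hv1E).symm) hvv1.symm ha
  have hBab : ∀ a ∈ B, ∀ b ∈ B, a * b = b * a := by
    intro a ha b hb
    refine (comm_sup (A := A) (v := v₁) (y := a) (fun c hc => ?_) (hBv1 a ha).symm hb).symm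
    refine comm_sup (A := Z) (v := v) (y := a) (fun y hy => ?_) (hBv a ha).symm hc
    exact (hy.2 a (hBE ha)).symm
  -- `Y = C_E(v)`
  set Y := CX E v with hY
  have hYE : Y ≤ E := fun y hy => hy.1
  have hBY : B ≤ Y := fun b hb => ⟨hBE hb, hBv b hb⟩
  have hYE' : Y < E := by
    refine lt_of_le_of_ne hYE ?_
    intro h1
    have : s ∈ Y := by rw [h1]; exact hsE
    exact hsv this.2
  have hc1 := two_mul_le hZA
  have hc2 := two_mul_le hAB
  have hc3 := two_mul_le hYE'
  have hc4 : Nat.card B ≤ Nat.card Y := card_le_of_le hBY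
  have hc5 := two_mul_le (hE.E_lt_X h)
  have hc6 := hE.card_X_le h
  have hW4 : ({1, z, z₁, z₁ * z} : Set G).ncard = 4 := by
    have e1 : (1 : G) ≠ z := fun h1 => d.hz1 h1.symm
    have e2 : (1 : G) ≠ z₁ := fun h1 => hz1ne h1.symm
    have e3 : (1 : G) ≠ z₁ * z := by
      intro h1
      apply hmz
      rw [eq_inv_of_mul_eq_one_left h1.symm, inv_eq_self' d.hz2]
    have e4 : z ≠ z₁ := fun h1 => hmz h1.symm
    have e5 : z ≠ z₁ * z := fun h1 => hz1ne (by simpa using h1.symm)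
    have e6 : z₁ ≠ z₁ * z := fun h1 => d.hz1 (by simpa using h1.symm)
    rw [Set.ncard_insert_of_notMem (by simp [e1, e2, e3]), Set.ncard_insert_of_notMem (by simp [e4, e5]),
      Set.ncard_pair e6]
  have hWZ : ({1, z, z₁, z₁ * z} : Set G) ⊆ (Z : Set G) := by
    rintro y (rfl | rfl | rfl | rfl)
    · exact one_mem _
    · exact hzZ
    · exact hz1Z
    · exact mul_mem hz1Z hzZ
  have hZ4 : 4 ≤ Nat.card Z := by
    have := Set.ncard_le_ncard hWZ (Set.toFinite _)
    rw [hW4] at this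
    exact this
  have hZ4' : Nat.card Z = 4 := by omega
  have hB16 : Nat.card B = 16 := by omega
  have hY16 : Nat.card Y = 16 := by omega
  have hX64 : Nat.card (S ⊓ normalizer (E : Set G) : Subgroup G) = 64 := by omega
  have hBYeq : B = Y := eq_of_le_of_card_ge hBY (by omega)
  have hYab : ∀ a ∈ Y, ∀ b ∈ Y, a * b = b * a := by rw [← hBYeq]; exact hBab
  have hZmem : ∀ y ∈ Z, y = 1 ∨ y = z ∨ y = z₁ ∨ y = z₁ * z := by
    have h1 : ({1, z, z₁, z₁ * z} : Set G) = (Z : Set G) := by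
      apply Set.eq_of_subset_of_ncard_le hWZ _ (Set.toFinite _)
      rw [hW4]
      exact hZ4'.le
    intro y hy
    have h2 : y ∈ ({1, z, z₁, z₁ * z} : Set G) := by rw [h1]; exact hy
    simpa using h2
  -- `M` normalizes `Y`
  have hMY : ∀ n ∈ normalizer (E : Set G), ∀ y ∈ Y, n * y * n⁻¹ ∈ Y := by
    intro n hn y hy
    refine ⟨nz_conj hn hy.1, ?_⟩
    have h1 := hcommv n⁻¹ (inv_mem hn)
    rw [inv_inv] at h1
    have h2 : n⁻¹ * v * n ∈ Y := by
      refine ⟨nz_conj' hn hvE, ?_⟩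
      exact h1
    have h3 := hYab y hy _ h2
    calc n * y * n⁻¹ * v = n * (y * (n⁻¹ * v * n)) * n⁻¹ := by group
      _ = n * ((n⁻¹ * v * n) * y) * n⁻¹ := by rw [h3]
      _ = v * (n * y * n⁻¹) := by group
  obtain ⟨x, hxS, hxM, hxX⟩ := hE.exists_x h
  -- `R = C_X(v)`
  set X := S ⊓ normalizer (E : Set G) with hX
  set R := CX X v with hR
  have hRX : R < X := by
    refine lt_of_le_of_ne (fun y hy => hy.1) ?_
    intro h1
    have h2 : s ∈ R := by rw [h1]; exact hE.E_le_X hsE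
    exact hsv h2.2
  have hR32 := two_mul_le hRX
  set Yx := Y.map (MulAut.conj x).toMonoidHom with hYx
  have hYxmem : ∀ y, y ∈ Yx ↔ x⁻¹ * y * x ∈ Y := by
    intro y
    constructor
    · rintro ⟨w, hw, rfl⟩
      have : x⁻¹ * ((MulAut.conj x).toMonoidHom w) * x = w := by simp [MulAut.conj_apply, mul_assoc]
      rw [this]; exact hw
    · intro hy
      exact ⟨_, hy, by simp [MulAut.conj_apply, mul_assoc]⟩
  have hxz : x⁻¹ * z * x = z := by
    have := d.hzc x hxS
    calc x⁻¹ * z * x = x⁻¹ * (z * x) := by group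
      _ = x⁻¹ * (x * z) := by rw [this]
      _ = z := by group
  have hYxR : Yx ≤ R := by
    intro y hy
    rw [hYxmem] at hy
    have h1 : y = x * (x⁻¹ * y * x) * x⁻¹ := by group
    have h2 : y ∈ X := by
      rw [h1]
      exact (hxX _ (hE.E_le_X hy.1)).1
    refine ⟨h2, ?_⟩
    -- `x⁻¹ v x ∈ {v, v z}`
    have h3 := d.hvc x⁻¹ (inv_mem hxS)
    rw [inv_inv] at h3
    have h4 : (x⁻¹ * y * x) * (x⁻¹ * v * x) = (x⁻¹ * v * x) * (x⁻¹ * y * x) := by
      rcases h3 with h3 | h3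
      · rw [h3]; exact hy.2
      · rw [h3]
        have c1 : Commute (x⁻¹ * y * x) v := hy.2
        have c2 : Commute (x⁻¹ * y * x) z := hzc _ hy.1
        exact (c1.mul_right c2).eq
    calc y * v = x * ((x⁻¹ * y * x) * (x⁻¹ * v * x)) * x⁻¹ := by group
      _ = x * ((x⁻¹ * v * x) * (x⁻¹ * y * x)) * x⁻¹ := by rw [h4]
      _ = v * y := by group
  have hYxc : Nat.card Yx = 16 := by
    rw [hYx, Nat.card_congr (Y.equivMapOfInjective _ (MulAut.conj x).injective).toEquiv.symm, hY16]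
  have hYxab : ∀ a ∈ Yx, ∀ b ∈ Yx, a * b = b * a := by
    intro a ha b hb
    rw [hYxmem] at ha hb
    have := hYab _ ha _ hb
    calc a * b = x * ((x⁻¹ * a * x) * (x⁻¹ * b * x)) * x⁻¹ := by group
      _ = x * ((x⁻¹ * b * x) * (x⁻¹ * a * x)) * x⁻¹ := by rw [this]
      _ = b * a := by group
  -- `Yx ≤ Y`
  have hYxY : Yx ≤ Y := by
    intro r hr
    by_contra hrY
    have hrR := hYxR hr
    have hrX : r ∈ X := hrR.1
    have hrE : r ∉ E := fun h1 => hrY ⟨h1, hrR.2⟩
    have hrz : r * z = z * r := d.hzc r hrX.1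
    -- `r` does not commute with `z₁`
    have hrz1 : r * z₁ ≠ z₁ * r := by
      intro h1
      apply hrE
      refine hE.key h d.hz d.hz1 d.hzc hrX.2 ?_
      intro n hn
      have h2 : n * z * n⁻¹ ∈ Z := ⟨nz_conj hn hzE, fun f hf => hE.conj_central d.hzc hn hf⟩
      rcases hZmem _ h2 with h3 | h3 | h3 | h3
      · rw [h3]; simp
      · rw [h3]; exact hrz
      · rw [h3]; exact h1
      · rw [h3]
        have c1 : Commute r z₁ := h1
        have c2 : Commute r z := hrz
        exact (c1.mul_right c2).eq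
    have hrzz : r * z₁ * r⁻¹ = z₁ * z := by
      have h2 : r * z₁ * r⁻¹ ∈ Z := by
        refine ⟨nz_conj hrX.2 hz1E, fun f hf => ?_⟩
        have h3 : r * z₁ * r⁻¹ = (r * m) * z * (r * m)⁻¹ := by rw [hz₁]; group
        rw [h3]
        exact hE.conj_central d.hzc (mul_mem hrX.2 hm) hf
      rcases hZmem _ h2 with h3 | h3 | h3 | h3
      · exfalso
        apply hz1ne
        calc z₁ = r⁻¹ * (r * z₁ * r⁻¹) * r := by group
          _ = 1 := by rw [h3]; group
      · exfalso
        apply hmz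
        have h4 : r * z₁ * r⁻¹ = r * z * r⁻¹ := by rw [h3, hrz]; group
        exact mul_left_cancel (mul_right_cancel h4)
      · exact absurd (eqc h3) hrz1
      · exact h3
    have hz1Yx : z₁ ∉ Yx := fun h1 => hrz1 (hYxab _ hr _ h1)
    have hv1R : v₁ ∈ R := ⟨hE.E_le_X hv1E, hvv1⟩
    have hz1R : z₁ ∈ R := ⟨hE.E_le_X hz1E, (hz1c v hvE).symm⟩
    have hrv1 : r * v₁ * r⁻¹ = v₁ ∨ r * v₁ * r⁻¹ = v₁ * z := by
      by_cases h1 : v₁ ∈ Yx
      · left
        exact eqc' (hYxab _ hr _ h1)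
      · right
        have h2 : v₁ * z₁ ∈ Yx := idx2 hYxR (by omega) hv1R hz1R h1 hz1Yx
        have h3 : r * (v₁ * z₁) * r⁻¹ = v₁ * z₁ := eqc' (hYxab _ hr _ h2)
        have h4 : r * (v₁ * z₁) * r⁻¹ = (r * v₁ * r⁻¹) * (r * z₁ * r⁻¹) := by group
        rw [h4, hrzz] at h3
        have h5 : r * v₁ * r⁻¹ * (z₁ * z) * (z₁ * z) = v₁ * z₁ * (z₁ * z) := by rw [h3]
        have h6 : (z₁ * z) * (z₁ * z) = 1 := by
          calc (z₁ * z) * (z₁ * z) = z₁ * (z * z₁) * z := by simp only [mul_assoc]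
            _ = z₁ * (z₁ * z) * z := by rw [hzc z₁ hz1E]
            _ = (z₁ * z₁) * (z * z) := by simp only [mul_assoc]
            _ = 1 := by rw [hz11, d.hz2, one_mul]
        rw [mul_assoc, h6, mul_one] at h5
        rw [h5]
        calc v₁ * z₁ * (z₁ * z) = v₁ * (z₁ * z₁) * z := by simp only [mul_assoc]
          _ = v₁ * z := by rw [hz11, mul_one]
    set e₂ := r * s₁ * r⁻¹ with he₂
    have he2E : e₂ ∈ E := nz_conj hrX.2 hs1E
    have h7 : e₂ * (r * v₁ * r⁻¹) * e₂⁻¹ = (r * v₁ * r⁻¹) * (z₁ * z) := by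
      calc e₂ * (r * v₁ * r⁻¹) * e₂⁻¹ = r * (s₁ * v₁ * s₁⁻¹) * r⁻¹ := by rw [he₂]; group
        _ = (r * v₁ * r⁻¹) * (r * z₁ * r⁻¹) := by rw [hs1v1]; group
        _ = (r * v₁ * r⁻¹) * (z₁ * z) := by rw [hrzz]
    have h8 : e₂ * v₁ * e₂⁻¹ = v₁ * (z₁ * z) := by
      rcases hrv1 with h1 | h1
      · rw [h1] at h7; exact h7
      · rw [h1] at h7
        have h9 : e₂ * (v₁ * z) * e₂⁻¹ = (e₂ * v₁ * e₂⁻¹) * z := by
          calc e₂ * (v₁ * z) * e₂⁻¹ = e₂ * v₁ * (z * e₂⁻¹) := by simp only [mul_assoc]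
            _ = e₂ * v₁ * (e₂⁻¹ * z) := by rw [hzc _ (inv_mem he2E)]
            _ = (e₂ * v₁ * e₂⁻¹) * z := by simp only [mul_assoc]
        have h10 : v₁ * z * (z₁ * z) = v₁ * (z₁ * z) * z := by
          calc v₁ * z * (z₁ * z) = v₁ * (z * z₁) * z := by simp only [mul_assoc]
            _ = v₁ * (z₁ * z) * z := by rw [hzc z₁ hz1E]
        rw [h9, h10] at h7
        exact mul_right_cancel h7
    rcases d.conj hE hm he2E with h9 | h9
    · rw [← hv₁] at h9
      rw [h9] at h8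
      have h10 : z₁ * z = 1 := by simpa using h8.symm
      apply hmz
      rw [eq_inv_of_mul_eq_one_left h10, inv_eq_self' d.hz2]
    · rw [← hv₁, ← hz₁] at h9
      rw [h9] at h8
      have h10 : z₁ = z₁ * z := mul_left_cancel h8
      exact d.hz1 (by simpa using h10.symm)
  -- `S` normalizes `Y`
  have hxY : ∀ y ∈ Y, x * y * x⁻¹ ∈ Y := by
    intro y hy
    exact hYxY ⟨y, hy, rfl⟩
  have hxY' : ∀ y ∈ Y, x⁻¹ * y * x ∈ Y := fun y hy => nz_conj' (mem_nz hxY) hy
  have hSY : ∀ t ∈ S, ∀ y ∈ Y, t * y * t⁻¹ ∈ Y := by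
    intro t ht y hy
    by_cases htM : t ∈ normalizer (E : Set G)
    · exact hMY t htM y hy
    · have hxX' : x ∉ X := fun h1 => hxM h1.2
      have htX' : t ∉ X := fun h1 => htM h1.2
      have h1 : x⁻¹ * t ∈ X := by
        refine idx2 (inf_le_left : X ≤ S) ?_ (inv_mem hxS) ht (fun h1 => hxX' ?_) htX'
        · rw [h.card, hX64]; norm_num
        · have := inv_mem h1
          rwa [inv_inv] at this
      have h2 : t * y * t⁻¹ = x * ((x⁻¹ * t) * y * (x⁻¹ * t)⁻¹) * x⁻¹ := by group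
      rw [h2]
      exact hxY _ (hMY _ h1.2 y hy)
  have hYne : Y ≠ ⊥ := by
    intro h1
    rw [h1, card_bot] at hY16
    omega
  obtain ⟨g, hg, hgS⟩ := hE.nt
  exact hgS (h.nrm Y (hYE.trans hE.le) hYne hSY g (hMY g hg))

end

end H67.L8
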