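import Mathlib
import Cfsg.Agent.Lib.H67.L8e

/-!
# S3250: there is no normal four-group
-/

set_option autoImplicit false
set_option linter.unusedVariables false
set_option linter.unusedSectionVars false

namespace H67.L8

open Subgroup

universe u

section
variable {G : Type u} [Group G] [Finite G] {S E : Subgroup G} {z v : G}

/-- the statement of case (B) -/
def CaseB (G : Type u) [Group G] [Finite G] : Prop := ∀ {S : Subgroup G} (h : Hyp S) {E : Subgroup G} (hE : Es S E)
  {z v : G} (hz : z ∈ S) (hz1 : z ≠ 1) (hz2 : z * z = 1) (hzc : ∀ s ∈ S, s * z = z * s)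
  (hv : v ∈ S) (hv1 : v ≠ 1) (hvz : v ≠ z) (hv2 : v * v = 1) (hvc : ∀ s ∈ S, s * v = v * s), False

/-- a fixed point of `S` on `U` -/
theorem exists_fixed (h : Hyp S) {U : Subgroup G} (hU : U ≤ S) (hUn : ∀ s ∈ S, ∀ u ∈ U, s * u * s⁻¹ ∈ U)
    (hUc : Nat.card U = 4) : ∃ z ∈ U, z ≠ 1 ∧ ∀ s ∈ S, s * z = z * s := by
  haveI : Fact (Nat.Prime 2) := ⟨Nat.prime_two⟩
  letI act : MulAction S U :=
    { smul := fun s u => ⟨(s : G) * u * (s : G)⁻¹, hUn s s.2 u u.2⟩
      one_smul := fun u => Subtype.ext (by show ((1 : S) : G) * u * ((1 : S) : G)⁻¹ = u; simp)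
      mul_smul := fun a b u => Subtype.ext (by
        show ((a * b : S) : G) * u * ((a * b : S) : G)⁻¹ = a * (b * u * (b : G)⁻¹) * (a : G)⁻¹
        push_cast; group) }
  have h1 : (1 : U) ∈ MulAction.fixedPoints S U := by
    intro s
    apply Subtype.ext
    show (s : G) * ((1 : U) : G) * (s : G)⁻¹ = ((1 : U) : G)
    simp
  obtain ⟨b, hb, hb1⟩ := h.pg.exists_fixed_point_of_prime_dvd_card_of_fixed_point U (by rw [hUc]; norm_num) h1
  refine ⟨b, b.2, fun h2 => hb1 (Subtype.ext h2.symm), fun s hs => ?_⟩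
  have h3 := congrArg Subtype.val (hb ⟨s, hs⟩)
  have h4 : s * (b : G) * s⁻¹ = b := h3
  exact eqc h4

/-- an index two subgroup of `S` -/
theorem exists_idx2 (h : Hyp S) : ∃ T0 : Subgroup G, T0 ≤ S ∧ T0 ≠ S ∧ (∀ s ∈ S, ∀ t ∈ T0, s * t * s⁻¹ ∈ T0) ∧
    (∀ a ∈ S, ∀ b ∈ S, a ∉ T0 → b ∉ T0 → a * b ∈ T0) := by
  haveI : Fact (Nat.Prime 2) := ⟨Nat.prime_two⟩
  obtain ⟨K, hK⟩ := Sylow.exists_subgroup_card_pow_prime (G := S) 2 (n := 6) (by rw [h.card]; norm_num)
  have hi : K.index = 2 := by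
    have := K.card_mul_index
    rw [hK, h.card] at this
    omega
  have hmem : ∀ a (ha : a ∈ S), a ∈ K.map S.subtype ↔ (⟨a, ha⟩ : S) ∈ K := by
    intro a ha
    constructor
    · rintro ⟨k, hk, rfl⟩; exact hk
    · intro hk; exact ⟨_, hk, rfl⟩
  refine ⟨K.map S.subtype, ?_, ?_, ?_, ?_⟩
  · rintro _ ⟨k, _, rfl⟩; exact k.2
  · intro he
    have h1 : Nat.card (K.map S.subtype) = 2 ^ 6 := by
      rw [← hK]
      exact (Nat.card_congr (K.equivMapOfInjective _ S.subtype_injective).toEquiv).symm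
    rw [he, h.card] at h1
    norm_num at h1
  · intro s hs t ht
    have htS : t ∈ S := by
      obtain ⟨k, _, rfl⟩ := ht; exact k.2
    haveI := normal_of_index_eq_two hi
    rw [hmem _ (mul_mem (mul_mem hs htS) (inv_mem hs))]
    have h2 := (inferInstance : K.Normal).conj_mem ⟨t, htS⟩ ((hmem t htS).1 ht) ⟨s, hs⟩
    exact h2
  · intro a ha b hb haT hbT
    rw [hmem _ (mul_mem ha hb)]
    exact (mul_mem_iff_of_index_two hi (a := ⟨a, ha⟩) (b := ⟨b, hb⟩)).2
      ⟨fun h1 => absurd ((hmem a ha).2 h1) haT, fun h1 => absurd ((hmem b hb).2 h1) hbT⟩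

theorem no_four (h : Hyp S) (hburn : Burn G) (hB : CaseB G)
    (hess : ∀ T0 : Subgroup G, T0 ≤ S → T0 ≠ S → (∀ s ∈ S, ∀ t ∈ T0, s * t * s⁻¹ ∈ T0) →
      (∀ a ∈ S, ∀ b ∈ S, a ∉ T0 → b ∉ T0 → a * b ∈ T0) → ∃ E : Subgroup G, Es S E ∧ ¬ E ≤ T0)
    (U : Subgroup G) (hU : U ≤ S) (hUn : ∀ s ∈ S, ∀ u ∈ U, s * u * s⁻¹ ∈ U) (hUc : Nat.card U = 4)
    (hU2 : ∀ u ∈ U, u * u = 1) : False := by
  obtain ⟨z, hzU, hz1, hzc⟩ := exists_fixed h hU hUn hUc
  have hz2 := hU2 z hzU
  have hex : ∃ v ∈ U, v ≠ 1 ∧ v ≠ z := by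
    by_contra hcon
    push Not at hcon
    have h1 : (U : Set G) ⊆ {1, z} := by
      intro y hy
      by_cases hy1 : y = 1
      · left; exact hy1
      · right; exact hcon y hy hy1
    have h2 := Set.ncard_le_ncard h1 (Set.toFinite _)
    have h3 : (U : Set G).ncard = 4 := hUc
    have h4 := Set.ncard_pair (Ne.symm hz1)
    omega
  obtain ⟨v, hvU, hv1, hvz⟩ := hex
  have hv2 := hU2 v hvU
  have hUmem : ∀ y ∈ U, y = 1 ∨ y = z ∨ y = v ∨ y = v * z := by
    have h1 : ({1, z, v, v * z} : Set G) = (U : Set G) := by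
      apply Set.eq_of_subset_of_ncard_le _ _ (Set.toFinite _)
      · rintro y (rfl | rfl | rfl | rfl)
        · exact one_mem _
        · exact hzU
        · exact hvU
        · exact mul_mem hvU hzU
      · have e3 : (1 : G) ≠ v * z := by
          intro h1
          apply hvz
          rw [eq_inv_of_mul_eq_one_left h1.symm, inv_eq_self' hz2]
        have e5 : z ≠ v * z := fun h1 => hv1 (by simpa using h1.symm)
        have e6 : v ≠ v * z := fun h1 => hz1 (by simpa using h1.symm)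
        rw [Set.ncard_insert_of_notMem (by simp [hz1.symm, hv1.symm, e3]),
          Set.ncard_insert_of_notMem (by simp [hvz.symm, e5]), Set.ncard_pair e6]
        exact hUc.le
    intro y hy
    have h2 : y ∈ ({1, z, v, v * z} : Set G) := by rw [h1]; exact hy
    simpa using h2
  have hvc : ∀ s ∈ S, s * v * s⁻¹ = v ∨ s * v * s⁻¹ = v * z := by
    intro s hs
    rcases hUmem _ (hUn s hs v hvU) with h1 | h1 | h1 | h1
    · exfalso
      apply hv1
      calc v = s⁻¹ * (s * v * s⁻¹) * s := by group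
        _ = 1 := by rw [h1]; group
    · exfalso
      apply hvz
      have h2 : s * v * s⁻¹ = s * z * s⁻¹ := by rw [h1, hzc s hs]; group
      exact mul_left_cancel (mul_right_cancel h2)
    · exact Or.inl h1
    · exact Or.inr h1
  have d : ZV S z v := ⟨hU hzU, hz1, hz2, hzc, hU hvU, hv1, hvz, hv2, hvc⟩
  by_cases hcen : ∀ s ∈ S, s * v = v * s
  · obtain ⟨T0, h1, h2, h3, h4⟩ := exists_idx2 h
    obtain ⟨E, hE, -⟩ := hess T0 h1 h2 h3 h4
    exact hB h hE d.hz hz1 hz2 hzc d.hv hv1 hvz hv2 hcen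
  · push Not at hcen
    obtain ⟨s0, hs0, hs0v⟩ := hcen
    obtain ⟨E, hE, hET⟩ := hess (CX S v) (fun y hy => hy.1) (by
        intro he
        have h1 : s0 ∈ CX S v := by rw [he]; exact hs0
        exact hs0v h1.2) (by
        intro s hs t ht
        refine ⟨mul_mem (mul_mem hs ht.1) (inv_mem hs), ?_⟩
        have h3 := hvc s⁻¹ (inv_mem hs)
        rw [inv_inv] at h3
        have h4 : t * (s⁻¹ * v * s) = (s⁻¹ * v * s) * t := by
          rcases h3 with h3 | h3
          · rw [h3]; exact ht.2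
          · rw [h3]
            have c1 : Commute t v := ht.2
            have c2 : Commute t z := hzc t ht.1
            exact (c1.mul_right c2).eq
        calc s * t * s⁻¹ * v = s * (t * (s⁻¹ * v * s)) * s⁻¹ := by group
          _ = s * ((s⁻¹ * v * s) * t) * s⁻¹ := by rw [h4]
          _ = v * (s * t * s⁻¹) := by group) (by
        intro a ha b hb haT hbT
        refine ⟨mul_mem ha hb, ?_⟩
        have ha1 : a * v * a⁻¹ = v * z := by
          rcases hvc a ha with h1 | h1
          · exact absurd (⟨ha, eqc h1⟩ : a ∈ CX S v) haT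
          · exact h1
        have hb1 : b * v * b⁻¹ = v * z := by
          rcases hvc b hb with h1 | h1
          · exact absurd (⟨hb, eqc h1⟩ : b ∈ CX S v) hbT
          · exact h1
        apply eqc
        calc a * b * v * (a * b)⁻¹ = a * (b * v * b⁻¹) * a⁻¹ := by group
          _ = (a * v * a⁻¹) * (a * z * a⁻¹) := by rw [hb1]; group
          _ = v * z * z := by
            have h5 : a * z * a⁻¹ = z := by rw [hzc a ha]; group
            rw [ha1, h5]
          _ = v := by rw [mul_assoc, hz2, mul_one])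
    have hs : ∃ s ∈ E, s * v ≠ v * s := by
      by_contra hcon
      push Not at hcon
      exact hET fun y hy => ⟨hE.le hy, hcon y hy⟩
    by_cases hvE : v ∈ E
    · exact caseA1 h hE d hs hvE
    · exact caseA2 hburn h hE d hs hvE

end

end H67.L8
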