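import Mathlib
import Cfsg.Agent.Lib.H67.L8f
import Cfsg.Agent.Lib.H22.LenCh

/-!
# S3250: the conditions on `S`
-/

set_option autoImplicit false
set_option linter.unusedVariables false
set_option linter.unusedSectionVars false

namespace H67.L8

open Subgroup H22.LenCh

universe u

section
variable {G : Type u} [Group G] [Finite G]

theorem Ch_pred {n : ℕ} {H : Subgroup G} (h : Ch (n + 1) H) : Ch n H := by
  obtain ⟨K, hK, hc⟩ := h
  exact hc.mono hK.le

theorem Ch_of_le {n k : ℕ} {H : Subgroup G} (h : Ch (n + k) H) : Ch n H := by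
  induction k with
  | zero => exact h
  | succ k ih => exact ih (Ch_pred h)

theorem not_ch' (h9 : ∀ c : Fin 10 → Subgroup G, ¬ StrictAnti c) {n : ℕ} (hn : 9 ≤ n) (H : Subgroup G) : ¬ Ch n H := by
  intro h
  obtain ⟨k, rfl⟩ := Nat.exists_eq_add_of_le hn
  exact not_ch h9 H (Ch_of_le h)

theorem hyp [IsSimpleGroup G] (h9 : ∀ c : Fin 10 → Subgroup G, ¬ StrictAnti c) (hnc : ¬ IsMulCommutative G)
    {S : Subgroup G} (hS : Nat.card S = 2 ^ 7) : Hyp S := by
  haveI : Fact (Nat.Prime 2) := ⟨Nat.prime_two⟩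
  have hpow : ∀ {X : Subgroup G} (n : ℕ), IsPGroup 2 X → ¬ Nat.card X ≤ 2 ^ n → ∃ a, n + 1 ≤ a ∧ Nat.card X = 2 ^ a := by
    intro X n hX hc
    obtain ⟨a, ha⟩ := IsPGroup.iff_card.1 hX
    refine ⟨a, ?_, ha⟩
    by_contra h1
    apply hc
    rw [ha]
    exact Nat.pow_le_pow_right (by norm_num) (by omega)
  refine ⟨IsPGroup.of_card hS, hS, ?_, ?_, ?_, ?_⟩
  · intro K hK hK1 hn g hg
    have h1 := norm_eq h9 hnc hS hK hK1 (fun s hs => mem_nz (hn s hs))
    rw [← h1]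
    exact mem_nz hg
  · intro X M hX hXM hM
    by_contra hc
    obtain ⟨a, ha, hXa⟩ := hpow 6 hX hc
    have h1 : Ch a X := ch_of_card hXa
    have h2 := (h1.succ_of_lt hXM).succ_of_lt (lt_top_iff_ne_top.mpr hM)
    exact not_ch' h9 (by omega) _ h2
  · intro X H M hX hXH hHM hM
    by_contra hc
    obtain ⟨a, ha, hXa⟩ := hpow 5 hX hc
    have h1 : Ch a X := ch_of_card hXa
    have h2 := ((h1.succ_of_lt hXH).succ_of_lt hHM).succ_of_lt (lt_top_iff_ne_top.mpr hM)
    exact not_ch' h9 (by omega) _ h2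
  · intro E H1 H2 H3 M hE h1 h2 h3 h4 hM
    by_contra hc
    obtain ⟨a, ha, hXa⟩ := hpow 3 hE hc
    have g1 : Ch a E := ch_of_card hXa
    have g2 := ((((g1.succ_of_lt h1).succ_of_lt h2).succ_of_lt h3).succ_of_lt h4).succ_of_lt (lt_top_iff_ne_top.mpr hM)
    exact not_ch' h9 (by omega) _ g2

end

end H67.L8
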