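import Mathlib

/-!
Submodules of `(ZMod (p^n))²` with the determinant form: normal form, orthogonal complements and their orders.
-/

set_option autoImplicit false

namespace H67.SymplZMod

variable {p n : ℕ}

/-- the determinant form -/
def det (v w : ZMod (p ^ n) × ZMod (p ^ n)) : ZMod (p ^ n) := v.1 * w.2 - v.2 * w.1

theorem det_self (v : ZMod (p ^ n) × ZMod (p ^ n)) : det v v = 0 := by
  unfold det; ring

theorem det_swap (v w : ZMod (p ^ n) × ZMod (p ^ n)) : det v w = - det w v := by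
  unfold det; ring

theorem det_add_left (u v w : ZMod (p ^ n) × ZMod (p ^ n)) : det (u + v) w = det u w + det v w := by
  unfold det; simp only [Prod.fst_add, Prod.snd_add]; ring

theorem det_add_right (u v w : ZMod (p ^ n) × ZMod (p ^ n)) : det u (v + w) = det u v + det u w := by
  unfold det; simp only [Prod.fst_add, Prod.snd_add]; ring

theorem det_smul_left (s : ZMod (p ^ n)) (v w : ZMod (p ^ n) × ZMod (p ^ n)) :
    det (s • v) w = s * det v w := by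
  unfold det; simp only [Prod.smul_fst, Prod.smul_snd, smul_eq_mul]; ring

theorem det_smul_right (s : ZMod (p ^ n)) (v w : ZMod (p ^ n) × ZMod (p ^ n)) :
    det v (s • w) = s * det v w := by
  unfold det; simp only [Prod.smul_fst, Prod.smul_snd, smul_eq_mul]; ring

theorem cramer (e f v : ZMod (p ^ n) × ZMod (p ^ n)) :
    det v f • e + det e v • f = det e f • v := by
  unfold det
  ext <;> simp only [Prod.fst_add, Prod.snd_add, Prod.smul_fst, Prod.smul_snd, smul_eq_mul] <;> ring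

theorem natCast_pow_eq_zero_iff (hp : p.Prime) (k : ℕ) : ((p : ZMod (p ^ n)) ^ k = 0) ↔ n ≤ k := by
  have : ((p : ZMod (p ^ n)) ^ k) = ((p ^ k : ℕ) : ZMod (p ^ n)) := by push_cast; rfl
  rw [this, ZMod.natCast_eq_zero_iff, Nat.pow_dvd_pow_iff_le_right hp.one_lt]

theorem decomp (hp : p.Prime) (y : ZMod (p ^ n)) :
    ∃ γ ≤ n, ∃ u : (ZMod (p ^ n))ˣ, y = (p : ZMod (p ^ n)) ^ γ * u := by
  have : NeZero (p ^ n) := ⟨pow_ne_zero _ hp.ne_zero⟩
  by_cases hy : y = 0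
  · exact ⟨n, le_rfl, 1, by rw [hy, (natCast_pow_eq_zero_iff hp n).2 le_rfl, zero_mul]⟩
  · have hv : y.val ≠ 0 := by rwa [Ne, ZMod.val_eq_zero]
    obtain ⟨γ, m, hm, hval⟩ := Nat.exists_eq_pow_mul_and_not_dvd hv p hp.ne_one
    have hcop : Nat.Coprime m (p ^ n) := by
      apply Nat.Coprime.pow_right
      exact ((Nat.Prime.coprime_iff_not_dvd hp).2 hm).symm
    refine ⟨γ, ?_, ZMod.unitOfCoprime m hcop, ?_⟩
    · by_contra hlt
      push Not at hlt
      have h1 : p ^ n ≤ p ^ γ := Nat.pow_le_pow_right hp.pos hlt.le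
      have h2 : p ^ γ ≤ y.val := by
        rw [hval]; exact Nat.le_mul_of_pos_right _ (Nat.pos_of_ne_zero (by rintro rfl; simp at hm))
      exact absurd (ZMod.val_lt y) (not_lt.2 (h1.trans h2))
    · rw [ZMod.coe_unitOfCoprime]
      have : y = (y.val : ZMod (p ^ n)) := by simp
      rw [this, hval]; push_cast; rfl

theorem mul_pow_eq_zero_iff (hp : p.Prime) {α : ℕ} (hα : α ≤ n) (y : ZMod (p ^ n)) :
    (p : ZMod (p ^ n)) ^ α * y = 0 ↔ (p : ZMod (p ^ n)) ^ (n - α) ∣ y := by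
  constructor
  · intro h
    obtain ⟨γ, hγ, u, rfl⟩ := decomp hp y
    rw [← mul_assoc, ← pow_add] at h
    have h1 : (p : ZMod (p ^ n)) ^ (α + γ) = 0 := by
      have := congrArg (· * (↑u⁻¹ : ZMod (p ^ n))) h
      simpa [mul_assoc] using this
    rw [natCast_pow_eq_zero_iff hp] at h1
    exact Dvd.dvd.mul_right (pow_dvd_pow _ (by omega)) _
  · rintro ⟨z, rfl⟩
    rw [← mul_assoc, ← pow_add, (natCast_pow_eq_zero_iff hp _).2 (by omega), zero_mul]

theorem decompV (hp : p.Prime) (v : ZMod (p ^ n) × ZMod (p ^ n)) :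
    ∃ γ ≤ n, ∃ e : ZMod (p ^ n) × ZMod (p ^ n), (IsUnit e.1 ∨ IsUnit e.2) ∧
      v = (p : ZMod (p ^ n)) ^ γ • e := by
  obtain ⟨γ₁, h₁, u₁, e₁⟩ := decomp hp v.1
  obtain ⟨γ₂, h₂, u₂, e₂⟩ := decomp hp v.2
  rcases le_total γ₁ γ₂ with h | h
  · refine ⟨γ₁, h₁, (u₁, (p : ZMod (p ^ n)) ^ (γ₂ - γ₁) * u₂), Or.inl u₁.isUnit, ?_⟩
    ext
    · simpa using e₁
    · rw [e₂]
      simp only [Prod.smul_mk, smul_eq_mul]
      rw [← mul_assoc, ← pow_add, Nat.add_sub_cancel' h]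
  · refine ⟨γ₂, h₂, ((p : ZMod (p ^ n)) ^ (γ₁ - γ₂) * u₁, u₂), Or.inr u₂.isUnit, ?_⟩
    ext
    · rw [e₁]
      simp only [Prod.smul_mk, smul_eq_mul]
      rw [← mul_assoc, ← pow_add, Nat.add_sub_cancel' h]
    · simpa using e₂

theorem exists_det_eq_one (e : ZMod (p ^ n) × ZMod (p ^ n)) (he : IsUnit e.1 ∨ IsUnit e.2) :
    ∃ f, det e f = 1 := by
  rcases he with ⟨u, hu⟩ | ⟨u, hu⟩
  · refine ⟨(0, ↑u⁻¹), ?_⟩
    unfold det; rw [← hu]; simp
  · refine ⟨(-↑u⁻¹, 0), ?_⟩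
    unfold det; rw [← hu]; simp

/-- Normal form of a submodule of `(ZMod (p^n))²`. -/
theorem exists_normalForm (hp : p.Prime) (W : Submodule (ZMod (p ^ n)) (ZMod (p ^ n) × ZMod (p ^ n))) :
    ∃ (e f : ZMod (p ^ n) × ZMod (p ^ n)) (α β : ℕ), α ≤ n ∧ β ≤ n ∧ det e f = 1 ∧
      ∀ v, v ∈ W ↔ ((p : ZMod (p ^ n)) ^ α ∣ det v f ∧ (p : ZMod (p ^ n)) ^ β ∣ det e v) := by
  classical
  -- the least γ with p^γ • e ∈ W, e unimodular
  have hex : ∃ γ, γ ≤ n ∧ ∃ e : ZMod (p ^ n) × ZMod (p ^ n), (IsUnit e.1 ∨ IsUnit e.2) ∧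
      (p : ZMod (p ^ n)) ^ γ • e ∈ W :=
    ⟨n, le_rfl, (1, 0), Or.inl isUnit_one, by
      rw [(natCast_pow_eq_zero_iff hp n).2 le_rfl, zero_smul]; exact W.zero_mem⟩
  obtain ⟨hα, e, he, hw₁⟩ := Nat.find_spec hex
  set α := Nat.find hex with hαdef
  have hmin : ∀ w ∈ W, ∃ w', w = (p : ZMod (p ^ n)) ^ α • w' := by
    intro w hw
    obtain ⟨γ, hγ, e', he', rfl⟩ := decompV hp w
    have : α ≤ γ := Nat.find_min' hex ⟨hγ, e', he', hw⟩
    refine ⟨(p : ZMod (p ^ n)) ^ (γ - α) • e', ?_⟩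
    rw [smul_smul, ← pow_add, Nat.add_sub_cancel' this]
  obtain ⟨f, hf⟩ := exists_det_eq_one e he
  have hex2 : ∃ β, (p : ZMod (p ^ n)) ^ β • f ∈ W :=
    ⟨n, by rw [(natCast_pow_eq_zero_iff hp n).2 le_rfl, zero_smul]; exact W.zero_mem⟩
  set β := Nat.find hex2 with hβdef
  have hβW := Nat.find_spec hex2
  have hβ : β ≤ n := Nat.find_min' hex2 (by
    rw [(natCast_pow_eq_zero_iff hp n).2 le_rfl, zero_smul]; exact W.zero_mem)
  have hJ : ∀ y : ZMod (p ^ n), y • f ∈ W ↔ (p : ZMod (p ^ n)) ^ β ∣ y := by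
    intro y
    constructor
    · intro hy
      obtain ⟨γ, hγ, u, rfl⟩ := decomp hp y
      have h1 : (p : ZMod (p ^ n)) ^ γ • f ∈ W := by
        have := W.smul_mem (↑u⁻¹ : ZMod (p ^ n)) hy
        rw [smul_smul] at this
        have h2 : (↑u⁻¹ : ZMod (p ^ n)) * ((p : ZMod (p ^ n)) ^ γ * u) = (p : ZMod (p ^ n)) ^ γ := by
          rw [mul_left_comm]; simp
        rwa [h2] at this
      have : β ≤ γ := Nat.find_min' hex2 h1
      exact Dvd.dvd.mul_right (pow_dvd_pow _ this) _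
    · rintro ⟨z, rfl⟩
      rw [mul_comm, ← smul_smul]
      exact W.smul_mem _ hβW
  refine ⟨e, f, α, β, hα, hβ, hf, ?_⟩
  intro v
  have hc := cramer e f v
  rw [hf, one_smul] at hc
  constructor
  · intro hv
    obtain ⟨v', rfl⟩ := hmin v hv
    refine ⟨?_, ?_⟩
    · rw [det_smul_left]; exact Dvd.intro _ rfl
    · rw [← hJ]
      have h1 : det e ((p : ZMod (p ^ n)) ^ α • v') • f =
          (p : ZMod (p ^ n)) ^ α • v' - (det v' f) • ((p : ZMod (p ^ n)) ^ α • e) := by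
        nth_rewrite 2 [← hc]
        rw [det_smul_left, smul_smul, mul_comm (det v' f)]
        abel
      rw [h1]
      exact W.sub_mem hv (W.smul_mem _ hw₁)
  · rintro ⟨⟨s, hs⟩, hd⟩
    rw [← hc]
    apply W.add_mem
    · rw [hs, mul_comm, ← smul_smul]
      exact W.smul_mem _ hw₁
    · exact (hJ _).2 hd

/-- the orthogonal complement -/
def perp (W : Submodule (ZMod (p ^ n)) (ZMod (p ^ n) × ZMod (p ^ n))) :
    Submodule (ZMod (p ^ n)) (ZMod (p ^ n) × ZMod (p ^ n)) where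
  carrier := {v | ∀ w ∈ W, det w v = 0}
  add_mem' := fun {a b} ha hb w hw => by rw [det_add_right, ha w hw, hb w hw, add_zero]
  zero_mem' := fun w _ => by simp [det]
  smul_mem' := fun c x hx w hw => by rw [det_smul_right, hx w hw, mul_zero]

theorem mem_perp {W : Submodule (ZMod (p ^ n)) (ZMod (p ^ n) × ZMod (p ^ n))}
    {v : ZMod (p ^ n) × ZMod (p ^ n)} : v ∈ perp W ↔ ∀ w ∈ W, det w v = 0 := Iff.rfl

theorem det_expand {e f : ZMod (p ^ n) × ZMod (p ^ n)} (hf : det e f = 1)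
    (v w : ZMod (p ^ n) × ZMod (p ^ n)) :
    det v w = det v f * det e w - det e v * det w f := by
  have h1 := cramer e f v
  have h2 := cramer e f w
  rw [hf, one_smul] at h1 h2
  nth_rewrite 1 [← h1, ← h2]
  simp only [det_add_left, det_add_right, det_smul_left, det_smul_right, det_self, hf,
    det_swap f e]
  ring

theorem mem_perp_normalForm (hp : p.Prime)
    {W : Submodule (ZMod (p ^ n)) (ZMod (p ^ n) × ZMod (p ^ n))}
    {e f : ZMod (p ^ n) × ZMod (p ^ n)} {α β : ℕ} (hα : α ≤ n) (hβ : β ≤ n) (hf : det e f = 1)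
    (hW : ∀ v, v ∈ W ↔ ((p : ZMod (p ^ n)) ^ α ∣ det v f ∧ (p : ZMod (p ^ n)) ^ β ∣ det e v))
    (v : ZMod (p ^ n) × ZMod (p ^ n)) :
    v ∈ perp W ↔ ((p : ZMod (p ^ n)) ^ (n - β) ∣ det v f ∧ (p : ZMod (p ^ n)) ^ (n - α) ∣ det e v) := by
  rw [mem_perp, ← mul_pow_eq_zero_iff hp hβ, ← mul_pow_eq_zero_iff hp hα]
  constructor
  · intro h
    constructor
    · have h1 := h ((p : ZMod (p ^ n)) ^ β • f) ((hW _).2 ⟨by
        rw [det_smul_left, det_self, mul_zero]; exact dvd_zero _, by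
        rw [det_smul_right, hf]; exact dvd_mul_right _ _⟩)
      rw [det_smul_left, det_swap f v, mul_neg, neg_eq_zero] at h1
      exact h1
    · have h1 := h ((p : ZMod (p ^ n)) ^ α • e) ((hW _).2 ⟨by
        rw [det_smul_left, hf]; exact dvd_mul_right _ _, by
        rw [det_smul_right, det_self, mul_zero]; exact dvd_zero _⟩)
      rw [det_smul_left] at h1
      exact h1
  · rintro ⟨h1, h2⟩ w hw
    obtain ⟨⟨s, hs⟩, ⟨t, ht⟩⟩ := (hW w).1 hw
    rw [det_expand hf w v, hs, ht]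
    have e1 : (p : ZMod (p ^ n)) ^ α * s * det e v = s * ((p : ZMod (p ^ n)) ^ α * det e v) := by ring
    have e2 : (p : ZMod (p ^ n)) ^ β * t * det v f = t * ((p : ZMod (p ^ n)) ^ β * det v f) := by ring
    rw [e1, e2, h1, h2]; ring

theorem card_dvd (hp : p.Prime) {α : ℕ} (hα : α ≤ n) :
    Nat.card {x : ZMod (p ^ n) // (p : ZMod (p ^ n)) ^ α ∣ x} = p ^ (n - α) := by
  have : NeZero (p ^ n) := ⟨pow_ne_zero _ hp.ne_zero⟩
  have h1 : ∀ x : ZMod (p ^ n), (p : ZMod (p ^ n)) ^ α ∣ x ↔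
      x ∈ AddSubgroup.zmultiples (((p ^ α : ℕ) : ZMod (p ^ n))) := by
    intro x
    rw [AddSubgroup.mem_zmultiples_iff]
    constructor
    · rintro ⟨z, rfl⟩
      refine ⟨(z.val : ℤ), ?_⟩
      rw [natCast_zsmul, nsmul_eq_mul]
      push_cast
      simp [mul_comm]
    · rintro ⟨k, rfl⟩
      rw [zsmul_eq_mul]; push_cast
      exact dvd_mul_left _ _
  rw [Nat.card_congr (Equiv.subtypeEquivRight h1)]
  change Nat.card (AddSubgroup.zmultiples (((p ^ α : ℕ) : ZMod (p ^ n)))) = _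
  rw [Nat.card_zmultiples, ZMod.addOrderOf_coe _ (pow_ne_zero _ hp.ne_zero),
    Nat.gcd_eq_right (Nat.pow_dvd_pow p hα), Nat.pow_div hα hp.pos]

theorem card_normalForm (hp : p.Prime)
    {W : Submodule (ZMod (p ^ n)) (ZMod (p ^ n) × ZMod (p ^ n))}
    {e f : ZMod (p ^ n) × ZMod (p ^ n)} {α β : ℕ} (hα : α ≤ n) (hβ : β ≤ n) (hf : det e f = 1)
    (hW : ∀ v, v ∈ W ↔ ((p : ZMod (p ^ n)) ^ α ∣ det v f ∧ (p : ZMod (p ^ n)) ^ β ∣ det e v)) :
    Nat.card W = p ^ (n - α) * p ^ (n - β) := by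
  rw [← card_dvd hp hα, ← card_dvd hp hβ, ← Nat.card_prod]
  apply Nat.card_congr
  refine ⟨fun v => ⟨⟨det v f, ((hW v).1 v.2).1⟩, ⟨det e v, ((hW v).1 v.2).2⟩⟩,
    fun x => ⟨x.1.1 • e + x.2.1 • f, (hW _).2 ?_⟩, ?_, ?_⟩
  · obtain ⟨⟨x, hx⟩, ⟨y, hy⟩⟩ := x
    simp only [det_add_left, det_add_right, det_smul_left, det_smul_right, det_self, hf]
    constructor
    · simpa using hx
    · simpa using hy
  · intro v
    apply Subtype.ext
    have := cramer e f v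
    rw [hf, one_smul] at this
    exact this
  · rintro ⟨⟨x, hx⟩, ⟨y, hy⟩⟩
    simp [det_add_left, det_add_right, det_smul_left, det_smul_right, det_self, hf]

/-- `|W| |W^⊥| = p^(2n)`. -/
theorem card_mul_card_perp (hp : p.Prime)
    (W : Submodule (ZMod (p ^ n)) (ZMod (p ^ n) × ZMod (p ^ n))) :
    Nat.card W * Nat.card (perp W) = p ^ n * p ^ n := by
  obtain ⟨e, f, α, β, hα, hβ, hf, hW⟩ := exists_normalForm hp W
  rw [card_normalForm hp hα hβ hf hW,
    card_normalForm hp (Nat.sub_le _ _) (Nat.sub_le _ _) hf (mem_perp_normalForm hp hα hβ hf hW),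
    ← pow_add, ← pow_add, ← pow_add, ← pow_add]
  congr 1; omega

/-- The orthogonal complement of a nonisotropic submodule is contained in it. -/
theorem perp_le_of_ne (hp : p.Prime)
    (W : Submodule (ZMod (p ^ n)) (ZMod (p ^ n) × ZMod (p ^ n)))
    (h : ∃ v ∈ W, ∃ w ∈ W, det v w ≠ 0) : perp W ≤ W := by
  obtain ⟨e, f, α, β, hα, hβ, hf, hW⟩ := exists_normalForm hp W
  obtain ⟨v, hv, w, hw, hne⟩ := h
  have hlt : α + β < n := by
    by_contra hcon
    push Not at hcon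
    apply hne
    obtain ⟨⟨s, hs⟩, ⟨t, ht⟩⟩ := (hW v).1 hv
    obtain ⟨⟨s', hs'⟩, ⟨t', ht'⟩⟩ := (hW w).1 hw
    rw [det_expand hf v w, hs, ht, hs', ht']
    have e1 : (p : ZMod (p ^ n)) ^ α * s * ((p : ZMod (p ^ n)) ^ β * t') -
      (p : ZMod (p ^ n)) ^ β * t * ((p : ZMod (p ^ n)) ^ α * s') =
      (p : ZMod (p ^ n)) ^ (α + β) * (s * t' - t * s') := by rw [pow_add]; ring
    rw [e1, (natCast_pow_eq_zero_iff hp _).2 hcon, zero_mul]
  intro v hv
  rw [mem_perp_normalForm hp hα hβ hf hW] at hv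
  rw [hW]
  exact ⟨(pow_dvd_pow _ (by omega)).trans hv.1, (pow_dvd_pow _ (by omega)).trans hv.2⟩

end H67.SymplZMod
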