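import Mathlib
import Cfsg.Prelude.Def_OddOrderLocal
import Cfsg.Agent.Lib.H67.GeomSum
import Cfsg.Agent.Lib.H67.SymplZMod

/-!
Finite metacyclic `p`-groups, `p` odd: coordinates `φ : G → (ZMod (p^n))²`, `p^n = |G'|`, such that two elements
commute iff the determinant of their coordinates vanishes.
-/

set_option autoImplicit false

namespace H67.Metacyclic

open H67.GeomSum H67.SymplZMod Finset
open scoped commutatorElement

/-- generators and the action exponent of a metacyclic group -/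
structure Data (p : ℕ) (G : Type*) [Group G] where
  a : G
  b : G
  r : ℕ
  conj : b * a * b⁻¹ = a ^ r
  gen : ∀ g : G, ∃ i j : ℕ, g = a ^ i * b ^ j
  hr : (p : ℤ) ∣ (r : ℤ) - 1

theorem exists_data {p : ℕ} [hp : Fact p.Prime] {G : Type*} [Group G] [Finite G] (hG : IsPGroup p G)
    (hm : Cfsg.IsMetacyclic G) : ∃ D : Data p G, Subgroup.Normal (Subgroup.zpowers D.a) := by
  obtain ⟨N, hN, hcN, hcQ⟩ := hm
  obtain ⟨a, ha⟩ := hcN.exists_generator
  obtain ⟨bq, hbq⟩ := hcQ.exists_generator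
  obtain ⟨b, rfl⟩ := QuotientGroup.mk_surjective bq
  have hpow : ∀ x ∈ N, ∃ i : ℕ, x = (a : G) ^ i := by
    intro x hx
    have h1 : (⟨x, hx⟩ : N) ∈ Submonoid.powers a := by
      rw [mem_powers_iff_mem_zpowers]; exact ha _
    obtain ⟨i, hi⟩ := h1
    exact ⟨i, by simpa [Subtype.ext_iff] using hi.symm⟩
  have hNz : N = Subgroup.zpowers (a : G) := by
    apply le_antisymm
    · intro x hx
      obtain ⟨i, rfl⟩ := hpow x hx
      exact Subgroup.pow_mem _ (Subgroup.mem_zpowers _) i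
    · rw [Subgroup.zpowers_le]; exact a.2
  have hgen : ∀ g : G, ∃ i j : ℕ, g = (a : G) ^ i * b ^ j := by
    intro g
    have h1 : (g : G ⧸ N) ∈ Submonoid.powers (b : G ⧸ N) := by
      rw [mem_powers_iff_mem_zpowers]; exact hbq _
    obtain ⟨j, hj⟩ := h1
    have h2 : g * (b ^ j)⁻¹ ∈ N := by
      rw [← QuotientGroup.eq_one_iff, QuotientGroup.mk_mul, QuotientGroup.mk_inv, QuotientGroup.mk_pow]
      simp only at hj
      rw [hj]; simp
    obtain ⟨i, hi⟩ := hpow _ h2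
    exact ⟨i, j, by rw [← hi]; group⟩
  by_cases ha1 : (a : G) = 1
  · refine ⟨⟨a, b, 1, by rw [ha1]; simp, hgen, by simp⟩, ?_⟩
    rw [← hNz]; exact hN
  · obtain ⟨r, hr⟩ := hpow _ (hN.conj_mem a a.2 b)
    have hrp : (p : ℤ) ∣ (r : ℤ) - 1 := by
      -- p | orderOf a
      obtain ⟨m, hm⟩ := (IsPGroup.iff_orderOf.1 hG) (a : G)
      have hm0 : m ≠ 0 := by
        rintro rfl
        rw [pow_zero, orderOf_eq_one_iff] at hm
        exact ha1 hm
      obtain ⟨M, hM⟩ := (IsPGroup.iff_orderOf.1 hG) b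
      have hbM : b ^ p ^ M = 1 := by rw [← hM]; exact pow_orderOf_eq_one b
      have hconj : ∀ k : ℕ, b ^ k * (a : G) * (b ^ k)⁻¹ = (a : G) ^ r ^ k := by
        intro k
        induction k with
        | zero => simp
        | succ k ih =>
          have : b ^ (k + 1) * (a : G) * (b ^ (k + 1))⁻¹ = b * (b ^ k * (a : G) * (b ^ k)⁻¹) * b⁻¹ := by
            rw [pow_succ']; group
          rw [this, ih, ← conj_pow, hr, ← pow_mul, pow_succ']
      have h1 := hconj (p ^ M)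
      rw [hbM] at h1
      have h2 : (a : G) ^ r ^ p ^ M = (a : G) ^ 1 := by simpa using h1.symm
      rw [pow_eq_pow_iff_modEq, hm] at h2
      have h3 : r ^ p ^ M ≡ 1 [MOD p] := h2.of_dvd (dvd_pow_self p hm0)
      rw [← ZMod.natCast_eq_natCast_iff] at h3
      push_cast at h3
      rw [ZMod.pow_card_pow] at h3
      rw [← ZMod.intCast_zmod_eq_zero_iff_dvd]
      push_cast
      rw [h3]; simp
    refine ⟨⟨a, b, r, hr, hgen, hrp⟩, ?_⟩
    rw [← hNz]; exact hN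

variable {p : ℕ} {G : Type*} [Group G]

namespace Data

variable (D : Data p G)

theorem conj_pow_b (k : ℕ) : D.b ^ k * D.a * (D.b ^ k)⁻¹ = D.a ^ D.r ^ k := by
  induction k with
  | zero => simp
  | succ k ih =>
    have : D.b ^ (k + 1) * D.a * (D.b ^ (k + 1))⁻¹ = D.b * (D.b ^ k * D.a * (D.b ^ k)⁻¹) * D.b⁻¹ := by
      rw [pow_succ']; group
    rw [this, ih, ← conj_pow, D.conj, ← pow_mul, pow_succ']

theorem b_pow_mul_a_pow (j i : ℕ) : D.b ^ j * D.a ^ i = D.a ^ (i * D.r ^ j) * D.b ^ j := by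
  have h := D.conj_pow_b j
  have h2 : (D.b ^ j * D.a * (D.b ^ j)⁻¹) ^ i = D.b ^ j * D.a ^ i * (D.b ^ j)⁻¹ := conj_pow
  rw [h, ← pow_mul, mul_comm] at h2
  rw [h2]; group

theorem mul_form (i j k l : ℕ) :
    (D.a ^ i * D.b ^ j) * (D.a ^ k * D.b ^ l) = D.a ^ (i + k * D.r ^ j) * D.b ^ (j + l) := by
  have : (D.a ^ i * D.b ^ j) * (D.a ^ k * D.b ^ l) = D.a ^ i * (D.b ^ j * D.a ^ k) * D.b ^ l := by group
  rw [this, D.b_pow_mul_a_pow, pow_add, pow_add]; group

/-- the commutator `[b,a]` -/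
def c : G := D.a ^ ((D.r : ℤ) - 1)

theorem c_eq : D.c = ⁅D.b, D.a⁆ := by
  rw [commutatorElement_def, D.conj, c, zpow_sub_one, zpow_natCast]

theorem commutator_form (i j k l : ℕ) :
    ⁅D.a ^ i * D.b ^ j, D.a ^ k * D.b ^ l⁆ = D.c ^ ((k : ℤ) * S j D.r - (i : ℤ) * S l D.r) := by
  have h0 : ∀ x y : G, ⁅x, y⁆ = (x * y) * (y * x)⁻¹ := fun x y => by
    rw [commutatorElement_def]; group
  rw [h0, D.mul_form, D.mul_form, add_comm l j]
  have h1 : D.a ^ (i + k * D.r ^ j) * D.b ^ (j + l) * (D.a ^ (k + i * D.r ^ l) * D.b ^ (j + l))⁻¹ =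
      D.a ^ (i + k * D.r ^ j) * (D.a ^ (k + i * D.r ^ l))⁻¹ := by group
  rw [h1, c, ← zpow_mul, ← zpow_natCast, ← zpow_natCast, ← zpow_neg, ← zpow_add]
  congr 1
  have e1 := sub_one_mul_S j (D.r : ℤ)
  have e2 := sub_one_mul_S l (D.r : ℤ)
  push_cast
  linear_combination (-(k : ℤ)) * e1 + (i : ℤ) * e2

theorem pow_form (i j t : ℕ) :
    (D.a ^ i * D.b ^ j) ^ t = D.a ^ ((i : ℤ) * S t ((D.r : ℤ) ^ j)) * D.b ^ (j * t) := by
  induction t with
  | zero => simp
  | succ t ih =>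
    rw [pow_succ, ih, S_succ, mul_add, zpow_add]
    have h1 : D.a ^ ((i : ℤ) * S t ((D.r : ℤ) ^ j)) * D.b ^ (j * t) * (D.a ^ i * D.b ^ j) =
      D.a ^ ((i : ℤ) * S t ((D.r : ℤ) ^ j)) * (D.b ^ (j * t) * D.a ^ i) * D.b ^ j := by group
    rw [h1, D.b_pow_mul_a_pow]
    have h2 : D.a ^ ((i : ℤ) * ((D.r : ℤ) ^ j) ^ t) = D.a ^ (i * D.r ^ (j * t)) := by
      rw [← zpow_natCast]; congr 1; push_cast; rw [pow_mul]
    rw [h2, mul_add, mul_one, pow_add]
    group

theorem dvd_pow_sub_one (j : ℕ) : (p : ℤ) ∣ (D.r : ℤ) ^ j - 1 := by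
  rw [← sub_one_mul_S]
  exact Dvd.dvd.mul_right D.hr _

/-- the coordinates -/
noncomputable def phi (n : ℕ) (x : G) : ZMod (p ^ n) × ZMod (p ^ n) :=
  (-((D.gen x).choose : ZMod (p ^ n)), ((S (D.gen x).choose_spec.choose D.r : ℤ) : ZMod (p ^ n)))

variable {n : ℕ}

theorem phi_eq (hn : orderOf D.c = p ^ n) (i j : ℕ) :
    D.phi n (D.a ^ i * D.b ^ j) = (-(i : ZMod (p ^ n)), ((S j D.r : ℤ) : ZMod (p ^ n))) := by
  set x := D.a ^ i * D.b ^ j with hx
  set i' := (D.gen x).choose with hi'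
  set j' := (D.gen x).choose_spec.choose with hj'
  have h : x = D.a ^ i' * D.b ^ j' := (D.gen x).choose_spec.choose_spec
  have e1 := D.commutator_form i j 0 1
  have e2 := D.commutator_form i' j' 0 1
  rw [← h] at e2
  rw [← hx, e2] at e1
  have e3 := D.commutator_form i j 1 0
  have e4 := D.commutator_form i' j' 1 0
  rw [← h] at e4
  rw [← hx, e4] at e3
  rw [zpow_eq_zpow_iff_modEq, hn, ← ZMod.intCast_eq_intCast_iff] at e1 e3
  simp only [Nat.cast_zero, zero_mul, S_one, mul_one, zero_sub, Int.cast_neg, Int.cast_natCast,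
    Nat.cast_one, one_mul, S_zero, mul_zero, sub_zero] at e1 e3
  change (-(i' : ZMod (p ^ n)), ((S j' D.r : ℤ) : ZMod (p ^ n))) = _
  rw [e1, e3]

theorem comm_eq (hn : orderOf D.c = p ^ n) (x y : G) (z : ℤ)
    (hz : (z : ZMod (p ^ n)) = det (D.phi n x) (D.phi n y)) : ⁅x, y⁆ = D.c ^ z := by
  obtain ⟨i, j, rfl⟩ := D.gen x
  obtain ⟨k, l, rfl⟩ := D.gen y
  rw [D.commutator_form, zpow_eq_zpow_iff_modEq, hn, ← ZMod.intCast_eq_intCast_iff, hz,
    D.phi_eq hn, D.phi_eq hn, det]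
  push_cast; ring

theorem comm_eq_one_iff (hn : orderOf D.c = p ^ n) (x y : G) :
    x * y = y * x ↔ det (D.phi n x) (D.phi n y) = 0 := by
  rw [← commutatorElement_eq_one_iff_mul_comm]
  obtain ⟨z, hz⟩ := ZMod.intCast_surjective (det (D.phi n x) (D.phi n y))
  rw [D.comm_eq hn x y z hz, ← hz, ← zpow_zero D.c, zpow_eq_zpow_iff_modEq, hn,
    ← ZMod.intCast_eq_intCast_iff]
  simp

theorem phi_mul (hn : orderOf D.c = p ^ n) (x y : G) :
    D.phi n (x * y) = D.phi n x + (1 + ((D.r : ZMod (p ^ n)) - 1) * (D.phi n x).2) • D.phi n y := by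
  obtain ⟨i, j, rfl⟩ := D.gen x
  obtain ⟨k, l, rfl⟩ := D.gen y
  rw [D.mul_form, D.phi_eq hn, D.phi_eq hn, D.phi_eq hn]
  have e1 := congrArg (fun z : ℤ => (z : ZMod (p ^ n))) (sub_one_mul_S j (D.r : ℤ))
  push_cast at e1
  have e2 : 1 + ((D.r : ZMod (p ^ n)) - 1) * ((S j D.r : ℤ) : ZMod (p ^ n)) = (D.r : ZMod (p ^ n)) ^ j := by
    rw [e1]; ring
  simp only [e2]
  ext
  · simp only [Prod.fst_add, Prod.smul_fst, smul_eq_mul]; push_cast; ring
  · simp only [Prod.snd_add, Prod.smul_snd, smul_eq_mul]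
    rw [S_add]; push_cast; ring

theorem phi_one (hn : orderOf D.c = p ^ n) : D.phi n 1 = 0 := by
  have := D.phi_eq hn 0 0
  simp only [pow_zero, mul_one, Nat.cast_zero, neg_zero, S_zero, Int.cast_zero] at this
  exact this

theorem phi_surjective (hp : p.Prime) (hp2 : p ≠ 2) (hn : orderOf D.c = p ^ n) :
    Function.Surjective (D.phi n) := by
  rintro ⟨u, w⟩
  have : NeZero (p ^ n) := ⟨pow_ne_zero _ hp.ne_zero⟩
  obtain ⟨t, ht⟩ := exists_S_eq hp hp2 D.hr n w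
  refine ⟨D.a ^ (-u).val * D.b ^ t, ?_⟩
  rw [D.phi_eq hn, ht]
  simp

/-- `φ (x^t) = (1 + χ + ... + χ^(t-1)) φ(x)` for an integer `χ ≡ 1 mod p`. -/
theorem phi_pow (hn : orderOf D.c = p ^ n) (x : G) :
    ∃ χ : ℤ, (p : ℤ) ∣ χ - 1 ∧ (χ : ZMod (p ^ n)) = 1 + ((D.r : ZMod (p ^ n)) - 1) * (D.phi n x).2 ∧
      ∀ t : ℕ, D.phi n (x ^ t) = ((S t χ : ℤ) : ZMod (p ^ n)) • D.phi n x := by
  obtain ⟨i, j, rfl⟩ := D.gen x
  have hχ : (((D.r : ℤ) ^ j : ℤ) : ZMod (p ^ n)) =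
      1 + ((D.r : ZMod (p ^ n)) - 1) * (D.phi n (D.a ^ i * D.b ^ j)).2 := by
    rw [D.phi_eq hn]
    have e1 := congrArg (fun z : ℤ => (z : ZMod (p ^ n))) (sub_one_mul_S j (D.r : ℤ))
    push_cast at e1
    simp only
    rw [e1]; push_cast; ring
  refine ⟨(D.r : ℤ) ^ j, D.dvd_pow_sub_one j, hχ, ?_⟩
  intro t
  induction t with
  | zero => simp [D.phi_one hn]
  | succ t ih =>
    rw [pow_succ', D.phi_mul hn, ih, ← hχ, S_succ', smul_smul]
    push_cast
    rw [add_smul, one_smul]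

/-- the submodule of coordinates of a subgroup -/
def W (hp : p.Prime) (hp2 : p ≠ 2) (hn : orderOf D.c = p ^ n) (R : Subgroup G) :
    Submodule (ZMod (p ^ n)) (ZMod (p ^ n) × ZMod (p ^ n)) where
  carrier := {v | ∃ x ∈ R, D.phi n x = v}
  add_mem' := by
    rintro _ _ ⟨x, hx, rfl⟩ ⟨y, hy, rfl⟩
    obtain ⟨χ, hχ1, hχ2, hχ3⟩ := D.phi_pow hn x
    obtain ⟨χ', hχ'1, hχ'2, hχ'3⟩ := D.phi_pow hn y
    -- χ is a unit
    have hu : IsUnit (χ : ZMod (p ^ n)) := by
      rw [ZMod.coe_int_isUnit_iff_isCoprime]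
      push_cast
      apply IsCoprime.pow_left
      rw [Int.isCoprime_iff_gcd_eq_one]
      rcases (Nat.coprime_or_dvd_of_prime hp χ.natAbs) with h1 | h1
      · exact h1
      · exact absurd (Int.natCast_dvd.2 h1) (not_dvd_of_dvd_sub_one hp hχ1)
    obtain ⟨u, hu⟩ := hu
    obtain ⟨t, ht⟩ := exists_S_eq hp hp2 hχ'1 n (↑u⁻¹ : ZMod (p ^ n))
    refine ⟨x * y ^ t, mul_mem hx (pow_mem hy t), ?_⟩
    rw [D.phi_mul hn, hχ'3, ht, ← hχ2, ← hu, smul_smul]
    simp
  zero_mem' := ⟨1, one_mem R, D.phi_one hn⟩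
  smul_mem' := by
    rintro s _ ⟨x, hx, rfl⟩
    obtain ⟨χ, hχ1, hχ2, hχ3⟩ := D.phi_pow hn x
    obtain ⟨t, ht⟩ := exists_S_eq hp hp2 hχ1 n s
    exact ⟨x ^ t, pow_mem hx t, by rw [hχ3, ht]⟩

theorem mem_W {hp : p.Prime} {hp2 : p ≠ 2} {hn : orderOf D.c = p ^ n} {R : Subgroup G}
    {v : ZMod (p ^ n) × ZMod (p ^ n)} : v ∈ D.W hp hp2 hn R ↔ ∃ x ∈ R, D.phi n x = v := Iff.rfl

theorem mem_center_iff_phi (hp : p.Prime) (hp2 : p ≠ 2) (hn : orderOf D.c = p ^ n) (x : G) :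
    x ∈ Subgroup.center G ↔ D.phi n x = 0 := by
  rw [Subgroup.mem_center_iff]
  constructor
  · intro h
    obtain ⟨y, hy⟩ := D.phi_surjective hp hp2 hn (1, 0)
    obtain ⟨z, hz⟩ := D.phi_surjective hp hp2 hn (0, 1)
    have h1 := (D.comm_eq_one_iff hn y x).1 (h y)
    have h2 := (D.comm_eq_one_iff hn z x).1 (h z)
    rw [hy, det] at h1
    rw [hz, det] at h2
    ext
    · simpa using h2
    · simpa using h1
  · intro h y
    rw [D.comm_eq_one_iff hn, h]
    simp [det]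

theorem phi_mul_center (hp : p.Prime) (hp2 : p ≠ 2) (hn : orderOf D.c = p ^ n) (x : G) {z : G}
    (hz : z ∈ Subgroup.center G) : D.phi n (x * z) = D.phi n x := by
  rw [D.phi_mul hn, (D.mem_center_iff_phi hp hp2 hn z).1 hz, smul_zero, add_zero]

theorem phi_eq_iff (hp : p.Prime) (hp2 : p ≠ 2) (hn : orderOf D.c = p ^ n) (x y : G) :
    D.phi n x = D.phi n y ↔ x⁻¹ * y ∈ Subgroup.center G := by
  constructor
  · intro h
    rw [Subgroup.mem_center_iff]
    intro g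
    have key : ∀ w, (x * w = w * x) ↔ (y * w = w * y) := fun w => by
      rw [D.comm_eq_one_iff hn, D.comm_eq_one_iff hn, h]
    -- φ(y) = φ(x * (x⁻¹ y)) = φ x + χ φ(x⁻¹ y)
    have h1 : D.phi n (x⁻¹ * y) = 0 := by
      have h2 := D.phi_mul hn x (x⁻¹ * y)
      rw [mul_inv_cancel_left, h] at h2
      have h3 : (1 + ((D.r : ZMod (p ^ n)) - 1) * (D.phi n y).2) • D.phi n (x⁻¹ * y) = 0 := by
        rw [← h] at h2 ⊢
        exact (add_eq_left (a := D.phi n x)).1 h2.symm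
      obtain ⟨χ, hχ1, hχ2, hχ3⟩ := D.phi_pow hn y
      have hu : IsUnit (χ : ZMod (p ^ n)) := by
        rw [ZMod.coe_int_isUnit_iff_isCoprime]
        push_cast
        apply IsCoprime.pow_left
        rw [Int.isCoprime_iff_gcd_eq_one]
        rcases (Nat.coprime_or_dvd_of_prime hp χ.natAbs) with h1 | h1
        · exact h1
        · exact absurd (Int.natCast_dvd.2 h1) (not_dvd_of_dvd_sub_one hp hχ1)
      rw [← hχ2] at h3
      exact (hu.smul_eq_zero).1 h3
    exact (Subgroup.mem_center_iff.1 ((D.mem_center_iff_phi hp hp2 hn _).2 h1)) g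
  · intro h
    have := D.phi_mul_center hp hp2 hn x h
    rw [← this, mul_inv_cancel_left]

/-- the preimage of a set of coordinates -/
theorem card_preimage (hp : p.Prime) (hp2 : p ≠ 2) (hn : orderOf D.c = p ^ n)
    (A : Set (ZMod (p ^ n) × ZMod (p ^ n))) :
    Nat.card {x : G // D.phi n x ∈ A} = Nat.card A * Nat.card (Subgroup.center G) := by
  rw [← Nat.card_prod]
  apply Nat.card_congr
  have hs := D.phi_surjective hp hp2 hn
  let s : ZMod (p ^ n) × ZMod (p ^ n) → G := fun v => (hs v).choose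
  have hsv : ∀ v, D.phi n (s v) = v := fun v => (hs v).choose_spec
  refine ⟨fun x => (⟨D.phi n x, x.2⟩, ⟨(s (D.phi n x))⁻¹ * x, ?_⟩),
    fun y => ⟨s y.1 * y.2, ?_⟩, ?_, ?_⟩
  · rw [← D.phi_eq_iff hp hp2 hn, hsv]
  · rw [D.phi_mul_center hp hp2 hn _ y.2.2, hsv]; exact y.1.2
  · intro x
    apply Subtype.ext
    simp
  · rintro ⟨⟨v, hv⟩, ⟨z, hz⟩⟩
    have h1 : D.phi n (s v * z) = v := by rw [D.phi_mul_center hp hp2 hn _ hz, hsv]
    apply Prod.ext
    · apply Subtype.ext; exact h1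
    · apply Subtype.ext
      simp only [h1]
      group

theorem card_eq (hp : p.Prime) (hp2 : p ≠ 2) (hn : orderOf D.c = p ^ n) :
    Nat.card G = p ^ n * p ^ n * Nat.card (Subgroup.center G) := by
  have h := D.card_preimage hp hp2 hn Set.univ
  rw [Nat.card_congr (Equiv.subtypeUnivEquiv (fun x => Set.mem_univ _))] at h
  rw [h, Nat.card_congr (Equiv.Set.univ _), Nat.card_prod, Nat.card_zmod]

/-- subgroups containing the centre are the preimages of their coordinate submodules -/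
theorem mem_iff_phi_mem (hp : p.Prime) (hp2 : p ≠ 2) (hn : orderOf D.c = p ^ n) {R : Subgroup G}
    (hR : Subgroup.center G ≤ R) (x : G) : x ∈ R ↔ D.phi n x ∈ D.W hp hp2 hn R := by
  constructor
  · intro h; exact ⟨x, h, rfl⟩
  · rintro ⟨y, hy, hyx⟩
    have h1 := (D.phi_eq_iff hp hp2 hn y x).1 hyx
    have h2 := mul_mem hy (hR h1)
    rwa [mul_inv_cancel_left] at h2

theorem card_eq_card_W (hp : p.Prime) (hp2 : p ≠ 2) (hn : orderOf D.c = p ^ n) {R : Subgroup G}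
    (hR : Subgroup.center G ≤ R) :
    Nat.card R = Nat.card (D.W hp hp2 hn R) * Nat.card (Subgroup.center G) := by
  have h := D.card_preimage hp hp2 hn (D.W hp hp2 hn R : Set _)
  refine Eq.trans ?_ h
  exact Nat.card_congr (Equiv.subtypeEquivRight (D.mem_iff_phi_mem hp hp2 hn hR))

theorem mem_centralizer_iff_phi (hp : p.Prime) (hp2 : p ≠ 2) (hn : orderOf D.c = p ^ n) (R : Subgroup G)
    (x : G) : x ∈ Subgroup.centralizer (R : Set G) ↔ D.phi n x ∈ perp (D.W hp hp2 hn R) := by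
  rw [Subgroup.mem_centralizer_iff, mem_perp]
  constructor
  · rintro h _ ⟨y, hy, rfl⟩
    exact (D.comm_eq_one_iff hn y x).1 (h y hy)
  · intro h y hy
    exact (D.comm_eq_one_iff hn y x).2 (h _ ⟨y, hy, rfl⟩)

theorem card_centralizer (hp : p.Prime) (hp2 : p ≠ 2) (hn : orderOf D.c = p ^ n) (R : Subgroup G) :
    Nat.card (Subgroup.centralizer (R : Set G)) =
      Nat.card (perp (D.W hp hp2 hn R)) * Nat.card (Subgroup.center G) := by
  have h := D.card_preimage hp hp2 hn (perp (D.W hp hp2 hn R) : Set _)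
  refine Eq.trans ?_ h
  exact Nat.card_congr (Equiv.subtypeEquivRight (D.mem_centralizer_iff_phi hp hp2 hn R))

/-- `|R| |C_G(R)| = |G| |Z(G)|` for all subgroups `R ≥ Z(G)`. -/
theorem card_mul_card_centralizer (hp : p.Prime) (hp2 : p ≠ 2) (hn : orderOf D.c = p ^ n)
    {R : Subgroup G} (hR : Subgroup.center G ≤ R) :
    Nat.card R * Nat.card (Subgroup.centralizer (R : Set G)) =
      Nat.card G * Nat.card (Subgroup.center G) := by
  rw [D.card_eq_card_W hp hp2 hn hR, D.card_centralizer hp hp2 hn R, D.card_eq hp hp2 hn,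
    ← card_mul_card_perp hp (D.W hp hp2 hn R)]
  ring

/-- the derived subgroup is generated by `c` -/
theorem commutator_eq (hn : orderOf D.c = p ^ n) : commutator G = Subgroup.zpowers D.c := by
  apply le_antisymm
  · rw [commutator_def, Subgroup.commutator_le]
    intro x _ y _
    obtain ⟨z, hz⟩ := ZMod.intCast_surjective (det (D.phi n x) (D.phi n y))
    rw [D.comm_eq hn x y z hz]
    exact Subgroup.zpow_mem _ (Subgroup.mem_zpowers _) z
  · rw [Subgroup.zpowers_le, D.c_eq]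
    exact Subgroup.commutator_mem_commutator (Subgroup.mem_top _) (Subgroup.mem_top _)

theorem card_commutator (hn : orderOf D.c = p ^ n) : Nat.card (commutator G) = p ^ n := by
  rw [D.commutator_eq hn, Nat.card_zpowers, hn]

end Data

end H67.Metacyclic
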