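import Mathlib
import Cfsg.Prelude.Def_OddOrderLocal
import Cfsg.Agent.Lib.H67.Metacyclic

/-!
Finite metacyclic `p`-groups, `p` odd, continued: `p^n`-th powers, nonabelian subgroups contain the centre and their
centralizer, class sizes.
-/

set_option autoImplicit false

namespace H67.Metacyclic

open H67.GeomSum H67.SymplZMod Finset
open scoped commutatorElement

variable {p : ℕ} {G : Type*} [Group G] {n : ℕ}

namespace Data

variable (D : Data p G)

theorem c_zpow_eq_one (hn : orderOf D.c = p ^ n) (z : ℤ) : D.a ^ (((D.r : ℤ) - 1) * ((p ^ n : ℕ) : ℤ) * z) = 1 := by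
  rw [mul_assoc, zpow_mul, zpow_mul]
  change ((D.c) ^ ((p ^ n : ℕ) : ℤ)) ^ z = 1
  rw [zpow_natCast, ← hn, pow_orderOf_eq_one, one_zpow]

theorem pow_q_form (hp : p.Prime) (hp2 : p ≠ 2) (hn : orderOf D.c = p ^ n) (i j : ℕ) :
    (D.a ^ i * D.b ^ j) ^ p ^ n = D.a ^ (i * p ^ n) * D.b ^ (j * p ^ n) := by
  rw [D.pow_form]
  congr 1
  obtain ⟨M, hM⟩ := S_pow_sub hp hp2 (D.dvd_pow_sub_one j) n
  have h1 : S (p ^ n) ((D.r : ℤ) ^ j) = ((p ^ n : ℕ) : ℤ) +
      ((D.r : ℤ) - 1) * ((p ^ n : ℕ) : ℤ) * (S j D.r * M) := by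
    have e1 := sub_one_mul_S j (D.r : ℤ)
    rw [← e1] at hM
    linear_combination hM
  rw [h1, mul_add, zpow_add]
  have h2 : (i : ℤ) * (((D.r : ℤ) - 1) * ((p ^ n : ℕ) : ℤ) * (S j D.r * M)) =
    ((D.r : ℤ) - 1) * ((p ^ n : ℕ) : ℤ) * (i * (S j D.r * M)) := by ring
  rw [h2, D.c_zpow_eq_one hn, mul_one, ← Nat.cast_mul, zpow_natCast]

theorem pow_q_mem_center (hp : p.Prime) (hp2 : p ≠ 2) (hn : orderOf D.c = p ^ n) (x : G) :
    x ^ p ^ n ∈ Subgroup.center G := by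
  rw [D.mem_center_iff_phi hp hp2 hn]
  obtain ⟨χ, hχ1, -, hχ3⟩ := D.phi_pow hn x
  rw [hχ3]
  have h1 : (p : ℤ) ^ n ∣ S (p ^ n) χ := (dvd_S_iff hp hp2 hχ1 _ _).2 dvd_rfl
  have h2 : ((S (p ^ n) χ : ℤ) : ZMod (p ^ n)) = 0 := by
    rw [ZMod.intCast_zmod_eq_zero_iff_dvd]; exact_mod_cast h1
  rw [h2, zero_smul]

theorem exists_pow_q (hp : p.Prime) (hp2 : p ≠ 2) (hn : orderOf D.c = p ^ n) {z : G}
    (hz : z ∈ Subgroup.center G) : ∃ x : G, x ^ p ^ n = z := by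
  obtain ⟨i, j, rfl⟩ := D.gen z
  rw [D.mem_center_iff_phi hp hp2 hn, D.phi_eq hn, Prod.ext_iff] at hz
  obtain ⟨h1, h2⟩ := hz
  simp only [Prod.fst_zero, neg_eq_zero, Prod.snd_zero] at h1 h2
  rw [ZMod.natCast_eq_zero_iff] at h1
  rw [ZMod.intCast_zmod_eq_zero_iff_dvd] at h2
  push_cast at h2
  rw [dvd_S_iff hp hp2 D.hr] at h2
  obtain ⟨i', rfl⟩ := h1
  obtain ⟨j', rfl⟩ := h2
  refine ⟨D.a ^ i' * D.b ^ j', ?_⟩
  rw [D.pow_q_form hp hp2 hn, mul_comm i', mul_comm j']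

/-- nonabelian subgroups contain the centre -/
theorem center_le_of_not_comm [Finite G] (hp : p.Prime) (hp2 : p ≠ 2) (hG : IsPGroup p G)
    (hn : orderOf D.c = p ^ n) (R : Subgroup G) (hR : ¬ IsMulCommutative R) :
    Subgroup.center G ≤ R := by
  -- noncommuting elements
  obtain ⟨x, hx, y, hy, hxy⟩ : ∃ x ∈ R, ∃ y ∈ R, x * y ≠ y * x := by
    by_contra hcon
    push Not at hcon
    exact hR ⟨⟨fun a b => Subtype.ext (hcon a a.2 b b.2)⟩⟩
  rw [Ne, D.comm_eq_one_iff hn] at hxy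
  obtain ⟨δ, hδ, u, hu⟩ := decomp hp (det (D.phi n x) (D.phi n y))
  have hδn : δ < n := by
    by_contra hcon
    push Not at hcon
    apply hxy
    rw [hu, (natCast_pow_eq_zero_iff hp δ).2 hcon, zero_mul]
  have hn1 : δ ≤ n - 1 := by omega
  have hn0 : n - 1 + 1 = n := by omega
  -- p^(n-1) V ⊆ W(R)
  have hV : ∀ v, (p : ZMod (p ^ n)) ^ (n - 1) • v ∈ D.W hp hp2 hn R := by
    intro v
    have hX : D.phi n x ∈ D.W hp hp2 hn R := ⟨x, hx, rfl⟩
    have hY : D.phi n y ∈ D.W hp hp2 hn R := ⟨y, hy, rfl⟩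
    have h1 : det (D.phi n x) (D.phi n y) • v ∈ D.W hp hp2 hn R := by
      rw [← cramer]
      exact Submodule.add_mem _ (Submodule.smul_mem _ _ hX) (Submodule.smul_mem _ _ hY)
    have h2 := Submodule.smul_mem _ ((p : ZMod (p ^ n)) ^ (n - 1 - δ) * (↑u⁻¹ : ZMod (p ^ n))) h1
    rw [smul_smul, hu] at h2
    have h3 : (p : ZMod (p ^ n)) ^ (n - 1 - δ) * (↑u⁻¹ : ZMod (p ^ n)) * ((p : ZMod (p ^ n)) ^ δ * u) =
        (p : ZMod (p ^ n)) ^ (n - 1) := by
      have h4 : (p : ZMod (p ^ n)) ^ (n - 1) = (p : ZMod (p ^ n)) ^ (n - 1 - δ) * (p : ZMod (p ^ n)) ^ δ := by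
        rw [← pow_add]; congr 1; omega
      rw [h4]
      have h5 : (↑u⁻¹ : ZMod (p ^ n)) * (u : ZMod (p ^ n)) = 1 := by simp
      linear_combination ((p : ZMod (p ^ n)) ^ (n - 1 - δ) * (p : ZMod (p ^ n)) ^ δ) * h5
    rwa [h3] at h2
  -- every central element is h * z^p with h ∈ R, z central
  have hstep : ∀ w ∈ Subgroup.center G, ∃ h ∈ R, ∃ z ∈ Subgroup.center G, w = h * z ^ p := by
    intro w hw
    obtain ⟨g, rfl⟩ := D.exists_pow_q hp hp2 hn hw
    obtain ⟨χ, hχ1, -, hχ3⟩ := D.phi_pow hn g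
    have h1 : (p : ℤ) ^ (n - 1) ∣ S (p ^ (n - 1)) χ := (dvd_S_iff hp hp2 hχ1 _ _).2 dvd_rfl
    obtain ⟨s, hs⟩ := h1
    have h2 : D.phi n (g ^ p ^ (n - 1)) ∈ D.W hp hp2 hn R := by
      rw [hχ3, hs]; push_cast
      rw [← smul_smul]; exact hV _
    obtain ⟨h, hh, hφ⟩ := h2
    have h3 := (D.phi_eq_iff hp hp2 hn h _).1 hφ
    refine ⟨h ^ p, pow_mem hh p, _, h3, ?_⟩
    have hc : Commute h (h⁻¹ * g ^ p ^ (n - 1)) := (Subgroup.mem_center_iff.1 h3 h)
    rw [← hc.mul_pow, mul_inv_cancel_left, ← pow_mul, ← pow_succ, hn0]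
  have hiter : ∀ k : ℕ, ∀ w ∈ Subgroup.center G, ∃ h ∈ R, ∃ z ∈ Subgroup.center G, w = h * z ^ p ^ k := by
    intro k
    induction k with
    | zero => intro w hw; exact ⟨1, one_mem _, w, hw, by simp⟩
    | succ k ih =>
      intro w hw
      obtain ⟨h, hh, z, hz, rfl⟩ := ih w hw
      obtain ⟨h', hh', z', hz', hzz⟩ := hstep z hz
      refine ⟨h * h' ^ p ^ k, mul_mem hh (pow_mem hh' _), z', hz', ?_⟩
      have hc : Commute h' (z' ^ p) := (Subgroup.mem_center_iff.1 (pow_mem hz' p) h')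
      rw [hzz, hc.mul_pow, ← pow_mul, pow_succ', mul_assoc]
  obtain ⟨k, hk⟩ := (@IsPGroup.iff_card p G _ ⟨hp⟩ _).1 hG
  intro w hw
  obtain ⟨h, hh, z, hz, rfl⟩ := hiter k w hw
  have : z ^ p ^ k = 1 := by rw [← hk]; exact pow_card_eq_one'
  rw [this, mul_one]; exact hh

/-- the centralizer of a nonabelian subgroup is contained in it -/
theorem centralizer_le_of_not_comm [Finite G] (hp : p.Prime) (hp2 : p ≠ 2) (hG : IsPGroup p G)
    (hn : orderOf D.c = p ^ n) (R : Subgroup G) (hR : ¬ IsMulCommutative R) :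
    Subgroup.centralizer (R : Set G) ≤ R := by
  have hZ := D.center_le_of_not_comm hp hp2 hG hn R hR
  intro x hx
  rw [D.mem_centralizer_iff_phi hp hp2 hn] at hx
  rw [D.mem_iff_phi_mem hp hp2 hn hZ]
  apply perp_le_of_ne hp _ _ hx
  obtain ⟨x, hx, y, hy, hxy⟩ : ∃ x ∈ R, ∃ y ∈ R, x * y ≠ y * x := by
    by_contra hcon
    push Not at hcon
    exact hR ⟨⟨fun a b => Subtype.ext (hcon a a.2 b b.2)⟩⟩
  rw [Ne, D.comm_eq_one_iff hn] at hxy
  exact ⟨_, ⟨x, hx, rfl⟩, _, ⟨y, hy, rfl⟩, hxy⟩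

theorem index_center (hp : p.Prime) (hp2 : p ≠ 2) [Finite G] (hn : orderOf D.c = p ^ n) :
    (Subgroup.center G).index = (p ^ n) ^ 2 := by
  have h1 := D.card_eq hp hp2 hn
  rw [← Subgroup.card_mul_index (Subgroup.center G), mul_comm] at h1
  rw [pow_two]
  exact Nat.eq_of_mul_eq_mul_right Nat.card_pos h1

theorem index_commutator (hp : p.Prime) (hp2 : p ≠ 2) [Finite G] (hn : orderOf D.c = p ^ n) :
    (commutator G).index = p ^ n * Nat.card (Subgroup.center G) := by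
  have h1 := D.card_eq hp hp2 hn
  rw [← Subgroup.card_mul_index (commutator G), D.card_commutator hn, mul_assoc] at h1
  exact Nat.eq_of_mul_eq_mul_left (pow_pos hp.pos _) h1

theorem exists_order (hG : IsPGroup p G) (hp : p.Prime) : ∃ n, orderOf D.c = p ^ n :=
  (@IsPGroup.iff_orderOf p G _ ⟨hp⟩).1 hG D.c

/-- the index of the centralizer of `g` when `φ g = p^γ e`, `e` unimodular -/
theorem index_centralizer (hp : p.Prime) (hp2 : p ≠ 2) [Finite G] (hn : orderOf D.c = p ^ n) (g : G)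
    {γ : ℕ} (hγ : γ ≤ n) {e : ZMod (p ^ n) × ZMod (p ^ n)} (he : IsUnit e.1 ∨ IsUnit e.2)
    (hg : D.phi n g = (p : ZMod (p ^ n)) ^ γ • e) :
    (Subgroup.centralizer ({g} : Set G)).index = p ^ (n - γ) := by
  obtain ⟨f, hf⟩ := exists_det_eq_one e he
  set U : Submodule (ZMod (p ^ n)) (ZMod (p ^ n) × ZMod (p ^ n)) := Submodule.span _ {D.phi n g} with hU
  have hUn : ∀ v, v ∈ U ↔ ((p : ZMod (p ^ n)) ^ γ ∣ det v f ∧ (p : ZMod (p ^ n)) ^ n ∣ det e v) := by
    intro v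
    rw [hU, Submodule.mem_span_singleton]
    constructor
    · rintro ⟨s, rfl⟩
      rw [hg]
      simp only [det_smul_left, det_smul_right, det_self, hf, mul_zero, mul_one]
      exact ⟨dvd_mul_left _ _, dvd_zero _⟩
    · rintro ⟨⟨s, hs⟩, h2⟩
      rw [(natCast_pow_eq_zero_iff hp n).2 le_rfl, zero_dvd_iff] at h2
      refine ⟨s, ?_⟩
      have := cramer e f v
      rw [hf, one_smul, h2, zero_smul, add_zero, hs] at this
      rw [hg, smul_smul, mul_comm, this]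
  have hcU := card_normalForm hp hγ le_rfl hf hUn
  rw [Nat.sub_self, pow_zero, mul_one] at hcU
  have hcP := card_mul_card_perp hp U
  have hC : ∀ x : G, x ∈ Subgroup.centralizer ({g} : Set G) ↔ D.phi n x ∈ perp U := by
    intro x
    rw [Subgroup.mem_centralizer_iff, mem_perp]
    constructor
    · intro h w hw
      rw [hU, Submodule.mem_span_singleton] at hw
      obtain ⟨s, rfl⟩ := hw
      rw [det_smul_left, (D.comm_eq_one_iff hn g x).1 (h g rfl), mul_zero]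
    · intro h y hy
      rw [Set.mem_singleton_iff] at hy
      rw [hy]
      exact (D.comm_eq_one_iff hn g x).2 (h _ (Submodule.mem_span_singleton_self _))
  have hcC : Nat.card (Subgroup.centralizer ({g} : Set G)) = Nat.card (perp U) * Nat.card (Subgroup.center G) := by
    have h := D.card_preimage hp hp2 hn (perp U : Set _)
    refine Eq.trans ?_ h
    exact Nat.card_congr (Equiv.subtypeEquivRight hC)
  have h1 := D.card_eq hp hp2 hn
  rw [← Subgroup.card_mul_index (Subgroup.centralizer ({g} : Set G)), hcC, ← hcP, hcU] at h1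
  have h2 : 0 < Nat.card (perp U) * Nat.card (Subgroup.center G) := by
    have : Finite (perp U) := by
      have : NeZero (p ^ n) := ⟨pow_ne_zero _ hp.ne_zero⟩
      infer_instance
    exact Nat.mul_pos Nat.card_pos Nat.card_pos
  apply Nat.eq_of_mul_eq_mul_left h2
  rw [h1]; ring

end Data

end H67.Metacyclic
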