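import Mathlib
import Cfsg.Prelude.Def_OddOrderLocal
import Cfsg.Agent.Lib.H67.Metacyclic2

/-!
Finite metacyclic `p`-groups, `p` odd, continued: orders of abelian and nonabelian subgroups.
-/

set_option autoImplicit false

namespace H67.Metacyclic

open H67.GeomSum H67.SymplZMod Finset

variable {p : ℕ} {G : Type*} [Group G] {n : ℕ}

theorem centralizer_sup_center (R : Subgroup G) :
    Subgroup.centralizer ((R ⊔ Subgroup.center G : Subgroup G) : Set G) = Subgroup.centralizer (R : Set G) := by
  apply le_antisymm
  · exact Subgroup.centralizer_le (SetLike.coe_subset_coe.2 le_sup_left)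
  · rw [Subgroup.le_centralizer_iff]
    refine sup_le ?_ ?_
    · rw [Subgroup.le_centralizer_iff]
    · exact Subgroup.center_le_centralizer _

theorem sup_center_comm {R : Subgroup G} (hR : IsMulCommutative R) :
    IsMulCommutative (R ⊔ Subgroup.center G : Subgroup G) := by
  rw [← Subgroup.le_centralizer_iff_isMulCommutative, centralizer_sup_center]
  exact sup_le (Subgroup.le_centralizer_iff_isMulCommutative.2 hR) (Subgroup.center_le_centralizer _)

theorem card_center_subtype {R : Subgroup G} (h : Subgroup.centralizer (R : Set G) ≤ R) :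
    Nat.card (Subgroup.center R) = Nat.card (Subgroup.centralizer (R : Set G)) := by
  apply Nat.card_congr
  refine ⟨fun x => ⟨((x : R) : G), ?_⟩, fun y => ⟨⟨y, h y.2⟩, ?_⟩, fun _ => rfl, fun _ => rfl⟩
  · rw [Subgroup.mem_centralizer_iff]
    intro r hr
    have := Subgroup.mem_center_iff.1 x.2 ⟨r, hr⟩
    exact congrArg Subtype.val this
  · rw [Subgroup.mem_center_iff]
    intro r
    exact Subtype.ext (Subgroup.mem_centralizer_iff.1 y.2 r r.2)

namespace Data

variable (D : Data p G)

theorem card_mul_card_center (hp : p.Prime) (hp2 : p ≠ 2) [Finite G] (hn : orderOf D.c = p ^ n) :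
    Nat.card G * Nat.card (Subgroup.center G) = (commutator G).index ^ 2 := by
  rw [D.index_commutator hp hp2 hn, D.card_eq hp hp2 hn]; ring

theorem mul_centralizer_le (hp : p.Prime) (hp2 : p ≠ 2) [Finite G] (hn : orderOf D.c = p ^ n) (R : Subgroup G) :
    Nat.card R * Nat.card (Subgroup.centralizer (R : Set G)) ≤ Nat.card G * Nat.card (Subgroup.center G) := by
  rw [← D.card_mul_card_centralizer hp hp2 hn (R := R ⊔ Subgroup.center G) le_sup_right,
    centralizer_sup_center]
  exact Nat.mul_le_mul_right _ (Subgroup.card_le_of_le le_sup_left)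

theorem mul_centralizer_eq_iff (hp : p.Prime) (hp2 : p ≠ 2) [Finite G] (hn : orderOf D.c = p ^ n) (R : Subgroup G) :
    Nat.card R * Nat.card (Subgroup.centralizer (R : Set G)) = Nat.card G * Nat.card (Subgroup.center G) ↔
      Subgroup.center G ≤ R := by
  constructor
  · intro h
    rw [← D.card_mul_card_centralizer hp hp2 hn (R := R ⊔ Subgroup.center G) le_sup_right,
      centralizer_sup_center] at h
    have h1 := Nat.eq_of_mul_eq_mul_right Nat.card_pos h
    have h2 : R = R ⊔ Subgroup.center G := Subgroup.eq_of_le_of_card_ge le_sup_left h1.ge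
    rw [h2]; exact le_sup_right
  · exact D.card_mul_card_centralizer hp hp2 hn

theorem card_le_of_comm (hp : p.Prime) (hp2 : p ≠ 2) [Finite G] (hn : orderOf D.c = p ^ n) {L : Subgroup G}
    (hL : IsMulCommutative L) : Nat.card L ≤ (commutator G).index := by
  have h1 := D.mul_centralizer_le hp hp2 hn L
  rw [D.card_mul_card_center hp hp2 hn, pow_two] at h1
  have h2 : Nat.card L ≤ Nat.card (Subgroup.centralizer (L : Set G)) :=
    Subgroup.card_le_of_le (Subgroup.le_centralizer_iff_isMulCommutative.2 hL)
  have h3 : Nat.card L * Nat.card L ≤ (commutator G).index * (commutator G).index :=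
    (Nat.mul_le_mul_left _ h2).trans h1
  exact Nat.mul_self_le_mul_self_iff.1 h3

theorem card_eq_of_maximal_comm (hp : p.Prime) (hp2 : p ≠ 2) [Finite G] (hn : orderOf D.c = p ^ n)
    {L : Subgroup G} (hL : Maximal (fun K : Subgroup G => IsMulCommutative ↥K) L) :
    Nat.card L = (commutator G).index := by
  have hZ : Subgroup.center G ≤ L := by
    have := hL.le_of_ge (sup_center_comm hL.prop) le_sup_left
    exact le_sup_right.trans this
  have hC : Subgroup.centralizer (L : Set G) = L := by
    apply le_antisymm
    · intro x hx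
      have hcomm : IsMulCommutative (L ⊔ Subgroup.zpowers x : Subgroup G) := by
        rw [← Subgroup.le_centralizer_iff_isMulCommutative]
        have h1 : L ≤ Subgroup.centralizer (L : Set G) := Subgroup.le_centralizer_iff_isMulCommutative.2 hL.prop
        have h2 : Subgroup.zpowers x ≤ Subgroup.centralizer (L : Set G) := by
          rw [Subgroup.zpowers_le]; exact hx
        refine sup_le ?_ ?_
        · rw [Subgroup.le_centralizer_iff]; exact sup_le h1 h2
        · rw [Subgroup.le_centralizer_iff]
          refine sup_le ?_ ?_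
          · rw [Subgroup.le_centralizer_iff]; exact h2
          · rw [Subgroup.le_centralizer_iff_isMulCommutative]; infer_instance
      have := hL.le_of_ge hcomm le_sup_left
      exact this ((le_sup_right : Subgroup.zpowers x ≤ _) (Subgroup.mem_zpowers x))
    · exact Subgroup.le_centralizer_iff_isMulCommutative.2 hL.prop
  have h1 := D.card_mul_card_centralizer hp hp2 hn hZ
  rw [hC, D.card_mul_card_center hp hp2 hn, pow_two] at h1
  exact Nat.mul_self_inj.1 h1

theorem nonabelian_product (hp : p.Prime) (hp2 : p ≠ 2) [Finite G] (hG : IsPGroup p G) (hn : orderOf D.c = p ^ n)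
    {L : Subgroup G} (hL : ¬ IsMulCommutative L) :
    Nat.card L * Nat.card (Subgroup.center L) = (commutator G).index ^ 2 := by
  rw [card_center_subtype (D.centralizer_le_of_not_comm hp hp2 hG hn L hL),
    D.card_mul_card_centralizer hp hp2 hn (D.center_le_of_not_comm hp hp2 hG hn L hL),
    D.card_mul_card_center hp hp2 hn]

theorem lt_card_of_not_comm (hp : p.Prime) (hp2 : p ≠ 2) [Finite G] (hG : IsPGroup p G)
    (hn : orderOf D.c = p ^ n) {L : Subgroup G} (hL : ¬ IsMulCommutative L) :
    (commutator G).index < Nat.card L := by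
  have h1 := D.nonabelian_product hp hp2 hG hn hL
  have h2 : Nat.card (Subgroup.center L) < Nat.card L := by
    have hle : Nat.card (Subgroup.center L) ≤ Nat.card L := Subgroup.card_le_card_group _
    refine lt_of_le_of_ne hle ?_
    intro h
    apply hL
    exact Subgroup.center_eq_top_iff.1 (Subgroup.eq_top_of_card_eq _ h)
  by_contra hcon
  push Not at hcon
  have h3 : Nat.card L * Nat.card (Subgroup.center L) < (commutator G).index * (commutator G).index := by
    calc Nat.card L * Nat.card (Subgroup.center L) < Nat.card L * Nat.card L :=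
          (Nat.mul_lt_mul_left Nat.card_pos).2 h2
      _ ≤ _ := Nat.mul_le_mul hcon hcon
  rw [h1, pow_two] at h3
  exact lt_irrefl _ h3

theorem comm_iff_card_le (hp : p.Prime) (hp2 : p ≠ 2) [Finite G] (hG : IsPGroup p G)
    (hn : orderOf D.c = p ^ n) (L : Subgroup G) :
    IsMulCommutative L ↔ Nat.card L ≤ (commutator G).index := by
  constructor
  · exact D.card_le_of_comm hp hp2 hn
  · intro h
    by_contra hL
    exact absurd (D.lt_card_of_not_comm hp hp2 hG hn hL) (not_lt.2 h)

theorem maximal_comm_iff (hp : p.Prime) (hp2 : p ≠ 2) [Finite G] (hG : IsPGroup p G)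
    (hn : orderOf D.c = p ^ n) (L : Subgroup G) :
    Maximal (fun K : Subgroup G => IsMulCommutative ↥K) L ↔ Nat.card L = (commutator G).index := by
  constructor
  · exact D.card_eq_of_maximal_comm hp hp2 hn
  · intro h
    refine ⟨(D.comm_iff_card_le hp hp2 hG hn L).2 h.le, ?_⟩
    intro K hK hLK
    have := D.card_le_of_comm hp hp2 hn hK
    rw [← h] at this
    exact (Subgroup.eq_of_le_of_card_ge hLK this).ge

end Data

end H67.Metacyclic
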