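import Mathlib
import Cfsg.Prelude.Def_OddOrderLocal
import Cfsg.Agent.Lib.H67.Metacyclic3

/-!
Finite metacyclic `p`-groups, `p` odd, continued: class sizes and power subgroups.
-/

set_option autoImplicit false

namespace H67.Metacyclic

open H67.GeomSum H67.SymplZMod Finset

variable {p : ℕ} {G : Type*} [Group G] {n : ℕ}

/-- `v ∈ p^s V` -/
def Div (p n s : ℕ) (v : ZMod (p ^ n) × ZMod (p ^ n)) : Prop :=
  (p : ZMod (p ^ n)) ^ s ∣ v.1 ∧ (p : ZMod (p ^ n)) ^ s ∣ v.2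

theorem isUnit_not_dvd (hp : p.Prime) (hn : n ≠ 0) {x : ZMod (p ^ n)} (hx : IsUnit x) :
    ¬ (p : ZMod (p ^ n)) ∣ x := by
  rintro ⟨y, hy⟩
  rw [hy, IsUnit.mul_iff] at hx
  have h1 := hx.1
  have h2 : (p : ZMod (p ^ n)) ^ n = 0 := (natCast_pow_eq_zero_iff hp n).2 le_rfl
  have h3 := h1.pow n
  rw [h2] at h3
  have : Nontrivial (ZMod (p ^ n)) := by
    have : Fact (1 < p ^ n) := ⟨Nat.one_lt_pow hn hp.one_lt⟩
    infer_instance
  exact not_isUnit_zero h3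

/-- if `v = p^γ e` with `e` unimodular, `γ ≤ n`, then `v ∈ p^s V` iff `s ≤ γ` (for `s ≤ n`) -/
theorem div_iff (hp : p.Prime) {γ s : ℕ} (hγ : γ ≤ n) (hs : s ≤ n) {e : ZMod (p ^ n) × ZMod (p ^ n)}
    (he : IsUnit e.1 ∨ IsUnit e.2) : Div p n s ((p : ZMod (p ^ n)) ^ γ • e) ↔ s ≤ γ := by
  constructor
  · intro h
    by_contra hlt
    push Not at hlt
    have hn : n ≠ 0 := by omega
    -- multiply by p^(n-s): p^(n-s+γ) e = 0
    have key : ∀ x : ZMod (p ^ n), IsUnit x → (p : ZMod (p ^ n)) ^ s ∣ (p : ZMod (p ^ n)) ^ γ * x → False := by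
      rintro x hx ⟨y, hy⟩
      have h1 : (p : ZMod (p ^ n)) ^ (n - s) * ((p : ZMod (p ^ n)) ^ γ * x) = 0 := by
        rw [hy, ← mul_assoc, ← pow_add, (natCast_pow_eq_zero_iff hp _).2 (by omega), zero_mul]
      rw [← mul_assoc, ← pow_add] at h1
      have h2 := (hx.mul_left_eq_zero).1 h1
      rw [natCast_pow_eq_zero_iff hp] at h2
      omega
    rcases he with he | he
    · exact key _ he (by simpa using h.1)
    · exact key _ he (by simpa using h.2)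
  · intro h
    exact ⟨by simpa using Dvd.dvd.mul_right (pow_dvd_pow _ h) _,
      by simpa using Dvd.dvd.mul_right (pow_dvd_pow _ h) _⟩

theorem card_div (hp : p.Prime) {s : ℕ} (hs : s ≤ n) :
    Nat.card {v : ZMod (p ^ n) × ZMod (p ^ n) // Div p n s v} = p ^ (n - s) * p ^ (n - s) := by
  rw [← card_dvd hp hs, ← Nat.card_prod]
  apply Nat.card_congr
  exact ⟨fun v => (⟨v.1.1, v.2.1⟩, ⟨v.1.2, v.2.2⟩), fun w => ⟨(w.1, w.2), w.1.2, w.2.2⟩,
    fun _ => rfl, fun _ => rfl⟩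

namespace Data

variable (D : Data p G)

theorem index_centralizer_le_iff (hp : p.Prime) (hp2 : p ≠ 2) [Finite G] (hn : orderOf D.c = p ^ n) (g : G)
    {s : ℕ} (hs : s ≤ n) :
    (Subgroup.centralizer ({g} : Set G)).index ≤ p ^ (n - s) ↔ Div p n s (D.phi n g) := by
  obtain ⟨γ, hγ, e, he, hg⟩ := decompV hp (D.phi n g)
  rw [D.index_centralizer hp hp2 hn g hγ he hg, hg, div_iff hp hγ hs he,
    Nat.pow_le_pow_iff_right hp.one_lt]
  omega

theorem index_centralizer_eq_iff (hp : p.Prime) (hp2 : p ≠ 2) [Finite G] (hn : orderOf D.c = p ^ n) (g : G)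
    {i : ℕ} (hi : 1 ≤ i) (hin : i ≤ n) :
    (Subgroup.centralizer ({g} : Set G)).index = p ^ i ↔
      Div p n (n - i) (D.phi n g) ∧ ¬ Div p n (n - i + 1) (D.phi n g) := by
  obtain ⟨γ, hγ, e, he, hg⟩ := decompV hp (D.phi n g)
  rw [D.index_centralizer hp hp2 hn g hγ he hg, hg, div_iff hp hγ (by omega) he,
    div_iff hp hγ (by omega) he, Nat.pow_right_inj hp.one_lt]
  omega

theorem card_index_eq (hp : p.Prime) (hp2 : p ≠ 2) [Finite G] (hn : orderOf D.c = p ^ n)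
    {i : ℕ} (hi : 1 ≤ i) (hin : i ≤ n) :
    Nat.card {g : G // (Subgroup.centralizer ({g} : Set G)).index = p ^ i} =
      Nat.card (Subgroup.center G) * (p ^ (2 * i) - p ^ (2 * i - 2)) := by
  have hNZ : NeZero (p ^ n) := ⟨pow_ne_zero _ hp.ne_zero⟩
  set A : Set (ZMod (p ^ n) × ZMod (p ^ n)) := {v | Div p n (n - i) v} with hA
  set B : Set (ZMod (p ^ n) × ZMod (p ^ n)) := {v | Div p n (n - i + 1) v} with hB
  have hBA : B ⊆ A := by
    intro v hv
    exact ⟨(pow_dvd_pow _ (by omega)).trans hv.1, (pow_dvd_pow _ (by omega)).trans hv.2⟩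
  have h1 : Nat.card {g : G // (Subgroup.centralizer ({g} : Set G)).index = p ^ i} =
      Nat.card {g : G // D.phi n g ∈ A \ B} :=
    Nat.card_congr (Equiv.subtypeEquivRight (fun g => D.index_centralizer_eq_iff hp hp2 hn g hi hin))
  rw [h1, D.card_preimage hp hp2 hn (A \ B), mul_comm]
  congr 1
  have hcA : Nat.card A = p ^ i * p ^ i := by
    have := card_div (n := n) hp (s := n - i) (Nat.sub_le _ _)
    rw [Nat.sub_sub_self hin] at this
    exact this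
  have hcB : Nat.card B = p ^ (i - 1) * p ^ (i - 1) := by
    have := card_div (n := n) hp (s := n - i + 1) (by omega)
    have h2 : n - (n - i + 1) = i - 1 := by omega
    rw [h2] at this
    exact this
  rw [Nat.card_coe_set_eq, Set.ncard_sdiff hBA (Set.toFinite B), ← Nat.card_coe_set_eq,
    ← Nat.card_coe_set_eq, hcA, hcB, ← pow_add, ← pow_add]
  congr 2 <;> omega

/-- the subgroup of elements with coordinates in `p^s V` -/
def divSubgroup (hn : orderOf D.c = p ^ n) [Finite G] (s : ℕ) : Subgroup G where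
  carrier := {g | Div p n s (D.phi n g)}
  mul_mem' := by
    intro a b ha hb
    change Div p n s (D.phi n (a * b))
    rw [D.phi_mul hn]
    exact ⟨dvd_add ha.1 (Dvd.dvd.mul_left hb.1 _), dvd_add ha.2 (Dvd.dvd.mul_left hb.2 _)⟩
  one_mem' := by
    change Div p n s (D.phi n 1)
    rw [D.phi_one hn]
    exact ⟨dvd_zero _, dvd_zero _⟩
  inv_mem' := by
    intro x hx
    change Div p n s (D.phi n x⁻¹)
    have hx' : Div p n s (D.phi n x) := hx
    obtain ⟨χ, -, -, hχ3⟩ := D.phi_pow hn x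
    have h1 : x⁻¹ = x ^ (orderOf x - 1) := by
      symm
      apply eq_inv_of_mul_eq_one_left
      rw [← pow_succ, Nat.sub_add_cancel (orderOf_pos x), pow_orderOf_eq_one]
    rw [h1, hχ3]
    exact ⟨Dvd.dvd.mul_left hx'.1 _, Dvd.dvd.mul_left hx'.2 _⟩

theorem div_pow (hp : p.Prime) (hp2 : p ≠ 2) (hn : orderOf D.c = p ^ n) (y : G) (s : ℕ) :
    Div p n s (D.phi n (y ^ p ^ s)) := by
  obtain ⟨χ, hχ1, -, hχ3⟩ := D.phi_pow hn y
  have h1 : (p : ℤ) ^ s ∣ S (p ^ s) χ := (dvd_S_iff hp hp2 hχ1 _ _).2 dvd_rfl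
  obtain ⟨z, hz⟩ := h1
  rw [hχ3, hz]
  push_cast
  rw [← smul_smul]
  exact ⟨by simp, by simp⟩

theorem exists_pow_of_div (hp : p.Prime) (hp2 : p ≠ 2) (hn : orderOf D.c = p ^ n) {g : G} {s : ℕ}
    (hs : s ≤ n) (hg : Div p n s (D.phi n g)) :
    ∃ y z : G, g = y ^ p ^ s * z ^ p ^ s := by
  obtain ⟨⟨v₁, h₁⟩, ⟨v₂, h₂⟩⟩ := hg
  obtain ⟨y, hy⟩ := D.phi_surjective hp hp2 hn (v₁, v₂)
  have hg' : D.phi n g = (p : ZMod (p ^ n)) ^ s • D.phi n y := by
    rw [hy]; ext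
    · simpa using h₁
    · simpa using h₂
  obtain ⟨χ, hχ1, -, hχ3⟩ := D.phi_pow hn y
  obtain ⟨t, ht⟩ := exists_S_eq hp hp2 hχ1 n ((p : ZMod (p ^ n)) ^ s)
  have hst : p ^ s ∣ t := by
    rw [← dvd_S_iff hp hp2 hχ1]
    have h1 : ((S t χ - (p : ℤ) ^ s : ℤ) : ZMod (p ^ n)) = 0 := by
      push_cast; rw [ht, sub_self]
    rw [ZMod.intCast_zmod_eq_zero_iff_dvd] at h1
    push_cast at h1
    have h2 : (p : ℤ) ^ s ∣ S t χ - (p : ℤ) ^ s := (pow_dvd_pow _ hs).trans h1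
    have h3 := dvd_add h2 (dvd_refl ((p : ℤ) ^ s))
    rwa [sub_add_cancel] at h3
  obtain ⟨t', rfl⟩ := hst
  have h3 : D.phi n ((y ^ t') ^ p ^ s) = D.phi n g := by
    rw [← pow_mul, mul_comm t', hχ3, ht, hg']
  have h4 := (D.phi_eq_iff hp hp2 hn _ _).1 h3
  obtain ⟨x, hx⟩ := D.exists_pow_q hp hp2 hn h4
  refine ⟨y ^ t', x ^ p ^ (n - s), ?_⟩
  have h5 : (x ^ p ^ (n - s)) ^ p ^ s = x ^ p ^ n := by
    rw [← pow_mul, ← pow_add, Nat.sub_add_cancel hs]
  rw [h5, hx]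
  group

theorem mem_closure_pow_iff (hp : p.Prime) (hp2 : p ≠ 2) [Finite G] (hn : orderOf D.c = p ^ n) {g : G} {s : ℕ}
    (hs : s ≤ n) : g ∈ Subgroup.closure {x : G | ∃ y : G, y ^ p ^ s = x} ↔ Div p n s (D.phi n g) := by
  constructor
  · intro h
    have : Subgroup.closure {x : G | ∃ y : G, y ^ p ^ s = x} ≤ D.divSubgroup hn s := by
      rw [Subgroup.closure_le]
      rintro _ ⟨y, rfl⟩
      exact D.div_pow hp hp2 hn y s
    exact this h
  · intro h
    obtain ⟨y, z, rfl⟩ := D.exists_pow_of_div hp hp2 hn hs h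
    exact mul_mem (Subgroup.subset_closure ⟨y, rfl⟩) (Subgroup.subset_closure ⟨z, rfl⟩)

theorem div_top_iff (hp : p.Prime) (hp2 : p ≠ 2) (hn : orderOf D.c = p ^ n) (g : G) :
    Div p n n (D.phi n g) ↔ g ∈ Subgroup.center G := by
  rw [D.mem_center_iff_phi hp hp2 hn, Div, (natCast_pow_eq_zero_iff hp n).2 le_rfl, zero_dvd_iff,
    zero_dvd_iff, Prod.ext_iff]
  rfl

end Data

end H67.Metacyclic
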