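import Mathlib
import Cfsg.Agent.Lib.H1.SZ
import Cfsg.Agent.Lib.H39.PNilp
import Cfsg.Agent.Lib.H2.NPC
import Cfsg.Prelude.Def_Transfer

/-!
If `Q` is a normal subgroup of `G` inside the Frattini subgroup of a Sylow `p`-subgroup and `G/Q` has a normal
`p`-complement then so does `G`.
-/

set_option autoImplicit false

namespace H67.NilpFrat

open Subgroup
open scoped Pointwise

theorem hasNPC_of_le_frattini {G : Type*} [Group G] [Finite G] {p : ℕ} [hp : Fact p.Prime] (P : Sylow p G)
    (Q : Subgroup G) [hQn : Q.Normal] (hQ : Q ≤ (frattini (P : Subgroup G)).map (P : Subgroup G).subtype)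
    (h : Cfsg.HasNormalPComplement p (G ⧸ Q)) : Cfsg.HasNormalPComplement p G := by
  have hQP : Q ≤ P := by
    refine hQ.trans ?_
    rintro _ ⟨y, -, rfl⟩
    exact y.2
  have hQp : IsPGroup p Q := P.2.to_le hQP
  obtain ⟨K', hK'n, hK'c, k, hK'i⟩ := H39.PNilp.iff_exists.1 h
  set K : Subgroup G := K'.comap (QuotientGroup.mk' Q) with hK
  have hKn : K.Normal := inferInstance
  have hQK : Q ≤ K := QuotientGroup.le_comap_mk' Q K'
  have hKi : K.index = p ^ k := by
    rw [hK, index_comap_of_surjective _ (QuotientGroup.mk'_surjective Q), hK'i]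
  have hKc : Nat.card K = Nat.card Q * Nat.card K' := H2.NPC.card_comap_mk Q K'
  have hrel : Q.relIndex K = Nat.card K' := by
    have h1 : Nat.card (Q.subgroupOf K) * (Q.subgroupOf K).index = Nat.card K := (Q.subgroupOf K).card_mul_index
    rw [hKc, Nat.card_congr (subgroupOfEquivOfLe hQK).toEquiv] at h1
    exact Nat.eq_of_mul_eq_mul_left Nat.card_pos h1
  obtain ⟨n, hn⟩ := IsPGroup.iff_card.1 hQp
  have hcop : (Nat.card Q).Coprime (Q.relIndex K) := by
    rw [hrel, hn]
    exact (Nat.Coprime.pow_right n hK'c).symm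
  have hKQ : K ≤ normalizer (Q : Set G) := by rw [normalizer_eq_top]; exact le_top
  have hsolv : Group.IsSolvable Q := by
    have := hQp.isNilpotent
    infer_instance
  -- complement
  obtain ⟨H', hH'⟩ := exists_right_complement'_of_coprime (N := Q.subgroupOf K) (by
    rw [Nat.card_congr (subgroupOfEquivOfLe hQK).toEquiv]
    exact hcop)
  set H : Subgroup G := H'.map K.subtype with hH
  have hHK : H ≤ K := by
    rintro _ ⟨y, -, rfl⟩
    exact y.2
  have hHc : Nat.card H = Q.relIndex K := by
    rw [hH, H39.PNilp.card_map_injective _ K.subtype_injective]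
    exact hH'.symm.index_eq_card.symm
  have hfr : ∀ g : G, g ∈ Q ⊔ normalizer (H : Set G) := by
    intro g
    have hgK : MulAut.conj g • H ≤ K := by
      intro x hx
      rw [H1.SZ.mem_conj_smul] at hx
      have := hKn.conj_mem _ (hHK hx) g
      simpa [mul_assoc] using this
    obtain ⟨q, hq, hqH⟩ := H1.SZ.conj_of_card_rel K Q hQK hKQ hcop (Or.inl hsolv) H (MulAut.conj g • H) hHK hgK hHc
      ((H1.SZ.card_conj_smul g H).trans hHc)
    have h1 : q⁻¹ * g ∈ normalizer (H : Set G) := by
      apply H1.SZ.mem_normalizer_of_conj_smul_eq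
      rw [H1.SZ.conj_mul_smul, H1.SZ.conj_inv_smul_eq_iff, hqH]
    have h2 : g = q * (q⁻¹ * g) := by group
    rw [h2]
    exact mul_mem_sup hq h1
  have htop : Q ⊔ normalizer (H : Set G) = ⊤ := (eq_top_iff' _).2 hfr
  have hPH : (P : Subgroup G) ≤ normalizer (H : Set G) := by
    have h1 : (normalizer (H : Set G)).subgroupOf (P : Subgroup G) ⊔ frattini (P : Subgroup G) = ⊤ := by
      rw [eq_top_iff]
      rintro ⟨x, hx⟩ -
      have h2 : x ∈ Q ⊔ normalizer (H : Set G) := hfr x
      rw [mem_sup_of_normal_left] at h2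
      obtain ⟨a, ha, b, hb, rfl⟩ := h2
      obtain ⟨a', ha', hae⟩ := hQ ha
      have hbP : b ∈ (P : Subgroup G) := by
        have := (P : Subgroup G).mul_mem ((P : Subgroup G).inv_mem (hQP ha)) hx
        simpa using this
      have h3 : (⟨a * b, hx⟩ : (P : Subgroup G)) = a' * ⟨b, hbP⟩ := by
        apply Subtype.ext
        change a * b = (a' : G) * b
        rw [show (a' : G) = a from hae]
      rw [h3, sup_comm]
      exact mul_mem_sup ha' hb
    have h2 := frattini_nongenerating h1
    rwa [subgroupOf_eq_top] at h2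
  have hHn : H.Normal := by
    rw [← normalizer_eq_top_iff, eq_top_iff, ← htop]
    exact sup_le (hQP.trans hPH) le_rfl
  refine H39.PNilp.of_normal H hHn ?_ ⟨n + k, ?_⟩
  · rw [hHc, hrel]; exact hK'c
  · have h1 := H.card_mul_index
    have h2 := K.card_mul_index
    rw [hKc, hKi, ← h1, hHc, hrel, hn] at h2
    have h3 : Nat.card K' * (p ^ (n + k)) = Nat.card K' * H.index := by
      rw [← h2, pow_add]; ring
    exact (Nat.eq_of_mul_eq_mul_left Nat.card_pos h3).symm

end H67.NilpFrat
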