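import Mathlib
import Cfsg.Agent.Lib.H20.Cor7
import Cfsg.Agent.Lib.H20.Rey
import Cfsg.Agent.Lib.H80.CQ2
import Cfsg.Agent.Lib.H88.TateA
import Cfsg.Agent.Lib.H1.Coprime2

/-!
# Blocks with normal defect group: nilpotency and the stabilizer of a root
-/

set_option autoImplicit false
set_option linter.unusedSectionVars false
set_option linter.unusedVariables false

namespace H67.NormDef

open MonoidAlgebra H80.GA H80.GB H80.GC H80.GD H80.GE H80.GG H80.GH H80.GJ H80.FS H80.FS3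
open scoped Pointwise

section alg
variable {k G : Type*} [Field k] [Group G] [Finite G] {p : ℕ} [Fact p.Prime] [CharP k p]
  [Algebra (ZMod p) k] [Algebra.IsAlgebraic (ZMod p) k]

theorem mul_ne_of_sle {P : Subgroup G} {e : MonoidAlgebra k G} (hP : IsPair p ⊤ P e)
    {Q : Subgroup G} {f : MonoidAlgebra k G} (h : SLE p ⊤ Q f P e) : f * e ≠ 0 := by
  have heS : e ∈ Sp k (Subgroup.centralizer (P : Set G)) := Sp_mono inf_le_left hP.blk.mem.2
  have key : ∀ a : Subgroup G × MonoidAlgebra k G,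
      Relation.ReflTransGen (fun a b : Subgroup G × MonoidAlgebra k G => NLE p ⊤ a.1 a.2 b.1 b.2) a (P, e) →
      a.2 * e ≠ 0 := by
    intro a ha
    induction ha using Relation.ReflTransGen.head_induction_on with
    | refl =>
      show e * e ≠ 0
      rw [hP.blk.idem]; exact hP.blk.ne
    | head h1 h2 ih =>
      rename_i a c
      intro h0
      apply ih
      have hcP : c.1 ≤ P := by
        have h3 : SLE p ⊤ c.1 c.2 P e := h2
        exact h3.le' hP
      have he1 : e ∈ Sp k (Subgroup.centralizer (c.1 : Set G)) :=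
        Sp_mono (Subgroup.centralizer_le hcP) heS
      have he2 : e ∈ Fx k c.1 := mem_Fx_of_mem_Sp_centralizer he1
      have h4 := h1.br
      have h5 : br k c.1 a.2 ∈ Sp k (CH ⊤ c.1) := fun x hx => ⟨br_mem_Sp _ _ x hx, Subgroup.mem_top x⟩
      have h6 : c.2 * br k c.1 a.2 = br k c.1 a.2 * c.2 := comm_of_mem h1.pairP.blk.mem.1 h5
      have h7 : br k c.1 (a.2 * e) = br k c.1 a.2 * e := by
        rw [br_mul h1.pairP.pgr h1.fx he2, br_of_mem_Sp he1]
      rw [← h4, ← h6, mul_assoc, ← h7, h0, map_zero, mul_zero]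
  exact key (Q, f) h

/-- for a normal defect group, the block is nilpotent as soon as the `p'`-elements of the stabilizer of
a root centralize the defect group -/
theorem nilp_of_normal [IsAlgClosed k] {P : Subgroup G} (hPn : P.Normal) {b e : MonoidAlgebra k G}
    (hmax : IsMax p ⊤ b P e)
    (h : ∀ x ∈ ST ⊤ P e, ¬ p ∣ orderOf x → x ∈ Subgroup.centralizer (P : Set G)) : Nilp p ⊤ b := by
  have hP := hmax.of.pair
  have hPN : ∀ g : G, cs g P = P := fun g => by
    rw [← mem_normalizer, Subgroup.normalizer_eq_top]; exact Subgroup.mem_top g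
  have hCN : ∀ g : G, cs g (CH ⊤ P) = CH ⊤ P := fun g => by
    rw [cs_CH, hPN, cs_of_mem (Subgroup.mem_top g)]
  refine ⟨hmax.of.blk, ?_⟩
  intro Q f hf x hx hpx
  obtain ⟨g, hg, hle⟩ := sle_max hmax hf
  set x' := g * x * g⁻¹ with hx'
  have hx'T : x' ∈ ST ⊤ (cs g Q) (cj g f) := by
    have : x' ∈ cs g (ST ⊤ Q f) := by rw [hx', conj_mem_cs]; exact hx
    rwa [cs_ST, cs_of_mem hg] at this
  set Q' := cs g Q with hQ'
  set f' := cj g f with hf'
  have hQ'P : Q' ≤ P := hle.le' hP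
  have hpair : IsPair p ⊤ Q' f' := hle.pair_left hP
  have h1 : f' * e ≠ 0 := mul_ne_of_sle hP hle
  have h2 : f' * cj x' e ≠ 0 := by
    intro h0
    apply h1
    have h3 : cj x' (f' * e) = 0 := by
      rw [map_mul, hx'T.2.2]; exact h0
    have h4 := congrArg (cj x'⁻¹) h3
    rwa [cj_inv_cj, map_zero] at h4
  have hc' : IsBlk (CH ⊤ P) (cj x' e) := by
    have := blk_cj hP.blk x'
    rwa [hCN] at this
  obtain ⟨c, hc, hce⟩ := H80.GO.cover_conj (N := CH ⊤ P) (H := CH ⊤ Q') (CH_mono hQ'P)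
    (fun y hy => by rw [mem_normalizer, hCN]) hpair.blk hP.blk hc' h1 h2
  set y := c⁻¹ * x' with hy
  have hyT : y ∈ ST ⊤ P e := by
    refine ⟨Subgroup.mem_top _, by rw [mem_normalizer]; exact hPN _, ?_⟩
    rw [hy, cj_mul, hce, cj_inv_cj]
  have hyx : ∀ u ∈ Q', y * u * y⁻¹ = x' * u * x'⁻¹ := by
    intro u hu
    have h3 : x' * u * x'⁻¹ ∈ Q' := (mem_normalizer_iff'.1 hx'T.2.1 u).1 hu
    have h4 := Subgroup.mem_centralizer_iff.1 (inv_mem hc.1) _ h3
    have h5 : y * u * y⁻¹ = c⁻¹ * (x' * u * x'⁻¹) * c := by rw [hy]; group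
    rw [h5, ← h4]; simp
  -- powers
  have hpow : ∀ n : ℕ, ∀ u ∈ Q', y ^ n * u * (y ^ n)⁻¹ = x' ^ n * u * (x' ^ n)⁻¹ := by
    intro n
    induction n with
    | zero => intro u _; simp
    | succ n ih =>
      intro u hu
      have h3 : x' * u * x'⁻¹ ∈ Q' := (mem_normalizer_iff'.1 hx'T.2.1 u).1 hu
      have h4 := ih _ h3
      rw [pow_succ, pow_succ]
      have h5 : y ^ n * y * u * (y ^ n * y)⁻¹ = y ^ n * (y * u * y⁻¹) * (y ^ n)⁻¹ := by group
      have h6 : x' ^ n * x' * u * (x' ^ n * x')⁻¹ = x' ^ n * (x' * u * x'⁻¹) * (x' ^ n)⁻¹ := by group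
      rw [h5, h6, hyx u hu, h4]
  have hord : ¬ p ∣ orderOf x' := by
    have : orderOf x' = orderOf x := by
      rw [hx']
      exact (MulAut.conj g).orderOf_eq x
    rwa [this]
  obtain ⟨m, r, hr, hmr⟩ := Nat.exists_eq_pow_mul_and_not_dvd (orderOf_pos y).ne' p
    (Nat.Prime.ne_one Fact.out)
  have hyp : ¬ p ∣ orderOf (y ^ p ^ m) := by
    have h3 : orderOf (y ^ p ^ m) ∣ r := by
      apply orderOf_dvd_of_pow_eq_one
      rw [← pow_mul, ← hmr, pow_orderOf_eq_one]
    exact fun h4 => hr (h4.trans h3)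
  have hyc := h _ (pow_mem hyT (p ^ m)) hyp
  have hcop : Nat.Coprime (p ^ m) (orderOf x') :=
    Nat.Coprime.pow_left m ((Nat.Prime.coprime_iff_not_dvd Fact.out).2 hord)
  obtain ⟨s, hs⟩ := exists_pow_eq_self_of_coprime hcop
  have hx'c : ∀ u ∈ Q', x' * u * x'⁻¹ = u := by
    intro u hu
    have h3 := hpow (p ^ m * s) u hu
    rw [pow_mul, pow_mul, hs] at h3
    rw [← h3]
    have h4 : (y ^ p ^ m) ^ s ∈ Subgroup.centralizer (P : Set G) := pow_mem hyc s
    have h5 := Subgroup.mem_centralizer_iff.1 h4 u (hQ'P hu)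
    rw [← h5]; simp
  rw [Subgroup.mem_centralizer_iff]
  intro u hu
  have h1 := hx'c (g * u * g⁻¹) (by rw [hQ', conj_mem_cs]; exact hu)
  rw [hx'] at h1
  have h2 : g * x * g⁻¹ * (g * u * g⁻¹) * (g * x * g⁻¹)⁻¹ = g * (x * u * x⁻¹) * g⁻¹ := by
    simp [mul_assoc]
  rw [h2] at h1
  have h3 : x * u * x⁻¹ = u := mul_left_cancel (mul_right_cancel h1)
  have h4 : x * u = u * x := by
    calc x * u = x * u * x⁻¹ * x := by simp
      _ = u * x := by rw [h3]
  exact h4.symm

end alg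

end H67.NormDef
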