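import Mathlib
import Cfsg.Agent.Lib.H67.NormDef1

/-!
# Blocks with normal defect group: coprime action, orbit sums
-/

set_option autoImplicit false
set_option linter.unusedSectionVars false
set_option linter.unusedVariables false

namespace H67.NormDef

open MonoidAlgebra H80.GA H80.GB H80.GC H80.GD H80.GE H80.GG H80.GH H80.GJ H80.FS H80.FS3
open scoped Pointwise
open Subgroup (centralizer normalizer)

section grp
variable {G : Type*} [Group G] [Finite G] {p : ℕ} [Fact p.Prime]

/-- a `p'`-element acting trivially on `D / D'` centralizes `D` -/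
theorem cent_of_comm {D : Subgroup G} (hD : IsPGroup p D) {x : G} (hx : ¬ p ∣ orderOf x)
    (h : ∀ d ∈ D, x * d * x⁻¹ * d⁻¹ ∈ ⁅D, D⁆) : x ∈ centralizer (D : Set G) := by
  have hND : ⁅D, D⁆ ≤ D := by
    rw [Subgroup.commutator_le]
    intro a ha b hb
    exact mul_mem (mul_mem (mul_mem ha hb) (inv_mem ha)) (inv_mem hb)
  have hxD : ∀ d ∈ D, x * d * x⁻¹ ∈ D := by
    intro d hd
    have h1 := mul_mem (hND (h d hd)) hd
    simpa using h1
  have hpow : ∀ n : ℕ, ∀ d ∈ D, x ^ n * d * (x ^ n)⁻¹ ∈ D ∧ x ^ n * d * (x ^ n)⁻¹ * d⁻¹ ∈ ⁅D, D⁆ := by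
    intro n
    induction n with
    | zero => intro d hd; simp [hd, one_mem]
    | succ n ih =>
      intro d hd
      obtain ⟨h1, h2⟩ := ih d hd
      have e1 : x ^ (n + 1) * d * (x ^ (n + 1))⁻¹ = x * (x ^ n * d * (x ^ n)⁻¹) * x⁻¹ := by
        rw [pow_succ']; group
      rw [e1]
      refine ⟨hxD _ h1, ?_⟩
      have h3 := mul_mem (h _ h1) h2
      have e2 : x * (x ^ n * d * (x ^ n)⁻¹) * x⁻¹ * d⁻¹ =
        x * (x ^ n * d * (x ^ n)⁻¹) * x⁻¹ * (x ^ n * d * (x ^ n)⁻¹)⁻¹ * (x ^ n * d * (x ^ n)⁻¹ * d⁻¹) := by group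
      rw [e2]; exact h3
  have h1 := H1.Coprime2.le_centralizer_of_frattini (Subgroup.zpowers x) D (by
    rw [Nat.card_zpowers]
    obtain ⟨n, hn⟩ := IsPGroup.iff_card.1 ((hD : IsPGroup p D).to_subgroup (frattini D))
    rw [hn]
    exact (Nat.Coprime.pow_left n ((Nat.Prime.coprime_iff_not_dvd Fact.out).2 hx)).symm) (by
    intro a ha k hk
    obtain ⟨n, rfl⟩ := (mem_powers_iff_mem_zpowers.2 ha : a ∈ Submonoid.powers x)
    exact H88.TateA.commutator_le_frattini hD (hpow n k hk).2)
  exact h1 (Subgroup.mem_zpowers x)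

theorem index_pow {N H : Subgroup G} (hN : H ≤ normalizer (N : Set G))
    (h : ∀ x ∈ H, ¬ p ∣ orderOf x → x ∈ N) : ∃ n, (N.subgroupOf H).index = p ^ n := by
  have hn : (N.subgroupOf H).Normal := by
    constructor
    intro x hx y
    exact (mem_normalizer_iff'.1 (hN y.2) (x : G)).1 hx
  have hp : IsPGroup p (H ⧸ N.subgroupOf H) := by
    intro q
    obtain ⟨y, rfl⟩ := QuotientGroup.mk_surjective q
    obtain ⟨m, r, hr, hmr⟩ := Nat.exists_eq_pow_mul_and_not_dvd (orderOf_pos y).ne' p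
      (Nat.Prime.ne_one Fact.out)
    refine ⟨m, ?_⟩
    rw [← QuotientGroup.mk_pow, QuotientGroup.eq_one_iff, Subgroup.mem_subgroupOf]
    apply h _ (y ^ p ^ m).2
    rw [Subgroup.orderOf_coe]
    have h3 : orderOf (y ^ p ^ m) ∣ r := by
      apply orderOf_dvd_of_pow_eq_one
      rw [← pow_mul, ← hmr, pow_orderOf_eq_one]
    exact fun h4 => hr (h4.trans h3)
  obtain ⟨n, hn'⟩ := IsPGroup.iff_card.1 hp
  exact ⟨n, hn'⟩

end grp

section orb
open Cfsg H20.Loc
universe u
variable {G : Type u} [Group G] [Finite G] {M : Ideal AlgInt} [M.IsMaximal] {p : ℕ} [Fact p.Prime]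

/-- the orbit sum of a block of a normal subgroup of `p`-power index is a block -/
theorem orbit_blk (hM : IsPModular p M) {N H : Subgroup G} (hNH : N ≤ H)
    (hN : H ≤ normalizer (N : Set G)) {n : ℕ} (hind : (N.subgroupOf H).index = p ^ n)
    {c : MonoidAlgebra (ResF M) G} (hc : IsBlk N c) :
    ∃ s, IsBlk H s ∧ s * c = c ∧ ∀ x, cs x H = H → cj x c = c → cj x s = s := by
  obtain ⟨z, hz1, hz2, hz3, hz4, hz5⟩ := H80.GO.orbit_sum hN hc
  have hzH : z ∈ Z (ResF M) H := ⟨hz3, Sp_mono hNH hz1.2⟩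
  have hblk : IsBlk H z := by
    refine ⟨hzH, hz2, ?_, ?_⟩
    · intro h0
      apply hc.ne
      rw [← hz4, h0, zero_mul]
    · intro w hw hww
      have hwN : w ∈ Z (ResF M) N := ⟨Fx_mono hNH hw.1, H80.BR6.supp_pindex hM hN hind hw hww⟩
      have hcj : ∀ x ∈ H, cj x w = w := fun x hx => hw.1 x hx
      rcases hc.cases hwN hww with h0 | h0
      · left
        by_contra hne
        have h1 : (w * z) * (w * z) = w * z := by
          rw [mul_assoc, ← mul_assoc z, ← Z_comm hwN hz1, mul_assoc w z z, hz2, ← mul_assoc, hww]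
        obtain ⟨c', hc', h2⟩ := exists_blk (mul_mem hwN hz1) h1 hne
        have h3 : z * c' ≠ 0 := by
          intro h4
          apply hc'.ne
          rw [← h2, mul_assoc, h4, mul_zero]
        obtain ⟨x, hx, rfl⟩ := hz5 c' hc' h3
        apply hc'.ne
        have h5 : w * cj x c = 0 := by
          rw [← hcj x hx, ← map_mul, h0, map_zero]
        rw [← h2, Z_comm hwN hz1, mul_assoc, h5, mul_zero]
      · right
        have h1 : (z - w * z) * (z - w * z) = z - w * z := by
          have e1 : z * (w * z) = w * z := by rw [← mul_assoc, ← Z_comm hwN hz1, mul_assoc, hz2]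
          have e2 : w * z * z = w * z := by rw [mul_assoc, hz2]
          have e3 : w * z * (w * z) = w * z := by rw [mul_assoc, e1, ← mul_assoc, hww]
          rw [mul_sub, sub_mul, sub_mul, hz2, e1, e2, e3]; abel
        by_contra hne
        have hne' : z - w * z ≠ 0 := fun h => hne (sub_eq_zero.1 h).symm
        obtain ⟨c', hc', h2⟩ := exists_blk (sub_mem hz1 (mul_mem hwN hz1)) h1 hne'
        have h3 : z * c' ≠ 0 := by
          intro h4
          apply hc'.ne
          rw [← h2, sub_mul, mul_assoc, h4, mul_zero, sub_zero]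
        obtain ⟨x, hx, rfl⟩ := hz5 c' hc' h3
        apply hc'.ne
        have h5 : w * cj x c = cj x c := by
          conv_lhs => rw [← hcj x hx, ← map_mul, h0]
        rw [← h2, sub_mul, Z_comm hwN hz1, mul_assoc, h5, sub_self]
  refine ⟨z, hblk, hz4, ?_⟩
  intro x hxH hxc
  have h1 : IsBlk H (cj x z) := by
    have := blk_cj hblk x
    rwa [hxH] at this
  apply blk_eq_of_mul_ne h1 hblk
  intro h0
  apply hc.ne
  have h2 : cj x z * c = c := by
    conv_lhs => rw [← hxc, ← map_mul, hz4]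
    exact hxc
  rw [← h2, ← hz4, ← mul_assoc, h0, zero_mul]

end orb

end H67.NormDef
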