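import Mathlib
import Cfsg.Agent.Lib.H67.NormDef2

/-!
# Blocks with normal defect group: characters of `C / (C ∩ N)` and of the image of `C` in `G / N`
-/

set_option autoImplicit false
set_option linter.unusedSectionVars false
set_option linter.unusedVariables false

namespace H67.NormDef

open Cfsg H20.Loc H20.GA H20.Blk H20.NormQ H20.Defect H20.DefGrp
open H80.GA H80.GB H80.GC H80.GD H80.GE H80.GG H80.GH H80.GJ H80.FS H80.FS3 H80.BR1 H80.BR2 H80.BR3
open scoped Pointwise ComplexConjugate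
open Subgroup (centralizer normalizer)

universe u
variable {G : Type u} [Group G] [Finite G]

section img
variable (N C : Subgroup G) [N.Normal]

/-- the map of `C` onto its image in `G / N` -/
def imgHom : C →* (C.map (QuotientGroup.mk' N)) :=
  ((QuotientGroup.mk' N).comp C.subtype).codRestrict (C.map (QuotientGroup.mk' N)) (fun c => ⟨c, c.2, rfl⟩)

theorem imgHom_surjective : Function.Surjective (imgHom N C) := by
  rintro ⟨_, c, hc, rfl⟩
  exact ⟨⟨c, hc⟩, rfl⟩

theorem imgHom_ker : (imgHom N C).ker = N.subgroupOf C := by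
  ext c
  rw [MonoidHom.mem_ker, Subgroup.mem_subgroupOf]
  constructor
  · intro h
    have := congrArg Subtype.val h
    exact (QuotientGroup.eq_one_iff (c : G)).1 this
  · intro h
    apply Subtype.ext
    exact (QuotientGroup.eq_one_iff (c : G)).2 h

/-- `C / (C ∩ N)` is the image of `C` in `G / N` -/
noncomputable def imgEquiv : (C ⧸ (N.subgroupOf C)) ≃* (C.map (QuotientGroup.mk' N)) :=
  (QuotientGroup.quotientMulEquivOfEq (imgHom_ker N C).symm).trans
    (QuotientGroup.quotientKerEquivOfSurjective (imgHom N C) (imgHom_surjective N C))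

theorem imgEquiv_mk (c : C) : ((imgEquiv N C (c : C ⧸ (N.subgroupOf C)) : C.map (QuotientGroup.mk' N)) : G ⧸ N) =
    ((c : G) : G ⧸ N) := rfl

theorem inner_img [Fintype C] [Fintype (C.map (QuotientGroup.mk' N))] (χ : IrrCharacter (G ⧸ N))
    (θ : IrrCharacter (C ⧸ (N.subgroupOf C))) :
    classInner (fun c : C => (infl N χ : G → ℂ) c) (infl (N.subgroupOf C) θ : C → ℂ) =
      classInner (fun n : C.map (QuotientGroup.mk' N) => (χ : G ⧸ N → ℂ) n)
        (trI (imgEquiv N C) θ : C.map (QuotientGroup.mk' N) → ℂ) := by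
  classical
  have := Fintype.ofFinite (C ⧸ (N.subgroupOf C))
  set ι := imgEquiv N C with hι
  have h1 : ∀ c : C, (infl N χ : G → ℂ) c = (χ : G ⧸ N → ℂ) (ι (c : C ⧸ (N.subgroupOf C)) : C.map (QuotientGroup.mk' N)) :=
    fun c => rfl
  unfold classInner
  have h3 : ∑ g : C, (infl N χ : G → ℂ) g * conj ((infl (N.subgroupOf C) θ : C → ℂ) g)
      = Nat.card (N.subgroupOf C) • ∑ q : C ⧸ (N.subgroupOf C), (χ : G ⧸ N → ℂ) (ι q) *
        conj ((θ : _ → ℂ) q) := by
    rw [← sum_quot (N.subgroupOf C) (fun q : C ⧸ (N.subgroupOf C) => (χ : G ⧸ N → ℂ) (ι q) *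
        conj ((θ : _ → ℂ) q))]
    apply Finset.sum_congr rfl
    intro g _
    rfl
  rw [h3]
  have h4 : ∑ q : C ⧸ (N.subgroupOf C), (χ : G ⧸ N → ℂ) (ι q) * conj ((θ : _ → ℂ) q) =
      ∑ n : C.map (QuotientGroup.mk' N), (χ : G ⧸ N → ℂ) n * conj ((trI ι θ : _ → ℂ) n) := by
    apply Fintype.sum_equiv ι.toEquiv
    intro q
    change _ = (χ : G ⧸ N → ℂ) (ι q) * conj ((trI ι θ : _ → ℂ) (ι q))
    rw [trI_apply, MulEquiv.symm_apply_apply]
  rw [h4, Subgroup.card_eq_card_quotient_mul_card_subgroup (N.subgroupOf C), Nat.card_congr ι.toEquiv]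
  have h5 : (Nat.card (N.subgroupOf C) : ℂ) ≠ 0 := by exact_mod_cast Nat.card_pos.ne'
  rw [nsmul_eq_mul]
  push_cast
  field_simp

end img

variable {M : Ideal AlgInt} [M.IsMaximal] {p : ℕ} [Fact p.Prime]

/-- an element stabilizing a block of `C` stabilizes the corresponding block of the image of `C` -/
theorem stab_img (hM : IsPModular p M) (N C : Subgroup G) [N.Normal] [C.Normal] (hN : IsPGroup p N)
    (hC : ∀ x : C, ¬ p ∣ orderOf x → x ∈ centralizer (N.subgroupOf C : Set C))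
    {E : Set (IrrCharacter C)} (hE : IsPBlock M E) {θ : IrrCharacter (C ⧸ (N.subgroupOf C))}
    (hθ : infl (N.subgroupOf C) θ ∈ E) {x : G} (hx : StabilizesBlock C E x) :
    cj (x : G ⧸ N) (bl M (C.map (QuotientGroup.mk' N)) (trI (imgEquiv N C) '' (blockOf M (θ : _ → ℂ)))) =
      bl M (C.map (QuotientGroup.mk' N)) (trI (imgEquiv N C) '' (blockOf M (θ : _ → ℂ))) := by
  have hZp : IsPGroup p (N.subgroupOf C) := hN.comap_subtype
  set ι := imgEquiv N C with hι
  set E0 := blockOf M (θ : C ⧸ (N.subgroupOf C) → ℂ) with hE0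
  have hE0b : IsPBlock M E0 := isPBlock_blockOf θ
  have hEb : IsPBlock M (trI ι '' E0) := isPBlock_trI ι hE0b
  have hCn : (C.map (QuotientGroup.mk' N)).Normal :=
    Subgroup.Normal.map inferInstance _ (QuotientGroup.mk'_surjective N)
  have hcs : C.map (QuotientGroup.mk' N) = cs (x : G ⧸ N) (C.map (QuotientGroup.mk' N)) := by
    symm
    rw [← mem_normalizer, Subgroup.normalizer_eq_top]; exact Subgroup.mem_top _
  obtain ⟨θ', hθ', hconj⟩ := hx.2 _ hθ
  -- `θ'` is trivial on `N ∩ C`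
  have h1 : ∀ n ∈ N.subgroupOf C, (θ' : C → ℂ) n = (θ' : C → ℂ) 1 := by
    intro n hn
    have hn' : (n : G) ∈ N := hn
    have h2 : x⁻¹ * (n : G) * x ∈ N := by
      have := (inferInstance : N.Normal).conj_mem (n : G) hn' x⁻¹
      simpa using this
    have h3 : x⁻¹ * (n : G) * x ∈ C := by
      have := (inferInstance : C.Normal).conj_mem (n : G) n.2 x⁻¹
      simpa using this
    have h4 := hconj ⟨x⁻¹ * (n : G) * x, h3⟩ n (by simp [mul_assoc])
    have h5 := hconj 1 1 (by simp)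
    rw [h4, h5]
    exact infl_trivial (N.subgroupOf C) θ ⟨x⁻¹ * (n : G) * x, h3⟩ h2
  obtain ⟨θ0', hθ0'⟩ := exists_infl (N.subgroupOf C) h1
  have h2 : SameBlock M (θ : C ⧸ (N.subgroupOf C) → ℂ) (θ0' : C ⧸ (N.subgroupOf C) → ℂ) := by
    rw [H20.PC.sameBlock_infl_iff (N.subgroupOf C) hM hZp hC, hθ0']
    exact isPBlock_sameBlock hE hθ hθ'
  have h3 : trI ι θ0' ∈ trI ι '' E0 := ⟨θ0', h2, rfl⟩
  have h4 : trI ι θ0' ∈ conjSet (x : G ⧸ N) (C.map (QuotientGroup.mk' N)) (C.map (QuotientGroup.mk' N))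
      (trI ι '' E0) := by
    refine ⟨trI ι θ, ⟨θ, mem_blockOf_self θ, rfl⟩, ?_⟩
    rintro c c' hcc
    obtain ⟨_, ⟨c0, hc0, rfl⟩⟩ := c
    have h5 : x * c0 * x⁻¹ ∈ C := (inferInstance : C.Normal).conj_mem c0 hc0 x
    have h6 : c' = ι ((⟨x * c0 * x⁻¹, h5⟩ : C) : C ⧸ (N.subgroupOf C)) := by
      apply Subtype.ext
      rw [hcc, imgEquiv_mk]
      rfl
    have h7 : (⟨(QuotientGroup.mk' N) c0, c0, hc0, rfl⟩ : C.map (QuotientGroup.mk' N)) =
        ι ((⟨c0, hc0⟩ : C) : C ⧸ (N.subgroupOf C)) := by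
      apply Subtype.ext
      rw [imgEquiv_mk]
      rfl
    rw [h6]
    have h8 : ((trI ι θ : IrrCharacter (C.map (QuotientGroup.mk' N))) : C.map (QuotientGroup.mk' N) → ℂ)
        (⟨(QuotientGroup.mk' N) c0, c0, hc0, rfl⟩ : C.map (QuotientGroup.mk' N)) =
        (infl (N.subgroupOf C) θ : C → ℂ) ⟨c0, hc0⟩ := by
      rw [h7, trI_apply, MulEquiv.symm_apply_apply]; rfl
    rw [trI_apply, MulEquiv.symm_apply_apply, h8, ← hconj ⟨c0, hc0⟩ ⟨x * c0 * x⁻¹, h5⟩ rfl, ← hθ0']
    rfl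
  have h5 := isPBlock_conjSet hcs hEb
  have h6 := isPBlock_eq_of_mem h5 hEb h4 h3
  rw [← bl_conjSet hcs, h6]

end H67.NormDef
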