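import Mathlib
import Cfsg.Agent.Lib.H67.NormDef3

/-!
# Blocks with normal defect group and equal height-zero degrees are nilpotent
-/

set_option autoImplicit false
set_option linter.unusedSectionVars false
set_option linter.unusedVariables false
set_option linter.style.haveILetI false

namespace H67.NormDef

open Cfsg H20.Loc H20.GA H20.Blk H20.NormQ H20.Defect H20.DefGrp
open H80.GA H80.GB H80.GC H80.GD H80.GE H80.GG H80.GH H80.GJ H80.FS H80.FS3 H80.BR1 H80.BR2 H80.BR3
open scoped Pointwise ComplexConjugate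
open Subgroup (centralizer normalizer)

universe u
variable {G : Type u} [Group G] [Finite G]
variable {M : Ideal AlgInt} [M.IsMaximal] {p : ℕ} [Fact p.Prime]

theorem mk_comm_iff {N : Subgroup G} [N.Normal] {a b : G} :
    (a : G ⧸ N) * (b : G ⧸ N) = (b : G ⧸ N) * (a : G ⧸ N) ↔ a * b * a⁻¹ * b⁻¹ ∈ N := by
  have e1 : ((a * b * a⁻¹ * b⁻¹ : G) : G ⧸ N) = (a : G ⧸ N) * (b : G ⧸ N) * (a : G ⧸ N)⁻¹ * (b : G ⧸ N)⁻¹ := rfl
  rw [← QuotientGroup.eq_one_iff, e1]
  constructor
  · intro h; rw [h]; group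
  · intro h
    have : (a : G ⧸ N) * b = ((a : G ⧸ N) * b * (a : G ⧸ N)⁻¹ * (b : G ⧸ N)⁻¹) * ((b : G ⧸ N) * (a : G ⧸ N)) := by
      group
    rw [this, h, one_mul]

theorem cent_of_stab (hM : IsPModular p M) {B : Set (IrrCharacter G)} (hB : IsPBlock M B)
    {D : Subgroup G} (hD : IsDefectGroup p M B D) (hDn : D.Normal) {d : ℕ}
    (hd : ∀ χ ∈ B, blockHeight p B (χ : G → ℂ) = 0 → charDegree (χ : G → ℂ) = d)
    {e : MonoidAlgebra (ResF M) G} (hmax : IsMax p ⊤ (ebar M B) D e) {x : G}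
    (hx : x ∈ ST ⊤ D e) (hpx : ¬ p ∣ orderOf x) : x ∈ centralizer (D : Set G) := by
  classical
  haveI : CharP (ResF M) p := charP_resF hM
  letI : Algebra (ZMod p) (ResF M) := ZMod.algebra (ResF M) p
  haveI : Algebra.IsAlgebraic (ZMod p) (ResF M) := isAlgebraic_resF hM
  haveI : IsAlgClosed (ResF M) := isAlgClosed_resF
  have hDp : IsPGroup p D := isPGroup_of_isDefectGroup hD
  set N : Subgroup G := ⁅D, D⁆ with hNdef
  have hNn : N.Normal := Subgroup.commutator_normal D D
  have hND : N ≤ D := Subgroup.commutator_le_left D D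
  have hNp : IsPGroup p N := hDp.to_le hND
  set C := centralizer (D : Set G) with hC
  have hCn : C.Normal := inferInstance
  have hCZ : ∀ x : C, x ∈ centralizer (N.subgroupOf C : Set C) := by
    intro y
    rw [Subgroup.mem_centralizer_iff]
    intro n hn
    apply Subtype.ext
    exact Subgroup.mem_centralizer_iff.1 y.2 _ (hND hn)
  -- the root as a set of characters
  have hblk := hmax.of.pair.blk
  rw [CH_top] at hblk
  obtain ⟨E, hE, hEe⟩ := exists_bl hblk
  obtain ⟨θ, hθ⟩ := H20.PC.exists_infl_mem (N.subgroupOf C) hM hNp.comap_subtype (fun x _ => hCZ x) hE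
  set Cb := C.map (QuotientGroup.mk' N) with hCb
  have hCbn : Cb.Normal := Subgroup.Normal.map inferInstance _ (QuotientGroup.mk'_surjective N)
  letI := Fintype.ofFinite Cb
  letI := Fintype.ofFinite (G ⧸ N)
  letI := Fintype.ofFinite C
  letI := Fintype.ofFinite G
  set ι := imgEquiv N C with hι
  set Eb := trI ι '' (blockOf M (θ : C ⧸ (N.subgroupOf C) → ℂ)) with hEb
  have hEbb : IsPBlock M Eb := isPBlock_trI ι (isPBlock_blockOf θ)
  obtain ⟨χ0, hχ0, hne⟩ := H18.CharQuot.exists_over Cb (trI ι θ).2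
  set χb : IrrCharacter (G ⧸ N) := ⟨χ0, hχ0⟩ with hχb
  set Bb := blockOf M (χb : G ⧸ N → ℂ) with hBbdef
  have hBb : IsPBlock M Bb := isPBlock_blockOf χb
  have hcov : ebar M Bb * bl M Cb Eb ≠ 0 :=
    (H80.BR6.cov_iff hBb hEbb).1 ⟨χb, mem_blockOf_self χb, trI ι θ, ⟨θ, mem_blockOf_self θ, rfl⟩, hne⟩
  have hcov' : ebar M (blockOf M (infl N χb : G → ℂ)) * bl M C E ≠ 0 :=
    (H80.BR6.cov_iff (isPBlock_blockOf _) hE).1 ⟨infl N χb, mem_blockOf_self _, infl _ θ, hθ, by
      rw [inner_img]; exact hne⟩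
  have hDN : (⊤ : Subgroup G) ≤ normalizer (D : Set G) := by rw [Subgroup.normalizer_eq_top]
  have hbe : ebar M B * e = e := by
    have h1 := hmax.of.br
    rwa [br_idem_eq hDp le_top hDN (isBlk_ebar hB).mem (isBlk_ebar hB).idem] at h1
  have hB'B : blockOf M (infl N χb : G → ℂ) = B := by
    apply ebar_inj (isPBlock_blockOf _) hB
    apply blk_eq_of_mul_ne (isBlk_ebar (isPBlock_blockOf _)) (isBlk_ebar hB)
    intro h0
    apply hcov'
    rw [hEe, ← hbe, ← mul_assoc, h0, zero_mul]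
  have hin : ∀ ψ ∈ Bb, infl N ψ ∈ B := by
    intro ψ hψ
    rw [← hB'B]
    exact sameBlock_infl N hM hψ
  -- the defect group in the quotient
  set Db := D.map (QuotientGroup.mk' N) with hDb
  have hDbn : Db.Normal := Subgroup.Normal.map inferInstance _ (QuotientGroup.mk'_surjective N)
  have hDbp : IsPGroup p Db := hDp.map _
  have hDbab : ∀ a ∈ Db, ∀ c ∈ Db, a * c = c * a := by
    rintro _ ⟨a, ha, rfl⟩ _ ⟨c, hc, rfl⟩
    exact mk_comm_iff.2 (Subgroup.commutator_mem_commutator ha hc)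
  have hidx : Db.index = D.index := by
    apply Subgroup.index_map_eq D (QuotientGroup.mk'_surjective N)
    rw [QuotientGroup.ker_mk']; exact hND
  have hDcard : Nat.card D = p ^ blockDefect p B := card_defectGroup hM hB hD
  have hGf : (Nat.card G).factorization p = blockDefect p B + D.index.factorization p := by
    rw [← Subgroup.card_mul_index D, Nat.factorization_mul Nat.card_pos.ne'
      Subgroup.index_ne_zero_of_finite, Finsupp.add_apply, hDcard, Nat.factorization_pow,
      Finsupp.smul_apply, (Fact.out : p.Prime).factorization_self, smul_eq_mul, mul_one]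
  have hdegν : ∀ ψ ∈ Bb, (charDegree (ψ : G ⧸ N → ℂ)).factorization p = D.index.factorization p := by
    intro ψ hψ
    have h1 := H4.CenterIndex.ito ψ.2 (charDegree_irr ψ).symm Db hDbab
    rw [hidx] at h1
    have h2 := (Nat.factorization_le_iff_dvd (charDegree_ne_zero ψ)
      Subgroup.index_ne_zero_of_finite).2 h1 p
    have h3 := defect_le_degree hM hB (hin ψ hψ)
    rw [H80.CQ.charDegree_infl] at h3
    omega
  have hn : ∀ ψ ∈ Bb, charDegree (ψ : G ⧸ N → ℂ) = d := by
    intro ψ hψ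
    rw [← H80.CQ.charDegree_infl]
    apply hd _ (hin ψ hψ)
    rw [height_zero_iff hM hB (hin ψ hψ), H80.CQ.charDegree_infl, hdegν ψ hψ, hGf]
    omega
  have hbb := isBlk_ebar hBb
  have hDbN : (⊤ : Subgroup (G ⧸ N)) ≤ normalizer (Db : Set (G ⧸ N)) := by rw [Subgroup.normalizer_eq_top]
  have hbr : br (ResF M) Db (ebar M Bb) = ebar M Bb := br_idem_eq hDbp le_top hDbN hbb.mem hbb.idem
  have hDbdef : IsDefectGroup p M Bb Db := by
    obtain ⟨D1, hD1⟩ := exists_isDefectGroup hM hBb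
    have hcard1 := card_defectGroup hM hBb hD1
    obtain ⟨ψ, hψ, h0⟩ := exists_height_zero hM hBb
    rw [height_zero_iff hM hBb hψ, hdegν ψ hψ] at h0
    obtain ⟨m, hm⟩ := IsPGroup.iff_card.1 hDbp
    have h1 : (Nat.card (G ⧸ N)).factorization p = m + D.index.factorization p := by
      rw [← Subgroup.card_mul_index Db, Nat.factorization_mul Nat.card_pos.ne'
        Subgroup.index_ne_zero_of_finite, Finsupp.add_apply, hm, Nat.factorization_pow,
        Finsupp.smul_apply, (Fact.out : p.Prime).factorization_self, smul_eq_mul, mul_one, hidx]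
    have h2 : blockDefect p Bb = m := by omega
    obtain ⟨h, -, hle⟩ := ((isDefectGroup_iff_isDef hM hBb).1 hD1).max Db le_top hDbp (by
      rw [hbr]; exact hbb.ne)
    have h3 : Db = cs h D1 := by
      apply Subgroup.eq_of_le_of_card_ge hle
      rw [card_cs, hcard1, h2, hm]
    rw [h3]
    exact isDefectGroup_map_conj hD1 h
  have hnil := (H80.FS4.nilp_iff_top (p := p) hBb).1 (H20.Cor.nilpotent_of_deg hM hBb hn hDbdef hDbab)
  -- the stable block of the centralizer
  have hCb1 : Cb ≤ CH ⊤ Db := by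
    rintro _ ⟨c, hc, rfl⟩
    refine ⟨?_, Subgroup.mem_top _⟩
    change (QuotientGroup.mk' N) c ∈ centralizer (Db : Set (G ⧸ N))
    rw [Subgroup.mem_centralizer_iff]
    rintro _ ⟨y, hy, rfl⟩
    rw [← map_mul, ← map_mul, Subgroup.mem_centralizer_iff.1 hc y hy]
  have hCbN : CH ⊤ Db ≤ normalizer (Cb : Set (G ⧸ N)) := by
    rw [Subgroup.normalizer_eq_top]; exact le_top
  obtain ⟨n, hind⟩ := index_pow (p := p) hCbN (by
    intro q hq hqp
    obtain ⟨y, rfl, hy⟩ := H20.PC.exists_regular_lift N q hqp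
    refine ⟨y, ?_, rfl⟩
    apply cent_of_comm hDp hy
    intro z hz
    rw [← hNdef, ← mk_comm_iff]
    exact (Subgroup.mem_centralizer_iff.1 hq.1 _ ⟨z, hz, rfl⟩).symm)
  obtain ⟨s, hs, hsc, hst⟩ := orbit_blk hM hCb1 hCbN hind (isBlk_bl hEbb)
  have hbs : ebar M Bb * s = s := by
    have hz : ebar M Bb ∈ Z (ResF M) (CH ⊤ Db) := by
      refine ⟨Fx_mono le_top hbb.mem.1, ?_⟩
      rw [← hbr]
      exact fun y hy => ⟨br_mem_Sp _ _ y hy, Subgroup.mem_top y⟩
    rcases hs.cases hz hbb.idem with h0 | h0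
    · exfalso
      apply hcov
      rw [← hsc, ← mul_assoc, h0, zero_mul]
    · exact h0
  have hpair : PairOf p ⊤ (ebar M Bb) Db s := ⟨⟨hDbp, le_top, hs⟩, hbb, by rw [hbr]; exact hbs⟩
  have hCs : cs (x : G ⧸ N) (CH ⊤ Db) = CH ⊤ Db := by
    have h1 : cs (x : G ⧸ N) Db = Db := by
      rw [← mem_normalizer, Subgroup.normalizer_eq_top]; exact Subgroup.mem_top _
    rw [cs_CH, h1, cs_of_mem (Subgroup.mem_top _)]
  have hxE : StabilizesBlock C E x := by
    rw [stabilizes_iff hE]
    refine ⟨?_, ?_⟩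
    · rw [Subgroup.normalizer_eq_top]; exact Subgroup.mem_top _
    · rw [hEe]; exact hx.2.2
  have hxs : cj (x : G ⧸ N) s = s :=
    hst _ hCs (stab_img hM N C hNp (fun x _ => hCZ x) hE hθ hxE)
  have hfin := hnil.2 Db s hpair (x : G ⧸ N) ⟨Subgroup.mem_top _, hDbN (Subgroup.mem_top _), hxs⟩
    (fun h => hpx (h.trans (orderOf_map_dvd (QuotientGroup.mk' N) x)))
  apply cent_of_comm hDp hpx
  intro z hz
  rw [← hNdef, ← mk_comm_iff]
  exact (Subgroup.mem_centralizer_iff.1 hfin _ ⟨z, hz, rfl⟩).symm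

theorem nilpotent_of_heights (hM : IsPModular p M) {B : Set (IrrCharacter G)} (hB : IsPBlock M B)
    {D : Subgroup G} (hD : IsDefectGroup p M B D) (hDn : D.Normal) {d : ℕ}
    (hd : ∀ χ ∈ B, blockHeight p B (χ : G → ℂ) = 0 → charDegree (χ : G → ℂ) = d) :
    IsNilpotentBlock p M B := by
  haveI : CharP (ResF M) p := charP_resF hM
  letI : Algebra (ZMod p) (ResF M) := ZMod.algebra (ResF M) p
  haveI : Algebra.IsAlgebraic (ZMod p) (ResF M) := isAlgebraic_resF hM
  haveI : IsAlgClosed (ResF M) := isAlgClosed_resF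
  obtain ⟨e, hmax⟩ := H84.Star.exists_isMax_of_isDefectGroup hM hB hD
  rw [H80.FS4.nilp_iff_top (p := p) hB]
  exact nilp_of_normal hDn hmax (fun x hx hpx => cent_of_stab hM hB hD hDn hd hmax hx hpx)

/-- the height-zero characters of a nilpotent block have the same degree -/
theorem heights_of_nilpotent (hM : IsPModular p M) {B : Set (IrrCharacter G)} (hB : IsPBlock M B)
    (hnil : IsNilpotentBlock p M B) :
    ∃ d, ∀ χ ∈ B, blockHeight p B (χ : G → ℂ) = 0 → charDegree (χ : G → ℂ) = d := by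
  haveI : CharP (ResF M) p := charP_resF hM
  letI : Algebra (ZMod p) (ResF M) := ZMod.algebra (ResF M) p
  haveI : Algebra.IsAlgebraic (ZMod p) (ResF M) := isAlgebraic_resF hM
  haveI : IsAlgClosed (ResF M) := isAlgClosed_resF
  obtain ⟨P, hP⟩ := exists_isDefectGroup hM hB
  have hPp := isPGroup_of_isDefectGroup hP
  have hnil' := (H80.FS4.nilp_iff_top (p := p) hB).1 hnil
  obtain ⟨e', hmax'⟩ := H84.Star.exists_isMax_of_isDefectGroup hM hB hP
  obtain ⟨χ, hχ, h0⟩ := exists_height_zero hM hB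
  refine ⟨charDegree (χ : G → ℂ), fun ψ hψ hψ0 => ?_⟩
  obtain ⟨ζ, hζ⟩ := (H84.Star.nilEquiv hM hmax' hB hnil' hχ h0).surjective ⟨ψ, hψ⟩
  have h1 := H84.Star.nilEquiv_degree hM hmax' hB hnil' hχ h0 ζ
  rw [hζ] at h1
  rw [height_zero_iff hM hB hχ] at h0
  rw [height_zero_iff hM hB hψ] at hψ0
  have h2 : charDegree (ζ : P → ℂ) = 1 := by
    by_contra hne
    have h3 : (charDegree (ζ : P → ℂ)).factorization p = 0 := by
      have h4 := congrArg (fun n => n.factorization p) h1
      change (charDegree (ψ : G → ℂ)).factorization p =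
        (charDegree (ζ : P → ℂ) * charDegree (χ : G → ℂ)).factorization p at h4
      rw [Nat.factorization_mul (charDegree_ne_zero ζ) (charDegree_ne_zero χ), Finsupp.add_apply] at h4
      omega
    have h5 : (ζ : P → ℂ) 1 ≠ 1 := by
      intro h6
      apply hne
      have : ((charDegree (ζ : P → ℂ) : ℕ) : ℂ) = 1 := by rw [charDegree_irr, h6]
      exact_mod_cast this
    have h6 := H81.CentralVal.dvd_degree_of_isPGroup hPp ζ h5
    have h7 := (Fact.out : p.Prime).factorization_pos_of_dvd (charDegree_ne_zero ζ) h6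
    omega
  rw [h2, one_mul] at h1
  exact h1

end H67.NormDef
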