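import Mathlib
import Cfsg.Agent.Lib.H18.CharInd
import Cfsg.Agent.Lib.H62.CentralInv
import Cfsg.Agent.Lib.H77.SubChar

/-!
# The characters of a 2-group with a cyclic maximal subgroup which are odd on a central involution
-/

set_option autoImplicit false
set_option linter.unusedSectionVars false

namespace H67.OddCh

universe u

open Cfsg H18.CharBasic H18.CharOrtho H18.CharInd H18.CharQuot
open scoped ComplexConjugate

theorem odd_chars {P : Type u} [Group P] [Finite P] {q : ℕ} (hq : 1 ≤ q) (hcard : Nat.card P = 8 * q) {s t y z : P}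
    (hs : orderOf s = 4 * q) (ht : t ∈ Subgroup.zpowers s) (htz : t * t = z) (hz1 : z ≠ 1) (hzz : z * z = 1)
    (hcen : ∀ g : P, g * t * g⁻¹ = t ∨ g * t * g⁻¹ = t⁻¹) (hy : y * t * y⁻¹ = t⁻¹) :
    ∃ ξ : Fin q → IrrCharacter P, Function.Injective ξ ∧ (∀ i, (ξ i : P → ℂ) 1 = 2) ∧
      (∀ i g, (ξ i : P → ℂ) (z * g) = - (ξ i : P → ℂ) g) ∧ ∀ i g, g ∉ Subgroup.zpowers s → (ξ i : P → ℂ) g = 0 := by
  classical
  haveI : Fintype P := Fintype.ofFinite P
  haveI : Fintype (IrrCharacter P) := Fintype.ofFinite _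
  set R : Subgroup P := Subgroup.zpowers s with hR
  have hRc : Nat.card R = 4 * q := by rw [hR, Nat.card_zpowers, hs]
  have hRi : R.index = 2 := by
    have h1 := R.card_mul_index
    rw [hRc, hcard] at h1
    have : 4 * q * R.index = 4 * q * 2 := by rw [h1]; ring
    exact Nat.eq_of_mul_eq_mul_left (by omega) this
  have hRcomm : ∀ a ∈ R, ∀ b ∈ R, a * b = b * a := by
    intro a ha b hb
    obtain ⟨i, rfl⟩ := Subgroup.mem_zpowers_iff.1 ha
    obtain ⟨j, rfl⟩ := Subgroup.mem_zpowers_iff.1 hb
    rw [← zpow_add, ← zpow_add, add_comm]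
  -- `z` is central
  have hti : t⁻¹ ≠ t := by
    intro h
    apply hz1
    rw [← htz]
    nth_rewrite 1 [← h]
    exact inv_mul_cancel t
  have hzc : ∀ g, z * g = g * z := by
    intro g
    have h1 : g * z * g⁻¹ = z := by
      have h2 : g * z * g⁻¹ = (g * t * g⁻¹) * (g * t * g⁻¹) := by rw [← htz]; group
      rw [h2]
      rcases hcen g with h | h
      · rw [h, htz]
      · rw [h, ← mul_inv_rev, htz]
        exact inv_eq_of_mul_eq_one_left hzz
    calc z * g = (g * z * g⁻¹) * g := by rw [h1]
      _ = g * z := by group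
  -- elements off `R` invert `t`
  have hC : Subgroup.centralizer ({t} : Set P) = R := by
    have h1 : R ≤ Subgroup.centralizer ({t} : Set P) := by
      intro g hg
      rw [Subgroup.mem_centralizer_singleton_iff]
      exact hRcomm g hg t ht
    by_contra hne
    have h2 : Subgroup.centralizer ({t} : Set P) = ⊤ := by
      have h3 : (Subgroup.centralizer ({t} : Set P)).index ∣ R.index := Subgroup.index_dvd_of_le h1
      rw [hRi] at h3
      rcases (Nat.dvd_prime Nat.prime_two).1 h3 with h4 | h4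
      · exact Subgroup.index_eq_one.1 h4
      · exfalso
        apply hne
        have h5 := Subgroup.relIndex_mul_index h1
        rw [h4, hRi] at h5
        have h6 : R.relIndex (Subgroup.centralizer ({t} : Set P)) = 1 := by omega
        exact le_antisymm (Subgroup.relIndex_eq_one.1 h6) h1
    have h3 : y ∈ Subgroup.centralizer ({t} : Set P) := by rw [h2]; trivial
    rw [Subgroup.mem_centralizer_singleton_iff] at h3
    apply hti
    rw [← hy, h3]
    group
  have hoff : ∀ g, g ∉ R → t * g * t⁻¹ = z * g := by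
    intro g hg
    have h1 : g * t * g⁻¹ = t⁻¹ := by
      rcases hcen g with h | h
      · exfalso
        apply hg
        rw [← hC, Subgroup.mem_centralizer_singleton_iff]
        calc g * t = (g * t * g⁻¹) * g := by group
          _ = t * g := by rw [h]
      · exact h
    have h2 : g * t⁻¹ = t * g := by
      have h3 : g * t⁻¹ * g⁻¹ = t := by
        have := congrArg (fun x => x⁻¹) h1
        simpa [mul_assoc] using this
      calc g * t⁻¹ = (g * t⁻¹ * g⁻¹) * g := by group
        _ = t * g := by rw [h3]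
    rw [mul_assoc, h2, ← mul_assoc, htz]
  have hvan : ∀ ξ : IrrCharacter P, (∀ g, (ξ : P → ℂ) (z * g) = -(ξ : P → ℂ) g) → ∀ g, g ∉ R → (ξ : P → ℂ) g = 0 := by
    intro ξ hξ g hg
    have h1 := isClassFunction_of_isIrr ξ.2 g t
    rw [hoff g hg, hξ g] at h1
    have h2 : (2 : ℂ) * (ξ : P → ℂ) g = 0 := by linear_combination -h1
    exact (mul_eq_zero.mp h2).resolve_left two_ne_zero
  have hdeg : ∀ ξ : IrrCharacter P, (∀ g, (ξ : P → ℂ) (z * g) = -(ξ : P → ℂ) g) → (ξ : P → ℂ) 1 = 2 := by
    intro ξ hξ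
    obtain ⟨n, hn0, hn⟩ := exists_degree_pos ξ.2
    have hle : n ≤ 2 := by
      letI := Fintype.ofFinite R
      obtain ⟨lam, hlam, h1⟩ := exists_constituent_restrict R ξ.2
      have hl1 : lam 1 = 1 := degree_one_of_comm (fun a b => Subtype.ext (hRcomm a a.2 b b.2)) hlam
      have h2 : classInner (indFun R lam) ξ.1 ≠ 0 := by
        rw [frobenius R lam (isClassFunction_of_isIrr ξ.2)]
        exact classInner_ne_zero_symm.1 h1
      refine H77.SubChar.degree_le (isCharacter_ind R (isCharacter_of_isIrr hlam)) ξ.2 h2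
        (a := 2) (b := n) ?_ hn
      rw [indFun_one, hl1, mul_one, hRi]
    have hge : n ≠ 1 := by
      rintro rfl
      have h1 := inner_irr_self ξ.2
      rw [inner_self_eq_sum] at h1
      have h2 : ∑ g : P, ‖(ξ : P → ℂ) g‖ ^ 2 ≤ ∑ g : P, (if g ∈ R then (1 : ℝ) else 0) := by
        refine Finset.sum_le_sum fun g _ => ?_
        by_cases hg : g ∈ R
        · rw [if_pos hg]
          have h3 := char_norm_le (isCharacter_of_isIrr ξ.2) g
          rw [hn] at h3
          have h4 : ‖(ξ : P → ℂ) g‖ ≤ 1 := by simpa using h3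
          have h5 := norm_nonneg ((ξ : P → ℂ) g)
          nlinarith
        · rw [if_neg hg, hvan ξ hξ g hg]; simp
      have h3 : ∑ g : P, (if g ∈ R then (1 : ℝ) else 0) = 4 * q := by
        rw [Finset.sum_boole]
        have : (Finset.univ.filter fun g : P => g ∈ R).card = 4 * q := by
          rw [← hRc, Nat.card_eq_fintype_card, Fintype.card_subtype]
        rw [this]; push_cast; ring
      have h6 : ((Nat.card P : ℝ)⁻¹ * ∑ g : P, ‖(ξ : P → ℂ) g‖ ^ 2 : ℝ) = 1 := by exact_mod_cast h1
      have h7 : (Nat.card P : ℝ) = 8 * q := by rw [hcard]; push_cast; ring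
      have hq' : (1 : ℝ) ≤ q := by exact_mod_cast hq
      rw [h7] at h6
      have h8 : (∑ g : P, ‖(ξ : P → ℂ) g‖ ^ 2 : ℝ) = 8 * q := by
        have h9 : (8 * (q : ℝ)) ≠ 0 := by positivity
        field_simp at h6
        linarith
      linarith
    have : n = 2 := by omega
    rw [hn, this]; norm_num
  -- counting
  let O : Finset (IrrCharacter P) := Finset.univ.filter fun ξ => ∀ g, (ξ : P → ℂ) (z * g) = -(ξ : P → ℂ) g
  have hO : O.card = q := by
    have h1 := sum_degree_sq (G := P)
    have h2 := sum_degree_mul (G := P) hz1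
    have h3 : ∑ χ : IrrCharacter P, ((χ : P → ℂ) 1 ^ 2 - (χ : P → ℂ) 1 * (χ : P → ℂ) z) = (Nat.card P : ℂ) := by
      rw [Finset.sum_sub_distrib, h1, h2, sub_zero]
    have h4 : ∀ χ : IrrCharacter P, ((χ : P → ℂ) 1 ^ 2 - (χ : P → ℂ) 1 * (χ : P → ℂ) z) = if χ ∈ O then 8 else 0 := by
      intro χ
      by_cases hχ : χ ∈ O
      · rw [if_pos hχ]
        have h5 := (Finset.mem_filter.1 hχ).2
        have h6 := h5 1
        rw [mul_one] at h6
        rw [h6, hdeg χ h5]
        norm_num
      · rw [if_neg hχ]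
        rcases H62.CentralInv.central_sign χ.2 hzc hzz with h5 | h5
        · have h6 := h5 1
          rw [mul_one] at h6
          rw [h6]; ring
        · exact absurd (Finset.mem_filter.2 ⟨Finset.mem_univ _, h5⟩) hχ
    rw [Finset.sum_congr rfl (fun χ _ => h4 χ), Finset.sum_ite_mem, Finset.univ_inter, Finset.sum_const, hcard] at h3
    rw [nsmul_eq_mul] at h3
    have h7 : ((O.card * 8 : ℕ) : ℂ) = ((8 * q : ℕ) : ℂ) := by push_cast at h3 ⊢; exact h3
    have h8 : O.card * 8 = 8 * q := by exact_mod_cast h7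
    omega
  have e : Fin q ≃ O := (Fintype.equivFinOfCardEq (by rw [Fintype.card_coe, hO])).symm
  refine ⟨fun i => (e i : IrrCharacter P), fun i j h => e.injective (Subtype.ext h), ?_, ?_, ?_⟩
  · intro i
    exact hdeg _ (Finset.mem_filter.1 (e i).2).2
  · intro i g
    exact (Finset.mem_filter.1 (e i).2).2 g
  · intro i g hg
    exact hvan _ (Finset.mem_filter.1 (e i).2).2 g hg

end H67.OddCh
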