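import Mathlib

/-! S4100, piece P5 (modules of `A₁₀` in characteristic 5), part 1: basic computations with `A₅`. -/

set_option autoImplicit false

namespace H67.P5

variable {Γ V : Type*} [Group Γ] [AddCommGroup V] [DistribMulAction Γ V]

/-- relations of the generators `a = (01234)`, `t = (14)(23)`, `s = (12)(34)` of `A₅` -/
structure Rel (a t s : Γ) : Prop where
  a5 : a ^ 5 = 1
  t2 : t * t = 1
  s2 : s * s = 1
  ts : t * s = s * t
  ta1 : t * a = a ^ 4 * t
  ta2 : t * a ^ 2 = a ^ 3 * t
  ta3 : t * a ^ 3 = a ^ 2 * t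
  ta4 : t * a ^ 4 = a * t
  h1 : s * a * s = a ^ 4 * s * a ^ 4
  h2 : s * a ^ 2 * s = a ^ 2 * s * t * a ^ 2
  h3 : s * a ^ 3 * s = a ^ 3 * s * t * a ^ 3
  h4 : s * a ^ 4 * s = a * s * a

/-- the sum over `⟨a⟩` -/
def N (a : Γ) (y : V) : V := y + a • y + a ^ 2 • y + a ^ 3 • y + a ^ 4 • y

theorem N_add (a : Γ) (y z : V) : N a (y + z) = N a y + N a z := by
  simp only [N, smul_add]; abel

theorem N_neg (a : Γ) (y : V) : N a (-y) = - N a y := by
  simp only [N, smul_neg]; abel

theorem N_sub (a : Γ) (y z : V) : N a (y - z) = N a y - N a z := by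
  simp only [N, smul_sub]; abel

theorem N_zero (a : Γ) : N a (0 : V) = 0 := by
  simp [N]

theorem smul_N {a : Γ} (h : a ^ 5 = 1) (y : V) : a • N a y = N a y := by
  have h2 : a • a • y = a ^ 2 • y := by rw [smul_smul, ← sq]
  have h3 : a • a ^ 2 • y = a ^ 3 • y := by rw [smul_smul, ← pow_succ']
  have h4 : a • a ^ 3 • y = a ^ 4 • y := by rw [smul_smul, ← pow_succ']
  have h5 : a • a ^ 4 • y = y := by rw [smul_smul, ← pow_succ', h, one_smul]
  simp only [N, smul_add, h2, h3, h4, h5]
  abel

theorem N_smul {a : Γ} (h : a ^ 5 = 1) (y : V) : N a (a • y) = N a y := by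
  have h2 : a • a • y = a ^ 2 • y := by rw [smul_smul, ← sq]
  have h3 : a ^ 2 • a • y = a ^ 3 • y := by rw [smul_smul, ← pow_succ]
  have h4 : a ^ 3 • a • y = a ^ 4 • y := by rw [smul_smul, ← pow_succ]
  have h5 : a ^ 4 • a • y = y := by rw [smul_smul, ← pow_succ, h, one_smul]
  simp only [N, h2, h3, h4, h5]
  abel

theorem N_pow {a : Γ} (h : a ^ 5 = 1) (k : ℕ) (y : V) : N a (a ^ k • y) = N a y := by
  induction k with
  | zero => simp
  | succ n ih => rw [pow_succ', mul_smul, N_smul h, ih]

theorem pow_fix {a : Γ} {u : V} (h : a • u = u) (k : ℕ) : a ^ k • u = u := by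
  induction k with
  | zero => simp
  | succ n ih => rw [pow_succ, mul_smul, h, ih]

theorem N_fix {a : Γ} {u : V} (h : a • u = u) : N a u = (5 : ℤ) • u := by
  simp only [N, h, pow_fix h]
  module

theorem smul_N_t {a t s : Γ} (R : Rel a t s) (y : V) : t • N a y = N a (t • y) := by
  have h1 : t • a • y = a ^ 4 • t • y := by rw [smul_smul, R.ta1, mul_smul]
  have h2 : t • a ^ 2 • y = a ^ 3 • t • y := by rw [smul_smul, R.ta2, mul_smul]
  have h3 : t • a ^ 3 • y = a ^ 2 • t • y := by rw [smul_smul, R.ta3, mul_smul]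
  have h4 : t • a ^ 4 • y = a • t • y := by rw [smul_smul, R.ta4, mul_smul]
  simp only [N, smul_add, h1, h2, h3, h4]
  abel

/-- a commuting element passes through `N` -/
theorem smul_N_comm {a g : Γ} (h : g * a = a * g) (y : V) : g • N a y = N a (g • y) := by
  have hk : ∀ k : ℕ, g • a ^ k • y = a ^ k • g • y := by
    intro k
    have : Commute g (a ^ k) := (show Commute g a from h).pow_right k
    rw [smul_smul, this.eq, mul_smul]
  have h1 : g • a • y = a • g • y := by rw [smul_smul, h, mul_smul]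
  simp only [N, smul_add, hk, h1]

section A5

variable {a t s : Γ} (R : Rel a t s)
include R

theorem ss (u : V) : s • s • u = u := by rw [smul_smul, R.s2, one_smul]

theorem tt (u : V) : t • t • u = u := by rw [smul_smul, R.t2, one_smul]

theorem sas {u : V} (hu : a • u = u) : s • a • s • u = a ^ 4 • s • u := by
  rw [smul_smul, smul_smul, R.h1, mul_smul, mul_smul, pow_fix hu]

theorem sa2s {u : V} (hu : a • u = u) : s • a ^ 2 • s • u = a ^ 2 • s • t • u := by
  rw [smul_smul, smul_smul, R.h2, mul_smul, mul_smul, mul_smul, pow_fix hu]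

theorem sa3s {u : V} (hu : a • u = u) : s • a ^ 3 • s • u = a ^ 3 • s • t • u := by
  rw [smul_smul, smul_smul, R.h3, mul_smul, mul_smul, mul_smul, pow_fix hu]

theorem sa4s {u : V} (hu : a • u = u) : s • a ^ 4 • s • u = a • s • u := by
  rw [smul_smul, smul_smul, R.h4, mul_smul, mul_smul, hu]

theorem t_fix {u : V} (ha : a • u = u) (hs : s • u = u) : t • u = u := by
  have h := sa2s R ha
  rw [hs, pow_fix ha, hs] at h
  have h2 : a ^ 2 • s • t • u = a ^ 2 • s • u := by rw [← h, hs, pow_fix ha]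
  exact smul_left_cancel s (smul_left_cancel (a ^ 2) h2) 

/-- (F1) -/
theorem F1 (M : AddSubgroup V) (hMa : ∀ m ∈ M, a • m ∈ M) (hMs : ∀ m ∈ M, s • m ∈ M)
    (hNF : ∀ u ∈ M, a • u = u → s • u = u → u = 0) {u : V} (hu : u ∈ M) (ha : a • u = u) (ht : t • u = u) :
    u + N a (s • u) = 0 := by
  have hMp : ∀ k : ℕ, ∀ m ∈ M, a ^ k • m ∈ M := by
    intro k
    induction k with
    | zero => intro m hm; simpa using hm
    | succ n ih => intro m hm; rw [pow_succ', mul_smul]; exact hMa _ (ih m hm)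
  have hmem : u + N a (s • u) ∈ M := by
    have h1 := hMs u hu
    exact M.add_mem hu (M.add_mem (M.add_mem (M.add_mem (M.add_mem h1 (hMa _ h1)) (hMp 2 _ h1)) (hMp 3 _ h1))
      (hMp 4 _ h1))
  refine hNF _ hmem ?_ ?_
  · rw [smul_add, ha, smul_N R.a5]
  · have e0 := ss R u
    have e1 := sas R ha
    have e2 := sa2s R ha
    have e3 := sa3s R ha
    have e4 := sa4s R ha
    rw [ht] at e2 e3
    simp only [N, smul_add, e0, e1, e2, e3, e4]
    abel

theorem s_smul_N_neg {u : V} (ha : a • u = u) (ht : t • u = -u) :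
    s • N a (s • u) = u + a ^ 4 • s • u - a ^ 2 • s • u - a ^ 3 • s • u + a • s • u := by
  have e0 := ss R u
  have e1 := sas R ha
  have e2 := sa2s R ha
  have e3 := sa3s R ha
  have e4 := sa4s R ha
  rw [ht, smul_neg, smul_neg] at e2 e3
  simp only [N, smul_add, e0, e1, e2, e3, e4]
  abel

theorem T_sq (h5 : ∀ v : V, (5 : ℤ) • v = 0) {u : V} (ha : a • u = u) (ht : t • u = -u) :
    N a (s • N a (s • u)) = 0 := by
  rw [s_smul_N_neg R ha ht, N_add, N_sub, N_sub, N_add, N_fix ha, h5, N_pow R.a5, N_pow R.a5, N_pow R.a5,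
    N_smul R.a5]
  abel

/-- second differences -/
theorem sec {u : V} (ha : a • u = u) (ht : t • u = -u) (hT : N a (s • u) = 0) :
    a ^ 2 • s • u - (2 : ℤ) • a • s • u + s • u = (2 : ℤ) • u := by
  have h := s_smul_N_neg R ha ht
  rw [hT, smul_zero] at h
  have h2 : (0 : V) = u + a • s • u - a ^ 4 • s • u - s • u + a ^ 3 • s • u := by
    have h3 := congrArg (fun x => a ^ 2 • x) h
    simp only [smul_zero, smul_add, smul_sub, pow_fix ha] at h3
    have k1 : a ^ 2 • a ^ 4 • s • u = a • s • u := by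
      rw [smul_smul, ← pow_add, show 2 + 4 = 5 + 1 from rfl, pow_add, R.a5, one_mul, pow_one]
    have k2 : a ^ 2 • a ^ 2 • s • u = a ^ 4 • s • u := by rw [smul_smul, ← pow_add]
    have k3 : a ^ 2 • a ^ 3 • s • u = s • u := by rw [smul_smul, ← pow_add, R.a5, one_smul]
    have k4 : a ^ 2 • a • s • u = a ^ 3 • s • u := by rw [smul_smul, ← pow_succ]
    rw [k1, k2, k3, k4] at h3
    exact h3
  generalize a ^ 4 • s • u = x4 at *
  generalize a ^ 3 • s • u = x3 at *
  generalize a ^ 2 • s • u = x2 at *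
  generalize a • s • u = x1 at *
  generalize s • u = x0 at *
  linear_combination (norm := module) h + h2

end A5

/-- the middle vector -/
def X1 (a s : Γ) (y : V) : V := (3 : ℤ) • (a • s • y - s • y - y)

theorem smul_int (g : Γ) (n : ℤ) (v : V) : g • (n • v) = n • (g • v) :=
  (DistribSMul.toAddMonoidHom V g).map_zsmul n v

section X
variable {a t s : Γ} (R : Rel a t s) (h5 : ∀ v : V, (5 : ℤ) • v = 0)
include R h5

theorem a_X1 {u : V} (ha : a • u = u) (ht : t • u = -u) (hT : N a (s • u) = 0) : a • X1 a s u = X1 a s u + u := by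
  have h := sec R ha ht hT
  have h2 : a • a • s • u = a ^ 2 • s • u := by rw [smul_smul, ← sq]
  simp only [X1, smul_int, smul_sub, ha, h2]
  have h5' := h5 u
  generalize a ^ 2 • s • u = x2 at *
  generalize a • s • u = x1 at *
  generalize s • u = x0 at *
  linear_combination (norm := module) (3 : ℤ) • h + h5'

omit R in
theorem a_X2 (u : V) : a • s • u = s • u + (2 : ℤ) • X1 a s u + u := by
  have h5' := h5 (a • s • u - s • u - u)
  simp only [X1]
  generalize a • s • u = x1 at *
  generalize s • u = x0 at *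
  linear_combination (norm := module) - h5'

omit h5 in
theorem s_X1 {u : V} (ha : a • u = u) (ht : t • u = -u) (hT : N a (s • u) = 0) : s • X1 a s u = - X1 a s u := by
  have h := congrArg (fun x => a ^ 4 • x) (sec R ha ht hT)
  have k1 : a ^ 4 • a ^ 2 • s • u = a • s • u := by
    rw [smul_smul, ← pow_add, show 4 + 2 = 5 + 1 from rfl, pow_add, R.a5, one_mul, pow_one]
  have k2 : a ^ 4 • a • s • u = s • u := by rw [smul_smul, ← pow_succ, R.a5, one_smul]
  simp only [smul_add, smul_sub, smul_int, k1, k2, pow_fix ha] at h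
  have e0 := ss R u
  have e1 := sas R ha
  simp only [X1, smul_int, smul_sub, e0, e1]
  generalize a ^ 4 • s • u = x4 at *
  generalize a • s • u = x1 at *
  generalize s • u = x0 at *
  linear_combination (norm := module) (3 : ℤ) • h

end X

end H67.P5
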