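import Cfsg.Agent.Lib.H67.P5a

/-! S4100, piece P5, part 2: two commuting `A₅`s (steps 1 and 2). -/

set_option autoImplicit false

namespace H67.P5

variable {Γ V : Type*} [Group Γ] [AddCommGroup V] [DistribMulAction Γ V]

/-- two commuting `A₅`s -/
structure Two (a t s b t' s' : Γ) : Prop where
  A : Rel a t s
  B : Rel b t' s'
  D : Rel (a * b) (t * t') (s * s')
  ab : a * b = b * a
  at' : a * t' = t' * a
  as' : a * s' = s' * a
  tb : t * b = b * t
  tt' : t * t' = t' * t
  ts' : t * s' = s' * t
  sb : s * b = b * s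
  st' : s * t' = t' * s
  ss' : s * s' = s' * s

theorem comm_smul {g h : Γ} (c : g * h = h * g) (u : V) : g • h • u = h • g • u := by
  rw [smul_smul, c, mul_smul]

/-- no fixed vector for the subgroup generated by `a` and `s` -/
def NF (V : Type*) [AddCommGroup V] [DistribMulAction Γ V] (a s : Γ) : Prop :=
  ∀ u : V, a • u = u → s • u = u → u = 0

section
variable {a t s b t' s' : Γ} (P : Two a t s b t' s') (h5 : ∀ v : V, (5 : ℤ) • v = 0)
include P h5

/-- step 1 -/
theorem step1 (nA : NF V a s) (nB : NF V b s') (nD : NF V (a * b) (s * s')) {v : V}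
    (ha : a • v = v) (ht : t • v = v) (hb : b • v = v) (ht' : t' • v = v) : v = 0 := by
  have E : v + N (a * b) ((s * s') • v) = 0 := by
    refine F1 P.D ⊤ (by simp) (by simp) (fun u _ => nD u) trivial ?_ ?_
    · rw [mul_smul, hb, ha]
    · rw [mul_smul, ht', ht]
  have EA : v + N a (s • v) = 0 := F1 P.A ⊤ (by simp) (by simp) (fun u _ => nA u) trivial ha ht
  have EB : ∀ x : V, b • x = x → t' • x = x → N b (s' • x) = -x := by
    intro x hx hx'
    have := F1 P.B ⊤ (by simp) (by simp) (fun u _ => nB u) trivial hx hx'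
    rw [add_comm] at this
    exact eq_neg_of_add_eq_zero_left this
  have hk : ∀ k : ℕ, (a * b) ^ k • (s * s') • v = b ^ k • s' • (a ^ k • s • v) := by
    intro k
    have cab : Commute a b := P.ab
    have cas : Commute a s' := P.as'
    have css : Commute s s' := P.ss'
    have e : (a * b) ^ k * (s * s') = b ^ k * s' * (a ^ k * s) := by
      rw [cab.mul_pow, (cab.pow_pow k k).eq, css.eq, mul_assoc, mul_assoc, ← mul_assoc (a ^ k) s' s,
        (cas.pow_left k).eq, mul_assoc]
    rw [← mul_smul, e, mul_smul, mul_smul, mul_smul]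
  have hx : ∀ k : ℕ, N b ((a * b) ^ k • (s * s') • v) = - (a ^ k • s • v) := by
    intro k
    rw [hk k, N_pow P.B.a5]
    refine EB _ ?_ ?_
    · have c1 : b * a ^ k = a ^ k * b := ((show Commute a b from P.ab).pow_left k).eq.symm
      rw [comm_smul c1, comm_smul P.sb.symm, hb]
    · have c1 : t' * a ^ k = a ^ k * t' := ((show Commute a t' from P.at').pow_left k).eq.symm
      rw [comm_smul c1, comm_smul P.st'.symm, ht']
  have h0 := hx 0
  have h1 := hx 1
  have h2 := hx 2
  have h3 := hx 3
  have h4 := hx 4
  simp only [pow_zero, one_smul, pow_one] at h0 h1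
  have F := congrArg (N b) E
  rw [N_add, N_zero, N_fix hb, h5] at F
  have F2 : N b (N (a * b) ((s * s') • v)) = - N a (s • v) := by
    conv_lhs => rw [show N (a * b) ((s * s') • v) = (s * s') • v + (a * b) • (s * s') • v + (a * b) ^ 2 • (s * s') • v
      + (a * b) ^ 3 • (s * s') • v + (a * b) ^ 4 • (s * s') • v from rfl]
    rw [N_add, N_add, N_add, N_add, h0, h1, h2, h3, h4]
    simp only [N]
    abel
  rw [F2, zero_add, neg_eq_zero] at F
  rwa [F, add_zero] at EA

omit P h5 in
/-- the conditions on the vectors of step 2 -/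
theorem type_neg {a t g : Γ} (ca : g * a = a * g) (ct : g * t = t * g) {v : V} (ha : a • v = v) (ht : t • v = -v) :
    a • g • v = g • v ∧ t • g • v = -(g • v) := by
  constructor
  · rw [← comm_smul ca, ha]
  · rw [← comm_smul ct, ht, smul_neg]

/-- the reduced form of step 2 -/
theorem step2' (nD : NF V (a * b) (s * s')) {v : V}
    (ha : a • v = v) (ht : t • v = -v) (hT : N a (s • v) = 0)
    (hb : b • v = v) (ht' : t' • v = -v) (hT' : N b (s' • v) = 0) : v = 0 := by
  -- the vectors `y₀ = v, y₁, y₂`
  obtain ⟨hay2, hty2⟩ := type_neg P.as'.symm P.ts'.symm ha ht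
  obtain ⟨hab, htb⟩ := type_neg P.ab.symm P.tb.symm hay2 hty2
  have hTy2 : N a (s • s' • v) = 0 := by
    rw [comm_smul P.ss', ← smul_N_comm P.as'.symm, hT, smul_zero]
  have hTb : N a (s • b • s' • v) = 0 := by
    rw [comm_smul P.sb, ← smul_N_comm P.ab.symm, hTy2, smul_zero]
  have ha1 : a • X1 b s' v = X1 b s' v := by
    simp only [X1, smul_int, smul_sub, hab, hay2, ha]
  have ht1 : t • X1 b s' v = - X1 b s' v := by
    simp only [X1, smul_int, smul_sub, htb, hty2, ht]
    abel
  have hT1 : N a (s • X1 b s' v) = 0 := by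
    have e : ∀ x : V, N a ((3 : ℤ) • x) = (3 : ℤ) • N a x := by
      intro x
      simp only [N, smul_int]
      abel
    rw [show s • X1 b s' v = (3 : ℤ) • (s • b • s' • v - s • s' • v - s • v) by
      simp only [X1, smul_int, smul_sub], e, N_sub, N_sub, hTb, hTy2, hT]
    simp
  -- the action of `b`, `s'`
  have B1 := a_X1 P.B h5 hb ht' hT'
  have B2 := a_X2 h5 (a := b) (s := s') v
  have B3 := s_X1 P.B hb ht' hT'
  -- the action of `a`, `s`
  have A11 := a_X1 P.A h5 ha1 ht1 hT1
  have A10 := a_X1 P.A h5 ha ht hT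
  have A20 := a_X2 h5 (a := a) (s := s) v
  have S11 := s_X1 P.A ha1 ht1 hT1
  -- `X1 a s` commutes with `b` and `s'`
  have cX : ∀ g : Γ, g * a = a * g → g * s = s * g → ∀ y : V, g • X1 a s y = X1 a s (g • y) := by
    intro g c1 c2 y
    simp only [X1, smul_int, smul_sub]
    rw [comm_smul c1, comm_smul c2]
  have Xadd : ∀ y z : V, X1 a s (y + z) = X1 a s y + X1 a s z := by
    intro y z
    simp only [X1, smul_add]
    abel
  have Xneg : ∀ y : V, X1 a s (-y) = - X1 a s y := by
    intro y
    simp only [X1, smul_neg]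
    abel
  have W : s' • v - (2 : ℤ) • X1 a s (X1 b s' v) + s • v = 0 := by
    refine nD _ ?_ ?_
    · have b2 : b • s • v = s • v := by rw [comm_smul P.sb.symm, hb]
      rw [mul_smul]
      simp only [smul_add, smul_sub, smul_int, B2, cX b P.ab.symm P.sb.symm, B1, Xadd, b2, A11, A10, A20, hay2, ha1, ha]
      generalize X1 a s (X1 b s' v) = w11
      generalize X1 b s' v = w01
      generalize X1 a s v = w10
      generalize s • v = w20
      generalize s' • v = w02
      module
    · have e1 : s' • s' • v = v := ss P.B v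
      have e2 : s • s' • s • v = s' • v := by
        rw [comm_smul P.ss', ss P.A]
      rw [mul_smul]
      simp only [smul_add, smul_sub, smul_int, cX s' P.as'.symm P.ss'.symm, B3, Xneg, smul_neg, S11, e1, e2]
      generalize X1 a s (X1 b s' v) = w11
      generalize s • v = w20
      generalize s' • v = w02
      module
  have W1 := congrArg (fun x => a • x) W
  simp only [smul_add, smul_sub, smul_int, A11, A20, hay2, smul_zero] at W1
  have W2 : (2 : ℤ) • X1 a s v + v - (2 : ℤ) • X1 b s' v = 0 := by
    generalize X1 a s (X1 b s' v) = w11 at *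
    generalize X1 b s' v = w01 at *
    generalize X1 a s v = w10 at *
    generalize s • v = w20 at *
    generalize s' • v = w02 at *
    linear_combination (norm := module) W1 - W
  have W3 := congrArg (fun x => a • x) W2
  simp only [smul_add, smul_sub, smul_int, A10, ha1, ha, smul_zero] at W3
  have h5v := h5 v
  generalize X1 b s' v = w01 at *
  generalize X1 a s v = w10 at *
  linear_combination (norm := module) h5v - (2 : ℤ) • W3 + (2 : ℤ) • W2

/-- step 2 -/
theorem step2 (nD : NF V (a * b) (s * s')) {v : V}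
    (ha : a • v = v) (ht : t • v = -v) (hb : b • v = v) (ht' : t' • v = -v) : v = 0 := by
  -- first make `N b (s' • v) = 0`, then `N a (s • v) = 0`
  have key : ∀ v : V, a • v = v → t • v = -v → b • v = v → t' • v = -v → N b (s' • v) = 0 → v = 0 := by
    intro v ha ht hb ht' hT'
    have hT : N a (s • v) = 0 := by
      refine step2' P h5 nD (smul_N P.A.a5 _) ?_ (T_sq P.A h5 ha ht) ?_ ?_ ?_
      · rw [smul_N_t P.A, comm_smul P.A.ts, ht, smul_neg, N_neg]
      · rw [smul_N_comm P.ab.symm, comm_smul P.sb.symm, hb]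
      · rw [smul_N_comm P.at'.symm, comm_smul P.st'.symm, ht', smul_neg, N_neg]
      · have e : s' • N a (s • v) = N a (s • s' • v) := by rw [smul_N_comm P.as'.symm, comm_smul P.ss'.symm]
        rw [e]
        have e2 : N b (N a (s • s' • v)) = N a (s • N b (s' • v)) := by
          have c1 : ∀ y : V, N b (N a y) = N a (N b y) := by
            intro y
            have hk : ∀ k : ℕ, b ^ k • N a y = N a (b ^ k • y) :=
              fun k => smul_N_comm ((show Commute b a from P.ab.symm).pow_left k).eq y
            have h1 := hk 1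
            rw [pow_one] at h1
            rw [show N b (N a y) = N a y + b • N a y + b ^ 2 • N a y + b ^ 3 • N a y + b ^ 4 • N a y from rfl,
              h1, hk, hk, hk, ← N_add, ← N_add, ← N_add, ← N_add]
            rfl
          rw [c1, ← smul_N_comm P.sb]
        rw [e2, hT', smul_zero, N_zero]
    exact step2' P h5 nD ha ht hT hb ht' hT'
  refine key v ha ht hb ht' ?_
  refine key _ ?_ ?_ (smul_N P.B.a5 _) ?_ (T_sq P.B h5 hb ht')
  · rw [smul_N_comm P.ab, comm_smul P.as', ha]
  · rw [smul_N_comm P.tb, comm_smul P.ts', ht, smul_neg, N_neg]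
  · rw [smul_N_t P.B, comm_smul P.B.ts, ht', smul_neg, N_neg]

end

end H67.P5
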