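import Cfsg.Agent.Lib.H67.P5b

/-! S4100, piece P5, part 3: fixed points of subgroups of one `A₅`. -/

set_option autoImplicit false

namespace H67.P5

variable {Γ V : Type*} [Group Γ] [AddCommGroup V] [DistribMulAction Γ V]

/-- relations of `A₄ = ⟨s, t, c⟩`, `c = (123)`, in `A₅` -/
structure Rel4 (a t s c : Γ) : Prop extends Rel a t s where
  c3 : c ^ 3 = 1
  sc : s * c = c * (s * t)
  tc : t * c = c * s
  k1 : s * a = a ^ 2 * (c ^ 2 * t)
  k2 : s * a ^ 2 = a * (c * s)
  k3 : s * a ^ 3 = a ^ 4 * (c * t)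
  k4 : s * a ^ 4 = a ^ 3 * (c ^ 2 * (s * t))

/-- `g` preserves `M` -/
def Pres (M : AddSubgroup V) (g : Γ) : Prop := ∀ m ∈ M, g • m ∈ M

theorem Pres.mul {M : AddSubgroup V} {g h : Γ} (hg : Pres M g) (hh : Pres M h) : Pres M (g * h) := by
  intro m hm
  rw [mul_smul]
  exact hg _ (hh _ hm)

theorem Pres.pow {M : AddSubgroup V} {g : Γ} (hg : Pres M g) (k : ℕ) : Pres M (g ^ k) := by
  induction k with
  | zero => intro m hm; simpa using hm
  | succ n ih => rw [pow_succ]; exact ih.mul hg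

theorem N_mem {M : AddSubgroup V} {a : Γ} (ha : Pres M a) {y : V} (hy : y ∈ M) : N a y ∈ M := by
  exact M.add_mem (M.add_mem (M.add_mem (M.add_mem hy (ha _ hy)) (ha.pow 2 _ hy)) (ha.pow 3 _ hy)) (ha.pow 4 _ hy)

section
variable {a t s c : Γ} (R : Rel4 a t s c) (h5 : ∀ v : V, (5 : ℤ) • v = 0)
  {M : AddSubgroup V} (hMa : Pres M a) (hMs : Pres M s)
include R h5 hMa

/-- Lemma K3 -/
theorem K3 (hNF : ∀ u ∈ M, a • u = u → s • u = u → u = 0)
    (hN : ∀ z ∈ M, a • z = z → t • z = -z → z = 0) {u : V} (hu : u ∈ M)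
    (hs : s • u = u) (ht : t • u = u) (hc : c • u = u) : u = 0 := by
  have g1 : s • a • u = a ^ 2 • u := by
    have h := congrArg (fun g => g • u) R.k1
    simpa only [mul_smul, hs, ht, hc, pow_fix hc] using h
  have g2 : s • a ^ 2 • u = a • u := by
    have h := congrArg (fun g => g • u) R.k2
    simpa only [mul_smul, hs, ht, hc, pow_fix hc] using h
  have g3 : s • a ^ 3 • u = a ^ 4 • u := by
    have h := congrArg (fun g => g • u) R.k3
    simpa only [mul_smul, hs, ht, hc, pow_fix hc] using h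
  have g4 : s • a ^ 4 • u = a ^ 3 • u := by
    have h := congrArg (fun g => g • u) R.k4
    simpa only [mul_smul, hs, ht, hc, pow_fix hc] using h
  have a1 : a • a • u = a ^ 2 • u := by rw [smul_smul, ← sq]
  have a2 : a • a ^ 2 • u = a ^ 3 • u := by rw [smul_smul, ← pow_succ']
  have a3 : a • a ^ 3 • u = a ^ 4 • u := by rw [smul_smul, ← pow_succ']
  have a4 : a • a ^ 4 • u = u := by rw [smul_smul, ← pow_succ', R.a5, one_smul]
  have t1 : t • a • u = a ^ 4 • u := by rw [smul_smul, R.ta1, mul_smul, ht]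
  have t2 : t • a ^ 2 • u = a ^ 3 • u := by rw [smul_smul, R.ta2, mul_smul, ht]
  have t3 : t • a ^ 3 • u = a ^ 2 • u := by rw [smul_smul, R.ta3, mul_smul, ht]
  have m1 := hMa _ hu
  have m2 := hMa.pow 2 _ hu
  have m3 := hMa.pow 3 _ hu
  have m4 := hMa.pow 4 _ hu
  have hSum : u + a • u + a ^ 2 • u + a ^ 3 • u + a ^ 4 • u = 0 := by
    refine hNF _ (M.add_mem (M.add_mem (M.add_mem (M.add_mem hu m1) m2) m3) m4) ?_ ?_
    · simp only [smul_add, a1, a2, a3, a4]; abel
    · simp only [smul_add, g1, g2, g3, g4, hs]; abel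
  have hz : a ^ 3 • u - (3 : ℤ) • a ^ 2 • u + (3 : ℤ) • a • u - u = 0 := by
    have h5s := h5 (a ^ 3 • u - a ^ 2 • u + a • u)
    have h5t := h5 (a ^ 2 • u + a ^ 3 • u)
    refine hN _ (M.sub_mem (M.add_mem (M.sub_mem m3 (M.zsmul_mem m2 3)) (M.zsmul_mem m1 3)) hu) ?_ ?_
    · simp only [smul_add, smul_sub, smul_int, a1, a2, a3]
      generalize a ^ 4 • u = u4 at *
      generalize a ^ 3 • u = u3 at *
      generalize a ^ 2 • u = u2 at *
      generalize a • u = u1 at *
      linear_combination (norm := module) hSum - h5s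
    · simp only [smul_add, smul_sub, smul_int, t1, t2, t3, ht]
      generalize a ^ 4 • u = u4 at *
      generalize a ^ 3 • u = u3 at *
      generalize a ^ 2 • u = u2 at *
      generalize a • u = u1 at *
      linear_combination (norm := module) (3 : ℤ) • hSum - h5 u - h5t
  have hza := congrArg (fun x => a • x) hz
  have hzs := congrArg (fun x => s • x) hz
  simp only [smul_add, smul_sub, smul_int, a1, a2, a3, smul_zero] at hza
  simp only [smul_add, smul_sub, smul_int, g1, g2, g3, hs, smul_zero] at hzs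
  have hE : a ^ 2 • u = a ^ 3 • u := by
    have h51 := h5 (a • u)
    have h52 := h5 (a ^ 2 • u)
    have h53 := h5 (a ^ 3 • u)
    generalize a ^ 4 • u = u4 at *
    generalize a ^ 3 • u = u3 at *
    generalize a ^ 2 • u = u2 at *
    generalize a • u = u1 at *
    linear_combination (norm := module) (3 : ℤ) • (hz - hzs + hza) - (3 : ℤ) • h51 + (2 : ℤ) • h52 + h53
  have hau : a • u = u := by
    have hE2 : a ^ 2 • u = a ^ 2 • a • u := by
      rw [smul_smul, ← pow_succ]; exact hE
    exact (smul_left_cancel _ hE2).symm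
  exact hNF u hu hau hs

end

/-- relations for Lemma V4 -/
structure RelV (a t s c : Γ) : Prop extends Rel4 a t s c where
  v1 : t * s * a = a * s * a * (s * t)
  v2 : t * s * a ^ 2 = a ^ 3 * s * a ^ 2 * s
  v3 : t * s * a ^ 3 = a ^ 2 * s * a ^ 3 * s
  v4 : t * s * a ^ 4 = a ^ 4 * s * a ^ 4 * (s * t)
  r01 : s * a * s = a ^ 2 * c ^ 2 * (s * t)
  r02 : s * a ^ 2 * s = a * c
  r03 : s * a ^ 3 * s = a ^ 4 * c * (s * t)
  r04 : s * a ^ 4 * s = a ^ 3 * c ^ 2 * t
  r11 : a * s * a * s * a ^ 4 = a ^ 4 * c * t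
  r12 : a * s * a ^ 2 * s * a ^ 4 = a * c ^ 2 * s
  r13 : a * s * a ^ 3 * s * a ^ 4 = a ^ 3 * c
  r14 : a * s * a ^ 4 * s * a ^ 4 = a ^ 2 * s
  r21 : a ^ 2 * s * a * s * a ^ 3 = a ^ 2 * c * s
  r22 : a ^ 2 * s * a ^ 2 * s * a ^ 3 = a ^ 4 * (s * t)
  r23 : a ^ 2 * s * a ^ 3 * s * a ^ 3 = a ^ 3 * c ^ 2 * s
  r24 : a ^ 2 * s * a ^ 4 * s * a ^ 3 = a * c ^ 2 * (s * t)
  r31 : a ^ 3 * s * a * s * a ^ 2 = a ^ 4 * c ^ 2 * t
  r32 : a ^ 3 * s * a ^ 2 * s * a ^ 2 = a ^ 2 * c ^ 2
  r33 : a ^ 3 * s * a ^ 3 * s * a ^ 2 = a * (s * t)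
  r34 : a ^ 3 * s * a ^ 4 * s * a ^ 2 = a ^ 3 * c * t
  r41 : a ^ 4 * s * a * s * a = a ^ 3 * s
  r42 : a ^ 4 * s * a ^ 2 * s * a = a ^ 2 * c * (s * t)
  r43 : a ^ 4 * s * a ^ 3 * s * a = a ^ 4 * c ^ 2
  r44 : a ^ 4 * s * a ^ 4 * s * a = a * c * s

section
variable {a t s c : Γ} (R : RelV a t s c) (h5 : ∀ v : V, (5 : ℤ) • v = 0)
  {M : AddSubgroup V} (hMa : Pres M a) (hMs : Pres M s) (hMc : Pres M c)
include R h5 hMa hMs hMc

/-- Lemma V4 -/
theorem V4 (hN : ∀ z ∈ M, a • z = z → t • z = z → z = 0)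
    (hA4 : ∀ z ∈ M, s • z = z → t • z = z → c • z = z → z = 0) {u : V} (hu : u ∈ M)
    (hs : s • u = u) (ht : t • u = u) : u = 0 := by
  have w0 : t • s • u = s • u := by rw [hs, ht]
  have w1 : t • s • a • u = a • s • a • u := by
    have h := congrArg (fun g => g • u) R.v1
    simpa only [mul_smul, hs, ht] using h
  have w2 : t • s • a ^ 2 • u = a ^ 3 • s • a ^ 2 • u := by
    have h := congrArg (fun g => g • u) R.v2
    simpa only [mul_smul, hs, ht] using h
  have w3 : t • s • a ^ 3 • u = a ^ 2 • s • a ^ 3 • u := by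
    have h := congrArg (fun g => g • u) R.v3
    simpa only [mul_smul, hs, ht] using h
  have w4 : t • s • a ^ 4 • u = a ^ 4 • s • a ^ 4 • u := by
    have h := congrArg (fun g => g • u) R.v4
    simpa only [mul_smul, hs, ht] using h
  have key : ∀ y ∈ M, N a (t • y) = N a y → N a y = 0 := by
    intro y hy h
    refine hN _ (N_mem hMa hy) (smul_N R.a5 _) ?_
    rw [smul_N_t R.toRel, h]
  have n : N a u = 0 := key u hu (by rw [ht])
  have n0 : N a (s • u) = 0 := key _ (hMs _ hu) (by rw [w0])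
  have n1 : N a (s • a • u) = 0 := key _ (hMs _ (hMa _ hu)) (by rw [w1, N_smul R.a5])
  have n2 : N a (s • a ^ 2 • u) = 0 := key _ (hMs _ (hMa.pow 2 _ hu)) (by rw [w2, N_pow R.a5])
  have n3 : N a (s • a ^ 3 • u) = 0 := key _ (hMs _ (hMa.pow 3 _ hu)) (by rw [w3, N_pow R.a5])
  have n4 : N a (s • a ^ 4 • u) = 0 := key _ (hMs _ (hMa.pow 4 _ hu)) (by rw [w4, N_pow R.a5])
  have e0 : s • s • u = u := ss R.toRel u
  have e1 : a • s • s • a ^ 4 • u = u := by
    rw [ss R.toRel, smul_smul, ← pow_succ', R.a5, one_smul]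
  have e2 : a ^ 2 • s • s • a ^ 3 • u = u := by
    rw [ss R.toRel, smul_smul, ← pow_add, R.a5, one_smul]
  have e3 : a ^ 3 • s • s • a ^ 2 • u = u := by
    rw [ss R.toRel, smul_smul, ← pow_add, R.a5, one_smul]
  have e4 : a ^ 4 • s • s • a • u = u := by
    rw [ss R.toRel, smul_smul, ← pow_succ, R.a5, one_smul]
  have q01 : s • a • s • u = a ^ 2 • c ^ 2 • u := by
    have h := congrArg (fun g => g • u) R.r01
    simpa only [mul_smul, hs, ht] using h
  have q02 : s • a ^ 2 • s • u = a • c • u := by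
    have h := congrArg (fun g => g • u) R.r02
    simpa only [mul_smul, hs, ht] using h
  have q03 : s • a ^ 3 • s • u = a ^ 4 • c • u := by
    have h := congrArg (fun g => g • u) R.r03
    simpa only [mul_smul, hs, ht] using h
  have q04 : s • a ^ 4 • s • u = a ^ 3 • c ^ 2 • u := by
    have h := congrArg (fun g => g • u) R.r04
    simpa only [mul_smul, hs, ht] using h
  have q11 : a • s • a • s • a ^ 4 • u = a ^ 4 • c • u := by
    have h := congrArg (fun g => g • u) R.r11
    simpa only [mul_smul, hs, ht] using h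
  have q12 : a • s • a ^ 2 • s • a ^ 4 • u = a • c ^ 2 • u := by
    have h := congrArg (fun g => g • u) R.r12
    simpa only [mul_smul, hs, ht] using h
  have q13 : a • s • a ^ 3 • s • a ^ 4 • u = a ^ 3 • c • u := by
    have h := congrArg (fun g => g • u) R.r13
    simpa only [mul_smul, hs, ht] using h
  have q14 : a • s • a ^ 4 • s • a ^ 4 • u = a ^ 2 • u := by
    have h := congrArg (fun g => g • u) R.r14
    simpa only [mul_smul, hs, ht] using h
  have q21 : a ^ 2 • s • a • s • a ^ 3 • u = a ^ 2 • c • u := by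
    have h := congrArg (fun g => g • u) R.r21
    simpa only [mul_smul, hs, ht] using h
  have q22 : a ^ 2 • s • a ^ 2 • s • a ^ 3 • u = a ^ 4 • u := by
    have h := congrArg (fun g => g • u) R.r22
    simpa only [mul_smul, hs, ht] using h
  have q23 : a ^ 2 • s • a ^ 3 • s • a ^ 3 • u = a ^ 3 • c ^ 2 • u := by
    have h := congrArg (fun g => g • u) R.r23
    simpa only [mul_smul, hs, ht] using h
  have q24 : a ^ 2 • s • a ^ 4 • s • a ^ 3 • u = a • c ^ 2 • u := by
    have h := congrArg (fun g => g • u) R.r24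
    simpa only [mul_smul, hs, ht] using h
  have q31 : a ^ 3 • s • a • s • a ^ 2 • u = a ^ 4 • c ^ 2 • u := by
    have h := congrArg (fun g => g • u) R.r31
    simpa only [mul_smul, hs, ht] using h
  have q32 : a ^ 3 • s • a ^ 2 • s • a ^ 2 • u = a ^ 2 • c ^ 2 • u := by
    have h := congrArg (fun g => g • u) R.r32
    simpa only [mul_smul, hs, ht] using h
  have q33 : a ^ 3 • s • a ^ 3 • s • a ^ 2 • u = a • u := by
    have h := congrArg (fun g => g • u) R.r33
    simpa only [mul_smul, hs, ht] using h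
  have q34 : a ^ 3 • s • a ^ 4 • s • a ^ 2 • u = a ^ 3 • c • u := by
    have h := congrArg (fun g => g • u) R.r34
    simpa only [mul_smul, hs, ht] using h
  have q41 : a ^ 4 • s • a • s • a • u = a ^ 3 • u := by
    have h := congrArg (fun g => g • u) R.r41
    simpa only [mul_smul, hs, ht] using h
  have q42 : a ^ 4 • s • a ^ 2 • s • a • u = a ^ 2 • c • u := by
    have h := congrArg (fun g => g • u) R.r42
    simpa only [mul_smul, hs, ht] using h
  have q43 : a ^ 4 • s • a ^ 3 • s • a • u = a ^ 4 • c ^ 2 • u := by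
    have h := congrArg (fun g => g • u) R.r43
    simpa only [mul_smul, hs, ht] using h
  have q44 : a ^ 4 • s • a ^ 4 • s • a • u = a • c • u := by
    have h := congrArg (fun g => g • u) R.r44
    simpa only [mul_smul, hs, ht] using h
  have S0 := congrArg (fun x => s • x) n0
  have S1 := congrArg (fun x => a • s • x) n4
  have S2 := congrArg (fun x => a ^ 2 • s • x) n3
  have S3 := congrArg (fun x => a ^ 3 • s • x) n2
  have S4 := congrArg (fun x => a ^ 4 • s • x) n1
  simp only [N, smul_add, smul_zero, e0, q01, q02, q03, q04] at S0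
  simp only [N, smul_add, smul_zero, e1, q11, q12, q13, q14] at S1
  simp only [N, smul_add, smul_zero, e2, q21, q22, q23, q24] at S2
  simp only [N, smul_add, smul_zero, e3, q31, q32, q33, q34] at S3
  simp only [N, smul_add, smul_zero, e4, q41, q42, q43, q44] at S4
  simp only [N] at n
  have hC : u + c • u + c ^ 2 • u = 0 := by
    have hcc : c • c • u = c ^ 2 • u := by rw [smul_smul, ← sq]
    have hc2 : c • c ^ 2 • u = u := by rw [smul_smul, ← pow_succ', R.c3, one_smul]
    have sc : s • c • u = c • u := by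
      have h := congrArg (fun g => g • u) R.sc
      simpa only [mul_smul, hs, ht] using h
    have tc : t • c • u = c • u := by
      have h := congrArg (fun g => g • u) R.tc
      simpa only [mul_smul, hs, ht] using h
    have sc2 : s • c ^ 2 • u = c ^ 2 • u := by
      have h := congrArg (fun g => g • c • u) R.sc
      simpa only [mul_smul, sc, tc, hcc] using h
    have tc2 : t • c ^ 2 • u = c ^ 2 • u := by
      have h := congrArg (fun g => g • c • u) R.tc
      simpa only [mul_smul, sc, tc, hcc] using h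
    refine hA4 _ (M.add_mem (M.add_mem hu (hMc _ hu)) (hMc.pow 2 _ hu)) ?_ ?_ ?_
    · simp only [smul_add, hs, sc, sc2]
    · simp only [smul_add, ht, tc, tc2]
    · simp only [smul_add, hcc, hc2]; abel
  have Q1 := congrArg (fun x => a • x) hC
  have Q2 := congrArg (fun x => a ^ 2 • x) hC
  have Q3 := congrArg (fun x => a ^ 3 • x) hC
  have Q4 := congrArg (fun x => a ^ 4 • x) hC
  simp only [smul_add, smul_zero] at Q1 Q2 Q3 Q4
  have h5u := h5 u
  generalize a • u = x10 at *
  generalize a ^ 2 • u = x20 at *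
  generalize a ^ 3 • u = x30 at *
  generalize a ^ 4 • u = x40 at *
  generalize a • c • u = x11 at *
  generalize a ^ 2 • c • u = x21 at *
  generalize a ^ 3 • c • u = x31 at *
  generalize a ^ 4 • c • u = x41 at *
  generalize a • c ^ 2 • u = x12 at *
  generalize a ^ 2 • c ^ 2 • u = x22 at *
  generalize a ^ 3 • c ^ 2 • u = x32 at *
  generalize a ^ 4 • c ^ 2 • u = x42 at *
  linear_combination (norm := module) n + S0 + S1 + S2 + S3 + S4 - (2 : ℤ) • (Q1 + Q2 + Q3 + Q4) - h5u

end

end H67.P5
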