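import Cfsg.Agent.Lib.H67.P5c

/-! S4100, piece P5, part 4: Lemma S, the Petersen graph, the group of order 9, four-groups. -/

set_option autoImplicit false

namespace H67.P5

variable {Γ V : Type*} [Group Γ] [AddCommGroup V] [DistribMulAction Γ V]

/-- relations for Lemma S: `c = (012)`, `t0 = (01)(34)` -/
structure RelS (a t s c t0 : Γ) : Prop extends Rel a t s where
  z0 : t = a ^ 3 * (c * t0)
  z1 : t * s = a ^ 3 * s * t0
  z2 : t * s * a = a ^ 2 * s * a * t0
  z3 : t * s * a ^ 2 = a ^ 3 * s * a ^ 2 * (c ^ 2 * t0)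
  z4 : t * s * a ^ 3 = a ^ 2 * s * a ^ 3 * (c ^ 2 * t0)
  z5 : t * s * a ^ 4 = s * a ^ 4 * (c * t0)

theorem Pres.one (M : AddSubgroup V) : Pres M (1 : Γ) := by
  intro m hm; simpa using hm

section S
variable {a t s c t0 : Γ} (R : RelS a t s c t0) (h5 : ∀ v : V, (5 : ℤ) • v = 0)
  {M : AddSubgroup V} (hMa : Pres M a) (hMs : Pres M s) (hMt : Pres M t)
include R h5 hMa hMs hMt

/-- Lemma S -/
theorem lemS (hNF : ∀ u ∈ M, a • u = u → s • u = u → u = 0)
    (hN : ∀ z ∈ M, a • z = z → t • z = -z → z = 0) {u : V} (hu : u ∈ M)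
    (hc : c • u = u) (h0 : t0 • u = -u) : u = 0 := by
  have key : ∀ y ∈ M, N a (t • y) = - N a y → N a y = 0 := by
    intro y hy h
    refine hN _ (N_mem hMa hy) (smul_N R.a5 _) ?_
    rw [smul_N_t R.toRel, h]
  have hct : c • t0 • u = -u := by rw [h0, smul_neg, hc]
  have hcct : c ^ 2 • t0 • u = -u := by rw [h0, smul_neg, pow_fix hc]
  have w : t • u = - (a ^ 3 • u) := by
    have h := congrArg (fun g => g • u) R.z0
    simpa only [mul_smul, hct, smul_neg] using h
  have w0 : t • s • u = - (a ^ 3 • s • u) := by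
    have h := congrArg (fun g => g • u) R.z1
    simpa only [mul_smul, h0, smul_neg] using h
  have w1 : t • s • a • u = - (a ^ 2 • s • a • u) := by
    have h := congrArg (fun g => g • u) R.z2
    simpa only [mul_smul, h0, smul_neg] using h
  have w2 : t • s • a ^ 2 • u = - (a ^ 3 • s • a ^ 2 • u) := by
    have h := congrArg (fun g => g • u) R.z3
    simpa only [mul_smul, hcct, smul_neg] using h
  have w3 : t • s • a ^ 3 • u = - (a ^ 2 • s • a ^ 3 • u) := by
    have h := congrArg (fun g => g • u) R.z4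
    simpa only [mul_smul, hcct, smul_neg] using h
  have w4 : t • s • a ^ 4 • u = - (s • a ^ 4 • u) := by
    have h := congrArg (fun g => g • u) R.z5
    simpa only [mul_smul, hct, smul_neg] using h
  -- the vectors killed by all Sylow sums
  let Z : V → Prop := fun w => w ∈ M ∧ N a w = 0 ∧ N a (s • w) = 0 ∧ N a (s • a • w) = 0 ∧ N a (s • a ^ 2 • w) = 0 ∧
    N a (s • a ^ 3 • w) = 0 ∧ N a (s • a ^ 4 • w) = 0
  have hZu : Z u := by
    refine ⟨hu, ?_, ?_, ?_, ?_, ?_, ?_⟩
    · exact key u hu (by rw [w, N_neg, N_pow R.a5])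
    · exact key _ (hMs _ hu) (by rw [w0, N_neg, N_pow R.a5])
    · exact key _ (hMs _ (hMa _ hu)) (by rw [w1, N_neg, N_pow R.a5])
    · exact key _ (hMs _ (hMa.pow 2 _ hu)) (by rw [w2, N_neg, N_pow R.a5])
    · exact key _ (hMs _ (hMa.pow 3 _ hu)) (by rw [w3, N_neg, N_pow R.a5])
    · exact key _ (hMs _ (hMa.pow 4 _ hu)) (by rw [w4, N_neg])
  have hZa : ∀ w, Z w → Z (a • w - w) := by
    rintro w ⟨hm, k, k0, k1, k2, k3, k4⟩
    have a1 : a • a • w = a ^ 2 • w := by rw [smul_smul, ← sq]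
    have a2 : a ^ 2 • a • w = a ^ 3 • w := by rw [smul_smul, ← pow_succ]
    have a3 : a ^ 3 • a • w = a ^ 4 • w := by rw [smul_smul, ← pow_succ]
    have a4 : a ^ 4 • a • w = w := by rw [smul_smul, ← pow_succ, R.a5, one_smul]
    refine ⟨M.sub_mem (hMa _ hm) hm, ?_, ?_, ?_, ?_, ?_, ?_⟩
    · rw [N_sub, N_smul R.a5, k, sub_zero]
    · rw [smul_sub, N_sub, k0, k1, sub_zero]
    · rw [smul_sub, smul_sub, a1, N_sub, k1, k2, sub_zero]
    · rw [smul_sub, smul_sub, a2, N_sub, k2, k3, sub_zero]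
    · rw [smul_sub, smul_sub, a3, N_sub, k3, k4, sub_zero]
    · rw [smul_sub, smul_sub, a4, N_sub, k4, k0, sub_zero]
  have hZf : ∀ w, Z w → a • w = w → w = 0 := by
    rintro w ⟨hm, k, k0, -⟩ hw
    have h1 : w - t • w = 0 := by
      refine hN _ (M.sub_mem hm (hMt _ hm)) ?_ ?_
      · have : a • t • w = t • w := by
          have e : a * t = t * a ^ 4 := R.ta4.symm
          rw [smul_smul, e, mul_smul, pow_fix hw]
        rw [smul_sub, hw, this]
      · rw [smul_sub, tt R.toRel]; abel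
    have h2 : t • w = w := (sub_eq_zero.1 h1).symm
    have h3 := F1 R.toRel M hMa hMs hNF hm hw h2
    rwa [k0, add_zero] at h3
  have Z1 := hZa u hZu
  have Z2 := hZa _ Z1
  have Z3 := hZa _ Z2
  have a1 : a • a • u = a ^ 2 • u := by rw [smul_smul, ← sq]
  have a2 : a • a ^ 2 • u = a ^ 3 • u := by rw [smul_smul, ← pow_succ']
  have a3 : a • a ^ 3 • u = a ^ 4 • u := by rw [smul_smul, ← pow_succ']
  have e3 : a • (a • (a • u - u) - (a • u - u)) - (a • (a • u - u) - (a • u - u)) = 0 := by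
    refine hZf _ Z3 ?_
    have hn := hZu.2.1
    have h5a := h5 (a • u)
    have h5b := h5 (a ^ 2 • u)
    have h5c := h5 (a ^ 3 • u)
    simp only [N] at hn
    simp only [smul_sub, a1, a2, a3]
    generalize a ^ 4 • u = u4 at *
    generalize a ^ 3 • u = u3 at *
    generalize a ^ 2 • u = u2 at *
    generalize a • u = u1 at *
    linear_combination (norm := module) hn - h5a + h5b - h5c
  have e2 : a • (a • u - u) - (a • u - u) = 0 := hZf _ Z2 (sub_eq_zero.1 e3)
  have e1 : a • u - u = 0 := hZf _ Z1 (sub_eq_zero.1 e2)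
  exact hZf _ hZu (sub_eq_zero.1 e1)

end S

/-- the Petersen graph -/
theorem petersen {a c t0 v : Γ} (a5 : a ^ 5 = 1) (p1 : t0 * v = v * t0) (p2 : v * v = 1) (p3 : a ^ 2 = v * c ^ 2)
    (h5 : ∀ v : V, (5 : ℤ) • v = 0) {M : AddSubgroup V} (hMv : Pres M v)
    (hV : ∀ z ∈ M, t0 • z = z → v • z = z → z = 0) {u : V} (hu : u ∈ M) (hc : c • u = u) (h0 : t0 • u = u) :
    u = 0 := by
  have h1 : u + v • u = 0 := by
    refine hV _ (M.add_mem hu (hMv _ hu)) ?_ ?_
    · rw [smul_add, h0, comm_smul p1, h0]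
    · rw [smul_add, smul_smul, p2, one_smul, add_comm]
  have h2 : v • u = -u := (neg_eq_of_add_eq_zero_right h1).symm
  have h3 : a ^ 2 • u = -u := by rw [p3, mul_smul, pow_fix hc, h2]
  have h4 : a ^ 10 • u = -u := by
    have e : ∀ k : ℕ, (a ^ 2) ^ (2 * k) • u = u := by
      intro k
      have : (a ^ 2) ^ 2 • u = u := by rw [sq (a ^ 2), mul_smul, h3, smul_neg, h3, neg_neg]
      rw [pow_mul, pow_fix this]
    calc a ^ 10 • u = (a ^ 2) • (a ^ 2) ^ (2 * 2) • u := by
            rw [smul_smul, ← pow_succ', ← pow_mul]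
      _ = -u := by rw [e, h3]
  have h6 : a ^ 10 = 1 := by rw [show 10 = 5 * 2 from rfl, pow_mul, a5, one_pow]
  rw [h6, one_smul] at h4
  have h5u := h5 u
  linear_combination (norm := module) h5u - (2 : ℤ) • h4

/-- the group of order 9 -/
theorem nine {x y τ : Γ} (x3 : x ^ 3 = 1) (y3 : y ^ 3 = 1) (xy : x * y = y * x) (e : ℤ)
    (h5 : ∀ v : V, (5 : ℤ) • v = 0) {M : AddSubgroup V} (hMx : Pres M x) (hMy : Pres M y)
    (hx : ∀ u ∈ M, x • u = u → τ • u = e • u) (hy : ∀ u ∈ M, y • u = u → τ • u = e • u)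
    (hxy : ∀ u ∈ M, (x * y) • u = u → τ • u = e • u) (hxyy : ∀ u ∈ M, (x * y ^ 2) • u = u → τ • u = e • u)
    {u : V} (hu : u ∈ M) : τ • u = e • u := by
  have c1 : ∀ w : V, y • x • w = x • y • w := fun w => (comm_smul xy w).symm
  have c2 : ∀ w : V, y • x ^ 2 • w = x ^ 2 • y • w := fun w =>
    comm_smul ((show Commute y x from xy.symm).pow_right 2).eq w
  have c3 : ∀ w : V, y ^ 2 • x • w = x • y ^ 2 • w := fun w =>
    comm_smul ((show Commute y x from xy.symm).pow_left 2).eq w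
  have c4 : ∀ w : V, y ^ 2 • x ^ 2 • w = x ^ 2 • y ^ 2 • w := fun w =>
    comm_smul ((show Commute y x from xy.symm).pow_pow 2 2).eq w
  have x1 : ∀ w : V, x • x • w = x ^ 2 • w := fun w => by rw [smul_smul, ← sq]
  have x2 : ∀ w : V, x • x ^ 2 • w = w := fun w => by rw [smul_smul, ← pow_succ', x3, one_smul]
  have y1 : ∀ w : V, y • y • w = y ^ 2 • w := fun w => by rw [smul_smul, ← sq]
  have y2 : ∀ w : V, y • y ^ 2 • w = w := fun w => by rw [smul_smul, ← pow_succ', y3, one_smul]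
  have y3' : ∀ w : V, y ^ 2 • y • w = w := fun w => by rw [smul_smul, ← pow_succ, y3, one_smul]
  have y4 : ∀ w : V, y ^ 2 • y ^ 2 • w = y • w := fun w => by
    rw [smul_smul, ← pow_add, show 2 + 2 = 3 + 1 from rfl, pow_succ, y3, one_mul]
  have mx := hMx _ hu
  have mx2 := hMx.pow 2 _ hu
  have my := hMy _ hu
  have my2 := hMy.pow 2 _ hu
  have B1 := hx (u + x • u + x ^ 2 • u) (M.add_mem (M.add_mem hu mx) mx2) (by
    simp only [smul_add, x1, x2]; abel)
  have B2 := hy (u + y • u + y ^ 2 • u) (M.add_mem (M.add_mem hu my) my2) (by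
    simp only [smul_add, y1, y2]; abel)
  have B3 := hxy (u + x • y • u + x ^ 2 • y ^ 2 • u)
    (M.add_mem (M.add_mem hu (hMx _ my)) (hMx.pow 2 _ my2)) (by
      simp only [mul_smul, smul_add, c1, c2, c3, c4, x1, x2, y1, y2]; abel)
  have B4 := hxyy (u + x • y ^ 2 • u + x ^ 2 • y • u)
    (M.add_mem (M.add_mem hu (hMx _ my2)) (hMx.pow 2 _ my)) (by
      simp only [mul_smul, smul_add, c1, c2, c3, c4, x1, x2, y1, y2, y3', y4]; abel)
  have B5 := hx (u + x • u + x ^ 2 • u + (y • u + x • y • u + x ^ 2 • y • u) +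
      (y ^ 2 • u + x • y ^ 2 • u + x ^ 2 • y ^ 2 • u))
    (M.add_mem (M.add_mem (M.add_mem (M.add_mem hu mx) mx2) (M.add_mem (M.add_mem my (hMx _ my)) (hMx.pow 2 _ my)))
      (M.add_mem (M.add_mem my2 (hMx _ my2)) (hMx.pow 2 _ my2))) (by
      simp only [smul_add, x1, x2]; abel)
  have h5a := h5 (τ • u)
  have h5b := h5 u
  simp only [smul_add] at B1 B2 B3 B4 B5
  generalize τ • x • u = t1 at *
  generalize τ • x ^ 2 • u = t2 at *
  generalize τ • y • u = t3 at *
  generalize τ • y ^ 2 • u = t4 at *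
  generalize τ • x • y • u = t5 at *
  generalize τ • x • y ^ 2 • u = t6 at *
  generalize τ • x ^ 2 • y • u = t7 at *
  generalize τ • x ^ 2 • y ^ 2 • u = t8 at *
  generalize τ • u = t0 at *
  generalize x • u = s1 at *
  generalize x ^ 2 • u = s2 at *
  generalize x • y • u = s5 at *
  generalize x • y ^ 2 • u = s6 at *
  generalize x ^ 2 • y • u = s7 at *
  generalize x ^ 2 • y ^ 2 • u = s8 at *
  generalize y • u = s3 at *
  generalize y ^ 2 • u = s4 at *
  linear_combination (norm := module) (2 : ℤ) • (B1 + B2 + B3 + B4 - B5) - h5a + e • h5b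

/-- fixed points in `M` -/
def Cg (M : AddSubgroup V) (g : Γ) : AddSubgroup V where
  carrier := {u | u ∈ M ∧ g • u = u}
  zero_mem' := ⟨M.zero_mem, smul_zero g⟩
  add_mem' := by
    rintro u v ⟨h1, h2⟩ ⟨h3, h4⟩
    exact ⟨M.add_mem h1 h3, by rw [smul_add, h2, h4]⟩
  neg_mem' := by
    rintro u ⟨h1, h2⟩
    exact ⟨M.neg_mem h1, by rw [smul_neg, h2]⟩

theorem mem_Cg {M : AddSubgroup V} {g : Γ} {u : V} : u ∈ Cg M g ↔ u ∈ M ∧ g • u = u := Iff.rfl

/-- fixed points of conjugate elements -/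
theorem card_Cg_conj {M : AddSubgroup V} {r q g : Γ} (hg : Pres M g) (hg' : Pres M g⁻¹) (h : r * g = g * q) :
    Nat.card (Cg M r) = Nat.card (Cg M q) := by
  refine Nat.card_congr (Equiv.mk (fun u => ⟨g⁻¹ • (u : V), hg' _ u.2.1, ?_⟩) (fun u => ⟨g • (u : V), hg _ u.2.1, ?_⟩)
    (fun u => Subtype.ext (smul_inv_smul g _)) (fun u => Subtype.ext (inv_smul_smul g _)))
  · have e : q * g⁻¹ = g⁻¹ * r := by
      rw [mul_inv_eq_iff_eq_mul, mul_assoc, h, inv_mul_cancel_left]
    rw [smul_smul, e, mul_smul, u.2.2]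
  · rw [smul_smul, h, mul_smul, u.2.2]

/-- the formula for a four-group -/
theorem four_card [Finite V] (h5 : ∀ v : V, (5 : ℤ) • v = 0) {M : AddSubgroup V} {r q : Γ} (hr : Pres M r)
    (hq : Pres M q) (r2 : r * r = 1) (q2 : q * q = 1) (c : r * q = q * r) :
    Nat.card (Cg M r) * (Nat.card (Cg M q) * Nat.card (Cg M (r * q))) =
      Nat.card ↥(Cg M r ⊓ Cg M q) ^ 2 * Nat.card M := by
  have rr : ∀ w : V, r • r • w = w := fun w => by rw [smul_smul, r2, one_smul]
  have qq : ∀ w : V, q • q • w = w := fun w => by rw [smul_smul, q2, one_smul]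
  have qr : ∀ w : V, q • r • w = r • q • w := fun w => (comm_smul c w).symm
  let f : (Cg M r) × (Cg M q) × (Cg M (r * q)) →+ M :=
    { toFun := fun p => ⟨(p.1 : V) + p.2.1 + p.2.2, M.add_mem (M.add_mem p.1.2.1 p.2.1.2.1) p.2.2.2.1⟩
      map_zero' := by
        apply Subtype.ext
        simp
      map_add' := by
        rintro ⟨a, b, c⟩ ⟨a', b', c'⟩
        apply Subtype.ext
        simp only [Prod.mk_add_mk, AddSubgroup.coe_add]
        abel }
  have hker : ∀ p : (Cg M r) × (Cg M q) × (Cg M (r * q)), p ∈ f.ker →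
      (p.1 : V) ∈ Cg M r ⊓ Cg M q ∧ (p.2.1 : V) ∈ Cg M r ⊓ Cg M q := by
    rintro ⟨⟨x, hx, hx'⟩, ⟨y, hy, hy'⟩, ⟨z, hz, hz'⟩⟩ hp
    have h0 : x + y + z = 0 := congrArg Subtype.val hp
    rw [mul_smul] at hz'
    have hqz : q • z = r • z := by
      have := congrArg (fun w => r • w) hz'
      simpa only [rr] using this
    have h1 := congrArg (fun w => r • w) h0
    have h2 := congrArg (fun w => q • w) h0
    have h3 := congrArg (fun w => r • q • w) h0
    simp only [smul_add, smul_zero, hx', hy', hqz, rr] at h1 h2 h3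
    have hrqx : r • q • x = q • x := by rw [← qr, hx']
    rw [hrqx] at h3
    have k1 : r • z = z := by
      have h5z := h5 (z - r • z)
      generalize r • z = rz at *
      generalize r • y = ry at *
      generalize q • x = qx at *
      linear_combination (norm := module) (2 : ℤ) • (h0 - h1 - h2 + h3) - h5z
    have k2 : r • y = y := by
      generalize r • z = rz at *
      generalize r • y = ry at *
      generalize q • x = qx at *
      linear_combination (norm := module) h1 - h0 - k1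
    have k3 : q • z = z := by rw [hqz, k1]
    have k4 : q • x = x := by
      have e : x = -y - z := by
        linear_combination (norm := module) h0
      rw [e, smul_sub, smul_neg, hy', k3]
    exact ⟨⟨⟨hx, hx'⟩, ⟨hx, k4⟩⟩, ⟨⟨hy, k2⟩, ⟨hy, hy'⟩⟩⟩
  have hkc : Nat.card f.ker = Nat.card ↥(Cg M r ⊓ Cg M q) ^ 2 := by
    rw [sq, ← Nat.card_prod]
    refine Nat.card_congr (Equiv.mk (fun p => (⟨p.1.1, (hker p.1 p.2).1⟩, ⟨p.1.2.1, (hker p.1 p.2).2⟩))
      (fun p => ⟨⟨⟨p.1, p.1.2.1⟩, ⟨p.2, p.2.2.2⟩, ⟨-(p.1 : V) - p.2, ?_⟩⟩, ?_⟩) ?_ ?_)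
    · refine ⟨M.sub_mem (M.neg_mem p.1.2.1.1) p.2.2.1.1, ?_⟩
      rw [mul_smul, smul_sub, smul_neg, p.1.2.2.2, p.2.2.2.2, smul_sub, smul_neg, p.1.2.1.2, p.2.2.1.2]
    · apply Subtype.ext
      show (p.1 : V) + p.2 + (-(p.1 : V) - p.2) = 0
      abel
    · rintro ⟨⟨⟨x, hx⟩, ⟨y, hy⟩, ⟨z, hz⟩⟩, hp⟩
      have h0 : x + y + z = 0 := congrArg Subtype.val hp
      apply Subtype.ext
      have e : -x - y = z := by
        linear_combination (norm := module) - h0
      simp [e]
    · rintro ⟨⟨x, hx⟩, ⟨y, hy⟩⟩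
      rfl
  have hsurj : Function.Surjective f := by
    rintro ⟨u, hu⟩
    have hru := hr _ hu
    have hqu := hq _ hu
    have hrqu := hr _ hqu
    refine ⟨⟨⟨(3 : ℤ) • (u + r • u) - (3 : ℤ) • (u + r • u + q • u + r • q • u), ?_, ?_⟩,
      ⟨(3 : ℤ) • (u + q • u), ?_, ?_⟩, ⟨(3 : ℤ) • (u + r • q • u), ?_, ?_⟩⟩, ?_⟩
    · exact M.sub_mem (M.zsmul_mem (M.add_mem hu hru) 3)
        (M.zsmul_mem (M.add_mem (M.add_mem (M.add_mem hu hru) hqu) hrqu) 3)
    · simp only [smul_sub, smul_add, smul_int, rr]; abel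
    · exact M.zsmul_mem (M.add_mem hu hqu) 3
    · simp only [smul_add, smul_int, qq]; abel
    · exact M.zsmul_mem (M.add_mem hu hrqu) 3
    · simp only [mul_smul, smul_add, smul_int, qr, rr, qq]; abel
    · apply Subtype.ext
      show (3 : ℤ) • (u + r • u) - (3 : ℤ) • (u + r • u + q • u + r • q • u) + (3 : ℤ) • (u + q • u) +
        (3 : ℤ) • (u + r • q • u) = u
      have h5u := h5 u
      generalize r • q • u = u3 at *
      generalize q • u = u2 at *
      generalize r • u = u1 at *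
      linear_combination (norm := module) h5u
  have h := AddSubgroup.card_mul_index f.ker
  rw [AddSubgroup.index_ker, AddMonoidHom.range_eq_top.2 hsurj, hkc] at h
  rw [← Nat.card_prod, ← Nat.card_prod, ← h]
  congr 1
  exact (Nat.card_congr AddSubgroup.topEquiv.toEquiv)

end H67.P5
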