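import Cfsg.Agent.Lib.H67.P5d

/-! S4100, piece P5, part 5: the six letter group. -/

set_option autoImplicit false

namespace H67.P5

open Subgroup
open scoped commutatorElement

section solv
variable {Γ : Type*} [Group Γ]

/-- a subgroup containing an `A₅` is not solvable -/
theorem not_solv {a t s : Γ} (R : Rel a t s) (ha : a ≠ 1) (H : Subgroup Γ) (hHa : a ∈ H) (hHt : t ∈ H) (hHs : s ∈ H) :
    ¬ Group.IsSolvable H := by
  let A : H := ⟨a, hHa⟩
  let T : H := ⟨t, hHt⟩
  let S : H := ⟨s, hHs⟩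
  have hA : ∀ n : ℕ, A ∈ derivedSeries H n := by
    intro n
    induction n with
    | zero => exact Subgroup.mem_top _
    | succ n ih =>
      have hn : (derivedSeries H n).Normal := inferInstance
      have hS : S ∈ derivedSeries H n := by
        have e : S = A * (S * A * S⁻¹) * A := by
          apply Subtype.ext
          show s = a * (s * a * s⁻¹) * a
          have hs : s⁻¹ = s := inv_eq_of_mul_eq_one_left R.s2
          rw [hs, R.h1]
          have h5 := R.a5
          calc s = a ^ 5 * s * a ^ 5 := by rw [h5, one_mul, mul_one]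
            _ = a * (a ^ 4 * s * a ^ 4) * a := by
              group
        rw [e]
        exact mul_mem (mul_mem ih (hn.conj_mem A ih S)) ih
      have hT : T ∈ derivedSeries H n := by
        have e : T = S * A ^ 3 * S * A ^ 2 * S * A ^ 3 := by
          apply Subtype.ext
          show t = s * a ^ 3 * s * a ^ 2 * s * a ^ 3
          have h1 : s * a ^ 3 * (s * a ^ 2 * s) * a ^ 3 = t := by
            rw [R.h2]
            have h5 := R.a5
            calc s * a ^ 3 * (a ^ 2 * s * t * a ^ 2) * a ^ 3 = s * (a ^ 3 * a ^ 2) * s * t * (a ^ 2 * a ^ 3) := by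
                  simp only [mul_assoc]
              _ = t := by
                rw [← pow_add, ← pow_add, h5, mul_one, mul_one, R.s2, one_mul]
          rw [← h1]
          simp only [mul_assoc]
        rw [e]
        exact mul_mem (mul_mem (mul_mem (mul_mem (mul_mem hS (pow_mem ih 3)) hS) (pow_mem ih 2)) hS) (pow_mem ih 3)
      have e : A = ⁅T, A ^ 2⁆ := by
        apply Subtype.ext
        show a = t * a ^ 2 * t⁻¹ * (a ^ 2)⁻¹
        have ht : t⁻¹ = t := inv_eq_of_mul_eq_one_left R.t2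
        rw [ht, R.ta2, mul_assoc (a ^ 3) t t, R.t2, mul_one, ← div_eq_mul_inv, eq_div_iff_mul_eq', ← pow_succ']
      rw [derivedSeries_succ, e]
      exact Subgroup.commutator_mem_commutator hT (pow_mem ih 2)
  refine not_isSolvable_of_mem_derivedSeries (g := A) ?_ hA
  intro h
  exact ha (congrArg Subtype.val h)

/-- no fixed vectors, if the stabilizers are solvable -/
theorem nf_of_solv {V : Type*} [AddCommGroup V] [DistribMulAction Γ V]
    (h : ∀ v : V, v ≠ 0 → Group.IsSolvable (MulAction.stabilizer Γ v)) {a t s : Γ} (R : Rel a t s) (ha : a ≠ 1) :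
    NF V a s := by
  intro u hu hs
  by_contra h0
  have ht := t_fix R hu hs
  exact not_solv R ha (MulAction.stabilizer Γ u) hu ht hs (h u h0)

end solv

variable {Γ V : Type*} [Group Γ] [AddCommGroup V] [DistribMulAction Γ V]

/-- an `A₅` in the group on six letters, with an element `c` of order 3 and an involution `t0` inverting it -/
structure Emb (b t' a t s c t0 v g gv gw : Γ) (j k : ℕ) : Prop extends RelS a t s c t0 where
  p1 : t0 * v = v * t0
  p2 : v * v = 1
  p3 : a ^ 2 = v * c ^ 2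
  q0 : (b ^ j) ^ k = b
  q1 : a * g = g * b ^ j
  q2 : t * g = g * t'
  q3 : v * gv = gv * t'
  q4 : t0 * v * gw = gw * t'
  ct : c * t0 = t0 * c ^ 2
  t00 : t0 * t0 = 1
  a1 : a ≠ 1

section
variable {b t' a t s c t0 v g gv gw : Γ} {j k : ℕ} (E : Emb b t' a t s c t0 v g gv gw j k)
  (h5 : ∀ v : V, (5 : ℤ) • v = 0) {L : Subgroup Γ} {M : AddSubgroup V} (hM : ∀ g ∈ L, Pres M g)
include E h5 hM

theorem embS (hL : a ∈ L ∧ t ∈ L ∧ s ∈ L ∧ t0 ∈ L ∧ g ∈ L) (hNF : NF V a s)
    (hN : ∀ z ∈ M, b • z = z → t' • z = -z → z = 0) :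
    ∀ u ∈ M, c • u = u → t0 • u = (1 : ℤ) • u := by
  obtain ⟨La, Lt, Ls, L0, Lg⟩ := hL
  intro u hu hc
  have hN' : ∀ z ∈ M, a • z = z → t • z = -z → z = 0 := by
    intro z hz h1 h2
    have h3 : g⁻¹ • z ∈ M := hM _ (inv_mem Lg) _ hz
    have e1 : b ^ j * g⁻¹ = g⁻¹ * a := by
      rw [mul_inv_eq_iff_eq_mul, mul_assoc, E.q1, inv_mul_cancel_left]
    have e2 : t' * g⁻¹ = g⁻¹ * t := by
      rw [mul_inv_eq_iff_eq_mul, mul_assoc, E.q2, inv_mul_cancel_left]
    have h4 : b ^ j • g⁻¹ • z = g⁻¹ • z := by rw [smul_smul, e1, mul_smul, h1]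
    have h5 : b • g⁻¹ • z = g⁻¹ • z := by
      have := pow_fix h4 k
      rwa [E.q0] at this
    have h6 : t' • g⁻¹ • z = - (g⁻¹ • z) := by rw [smul_smul, e2, mul_smul, h2, smul_neg]
    have h7 := hN _ h3 h5 h6
    rwa [smul_eq_zero_iff_eq] at h7
  have hw : u - t0 • u = 0 := by
    refine lemS E.toRelS h5 (hM _ La) (hM _ Ls) (hM _ Lt) (fun z _ => hNF z) hN'
      (M.sub_mem hu (hM _ L0 _ hu)) ?_ ?_
    · rw [smul_sub, smul_smul, E.ct, mul_smul, pow_fix hc, hc]
    · rw [smul_sub, smul_smul, E.t00, one_smul, neg_sub]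
  rw [one_smul]
  exact (sub_eq_zero.1 hw).symm

theorem embP [Finite V] (hL : v ∈ L ∧ t0 ∈ L ∧ gv ∈ L ∧ gw ∈ L) {f : ℕ} (hf : Nat.card (Cg M t') = f)
    (hf0 : Nat.card (Cg M t0) = f) (hMf : Nat.card M = f * (f * f)) :
    ∀ u ∈ M, c • u = u → t0 • u = (-1 : ℤ) • u := by
  obtain ⟨Lv, L0, Lgv, Lgw⟩ := hL
  have hfour := four_card h5 (hM _ L0) (hM _ Lv) E.t00 E.p2 E.p1
  rw [hf0, card_Cg_conj (hM _ Lgv) (hM _ (inv_mem Lgv)) E.q3, card_Cg_conj (hM _ Lgw) (hM _ (inv_mem Lgw)) E.q4,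
    hf, hMf] at hfour
  have hpos : 0 < f * (f * f) := by
    rw [← hMf]; exact Nat.card_pos
  have h1 : Nat.card ↥(Cg M t0 ⊓ Cg M v) ^ 2 = 1 := by
    have := Nat.eq_of_mul_eq_mul_right hpos (hfour.symm.trans (one_mul _).symm)
    exact this
  have h2 : Nat.card ↥(Cg M t0 ⊓ Cg M v) = 1 := by
    simpa using h1
  have h3 : Cg M t0 ⊓ Cg M v = ⊥ := AddSubgroup.card_eq_one.1 h2
  intro u hu hc
  have hw : u + t0 • u = 0 := by
    refine petersen E.a5 E.p1 E.p2 E.p3 h5 (hM _ Lv) ?_ (M.add_mem hu (hM _ L0 _ hu)) ?_ ?_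
    · intro z hz k1 k2
      have : z ∈ Cg M t0 ⊓ Cg M v := ⟨⟨hz, k1⟩, ⟨hz, k2⟩⟩
      rwa [h3] at this
    · rw [smul_add, hc, smul_smul c t0, E.ct, mul_smul, pow_fix hc]
    · rw [smul_add, smul_smul, E.t00, one_smul, add_comm]
  rw [neg_smul, one_smul]
  exact (neg_eq_of_add_eq_zero_right hw).symm

end

end H67.P5
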