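import Cfsg.Agent.Lib.H67.P5f
import Cfsg.Agent.Lib.H66.SADef

/-! S4100, piece P5, part 7: `A₁₀`-modules in characteristic 5. -/

set_option autoImplicit false
set_option maxRecDepth 20000

namespace H67.P5.Con

open Equiv Equiv.Perm

universe u

/-- the alternating group on the six letters `0, 5, ..., 9` -/
def L : Subgroup G where
  carrier := {g | ∀ i : Fin 10, (i = 1 ∨ i = 2 ∨ i = 3 ∨ i = 4) → (g : Perm (Fin 10)) i = i}
  one_mem' := by intro i _; rfl
  mul_mem' := by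
    intro g h hg hh i hi
    show (g : Perm (Fin 10)) ((h : Perm (Fin 10)) i) = i
    rw [hh i hi, hg i hi]
  inv_mem' := by
    intro g hg i hi
    show (g : Perm (Fin 10))⁻¹ i = i
    rw [Perm.inv_eq_iff_eq, hg i hi]

instance : DecidablePred (· ∈ L) := fun g =>
  inferInstanceAs (Decidable (∀ i : Fin 10, (i = 1 ∨ i = 2 ∨ i = 3 ∨ i = 4) → (g : Perm (Fin 10)) i = i))

theorem comm_L {g h : G} (hh : ∀ i : Fin 10, ¬ (i = 1 ∨ i = 2 ∨ i = 3 ∨ i = 4) → (h : Perm (Fin 10)) i = i)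
    (hg : g ∈ L) : g * h = h * g := by
  apply Subtype.ext
  have hd : Perm.Disjoint (g : Perm (Fin 10)) (h : Perm (Fin 10)) := by
    intro i
    by_cases hi : i = 1 ∨ i = 2 ∨ i = 3 ∨ i = 4
    · exact Or.inl (hg i hi)
    · exact Or.inr (hh i hi)
  exact hd.commute.eq

theorem comm_Ls {g : G} (hg : g ∈ L) : g * s = s * g := comm_L (by decide) hg
theorem comm_Lt {g : G} (hg : g ∈ L) : g * t = t * g := comm_L (by decide) hg
theorem comm_Lc {g : G} (hg : g ∈ L) : g * c = c * g := comm_L (by decide) hg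

section
variable {V : Type u} [AddCommGroup V] [DistribMulAction G V]

theorem pres_Cg {M : AddSubgroup V} {g h : G} (hg : Pres M g) (c : g * h = h * g) : Pres (Cg M h) g := by
  rintro m ⟨h1, h2⟩
  exact ⟨hg _ h1, by rw [comm_smul c.symm, h2]⟩

theorem pres_top (g : G) : Pres (⊤ : AddSubgroup V) g := fun _ _ => trivial

/-- `g = 1` on `b`, `g = -1` -/
def Cn (V : Type u) [AddCommGroup V] [DistribMulAction G V] : AddSubgroup V where
  carrier := {u | b • u = u ∧ t_ • u = -u}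
  zero_mem' := ⟨smul_zero _, by simp⟩
  add_mem' := by
    rintro u v ⟨h1, h2⟩ ⟨h3, h4⟩
    exact ⟨by rw [smul_add, h1, h3], by rw [smul_add, h2, h4]; abel⟩
  neg_mem' := by
    rintro u ⟨h1, h2⟩
    exact ⟨by rw [smul_neg, h1], by rw [smul_neg, h2]⟩

theorem pres_Cn {g : G} (c1 : g * b = b * g) (c2 : g * t_ = t_ * g) : Pres (Cn V) g := by
  rintro m ⟨h1, h2⟩
  exact ⟨by rw [comm_smul c1.symm, h1], by rw [comm_smul c2.symm, h2, smul_neg]⟩

/-- fixed points of `A₄` -/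
def Xa (V : Type u) [AddCommGroup V] [DistribMulAction G V] : AddSubgroup V := Cg (Cg (Cg ⊤ s) t) c
/-- fixed points of `V₄` -/
def Xb (V : Type u) [AddCommGroup V] [DistribMulAction G V] : AddSubgroup V := Cg (Cg ⊤ s) t

theorem pres_Xb {g : G} (hg : g ∈ L) : Pres (Xb V) g :=
  pres_Cg (pres_Cg (pres_top g) (comm_Ls hg)) (comm_Lt hg)

theorem pres_Xa {g : G} (hg : g ∈ L) : Pres (Xa V) g :=
  pres_Cg (pres_Xb hg) (comm_Lc hg)

variable (h5 : ∀ v : V, (5 : ℤ) • v = 0)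
  (hs : ∀ v : V, v ≠ 0 → Group.IsSolvable (MulAction.stabilizer G v))
include h5 hs

omit h5 in
theorem nfA : NF V a s := nf_of_solv hs relA.toRel (by decide)
omit h5 in
theorem nfB : NF V b s_ := nf_of_solv hs relB.toRel (by decide)
omit h5 in
theorem nfD : NF V (a * b) (s * s_) := nf_of_solv hs relD (by decide)

/-- step 3 -/
theorem st3 : ∀ z ∈ Xa V, b • z = z → t_ • z = -z → z = 0 := by
  rintro z ⟨⟨⟨-, h1⟩, h2⟩, h3⟩ h4 h6
  refine K3 relA.toRel4 h5 (M := Cn V) (pres_Cn two.ab two.at') (fun u _ => nfA hs u) ?_ ⟨h4, h6⟩ h1 h2 h3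
  rintro w ⟨k1, k2⟩ k3 k4
  exact step2 two h5 (nfD hs) k3 k4 k1 k2

omit h5 hs in
theorem conj_one {M : AddSubgroup V} (hM : ∀ g ∈ L, Pres M g) {e : ℤ} (h : ∀ u ∈ M, τ • u = e • u) {r g : G}
    (hg : g ∈ L) (hr : τ * g = g * r) : ∀ u ∈ M, r • u = e • u := by
  intro u hu
  have h1 := h _ (hM _ hg _ hu)
  rw [smul_smul, hr, mul_smul] at h1
  have h2 : g • r • u = g • e • u := by rw [h1, smul_int]
  exact smul_left_cancel g h2

/-- step 4 -/
theorem st4 : ∀ u ∈ Xa V, u = 0 := by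
  have hM : ∀ g ∈ L, Pres (Xa V) g := fun g hg => pres_Xa hg
  have e1 := embS emb_x h5 hM (by decide) (nf_of_solv hs emb_x.toRel (by decide)) (st3 h5 hs)
  have e2 := embS emb_y h5 hM (by decide) (nf_of_solv hs emb_y.toRel (by decide)) (st3 h5 hs)
  have e3 := embS emb_xy h5 hM (by decide) (nf_of_solv hs emb_xy.toRel (by decide)) (st3 h5 hs)
  have e4 := embS emb_xy2 h5 hM (by decide) (nf_of_solv hs emb_xy2.toRel (by decide)) (st3 h5 hs)
  have hτ : ∀ u ∈ Xa V, τ • u = (1 : ℤ) • u := fun u hu =>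
    nine (x := x) (y := y) (by decide) (by decide) (by decide) 1 h5 (hM _ (by decide)) (hM _ (by decide)) e1 e2 e3 e4 hu
  have ht : ∀ u ∈ Xa V, t_ • u = u := by
    intro u hu
    have := conj_one hM hτ (r := t_) (g := gτ) (by decide) (by decide) u hu
    rwa [one_smul] at this
  have hb : ∀ u ∈ Xa V, b • u = u := by
    intro u hu
    have e : b = t_ * b ^ 2 * t_ * b ^ 3 := by decide
    have hb3 := (hM b (by decide)).pow 3 u hu
    have hb5 : (b ^ 5 : G) = 1 := by decide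
    rw [e, mul_smul, mul_smul, ht _ hb3, mul_smul, smul_smul (b ^ 2), ← pow_add, hb5, one_smul, ht _ hu]
  intro u hu
  refine nfB hs u (hb u hu) ?_
  have h1 := congrArg (fun g : G => g • u) relB.h1
  have hsu := hM s_ (by decide) u hu
  simp only [mul_smul] at h1
  rw [hb _ hsu, pow_fix (hb u hu), pow_fix (hb _ hsu), smul_smul, relB.s2, one_smul] at h1
  exact h1.symm

/-- step 5 -/
theorem st5 : ∀ z ∈ Xb V, b • z = z → t_ • z = z → z = 0 := by
  rintro z ⟨⟨-, h1⟩, h2⟩ h3 h4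
  have hp : ∀ g : G, g * b = b * g → g * t_ = t_ * g → Pres (Cg (Cg (⊤ : AddSubgroup V) b) t_) g :=
    fun g c1 c2 => pres_Cg (pres_Cg (pres_top g) c1) c2
  refine V4 relA h5 (M := Cg (Cg ⊤ b) t_) (hp a two.ab two.at') (hp s two.sb two.st') (hp c (by decide) (by decide))
    ?_ ?_ ⟨⟨trivial, h3⟩, h4⟩ h1 h2
  · rintro w ⟨⟨-, k1⟩, k2⟩ k3 k4
    exact step1 two h5 (nfA hs) (nfB hs) (nfD hs) k3 k4 k1 k2
  · rintro w - k1 k2 k3
    exact st4 h5 hs w ⟨⟨⟨trivial, k1⟩, k2⟩, k3⟩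

theorem st5' : ∀ z ∈ Xb V, s_ • z = z → t_ • z = z → z = 0 := by
  intro z hz h1 h2
  refine V4 relB h5 (M := Xb V) (pres_Xb (by decide)) (pres_Xb (by decide)) (pres_Xb (by decide)) (st5 h5 hs) ?_ hz h1 h2
  rintro w - k1 k2 k3
  have e1 : s * sw = sw * s_ := by decide
  have e2 : t * sw = sw * t_ := by decide
  have e3 : c * sw = sw * c_ := by decide
  have := st4 h5 hs (sw • w) ⟨⟨⟨trivial, by rw [smul_smul, e1, mul_smul, k1]⟩, by rw [smul_smul, e2, mul_smul, k2]⟩,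
    by rw [smul_smul, e3, mul_smul, k3]⟩
  rwa [smul_eq_zero_iff_eq] at this

/-- Lemma L1 -/
theorem L1 [Finite V] {M : AddSubgroup V} (hM : ∀ g ∈ L, Pres M g)
    (hV : ∀ z ∈ M, s_ • z = z → t_ • z = z → z = 0) : ∀ u ∈ M, u = 0 := by
  have fs : Nat.card (Cg M s_) = Nat.card (Cg M t_) :=
    card_Cg_conj (g := gs) (hM _ (by decide)) (hM _ (by decide)) (by decide)
  have fst : Nat.card (Cg M (s_ * t_)) = Nat.card (Cg M t_) :=
    card_Cg_conj (g := gst) (hM _ (by decide)) (hM _ (by decide)) (by decide)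
  have fτ : Nat.card (Cg M τ) = Nat.card (Cg M t_) :=
    card_Cg_conj (g := gτ) (hM _ (by decide)) (hM _ (by decide)) (by decide)
  have hfour := four_card h5 (M := M) (r := s_) (q := t_) (hM _ (by decide)) (hM _ (by decide)) (by decide) (by decide)
    (by decide)
  have hbot : Cg M s_ ⊓ Cg M t_ = ⊥ := by
    rw [eq_bot_iff]
    rintro z ⟨⟨h1, h2⟩, ⟨-, h3⟩⟩
    exact hV z h1 h2 h3
  have hone : Nat.card (⊥ : AddSubgroup V) = 1 := AddSubgroup.card_bot
  rw [hbot, hone, one_pow, one_mul, fs, fst] at hfour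
  have e1 := embP emb_x h5 hM (by decide) rfl fτ hfour.symm
  have e2 := embP emb_y h5 hM (by decide) rfl fτ hfour.symm
  have e3 := embP emb_xy h5 hM (by decide) rfl fτ hfour.symm
  have e4 := embP emb_xy2 h5 hM (by decide) rfl fτ hfour.symm
  have hτ : ∀ u ∈ M, τ • u = (-1 : ℤ) • u := fun u hu =>
    nine (x := x) (y := y) (by decide) (by decide) (by decide) (-1) h5 (hM _ (by decide)) (hM _ (by decide))
      e1 e2 e3 e4 hu
  have ht : ∀ u ∈ M, t_ • u = (-1 : ℤ) • u := conj_one hM hτ (g := gτ) (by decide) (by decide)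
  have hs' : ∀ u ∈ M, s_ • u = (-1 : ℤ) • u :=
    conj_one hM hτ (g := gτ * gs⁻¹) (by decide) (by decide)
  have hst : ∀ u ∈ M, (s_ * t_) • u = (-1 : ℤ) • u :=
    conj_one hM hτ (g := gτ * gst⁻¹) (by decide) (by decide)
  intro u hu
  have h := hst u hu
  rw [mul_smul, ht u hu, smul_int, hs' u hu] at h
  have h5u := h5 u
  linear_combination (norm := module) h5u - (2 : ℤ) • h

theorem all_zero [Finite V] : ∀ v : V, v = 0 := by
  have h1 : ∀ u ∈ Xb V, u = 0 := L1 h5 hs (fun g hg => pres_Xb hg) (st5' h5 hs)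
  intro v
  refine L1 h5 hs (M := ⊤) (fun g _ => pres_top g) ?_ v trivial
  intro z _ k1 k2
  have e1 : s * sw = sw * s_ := by decide
  have e2 : t * sw = sw * t_ := by decide
  have := h1 (sw • z) ⟨⟨trivial, by rw [smul_smul, e1, mul_smul, k1]⟩, by rw [smul_smul, e2, mul_smul, k2]⟩
  rwa [smul_eq_zero_iff_eq] at this

end

end H67.P5.Con

namespace H67.P5

universe u

/-- **Piece P5**: a nonzero finite `A₁₀`-module in characteristic 5 has a nonzero vector with non-solvable stabilizer. -/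
theorem star5 : H66.SA.Star.{u} 5 10 := by
  intro V _ _ _ h5 _
  by_contra hcon
  push Not at hcon
  have h5' : ∀ v : V, (5 : ℤ) • v = 0 := by
    intro v
    have := h5 v
    rw [← natCast_zsmul] at this
    exact_mod_cast this
  obtain ⟨v, hv⟩ := exists_ne (0 : V)
  exact hv (Con.all_zero h5' hcon v)

end H67.P5
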