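import Mathlib

/-! S3841, part 1: linear algebra (systems of eigenvalues). -/

set_option autoImplicit false

namespace H67.SE

open Module

variable {E U I Y : Type*} [Field E] [AddCommGroup U] [Module E U]

/-- vectors with pairwise distinct systems of eigenvalues are independent -/
theorem linIndep (T : Y → U →ₗ[E] U) {χ : I → Y → E} (hχ : Function.Injective χ) {u : I → U}
    (hu : ∀ i, u i ≠ 0) (h : ∀ i y, T y (u i) = χ i y • u i) : LinearIndependent E u := by
  classical
  rw [linearIndependent_iff']
  intro s
  induction s using Finset.induction_on with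
  | empty => intro g _ i hi; simp at hi
  | insert a s has ih =>
    intro g hg
    rw [Finset.sum_insert has] at hg
    have key : ∀ i ∈ s, g i = 0 := by
      intro i hi
      have hne : χ i ≠ χ a := by
        intro h
        exact has (hχ h ▸ hi)
      obtain ⟨y, hy⟩ := Function.ne_iff.1 hne
      have h2 : T y (g a • u a + ∑ i ∈ s, g i • u i) = 0 := by rw [hg, map_zero]
      have h3 : χ a y • (g a • u a + ∑ i ∈ s, g i • u i) = 0 := by rw [hg, smul_zero]
      have h1 : ∑ i ∈ s, (g i * (χ i y - χ a y)) • u i = 0 := by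
        have h4 : T y (g a • u a + ∑ i ∈ s, g i • u i) - χ a y • (g a • u a + ∑ i ∈ s, g i • u i) = 0 := by
          rw [h2, h3, sub_zero]
        rw [map_add, map_smul, h, map_sum, smul_add, Finset.smul_sum, smul_comm (χ a y) (g a), add_sub_add_left_eq_sub,
          ← Finset.sum_sub_distrib] at h4
        rw [← h4]
        apply Finset.sum_congr rfl
        intro j _
        rw [map_smul, h, smul_smul, smul_smul, ← sub_smul]
        congr 1
        ring
      have := ih _ h1 i hi
      exact (mul_eq_zero.1 this).resolve_right (sub_ne_zero.2 hy)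
    intro i hi
    rcases Finset.mem_insert.1 hi with rfl | hi
    · rw [Finset.sum_eq_zero (fun j hj => by rw [key j hj, zero_smul]), add_zero] at hg
      exact (smul_eq_zero.1 hg).resolve_right (hu _)
    · exact key i hi

/-- the simultaneous eigenspace -/
def wt (T : Y → U →ₗ[E] U) (χ : Y → E) : Submodule E U where
  carrier := {v | ∀ y, T y v = χ y • v}
  add_mem' := by
    intro a b ha hb y
    rw [map_add, ha, hb, smul_add]
  zero_mem' := by
    intro y
    rw [map_zero, smul_zero]
  smul_mem' := by
    intro c v hv y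
    rw [map_smul, hv, smul_comm]

theorem mem_wt {T : Y → U →ₗ[E] U} {χ : Y → E} {v : U} : v ∈ wt T χ ↔ ∀ y, T y v = χ y • v := Iff.rfl

/-- dimension bound -/
theorem card_mul_le [FiniteDimensional E U] [Fintype I] (T : Y → U →ₗ[E] U) {χ : I → Y → E}
    (hχ : Function.Injective χ) {w : ℕ} (hw : ∀ i, w ≤ finrank E (wt T (χ i))) :
    Fintype.card I * w ≤ finrank E U := by
  classical
  let Φ : (∀ i, wt T (χ i)) →ₗ[E] U :=
    { toFun := fun f => ∑ i, (f i : U)
      map_add' := by
        intro f g
        simp [Finset.sum_add_distrib]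
      map_smul' := by
        intro c f
        simp [Finset.smul_sum] }
  have hΦ : Function.Injective Φ := by
    rw [injective_iff_map_eq_zero]
    intro f hf
    have hf' : ∑ i, (f i : U) = 0 := hf
    by_contra hne
    have hex : ∃ i, f i ≠ 0 := by
      by_contra hc
      push Not at hc
      exact hne (funext hc)
    obtain ⟨i₀, hi₀⟩ := hex
    let J := {i : I // (f i : U) ≠ 0}
    have hli : LinearIndependent E (fun j : J => (f j.1 : U)) := by
      apply linIndep T (χ := fun j : J => χ j.1)
      · intro a b hab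
        exact Subtype.ext (hχ hab)
      · intro j; exact j.2
      · intro j y
        exact (f j.1).2 y
    have h0 : ∑ j : J, (1 : E) • (f j.1 : U) = 0 := by
      simp only [one_smul]
      have e1 : ∑ j : J, (f j.1 : U) = ∑ i ∈ Finset.univ.filter (fun i => (f i : U) ≠ 0), (f i : U) := by
        rw [Finset.sum_subtype (Finset.univ.filter (fun i => (f i : U) ≠ 0)) (p := fun i => (f i : U) ≠ 0)]
        intro x
        simp
      rw [e1, Finset.sum_filter_ne_zero, hf']
    have h1 := Fintype.linearIndependent_iff.1 hli (fun _ => 1) h0 ⟨i₀, fun h => hi₀ (Subtype.ext h)⟩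
    exact one_ne_zero h1
  have h1 := LinearMap.finrank_le_finrank_of_injective hΦ
  rw [Module.finrank_pi_fintype] at h1
  calc Fintype.card I * w = ∑ _i : I, w := by rw [Finset.sum_const, Finset.card_univ, smul_eq_mul]
    _ ≤ ∑ i, finrank E (wt T (χ i)) := Finset.sum_le_sum (fun i _ => hw i)
    _ ≤ _ := h1

/-- common eigenvectors of commuting operators -/
theorem exists_common [IsAlgClosed E] [FiniteDimensional E U] (T : Y → U →ₗ[E] U)
    (hc : ∀ y y' v, T y (T y' v) = T y' (T y v)) :
    ∀ (n : ℕ) (W : Submodule E U), finrank E W = n → W ≠ ⊥ → (∀ y, ∀ v ∈ W, T y v ∈ W) →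
      ∃ v ∈ W, v ≠ 0 ∧ ∃ χ : Y → E, ∀ y, T y v = χ y • v := by
  intro n
  induction n using Nat.strong_induction_on with
  | _ n ih =>
    intro W hWn hW hinv
    by_cases hsc : ∀ y, ∃ μ : E, ∀ v ∈ W, T y v = μ • v
    · choose χ hχ using hsc
      obtain ⟨v, hv, hv0⟩ := (Submodule.ne_bot_iff W).1 hW
      exact ⟨v, hv, hv0, χ, fun y => hχ y v hv⟩
    · push Not at hsc
      obtain ⟨y, hy⟩ := hsc
      let t : W →ₗ[E] W := (T y).restrict (hinv y)
      have hnt : Nontrivial W := (Submodule.nontrivial_iff_ne_bot).2 hW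
      obtain ⟨μ, hμ⟩ := Module.End.exists_eigenvalue t
      obtain ⟨v, hv⟩ := hμ.exists_hasEigenvector
      obtain ⟨x, hxW, hx⟩ := hy μ
      let W' : Submodule E U := W ⊓ LinearMap.ker (T y - μ • LinearMap.id)
      have hmem : ∀ a, a ∈ W' ↔ a ∈ W ∧ T y a = μ • a := by
        intro a
        rw [Submodule.mem_inf, LinearMap.mem_ker, LinearMap.sub_apply, LinearMap.smul_apply, LinearMap.id_apply, sub_eq_zero]
      have hlt : W' < W := by
        rw [lt_iff_le_and_ne]
        refine ⟨inf_le_left, ?_⟩
        intro h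
        apply hx
        have : x ∈ W' := by rw [h]; exact hxW
        exact ((hmem x).1 this).2
      have hfr : finrank E W' < n := by
        rw [← hWn]
        exact Submodule.finrank_lt_finrank_of_lt hlt
      have hW'0 : W' ≠ ⊥ := by
        rw [Submodule.ne_bot_iff]
        refine ⟨(v : U), (hmem _).2 ⟨v.2, ?_⟩, ?_⟩
        · have h1 := hv.apply_eq_smul
          exact congrArg Subtype.val h1
        · intro h
          exact hv.2 (Subtype.ext h)
      obtain ⟨a, ha, ha0, χ, hχ⟩ := ih _ hfr W' rfl hW'0 (by
        intro y' a ha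
        obtain ⟨h1, h2⟩ := (hmem a).1 ha
        refine (hmem _).2 ⟨hinv y' a h1, ?_⟩
        rw [hc, h2, map_smul])
      exact ⟨a, ((hmem a).1 ha).1, ha0, χ, hχ⟩

end H67.SE
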