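import Cfsg.Agent.Lib.H67.SE8
import Cfsg.Agent.Lib.H51.U3Bound
import Cfsg.Agent.Lib.H51.SzBound
import Cfsg.Agent.Lib.H51.SL2Bound2
import Cfsg.Agent.S1141

/-! S3841, part 9: the three families. -/

set_option autoImplicit false

namespace H67.SE

open Module Subgroup

theorem sylow_le_of_odd_index {G : Type*} [Group G] [Finite G] {L : Subgroup G} (hLn : L.Normal) (hLi : Odd L.index) (S : Sylow 2 G) :
    (S : Subgroup G) ≤ L := by
  intro x hx
  obtain ⟨j, hj⟩ := S.isPGroup' ⟨x, hx⟩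
  have hj' : x ^ 2 ^ j = 1 := congrArg Subtype.val hj
  have h1 : (QuotientGroup.mk x : G ⧸ L) ^ 2 ^ j = 1 := by
    rw [← QuotientGroup.mk_pow, hj', QuotientGroup.mk_one]
  have h2 : orderOf (QuotientGroup.mk x : G ⧸ L) ∣ 2 ^ j := orderOf_dvd_of_pow_eq_one h1
  have h3 : orderOf (QuotientGroup.mk x : G ⧸ L) ∣ L.index := orderOf_dvd_natCard _
  have h4 : Nat.Coprime (2 ^ j) L.index := Nat.Coprime.pow_left _ (Nat.coprime_two_left.2 hLi)
  have h5 := Nat.Coprime.eq_one_of_dvd (h4.coprime_dvd_left h2) h3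
  rw [orderOf_eq_one_iff, QuotientGroup.eq_one_iff] at h5
  exact h5

theorem two_pow_le {a b c : ℕ} (hc : Odd c) (h : 2 ^ a ∣ 2 ^ b * c) : a ≤ b := by
  have h1 : Nat.Coprime (2 ^ a) c := Nat.Coprime.pow_left _ (Nat.coprime_two_left.2 hc)
  have h2 := h1.dvd_of_dvd_mul_right h
  exact (Nat.pow_dvd_pow_iff_le_right (by norm_num)).1 h2

/-- the possible sections (same text as `H16.BS.Concl`) -/
def Sect (L : Type*) [Group L] : Prop :=
  (∃ (F : Type) (_ : Field F) (_ : Fintype F), (∃ n : ℕ, 2 ≤ n ∧ Fintype.card F = 2 ^ n) ∧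
      Nonempty (L ≃* Matrix.ProjectiveSpecialLinearGroup (Fin 2) F)) ∨
    Cfsg.Lie.IsoSuzuki L ∨
    (∃ (F : Type) (_ : Field F) (_ : Fintype F) (n : ℕ), 2 ≤ n ∧ Fintype.card F = (2 ^ n) ^ 2 ∧
      Nonempty (L ≃* Cfsg.PSU 3 F (2 ^ n)))

/-- the data of a group with a large section of rank one type -/
theorem bounds {G V : Type*} [Group G] [AddCommGroup V] [Module (ZMod 2) V] [Finite G] [Module.Finite (ZMod 2) V]
    (ρ : Representation (ZMod 2) G V) (hρ : Function.Injective ρ)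
    {L : Subgroup G} (hLn : L.Normal) (hLi : Odd L.index) {Q : Type*} [Group Q] (φ : L →* Q) (hφ : Function.Surjective φ)
    (hker : Odd (Nat.card φ.ker)) (hQ : Sect Q) (S : Sylow 2 G) {t : G} (ht : orderOf t = 2) (htS : t ∈ S)
    (htc : ∀ x ∈ S, t * x = x * t) :
    (∀ k : ℕ, Nat.card ↥(S : Subgroup G) = 2 ^ k → 2 * k ≤ finrank (ZMod 2) V) ∧
      ∀ n : ℕ, Nat.card ↥((S : Subgroup G) ⊓ centralizer ((S : Subgroup G) : Set G)) = 2 ^ n →
        n ≤ finrank (ZMod 2) (LinearMap.range (ρ t - 1)) := by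
  classical
  have hf2 : Fact (Nat.Prime 2) := ⟨Nat.prime_two⟩
  have hSL := sylow_le_of_odd_index hLn hLi S
  let SL : Sylow 2 L := S.subtype hSL
  have hSLmem : ∀ x : L, x ∈ (SL : Subgroup L) ↔ (x : G) ∈ (S : Subgroup G) := fun x => Iff.rfl
  have hcardSL : Nat.card (SL : Subgroup L) = Nat.card (S : Subgroup G) :=
    Nat.card_congr (Subgroup.subgroupOfEquivOfLe hSL).toEquiv
  have hinj : ∀ x ∈ (SL : Subgroup L), φ x = 1 → x = 1 := by
    intro x hx h
    obtain ⟨j, hj⟩ := SL.isPGroup' ⟨x, hx⟩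
    have hj' : x ^ 2 ^ j = 1 := congrArg Subtype.val hj
    have h2 : orderOf x ∣ 2 ^ j := orderOf_dvd_of_pow_eq_one hj'
    have h3 : orderOf x ∣ Nat.card φ.ker := by
      have := orderOf_dvd_natCard (⟨x, h⟩ : φ.ker)
      rwa [← Subgroup.orderOf_coe] at this
    have h4 : Nat.Coprime (2 ^ j) (Nat.card φ.ker) := Nat.Coprime.pow_left _ (Nat.coprime_two_left.2 hker)
    have h5 := Nat.Coprime.eq_one_of_dvd (h4.coprime_dvd_left h2) h3
    exact orderOf_eq_one_iff.1 h5
  have hφt : orderOf (φ ⟨t, hSL htS⟩) = 2 := by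
    apply orderOf_eq_prime
    · rw [← map_pow]
      have : (⟨t, hSL htS⟩ : L) ^ 2 = 1 := Subtype.ext (by show t ^ 2 = 1; rw [← ht, pow_orderOf_eq_one])
      rw [this, map_one]
    · intro h
      have h1 := hinj ⟨t, hSL htS⟩ htS h
      have h2 : t = 1 := congrArg Subtype.val h1
      rw [h2, orderOf_one] at ht
      norm_num at ht
  have hcardQ : Nat.card (S : Subgroup G) ∣ Nat.card Q := by
    have h1 : Nat.card ((SL : Subgroup L).map φ) = Nat.card (SL : Subgroup L) := by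
      symm
      apply Nat.card_congr
      refine Equiv.ofBijective (fun x : (SL : Subgroup L) => (⟨φ x, Subgroup.mem_map_of_mem φ x.2⟩ : (SL : Subgroup L).map φ)) ⟨?_, ?_⟩
      · intro a b hab
        have h2 : φ (a : L) = φ (b : L) := congrArg Subtype.val hab
        have h3 := hinj ((a : L) * (b : L)⁻¹) (mul_mem a.2 (inv_mem b.2)) (by rw [map_mul, map_inv, h2, mul_inv_cancel])
        exact Subtype.ext (mul_inv_eq_one.1 h3)
      · rintro ⟨y, x, hx, rfl⟩
        exact ⟨⟨x, hx⟩, rfl⟩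
    rw [← hcardSL, ← h1]
    exact Subgroup.card_subgroup_dvd_card _
  have hZle : ∀ k n : ℕ, Nat.card ↥(S : Subgroup G) = 2 ^ k →
      Nat.card ↥((S : Subgroup G) ⊓ centralizer ((S : Subgroup G) : Set G)) = 2 ^ n → n ≤ k := by
    intro k n hk hn
    have h1 := Subgroup.card_dvd_of_le (inf_le_left : (S : Subgroup G) ⊓ centralizer ((S : Subgroup G) : Set G) ≤ S)
    rw [hk, hn] at h1
    exact (Nat.pow_dvd_pow_iff_le_right (by norm_num)).1 h1
  obtain ⟨k₀, hk₀⟩ := S.isPGroup'.exists_card_eq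
  -- the ambient group
  let Φ : LL ρ L →* Q := φ.comp (eLL ρ L).toMonoidHom
  have hΦ : Function.Surjective Φ := hφ.comp (eLL ρ L).surjective
  let s : LL ρ L := (eLL ρ L).symm ⟨t, hSL htS⟩
  have hs : (s : SD ρ) = SemidirectProduct.inr t := eLL_symm_coe ρ L ⟨t, hSL htS⟩
  have hΦs : Φ s = φ ⟨t, hSL htS⟩ := by
    show φ ((eLL ρ L) ((eLL ρ L).symm ⟨t, hSL htS⟩)) = _
    rw [MulEquiv.apply_symm_apply]
  have key : ∀ a b : ℕ, 2 ^ a ≤ Nat.card (VV ρ) → 2 ^ b ≤ (VV ρ ⊓ centralizer ({(s : SD ρ)} : Set (SD ρ))).relIndex (VV ρ) →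
      a ≤ finrank (ZMod 2) V ∧ b ≤ finrank (ZMod 2) (LinearMap.range (ρ t - 1)) := by
    intro a b ha hb
    rw [card_VV] at ha
    rw [hs, relIndex_eq] at hb
    exact ⟨(Nat.pow_le_pow_iff_right (by norm_num)).1 ha, (Nat.pow_le_pow_iff_right (by norm_num)).1 hb⟩
  rcases hQ with ⟨F, iF, iFf, ⟨n', hn', hF⟩, ⟨e⟩⟩ | ⟨F, iF, iFf, m, hm, hF, ⟨e⟩⟩ | ⟨F, iF, iFf, n', hn', hF, ⟨e⟩⟩
  · -- PSL₂
    have h1 := H51.SL2Bound2.main (p := 2) (isPGroup_VV ρ) (LL_le ρ L) (LL_faithful ρ hρ L) hF (e.toMonoidHom.comp Φ)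
      (e.surjective.comp hΦ) (s := s) ⟨1, by
        rw [pow_one]
        apply (eLL ρ L).injective
        rw [map_pow, MulEquiv.apply_symm_apply, map_one]
        exact Subtype.ext (by show t ^ 2 = 1; rw [← ht, pow_orderOf_eq_one])⟩ (by
        intro h
        have h2 : e (Φ s) = 1 := h
        rw [hΦs] at h2
        have h3 : φ ⟨t, hSL htS⟩ = 1 := e.injective (h2.trans (map_one e).symm)
        rw [h3, orderOf_one] at hφt
        norm_num at hφt)
    obtain ⟨h2, h3⟩ := key _ _ h1.1 h1.2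
    have h4 : k₀ ≤ n' := by
      have h5 : Nat.card Q ∣ Nat.card (Matrix.SpecialLinearGroup (Fin 2) F) := by
        rw [Nat.card_congr e.toEquiv]
        exact Subgroup.card_quotient_dvd_card _
      have h6 := (hk₀ ▸ hcardQ).trans h5
      rw [H43.GL2Card.card_SL, hF] at h6
      refine two_pow_le ?_ h6
      have h7 : 1 ≤ (2 ^ n') ^ 2 := Nat.one_le_pow _ _ (by positivity)
      apply Nat.Even.sub_odd h7 _ odd_one
      rw [← pow_mul]
      exact (Nat.even_pow).2 ⟨even_two, by omega⟩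
    constructor
    · intro k hk
      have : k = k₀ := Nat.pow_right_injective le_rfl (hk.symm.trans hk₀)
      omega
    · intro n hn
      have := hZle k₀ n hk₀ hn
      omega
  · -- Suzuki
    have h1 := H51.SzBound.main (isPGroup_VV ρ) (LL_le ρ L) (LL_faithful ρ hρ L) hm hF
      (φ := ((H24.SzIso.equiv hF hm).symm.toMonoidHom.comp e.toMonoidHom).comp Φ)
      (((H24.SzIso.equiv hF hm).symm.surjective.comp e.surjective).comp hΦ) (s := s) (by
        have h2 : orderOf ((H24.SzIso.equiv hF hm).symm (e (Φ s))) = 2 := by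
          rw [MulEquiv.orderOf_eq, MulEquiv.orderOf_eq, hΦs, hφt]
        exact h2)
    have e1 : (2 ^ (2 * m + 1)) ^ 4 = 2 ^ (4 * (2 * m + 1)) := by rw [← pow_mul]; congr 1; ring
    have e2 : (2 ^ (2 * m + 1)) ^ 2 = 2 ^ (2 * (2 * m + 1)) := by rw [← pow_mul]; congr 1; ring
    rw [e1, e2] at h1
    obtain ⟨h2, h3⟩ := key _ _ h1.1 h1.2
    have h4 : k₀ ≤ 2 * (2 * m + 1) := by
      have h5 : Nat.card Q = Nat.card (Cfsg.Sz F m) := by
        rw [Nat.card_congr e.toEquiv]
        exact Nat.card_congr (H24.SzIso.equiv hF hm).symm.toEquiv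
      have h6 := hk₀ ▸ hcardQ
      rw [h5, H8.SuzGroup.card_Sz hm hF] at h6
      have h7 : (2 ^ (2 * m + 1)) ^ 2 * ((2 ^ (2 * m + 1)) ^ 2 + 1) * (2 ^ (2 * m + 1) - 1) =
          2 ^ (2 * (2 * m + 1)) * (((2 ^ (2 * m + 1)) ^ 2 + 1) * (2 ^ (2 * m + 1) - 1)) := by
        rw [mul_assoc, ← e2]
      rw [h7] at h6
      refine two_pow_le ?_ h6
      have h8 : Even (2 ^ (2 * m + 1)) := (Nat.even_pow).2 ⟨even_two, by omega⟩
      apply Odd.mul
      · exact Even.add_odd ((Nat.even_pow).2 ⟨h8, by norm_num⟩) odd_one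
      · exact Nat.Even.sub_odd (Nat.one_le_pow _ _ (by norm_num)) h8 odd_one
    constructor
    · intro k hk
      have : k = k₀ := Nat.pow_right_injective le_rfl (hk.symm.trans hk₀)
      omega
    · intro n hn
      have := hZle k₀ n hk₀ hn
      omega
  · -- PSU₃
    let SH : Sylow 2 (LL ρ L) := SL.mapSurjective (f := (eLL ρ L).symm.toMonoidHom) (eLL ρ L).symm.surjective
    have hSH : ∀ x : LL ρ L, x ∈ (SH : Subgroup (LL ρ L)) ↔ eLL ρ L x ∈ (SL : Subgroup L) := by
      intro x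
      constructor
      · rintro ⟨y, hy, rfl⟩
        show eLL ρ L ((eLL ρ L).symm y) ∈ _
        rw [MulEquiv.apply_symm_apply]
        exact hy
      · intro h
        exact ⟨_, h, (eLL ρ L).symm_apply_apply x⟩
    have h1 := H51.U3Bound.main (p := 2) (isPGroup_VV ρ) (LL_le ρ L) (LL_faithful ρ hρ L) hF (by omega) (by omega)
      (e.toMonoidHom.comp Φ) (e.surjective.comp hΦ) SH (s := s) (by
        rw [hSH, MulEquiv.apply_symm_apply]; exact htS) (by
        intro x hx
        rw [hSH] at hx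
        apply (eLL ρ L).injective
        rw [map_mul, map_mul, MulEquiv.apply_symm_apply]
        exact Subtype.ext (htc _ hx)) (by
        intro h
        have h2 : e (Φ s) = 1 := h
        rw [hΦs] at h2
        have h3 : φ ⟨t, hSL htS⟩ = 1 := e.injective (h2.trans (map_one e).symm)
        rw [h3, orderOf_one] at hφt
        norm_num at hφt)
    have e1 : (2 ^ n') ^ 6 = 2 ^ (6 * n') := by rw [← pow_mul]; congr 1; ring
    have e2 : (2 ^ n') ^ 2 = 2 ^ (2 * n') := by rw [← pow_mul]; congr 1; ring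
    rw [e1, e2] at h1
    obtain ⟨h2, h3⟩ := key _ _ h1.1 h1.2
    let ψ : L →* Cfsg.PSU 3 F (2 ^ n') := e.toMonoidHom.comp φ
    have hψ : Function.Surjective ψ := e.surjective.comp hφ
    let SU : Sylow 2 (Cfsg.PSU 3 F (2 ^ n')) := SL.mapSurjective (f := ψ) hψ
    obtain ⟨h4, h5, -⟩ := Cfsg.Agent.S1141.result hn' hF SU
    have hequiv : Nonempty ((S : Subgroup G) ≃* (SU : Subgroup (Cfsg.PSU 3 F (2 ^ n')))) := by
      let f : (SL : Subgroup L) →* (SU : Subgroup (Cfsg.PSU 3 F (2 ^ n'))) :=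
        { toFun := fun x => ⟨ψ x, Subgroup.mem_map_of_mem ψ x.2⟩
          map_one' := Subtype.ext (map_one ψ)
          map_mul' := fun a b => Subtype.ext (map_mul ψ (a : L) b) }
      have hf : Function.Bijective f := by
        constructor
        · intro a b hab
          have h2 : ψ (a : L) = ψ (b : L) := congrArg Subtype.val hab
          have h2' : φ (a : L) = φ (b : L) := e.injective h2
          have h3 := hinj ((a : L) * (b : L)⁻¹) (mul_mem a.2 (inv_mem b.2)) (by rw [map_mul, map_inv, h2', mul_inv_cancel])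
          exact Subtype.ext (mul_inv_eq_one.1 h3)
        · rintro ⟨y, x, hx, rfl⟩
          exact ⟨⟨x, hx⟩, rfl⟩
      exact ⟨(Subgroup.subgroupOfEquivOfLe hSL).symm.trans (MulEquiv.ofBijective f hf)⟩
    obtain ⟨E⟩ := hequiv
    have h6 : k₀ = 3 * n' := by
      have h7 : Nat.card (S : Subgroup G) = 2 ^ (3 * n') := by
        rw [Nat.card_congr E.toEquiv]
        rw [show (2 : ℕ) ^ (3 * n') = (2 ^ n') ^ 3 by rw [← pow_mul]; congr 1; ring]
        exact h4
      exact Nat.pow_right_injective le_rfl (hk₀.symm.trans h7)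
    constructor
    · intro k hk
      have : k = k₀ := Nat.pow_right_injective le_rfl (hk.symm.trans hk₀)
      omega
    · intro n hn
      have h7 : Nat.card ↥((S : Subgroup G) ⊓ centralizer ((S : Subgroup G) : Set G)) = 2 ^ n' := by
        rw [← h5, ← Nat.card_congr (Subgroup.centerCongr E).toEquiv]
        apply Nat.card_congr
        refine ⟨fun x => ⟨⟨x, (Subgroup.mem_inf.1 x.2).1⟩, ?_⟩, fun x => ⟨((x : (S : Subgroup G)) : G), ?_⟩, fun x => rfl, fun x => rfl⟩
        · rw [Subgroup.mem_center_iff]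
          intro g
          exact Subtype.ext ((mem_centralizer_iff.1 (Subgroup.mem_inf.1 x.2).2) g g.2)
        · refine Subgroup.mem_inf.2 ⟨(x : (S : Subgroup G)).2, ?_⟩
          rw [mem_centralizer_iff]
          intro g hg
          have := (Subgroup.mem_center_iff.1 x.2) ⟨g, hg⟩
          exact congrArg Subtype.val this
      have : n = n' := Nat.pow_right_injective le_rfl (hn.symm.trans h7)
      omega

end H67.SE
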