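import Cfsg.Agent.Lib.H67.SE7
import Cfsg.Agent.Lib.H67.SE9

/-! S3841, part 10: the theorem, from the structure of the groups with a strongly embedded subgroup. -/

set_option autoImplicit false

namespace H67.SE

open Module Subgroup

universe u

section ranks

variable {G V : Type*} [Group G] [AddCommGroup V] [Module (ZMod 2) V] [Module.Finite (ZMod 2) V]
  (ρ : Representation (ZMod 2) G V)

theorem rank_pow_le (s : G) (k : ℕ) :
    finrank (ZMod 2) (LinearMap.range (ρ (s ^ k) - 1)) ≤ finrank (ZMod 2) (LinearMap.range (ρ s - 1)) := by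
  have h1 : (ρ (s ^ k) - 1 : Module.End (ZMod 2) V) = (ρ s - 1) * ∑ i ∈ Finset.range k, ρ s ^ i := by
    rw [mul_geom_sum, map_pow]
  apply Submodule.finrank_mono
  rw [h1, Module.End.mul_eq_comp]
  exact LinearMap.range_comp_le_range _ _

theorem rank_conj_le (s g : G) :
    finrank (ZMod 2) (LinearMap.range (ρ s - 1)) ≤ finrank (ZMod 2) (LinearMap.range (ρ (g * s * g⁻¹) - 1)) := by
  have h1 : (ρ s - 1 : Module.End (ZMod 2) V) = ρ g⁻¹ * ((ρ (g * s * g⁻¹) - 1) * ρ g) := by
    rw [sub_mul, mul_sub, one_mul, ← map_mul, ← map_mul, ← map_mul, inv_mul_cancel, map_one]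
    congr 2
    group
  rw [h1, Module.End.mul_eq_comp, LinearMap.range_comp]
  refine (Submodule.finrank_map_le _ _).trans ?_
  apply Submodule.finrank_mono
  rw [Module.End.mul_eq_comp]
  exact LinearMap.range_comp_le_range _ _

end ranks

theorem core {G : Type u} [Group G] [Finite G]
    (H : Subgroup G) (hH : Cfsg.IsStronglyEmbedded H) (S : Sylow 2 G) {V : Type*} [AddCommGroup V] [Module (ZMod 2) V]
    [Module.Finite (ZMod 2) V] (ρ : Representation (ZMod 2) G V) (hρ : Function.Injective ρ)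
    (hstr : (∃ v w : G, v ≠ w ∧ orderOf v = 2 ∧ orderOf w = 2 ∧ v * w = w * v) →
      ∃ (L : Subgroup G) (Q : Type u) (_ : Group Q) (φ : L →* Q), L.Normal ∧ Odd L.index ∧ Function.Surjective φ ∧
        Odd (Nat.card φ.ker) ∧ Sect Q) :
    (∀ k : ℕ, Nat.card ↥(S : Subgroup G) = 2 ^ k → 2 * k ≤ Module.finrank (ZMod 2) V) ∧
    ∀ n : ℕ, (∀ z ∈ (S : Subgroup G) ⊓ Subgroup.centralizer ((S : Subgroup G) : Set G), z ^ 2 = 1) →
      Nat.card ↥((S : Subgroup G) ⊓ Subgroup.centralizer ((S : Subgroup G) : Set G)) = 2 ^ n →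
        ∀ s ∈ (S : Subgroup G), s ≠ 1 → n ≤ Module.finrank (ZMod 2) ↥(LinearMap.range (ρ s - 1)) := by
  classical
  have hf2 : Fact (Nat.Prime 2) := ⟨Nat.prime_two⟩
  by_cases hF : ∃ v w : G, v ≠ w ∧ orderOf v = 2 ∧ orderOf w = 2 ∧ v * w = w * v
  swap
  · apply rank_one ρ hρ hH S
    intro x y hx hy hxy
    by_contra hne
    exact hF ⟨x, y, hne, hx, hy, hxy⟩
  obtain ⟨L, Q, iQ, φ, hLn, hLi, hφ, hker, hc⟩ := hstr hF
  -- a central involution
  obtain ⟨v, w, hvw, hv, hw, hcm⟩ := hF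
  have hdvd : 2 ∣ Nat.card G := by rw [← hv]; exact orderOf_dvd_natCard v
  have hSne : Nontrivial (S : Subgroup G) := by
    rw [Subgroup.nontrivial_iff_ne_bot]
    intro h
    have h1 := S.card_eq_multiplicity
    rw [h, Subgroup.card_bot] at h1
    have h2 : 0 < (Nat.card G).factorization 2 := (Nat.prime_two.dvd_iff_one_le_factorization Nat.card_pos.ne').1 hdvd
    have h3 : 1 < 2 ^ (Nat.card G).factorization 2 := Nat.one_lt_two_pow h2.ne'
    omega
  have hcen := S.isPGroup'.center_nontrivial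
  obtain ⟨z, hzord⟩ : ∃ z : Subgroup.center (S : Subgroup G), orderOf z = 2 := by
    apply exists_prime_orderOf_dvd_card' 2
    obtain ⟨k, hk⟩ := (S.isPGroup'.to_subgroup (Subgroup.center (S : Subgroup G))).exists_card_eq
    have h1 : 1 < Nat.card (Subgroup.center (S : Subgroup G)) := Finite.one_lt_card
    rw [hk] at h1 ⊢
    rcases k with _ | k
    · simp at h1
    · exact dvd_pow_self 2 (Nat.succ_ne_zero k)
  set t : G := ((z : (S : Subgroup G)) : G) with ht
  have hto : orderOf t = 2 := by rw [ht, Subgroup.orderOf_coe, Subgroup.orderOf_coe]; exact hzord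
  have htS : t ∈ S := (z : (S : Subgroup G)).2
  have htc : ∀ s ∈ S, t * s = s * t := by
    intro s hs
    have := (Subgroup.mem_center_iff.1 z.2) ⟨s, hs⟩
    exact (congrArg Subtype.val this).symm
  obtain ⟨hb1, hb2⟩ := bounds ρ hρ hLn hLi φ hφ hker hc S hto htS htc
  refine ⟨hb1, fun n _ hn s hs hs1 => ?_⟩
  refine (hb2 n hn).trans ?_
  obtain ⟨j, hj⟩ : ∃ j, orderOf s = 2 ^ j := by
    obtain ⟨j, hj⟩ := (IsPGroup.iff_orderOf.1 S.isPGroup') ⟨s, hs⟩
    exact ⟨j, by rw [← hj]; exact (Subgroup.orderOf_mk s hs).symm⟩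
  rcases j with _ | j
  · rw [pow_zero, orderOf_eq_one_iff] at hj
    exact absurd hj hs1
  have ho : orderOf (s ^ 2 ^ j) = 2 := by
    rw [orderOf_pow_of_dvd (by positivity) (by rw [hj]; exact pow_dvd_pow _ (by omega)), hj, pow_succ,
      Nat.mul_div_cancel_left _ (by positivity)]
  obtain ⟨g, hg⟩ := isConj_iff.1 (H25.StrEmb.isConj_of_involutions hH hto ho)
  refine le_trans ?_ (rank_pow_le ρ s (2 ^ j))
  rw [← hg]
  exact rank_conj_le ρ t g

end H67.SE
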