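import Cfsg.Agent.Lib.H67.SE10
import Cfsg.Agent.Lib.H83.BdC3

/-! S3841, part 11: the theorem, from Bender's theorem. -/

set_option autoImplicit false

namespace H67.SE

open Module Subgroup H16.BD

universe u

/-- the structure of the groups with a strongly embedded subgroup and a four-group -/
theorem str_of_bender (main : BenderThm.{u, u}) (main1 : H16.BSSimple.RankOneThm.{u, u}) {G : Type u} [Group G] [Finite G]
    {H : Subgroup G} (hH : Cfsg.IsStronglyEmbedded H) (hF : Four G) :
    ∃ (L : Subgroup G) (Q : Type u) (_ : Group Q) (φ : L →* Q), L.Normal ∧ Odd L.index ∧ Function.Surjective φ ∧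
        Odd (Nat.card φ.ker) ∧ Sect Q := by
  classical
  have B := H83.BdC.beta_of_se main hH hF
  obtain ⟨L₀, hL₀n, hL₀i, hc⟩ := H83.BdC.concl_of_beta main1 B
  have hfr := finite_range (M := G) (Δ := G ⧸ H)
  let π : G →* (MulAction.toPermHom G (G ⧸ H)).range := (MulAction.toPermHom G (G ⧸ H)).rangeRestrict
  have hπ : Function.Surjective π := MonoidHom.rangeRestrict_surjective _
  let L : Subgroup G := L₀.comap π
  have hLn : L.Normal := hL₀n.comap π
  have hLi : Odd L.index := by
    rw [Subgroup.index_comap_of_surjective _ hπ]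
    exact hL₀i
  let φ : L →* L₀ :=
    { toFun := fun x => ⟨π x, x.2⟩
      map_one' := Subtype.ext (map_one π)
      map_mul' := fun a b => Subtype.ext (map_mul π (a : G) b) }
  have hφ : Function.Surjective φ := by
    rintro ⟨y, hy⟩
    obtain ⟨x, rfl⟩ := hπ y
    exact ⟨⟨x, hy⟩, rfl⟩
  have hker : Odd (Nat.card φ.ker) := by
    have h1 : Nat.card φ.ker ∣ Nat.card (MulAction.toPermHom G (G ⧸ H)).ker := by
      have h2 : (φ.ker.map L.subtype) ≤ (MulAction.toPermHom G (G ⧸ H)).ker := by
        rintro _ ⟨x, hx, rfl⟩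
        have h3 : φ x = 1 := hx
        have h4 : π (x : G) = 1 := congrArg Subtype.val h3
        exact congrArg Subtype.val h4
      rw [← Subgroup.card_map_of_injective L.subtype_injective]
      exact Subgroup.card_dvd_of_le h2
    exact Odd.of_dvd_nat B.odd_ker h1
  exact ⟨L, L₀, inferInstance, φ, hLn, hLi, hφ, hker, hc⟩

theorem s3841 (main : BenderThm.{u, u}) (main1 : H16.BSSimple.RankOneThm.{u, u}) {G : Type u} [Group G] [Finite G]
    (H : Subgroup G) (hH : Cfsg.IsStronglyEmbedded H) (S : Sylow 2 G) {V : Type*} [AddCommGroup V] [Module (ZMod 2) V]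
    [Module.Finite (ZMod 2) V] (ρ : Representation (ZMod 2) G V) (hρ : Function.Injective ρ) :
    (∀ k : ℕ, Nat.card ↥(S : Subgroup G) = 2 ^ k → 2 * k ≤ Module.finrank (ZMod 2) V) ∧
    ∀ n : ℕ, (∀ z ∈ (S : Subgroup G) ⊓ Subgroup.centralizer ((S : Subgroup G) : Set G), z ^ 2 = 1) →
      Nat.card ↥((S : Subgroup G) ⊓ Subgroup.centralizer ((S : Subgroup G) : Set G)) = 2 ^ n →
        ∀ s ∈ (S : Subgroup G), s ≠ 1 → n ≤ Module.finrank (ZMod 2) ↥(LinearMap.range (ρ s - 1)) :=
  core H hH S ρ hρ (fun hF => str_of_bender main main1 hH hF)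

end H67.SE
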