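import Mathlib
import Cfsg.Agent.Lib.H1.Coprime2

/-! S3841, part 2: a minimal `S`-invariant subgroup of odd order on which the involution `z` acts nontrivially. -/

set_option autoImplicit false

namespace H67.SE

open Subgroup

variable {G : Type*} [Group G]

theorem eq_one_of_sq_of_odd [Finite G] {R : Subgroup G} (hR : Odd (Nat.card R)) {x : G} (hx : x ∈ R) (h : x * x = 1) :
    x = 1 := by
  have h1 : orderOf x ∣ 2 := orderOf_dvd_of_pow_eq_one (by rw [pow_two, h])
  have h2 : orderOf x ∣ Nat.card R := by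
    have := orderOf_dvd_natCard (⟨x, hx⟩ : R)
    rwa [← Subgroup.orderOf_coe] at this
  have h3 : orderOf x ∣ 1 := by
    have h4 : Nat.Coprime 2 (Nat.card R) := (Nat.coprime_two_left).2 hR
    have := Nat.dvd_gcd h1 h2
    rwa [h4.gcd_eq_one] at this
  exact orderOf_eq_one_iff.1 (Nat.dvd_one.1 h3)

/-- `x` commutes with `c` if `x * x` does (odd order) -/
theorem comm_of_sq_comm [Finite G] {R : Subgroup G} (hR : Odd (Nat.card R)) {x c : G} (hx : x ∈ R)
    (h : (x * x) * c = c * (x * x)) : x * c = c * x := by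
  have h2 : orderOf x ∣ Nat.card R := by
    have := orderOf_dvd_natCard (⟨x, hx⟩ : R)
    rwa [← Subgroup.orderOf_coe] at this
  obtain ⟨j, hj⟩ := hR
  have h3 : x = (x * x) ^ (j + 1) := by
    rw [← pow_two, ← pow_mul]
    have : 2 * (j + 1) = Nat.card R + 1 := by omega
    rw [this, pow_succ, orderOf_dvd_iff_pow_eq_one.1 h2, one_mul]
  have h4 : Commute (x * x) c := h
  have h5 := h4.pow_left (j + 1)
  rw [← h3] at h5
  exact h5

/-- the result of the minimal choice -/
structure MinR (S : Subgroup G) (z : G) (R : Subgroup G) : Prop where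
  odd : Odd (Nat.card R)
  inv : ∀ s ∈ S, ∀ x ∈ R, s * x * s⁻¹ ∈ R
  ne : ∃ x ∈ R, z * x * z⁻¹ ≠ x
  alt : (∀ x ∈ R, z * x * z⁻¹ = x⁻¹) ∨
    ((∀ c ∈ R ⊓ centralizer (R : Set G), z * c * z⁻¹ = c) ∧
      (∀ x ∈ R, z * x * z⁻¹ * x ∈ R ⊓ centralizer (R : Set G)) ∧
      (∀ x ∈ R, ∀ y ∈ R, x * y * x⁻¹ * y⁻¹ ∈ R ⊓ centralizer (R : Set G)) ∧ ∃ x ∈ R, ∃ y ∈ R, x * y * x⁻¹ * y⁻¹ ≠ 1)

theorem exists_minR [Finite G] {S K : Subgroup G} {z : G} (hS : IsPGroup 2 S) (hz : z * z = 1) (hzS : z ∈ S)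
    (hzc : ∀ s ∈ S, s * z = z * s) (hK : Odd (Nat.card K)) (hSK : ∀ s ∈ S, ∀ x ∈ K, s * x * s⁻¹ ∈ K)
    (hne : ∃ x ∈ K, z * x * z⁻¹ ≠ x) : ∃ R : Subgroup G, R ≤ K ∧ MinR S z R := by
  classical
  have hfact2 : Fact (Nat.Prime 2) := ⟨Nat.prime_two⟩
  have hzi : z⁻¹ = z := inv_eq_of_mul_eq_one_left hz
  let P : Subgroup G → Prop := fun R => R ≤ K ∧ (∀ s ∈ S, ∀ x ∈ R, s * x * s⁻¹ ∈ R) ∧ ∃ x ∈ R, z * x * z⁻¹ ≠ x
  obtain ⟨R, ⟨hRK, hRS, hRne⟩, hmin⟩ : ∃ R, P R ∧ ∀ R', P R' → R' ≤ R → R' = R := by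
    obtain ⟨R, hR⟩ := (Set.toFinite {R : Subgroup G | P R}).exists_minimal ⟨K, le_rfl, hSK, hne⟩
    refine ⟨R, hR.1, fun R' h1 h2 => ?_⟩
    exact le_antisymm h2 (hR.2 h1 h2)
  have hRodd : Odd (Nat.card R) := by
    rcases hK with ⟨j, hj⟩
    have h1 := Subgroup.card_dvd_of_le hRK
    exact Odd.of_dvd_nat ⟨j, hj⟩ h1
  have hcop : (Nat.card S).Coprime (Nat.card R) := by
    obtain ⟨k, hk⟩ := hS.exists_card_eq
    rw [hk]
    exact Nat.Coprime.pow_left _ (Nat.coprime_two_left.2 hRodd)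
  have hSN : S ≤ normalizer (R : Set G) := by
    intro s hs
    rw [mem_normalizer_iff]
    intro x
    constructor
    · exact hRS s hs x
    · intro h
      have := hRS s⁻¹ (inv_mem hs) _ h
      have e : s⁻¹ * (s * x * s⁻¹) * s⁻¹⁻¹ = x := by group
      rwa [e] at this
  -- `R` is a `q`-group
  have hsmall : ∀ R' : Subgroup G, R' ≤ R → R' ≠ R → (∀ s ∈ S, ∀ x ∈ R', s * x * s⁻¹ ∈ R') → ∀ x ∈ R', z * x * z⁻¹ = x := by
    intro R' h1 h2 h3 x hx
    by_contra hcon
    exact h2 (hmin R' ⟨h1.trans hRK, h3, x, hx, hcon⟩ h1)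
  have hq : ∃ q : ℕ, q.Prime ∧ IsPGroup q R := by
    by_contra hno
    push Not at hno
    obtain ⟨x, hxR, hx⟩ := hRne
    apply hx
    let C : Subgroup G := R ⊓ centralizer ({z} : Set G)
    have hCR : C ≤ R := inf_le_left
    have hcard : Nat.card R ∣ Nat.card C := by
      have hC0 : Nat.card C ≠ 0 := Nat.card_pos.ne'
      have hR0 : Nat.card R ≠ 0 := Nat.card_pos.ne'
      rw [← Nat.factorization_le_iff_dvd hR0 hC0]
      intro q
      by_cases hqp : q.Prime
      · have hfq : Fact q.Prime := ⟨hqp⟩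
        obtain ⟨Q, hQ, hSQ⟩ := H1.Coprime2.exists_invariant_sylow S R hSN hcop (Or.inl (by
          have := hS.isNilpotent
          infer_instance)) q
        have hQR := hQ.1
        have hQC : Q ≤ C := by
          intro y hy
          refine Subgroup.mem_inf.2 ⟨hQR hy, ?_⟩
          rw [mem_centralizer_singleton_iff]
          have hyz : z * y * z⁻¹ = y := by
            by_cases hQeq : Q = R
            · exact absurd (hQeq ▸ hQ.isPGroup) (hno q hqp)
            · exact hsmall Q hQR hQeq (fun s hs x hx => (mem_normalizer_iff.1 (hSQ hs) x).1 hx) y hy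
          calc y * z = z * y * z⁻¹ * z := by rw [hyz]
            _ = z * y := by group
        have h1 := Subgroup.card_dvd_of_le hQC
        rw [hQ.2] at h1
        exact (hqp.pow_dvd_iff_le_factorization hC0).1 h1
      · rw [Nat.factorization_eq_zero_of_not_prime _ hqp]
        exact Nat.zero_le _
    have hle := Nat.le_of_dvd Nat.card_pos hcard
    have hCeq : C = R := Subgroup.eq_of_le_of_card_ge hCR hle
    have hxC : x ∈ C := by rw [hCeq]; exact hxR
    have h1 := mem_centralizer_singleton_iff.1 (Subgroup.mem_inf.1 hxC).2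
    calc z * x * z⁻¹ = x * z * z⁻¹ := by rw [h1]
      _ = x := by group
  obtain ⟨q, hqp, hRq⟩ := hq
  have hfq : Fact q.Prime := ⟨hqp⟩
  -- `R` is generated by the inverted elements
  let I : Set G := {x | x ∈ R ∧ z * x * z⁻¹ = x⁻¹}
  have hIR : closure I = R := by
    apply hmin
    · refine ⟨?_, ?_, ?_⟩
      · rw [closure_le]
        intro x hx
        exact hRK hx.1
      · intro s hs x hx
        induction hx using closure_induction with
        | mem x hx =>
          apply Subgroup.subset_closure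
          refine ⟨hRS s hs x hx.1, ?_⟩
          have h1 := hzc s hs
          calc z * (s * x * s⁻¹) * z⁻¹ = (z * s) * x * (z * s)⁻¹ := by group
            _ = (s * z) * x * (s * z)⁻¹ := by rw [h1]
            _ = s * (z * x * z⁻¹) * s⁻¹ := by group
            _ = (s * x * s⁻¹)⁻¹ := by rw [hx.2]; group
        | one => simp
        | mul a b _ _ ha hb =>
          have : s * (a * b) * s⁻¹ = (s * a * s⁻¹) * (s * b * s⁻¹) := by group
          rw [this]; exact mul_mem ha hb
        | inv a _ ha =>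
          have : s * a⁻¹ * s⁻¹ = (s * a * s⁻¹)⁻¹ := by group
          rw [this]; exact inv_mem ha
      · by_contra hcon
        push Not at hcon
        obtain ⟨x, hxR, hx⟩ := hRne
        apply hx
        have hzxR : z * x * z⁻¹ ∈ R := hRS z hzS x hxR
        have hc : x⁻¹ * (z * x * z⁻¹) ∈ I := by
          refine ⟨mul_mem (inv_mem hxR) hzxR, ?_⟩
          rw [hzi]
          calc z * (x⁻¹ * (z * x * z)) * z = (z * x⁻¹ * z) * x * (z * z) := by group
            _ = (z * x⁻¹ * z) * x := by rw [hz, mul_one]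
            _ = _ := by rw [mul_inv_rev, mul_inv_rev, mul_inv_rev, hzi, inv_inv, mul_assoc z]
        have h1 := hcon _ (Subgroup.subset_closure hc)
        rw [hc.2] at h1
        have h2 : x⁻¹ * (z * x * z⁻¹) = 1 := by
          apply eq_one_of_sq_of_odd hRodd hc.1
          nth_rewrite 1 [← h1]
          rw [inv_mul_cancel]
        calc z * x * z⁻¹ = x * (x⁻¹ * (z * x * z⁻¹)) := by group
          _ = x := by rw [h2, mul_one]
    · rw [closure_le]
      intro x hx
      exact hx.1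
  -- the derived subgroup is centralised by `z`
  have hR1 : R ≠ ⊥ := by
    rintro rfl
    obtain ⟨x, hx, hx'⟩ := hRne
    rw [mem_bot] at hx
    subst hx
    simp at hx'
  have hder : ⁅R, R⁆ ≠ R := by
    intro h
    have hnil : Group.IsNilpotent R := hRq.isNilpotent
    have hsol : Group.IsSolvable R := inferInstance
    have hnt : Nontrivial R := (Subgroup.nontrivial_iff_ne_bot R).2 hR1
    have h1 := Group.IsSolvable.commutator_lt_top_of_nontrivial R
    apply h1.ne
    rw [← Subgroup.map_subtype_commutator] at h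
    apply Subgroup.map_injective R.subtype_injective
    rw [h, ← MonoidHom.range_eq_map, Subgroup.range_subtype]
  have hderz : ∀ x ∈ ⁅R, R⁆, z * x * z⁻¹ = x := by
    apply hsmall _ (commutator_le_self R) hder
    intro s hs x hx
    have h1 : (⁅R, R⁆).map (MulAut.conj s).toMonoidHom = ⁅R, R⁆ := by
      rw [map_commutator]
      have h2 : R.map (MulAut.conj s).toMonoidHom = R := by
        have := hSN hs
        rw [mem_normalizer_iff_map_conj_eq] at this
        exact this
      rw [h2]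
    rw [← h1]
    exact ⟨x, hx, rfl⟩
  have hdercen : ∀ c ∈ ⁅R, R⁆, ∀ x ∈ R, x * c = c * x := by
    intro c hc x hx
    have hx' : x ∈ closure I := by rw [hIR]; exact hx
    clear hx
    induction hx' using closure_induction with
    | mem x hx =>
      apply comm_of_sq_comm hRodd hx.1
      have h1 : x⁻¹ * c * x ∈ ⁅R, R⁆ := by
        have h3 : (⁅R, R⁆).Normal ∨ True := Or.inr trivial
        have h4 : x⁻¹ * c * x = (x⁻¹ * c * x * c⁻¹) * c := by group
        rw [h4]
        refine mul_mem ?_ hc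
        have h5 := commutator_mem_commutator (inv_mem hx.1) (commutator_le_self R hc)
        rw [commutatorElement_def, inv_inv] at h5
        exact h5
      have h2 := hderz _ h1
      have h3 : z * (x⁻¹ * c * x) * z⁻¹ = x * c * x⁻¹ := by
        calc z * (x⁻¹ * c * x) * z⁻¹ = (z * x * z⁻¹)⁻¹ * (z * c * z⁻¹) * (z * x * z⁻¹) := by group
          _ = x * c * x⁻¹ := by rw [hx.2, hderz c hc, inv_inv]
      rw [h3] at h2
      calc x * x * c = x * (x * c * x⁻¹) * x := by group
        _ = x * (x⁻¹ * c * x) * x := by rw [h2]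
        _ = c * (x * x) := by group
    | one => simp
    | mul a b _ _ ha hb => rw [mul_assoc, hb, ← mul_assoc, ha, mul_assoc]
    | inv a _ ha =>
      calc a⁻¹ * c = a⁻¹ * (c * a) * a⁻¹ := by group
        _ = a⁻¹ * (a * c) * a⁻¹ := by rw [ha]
        _ = c * a⁻¹ := by group
  have hcomm : ∀ x ∈ R, ∀ y ∈ R, x * y * x⁻¹ * y⁻¹ ∈ R ⊓ centralizer (R : Set G) := by
    intro x hx y hy
    have h1 := commutator_mem_commutator hx hy
    rw [commutatorElement_def] at h1
    refine Subgroup.mem_inf.2 ⟨commutator_le_self R h1, ?_⟩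
    rw [mem_centralizer_iff]
    intro w hw
    exact hdercen _ h1 w hw
  refine ⟨R, hRK, hRodd, hRS, hRne, ?_⟩
  by_cases hab : ∀ x ∈ R, ∀ y ∈ R, x * y = y * x
  · left
    intro x hx
    have hx' : x ∈ closure I := by rw [hIR]; exact hx
    clear hx
    induction hx' using closure_induction with
    | mem x hx => exact hx.2
    | one => simp
    | mul a b ha' hb' ha hb =>
      rw [hIR] at ha' hb'
      calc z * (a * b) * z⁻¹ = (z * a * z⁻¹) * (z * b * z⁻¹) := by group
        _ = a⁻¹ * b⁻¹ := by rw [ha, hb]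
        _ = (b * a)⁻¹ := by group
        _ = (a * b)⁻¹ := by rw [hab b hb' a ha']
    | inv a _ ha =>
      calc z * a⁻¹ * z⁻¹ = (z * a * z⁻¹)⁻¹ := by group
        _ = a⁻¹⁻¹ := by rw [ha]
  · right
    push Not at hab
    obtain ⟨x₀, hx₀, y₀, hy₀, hxy⟩ := hab
    have hZ : R ⊓ centralizer (R : Set G) ≠ R := by
      intro h
      apply hxy
      have h1 : y₀ ∈ R ⊓ centralizer (R : Set G) := by rw [h]; exact hy₀
      exact (mem_centralizer_iff.1 (Subgroup.mem_inf.1 h1).2) x₀ hx₀
    have hZS : ∀ s ∈ S, ∀ x ∈ R ⊓ centralizer (R : Set G), s * x * s⁻¹ ∈ R ⊓ centralizer (R : Set G) := by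
      intro s hs x hx
      obtain ⟨h1, h2⟩ := Subgroup.mem_inf.1 hx
      refine Subgroup.mem_inf.2 ⟨hRS s hs x h1, ?_⟩
      rw [mem_centralizer_iff] at h2 ⊢
      intro w hw
      have h3 := hRS s⁻¹ (inv_mem hs) w hw
      rw [inv_inv] at h3
      have h4 := h2 _ h3
      calc w * (s * x * s⁻¹) = s * ((s⁻¹ * w * s) * x) * s⁻¹ := by group
        _ = s * (x * (s⁻¹ * w * s)) * s⁻¹ := by rw [h4]
        _ = s * x * s⁻¹ * w := by group
    refine ⟨hsmall _ inf_le_left hZ hZS, ?_, hcomm, x₀, hx₀, y₀, hy₀, ?_⟩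
    · intro x hx
      have hx' : x ∈ closure I := by rw [hIR]; exact hx
      clear hx
      induction hx' using closure_induction with
      | mem x hx => rw [hx.2, inv_mul_cancel]; exact one_mem _
      | one => simp
      | mul a b ha' hb' ha hb =>
        rw [hIR] at ha' hb'
        set Z := R ⊓ centralizer (R : Set G) with hZdef
        have hbc : ∀ w ∈ R, w * (z * b * z⁻¹ * b) = (z * b * z⁻¹ * b) * w := fun w hw =>
          (mem_centralizer_iff.1 (Subgroup.mem_inf.1 hb).2) w hw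
        have h1 : z * (a * b) * z⁻¹ * (a * b) = (z * a * z⁻¹ * a) * (z * b * z⁻¹ * b) * (a⁻¹ * b⁻¹ * a⁻¹⁻¹ * b⁻¹⁻¹) := by
          have h2 := hbc (a⁻¹) (inv_mem ha')
          calc z * (a * b) * z⁻¹ * (a * b) = (z * a * z⁻¹ * a) * (a⁻¹ * (z * b * z⁻¹ * b)) * b⁻¹ * a * b := by group
            _ = (z * a * z⁻¹ * a) * ((z * b * z⁻¹ * b) * a⁻¹) * b⁻¹ * a * b := by rw [h2]
            _ = _ := by group
        rw [h1]
        exact mul_mem (mul_mem ha hb) (hcomm _ (inv_mem ha') _ (inv_mem hb'))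
      | inv a ha' ha =>
        rw [hIR] at ha'
        have hac : ∀ w ∈ R, w * (z * a * z⁻¹ * a) = (z * a * z⁻¹ * a) * w := fun w hw =>
          (mem_centralizer_iff.1 (Subgroup.mem_inf.1 ha).2) w hw
        have h1 : z * a⁻¹ * z⁻¹ * a⁻¹ = (z * a * z⁻¹ * a)⁻¹ := by
          have h2 := hac a ha'
          calc z * a⁻¹ * z⁻¹ * a⁻¹ = (a * (z * a * z⁻¹ * a) * a⁻¹)⁻¹ := by group
            _ = ((z * a * z⁻¹ * a) * a * a⁻¹)⁻¹ := by rw [h2]
            _ = _ := by group
        rw [h1]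
        exact inv_mem ha
    · intro h
      apply hxy
      have h1 : x₀ * y₀ * x₀⁻¹ * y₀⁻¹ * (y₀ * x₀) = 1 * (y₀ * x₀) := by rw [h]
      calc x₀ * y₀ = x₀ * y₀ * x₀⁻¹ * y₀⁻¹ * (y₀ * x₀) := by group
        _ = y₀ * x₀ := by rw [h1, one_mul]

end H67.SE
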