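import Cfsg.Agent.Lib.H67.SE1
import Cfsg.Agent.Lib.H67.SE2

/-! S3841, part 3: weights; the case of an abelian inverted group. -/

set_option autoImplicit false

namespace H67.SE

open Module Subgroup

variable {G E U : Type*} [Group G] [Field E] [AddCommGroup U] [Module E U]

theorem exists_weight [IsAlgClosed E] [CharP E 2] [FiniteDimensional E U] (σ : G →* Module.End E U) {Z : Subgroup G}
    (hZ : ∀ x ∈ Z, ∀ y ∈ Z, x * y = y * x) {c : G} (hc : c ∈ Z) {n : ℕ} (hn : Odd n) (hcn : c ^ n = 1) (hσ : σ c ≠ 1) :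
    ∃ v : U, v ≠ 0 ∧ ∃ χ : Z → E, (∀ y : Z, σ y v = χ y • v) ∧ χ ⟨c, hc⟩ ≠ 1 := by
  have h2 : (2 : E) = 0 := by have := CharP.cast_eq_zero E 2; exact_mod_cast this
  let W : Submodule E U := LinearMap.range (σ c - 1)
  have hW : W ≠ ⊥ := by
    intro h
    apply hσ
    rw [LinearMap.range_eq_bot] at h
    exact sub_eq_zero.1 h
  have hcomm : ∀ y y' : Z, ∀ v : U, σ y (σ y' v) = σ y' (σ y v) := by
    intro y y' v
    rw [← Module.End.mul_apply, ← Module.End.mul_apply, ← map_mul, ← map_mul, hZ _ y.2 _ y'.2]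
  obtain ⟨v, hv, hv0, χ, hχ⟩ := exists_common (E := E) (U := U) (fun y : Z => σ y) hcomm _ W rfl hW (by
    intro y v hv
    obtain ⟨u, rfl⟩ := hv
    refine ⟨σ y u, ?_⟩
    simp only [LinearMap.sub_apply, Module.End.one_apply, map_sub]
    rw [hcomm ⟨c, hc⟩ y u])
  refine ⟨v, hv0, χ, hχ, ?_⟩
  intro h1
  obtain ⟨u, hu⟩ := hv
  have h3 : σ c v = v := by
    have := hχ ⟨c, hc⟩
    rw [h1, one_smul] at this
    exact this
  have hu' : σ c u = u + v := by
    rw [← hu]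
    simp
  have h4 : ∀ k : ℕ, (σ c ^ k) u = u + (k : E) • v := by
    intro k
    induction k with
    | zero => simp
    | succ k ih =>
      rw [pow_succ', Module.End.mul_apply, ih, map_add, map_smul, hu', h3, Nat.cast_succ, add_smul, one_smul]
      abel
  have h5 := h4 n
  rw [← map_pow, hcn, map_one, Module.End.one_apply] at h5
  have h6 : (n : E) • v = 0 := by
    have := h5
    exact left_eq_add.1 this
  obtain ⟨j, rfl⟩ := hn
  have h7 : ((2 * j + 1 : ℕ) : E) = 1 := by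
    push_cast
    rw [h2]; ring
  rw [h7, one_smul] at h6
  exact hv0 h6

theorem weight_mul {σ : G →* Module.End E U} {Z : Subgroup G} {v : U} (hv : v ≠ 0) {χ : Z → E}
    (h : ∀ y : Z, σ y v = χ y • v) (x y : Z) : χ (x * y) = χ x * χ y := by
  have h1 := h (x * y)
  rw [Subgroup.coe_mul, map_mul, Module.End.mul_apply, h, map_smul, h, smul_smul] at h1
  have h2 := smul_left_injective E hv h1
  rw [mul_comm] at h2
  exact h2.symm

theorem weight_one {σ : G →* Module.End E U} {Z : Subgroup G} {v : U} (hv : v ≠ 0) {χ : Z → E}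
    (h : ∀ y : Z, σ y v = χ y • v) : χ 1 = 1 := by
  have h1 := h 1
  rw [Subgroup.coe_one, map_one, Module.End.one_apply] at h1
  have h2 : (1 : E) • v = χ 1 • v := by rw [one_smul]; exact h1
  exact (smul_left_injective E hv h2).symm

theorem sq_eq_one_char_two [CharP E 2] {a : E} (h : a * a = 1) : a = 1 := by
  have h2 : (2 : E) = 0 := by have := CharP.cast_eq_zero E 2; exact_mod_cast this
  have h3 : (a - 1) * (a - 1) = 0 := by
    linear_combination h - (a - 1) * h2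
  exact sub_eq_zero.1 (mul_self_eq_zero.1 h3)

omit [Field E] in
/-- stability under conjugation by powers -/
theorem stab_pow {Z : Subgroup G} {χ : Z → E} {u : G} (hu : ∀ y : G, (hy : y ∈ Z) → ∃ hy' : u * y * u⁻¹ ∈ Z, χ ⟨u * y * u⁻¹, hy'⟩ = χ ⟨y, hy⟩)
    (j : ℕ) : ∀ y : G, (hy : y ∈ Z) → ∃ hy' : u ^ j * y * (u ^ j)⁻¹ ∈ Z, χ ⟨u ^ j * y * (u ^ j)⁻¹, hy'⟩ = χ ⟨y, hy⟩ := by
  induction j with
  | zero =>
    intro y hy
    refine ⟨by simpa using hy, ?_⟩
    congr 1
    apply Subtype.ext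
    simp
  | succ j ih =>
    intro y hy
    obtain ⟨h1, h2⟩ := ih y hy
    obtain ⟨h3, h4⟩ := hu _ h1
    have e : u * (u ^ j * y * (u ^ j)⁻¹) * u⁻¹ = u ^ (j + 1) * y * (u ^ (j + 1))⁻¹ := by
      rw [pow_succ']
      group
    refine ⟨by rw [← e]; exact h3, ?_⟩
    rw [← h2, ← h4]
    congr 1
    exact Subtype.ext e.symm

/-- CASE A -/
theorem caseA [Finite G] [IsAlgClosed E] [CharP E 2] [FiniteDimensional E U] (σ : G →* Module.End E U)
    (hσ : Function.Injective σ) {S R : Subgroup G} {z : G} (hpow : ∀ x ∈ S, x ≠ 1 → ∃ j : ℕ, x ^ j = z)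
    (hodd : Odd (Nat.card R)) (hinv : ∀ s ∈ S, ∀ x ∈ R, s * x * s⁻¹ ∈ R) (hne : ∃ x ∈ R, z * x * z⁻¹ ≠ x)
    (hzinv : ∀ x ∈ R, z * x * z⁻¹ = x⁻¹) : Nat.card S ≤ finrank E U := by
  obtain ⟨c, hcR, hc⟩ := hne
  have hc1 : c ≠ 1 := by rintro rfl; simp at hc
  have hcomm : ∀ x ∈ R, ∀ y ∈ R, x * y = y * x := by
    intro x hx y hy
    have h1 := hzinv _ (mul_mem hx hy)
    have h2 : z * (x * y) * z⁻¹ = (z * x * z⁻¹) * (z * y * z⁻¹) := by group
    rw [h2, hzinv x hx, hzinv y hy, mul_inv_rev] at h1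
    -- x⁻¹ y⁻¹ = y⁻¹ x⁻¹
    have h3 : (x⁻¹ * y⁻¹)⁻¹ = (y⁻¹ * x⁻¹)⁻¹ := by rw [h1]
    rw [mul_inv_rev, mul_inv_rev, inv_inv, inv_inv] at h3
    exact h3.symm
  have hcn : c ^ Nat.card R = 1 := by
    have := pow_card_eq_one' (x := (⟨c, hcR⟩ : R))
    exact congrArg Subtype.val this
  have hσc : σ c ≠ 1 := by
    intro h
    apply hc1
    apply hσ
    rw [h, map_one]
  obtain ⟨v, hv0, χ, hχ, hχc⟩ := exists_weight σ hcomm hcR hodd hcn hσc
  -- the orbit
  have hfin : Fintype S := Fintype.ofFinite S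
  have hcj : ∀ (s : S) (y : R), (s : G)⁻¹ * y * s ∈ R := by
    intro s y
    have := hinv (s : G)⁻¹ (inv_mem s.2) y y.2
    rwa [inv_inv] at this
  let χs : S → R → E := fun s y => χ ⟨(s : G)⁻¹ * y * s, hcj s y⟩
  have hχs : Function.Injective χs := by
    intro s t hst
    by_contra hne
    set u : G := (t : G)⁻¹ * s with hu
    have hu1 : u ≠ 1 := by
      intro h
      apply hne
      apply Subtype.ext
      rw [hu, inv_mul_eq_one] at h
      exact h.symm
    have huS : u ∈ S := mul_mem (inv_mem t.2) s.2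
    have hstab : ∀ y : G, (hy : y ∈ R) → ∃ hy' : u * y * u⁻¹ ∈ R, χ ⟨u * y * u⁻¹, hy'⟩ = χ ⟨y, hy⟩ := by
      intro y hy
      refine ⟨hinv u huS y hy, ?_⟩
      have h1 := congrFun hst ⟨(s : G) * y * (s : G)⁻¹, hinv s s.2 y hy⟩
      have h2 : χs s ⟨(s : G) * y * (s : G)⁻¹, hinv s s.2 y hy⟩ = χ ⟨y, hy⟩ := by
        show χ _ = _
        congr 1
        apply Subtype.ext
        show (s : G)⁻¹ * ((s : G) * y * (s : G)⁻¹) * s = y
        group
      have h3 : χs t ⟨(s : G) * y * (s : G)⁻¹, hinv s s.2 y hy⟩ = χ ⟨u * y * u⁻¹, hinv u huS y hy⟩ := by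
        show χ _ = _
        congr 1
        apply Subtype.ext
        show (t : G)⁻¹ * ((s : G) * y * (s : G)⁻¹) * t = u * y * u⁻¹
        rw [hu]; group
      rw [h2, h3] at h1
      exact h1.symm
    obtain ⟨j, hj⟩ := hpow u huS hu1
    obtain ⟨h4, h5⟩ := stab_pow hstab j c hcR
    have h6 : χ ⟨c⁻¹, inv_mem hcR⟩ = χ ⟨c, hcR⟩ := by
      rw [← h5]
      congr 1
      apply Subtype.ext
      show c⁻¹ = u ^ j * c * (u ^ j)⁻¹
      rw [hj, hzinv c hcR]
    have h7 := weight_mul hv0 hχ ⟨c, hcR⟩ ⟨c⁻¹, inv_mem hcR⟩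
    have h8 : (⟨c, hcR⟩ : R) * ⟨c⁻¹, inv_mem hcR⟩ = 1 := Subtype.ext (mul_inv_cancel c)
    rw [h8, weight_one hv0 hχ, h6] at h7
    exact hχc (sq_eq_one_char_two h7.symm)
  have hli : LinearIndependent E (fun s : S => σ s v) := by
    apply linIndep (fun y : R => σ y) hχs
    · intro s h
      apply hv0
      have h1 : σ (s : G)⁻¹ (σ s v) = 0 := by rw [h, map_zero]
      rw [← Module.End.mul_apply, ← map_mul, inv_mul_cancel, map_one, Module.End.one_apply] at h1
      exact h1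
    · intro s y
      show σ (y : G) (σ (s : G) v) = χs s y • σ (s : G) v
      have h1 : (y : G) * s = s * ((s : G)⁻¹ * y * s) := by group
      rw [← Module.End.mul_apply, ← map_mul, h1, map_mul, Module.End.mul_apply]
      have h2 := hχ ⟨(s : G)⁻¹ * y * s, hcj s y⟩
      rw [h2, map_smul]
  have h1 := hli.fintype_card_le_finrank
  rw [Nat.card_eq_fintype_card]
  exact h1

end H67.SE
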