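import Cfsg.Agent.Lib.H67.SE3

/-! S3841, part 4: the case of a class two group. -/

set_option autoImplicit false

namespace H67.SE

open Module Subgroup

variable {G E U : Type*} [Group G] [Field E] [AddCommGroup U] [Module E U]

/-- `R` has class at most two with centre `Z`, `Z` is inside `R` -/
structure Cls (R Z : Subgroup G) : Prop where
  le : Z ≤ R
  cen : ∀ c ∈ Z, ∀ x ∈ R, x * c = c * x
  com : ∀ x ∈ R, ∀ y ∈ R, x * y * x⁻¹ * y⁻¹ ∈ Z

variable {R Z : Subgroup G} (hC : Cls R Z)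

include hC in
theorem Cls.mul_right {y x w : G} (hy : y ∈ R) (hx : x ∈ R) (hw : w ∈ R) :
    y * (x * w) * y⁻¹ * (x * w)⁻¹ = (y * x * y⁻¹ * x⁻¹) * (y * w * y⁻¹ * w⁻¹) := by
  have h1 := hC.cen _ (hC.com y hy w hw) x hx
  calc y * (x * w) * y⁻¹ * (x * w)⁻¹ = (y * x * y⁻¹ * x⁻¹) * (x * (y * w * y⁻¹ * w⁻¹)) * x⁻¹ := by group
    _ = (y * x * y⁻¹ * x⁻¹) * ((y * w * y⁻¹ * w⁻¹) * x) * x⁻¹ := by rw [h1]
    _ = _ := by group

/-- the radical of a central character -/
def Rad (hC : Cls R Z) (χ : Z →* E) : Subgroup G where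
  carrier := {x | x ∈ R ∧ ∀ y ∈ R, ∀ h : y * x * y⁻¹ * x⁻¹ ∈ Z, χ ⟨_, h⟩ = 1}
  one_mem' := by
    refine ⟨one_mem _, fun y hy h => ?_⟩
    have : (⟨y * 1 * y⁻¹ * 1⁻¹, h⟩ : Z) = 1 := Subtype.ext (by simp)
    rw [this, map_one]
  mul_mem' := by
    rintro a b ⟨ha, ha'⟩ ⟨hb, hb'⟩
    refine ⟨mul_mem ha hb, fun y hy h => ?_⟩
    have : (⟨y * (a * b) * y⁻¹ * (a * b)⁻¹, h⟩ : Z) = ⟨_, hC.com y hy a ha⟩ * ⟨_, hC.com y hy b hb⟩ :=
      Subtype.ext (hC.mul_right hy ha hb)
    rw [this, map_mul, ha' y hy, hb' y hy, one_mul]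
  inv_mem' := by
    rintro a ⟨ha, ha'⟩
    refine ⟨inv_mem ha, fun y hy h => ?_⟩
    have h1 : (⟨y * (a * a⁻¹) * y⁻¹ * (a * a⁻¹)⁻¹, hC.com y hy _ (mul_mem ha (inv_mem ha))⟩ : Z) =
        ⟨_, hC.com y hy a ha⟩ * ⟨_, h⟩ :=
      Subtype.ext (hC.mul_right hy ha (inv_mem ha))
    have h2 : (⟨y * (a * a⁻¹) * y⁻¹ * (a * a⁻¹)⁻¹, hC.com y hy _ (mul_mem ha (inv_mem ha))⟩ : Z) = 1 :=
      Subtype.ext (by simp)
    rw [h2] at h1
    have h3 := congrArg χ h1
    rw [map_one, map_mul, ha' y hy, one_mul] at h3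
    exact h3.symm

theorem mem_Rad {χ : Z →* E} {x : G} : x ∈ Rad hC χ ↔ x ∈ R ∧ ∀ y ∈ R, ∀ h : y * x * y⁻¹ * x⁻¹ ∈ Z, χ ⟨_, h⟩ = 1 := Iff.rfl

theorem Rad_le {χ : Z →* E} : Rad hC χ ≤ R := fun _ h => h.1

include hC in
theorem conj_wt {σ : G →* Module.End E U} {χ : Z →* E} {x : G} (hx : x ∈ R) {v : U} (hv : v ∈ wt (fun y : Z => σ y) χ) :
    σ x v ∈ wt (fun y : Z => σ y) χ := by
  intro y
  show σ (y : G) (σ x v) = χ y • σ x v
  rw [← Module.End.mul_apply, ← map_mul, ← hC.cen y y.2 x hx, map_mul, Module.End.mul_apply]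
  have := hv y
  rw [this, map_smul]

/-- the index of the radical is at most the square of the dimension -/
theorem card_le_sq [Finite G] [FiniteDimensional E U] (σ : G →* Module.End E U) (χ : Z →* E)
    (hW : wt (fun y : Z => σ y) χ ≠ ⊥) :
    Nat.card (R ⧸ (Rad hC χ).subgroupOf R) ≤ finrank E (wt (fun y : Z => σ y) χ) ^ 2 := by
  classical
  set W := wt (fun y : Z => σ y) χ with hWdef
  have hnt : Nontrivial W := (Submodule.nontrivial_iff_ne_bot).2 hW
  let s : R → (W →ₗ[E] W) := fun x => (σ x).restrict (fun v hv => conj_wt hC x.2 hv)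
  have hs : ∀ (x : R) (v : W), ((s x v : W) : U) = σ x v := fun x v => rfl
  have hfin : Fintype (R ⧸ (Rad hC χ).subgroupOf R) := Fintype.ofFinite _
  let u : (R ⧸ (Rad hC χ).subgroupOf R) → (W →ₗ[E] W) := fun q => s (Quotient.out q)
  let T : R → (W →ₗ[E] W) →ₗ[E] (W →ₗ[E] W) := fun y =>
    { toFun := fun A => (s y).comp (A.comp (s y⁻¹))
      map_add' := by
        intro A B
        ext v
        simp
      map_smul' := by
        intro c A
        ext v
        simp }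
  let X : (R ⧸ (Rad hC χ).subgroupOf R) → R → E := fun q y =>
    χ ⟨(y : G) * (Quotient.out q : R) * (y : G)⁻¹ * ((Quotient.out q : R) : G)⁻¹, hC.com _ y.2 _ (Quotient.out q : R).2⟩
  have hX : Function.Injective X := by
    intro q q' hqq
    set x : R := Quotient.out q with hx
    set x' : R := Quotient.out q' with hx'
    have hq : q = (QuotientGroup.mk x : R ⧸ (Rad hC χ).subgroupOf R) := (Quotient.out_eq q).symm
    have hq' : q' = (QuotientGroup.mk x' : R ⧸ (Rad hC χ).subgroupOf R) := (Quotient.out_eq q').symm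
    rw [hq, hq', QuotientGroup.eq, Subgroup.mem_subgroupOf, mem_Rad]
    refine ⟨(x⁻¹ * x').2, fun y hy h => ?_⟩
    have h1 := congrFun hqq ⟨y, hy⟩
    have h2 : (⟨y * x' * y⁻¹ * (x' : G)⁻¹, hC.com _ hy _ x'.2⟩ : Z) = ⟨y * x * y⁻¹ * (x : G)⁻¹, hC.com _ hy _ x.2⟩ * ⟨_, h⟩ := by
      apply Subtype.ext
      have h3 := hC.mul_right hy x.2 (x⁻¹ * x').2
      have h4 : (x : G) * ((x⁻¹ * x' : R) : G) = x' := by
        rw [Subgroup.coe_mul, Subgroup.coe_inv]; group
      rw [h4] at h3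
      exact h3
    have h5 : χ ⟨y * x * y⁻¹ * (x : G)⁻¹, hC.com _ hy _ x.2⟩ = χ ⟨y * x' * y⁻¹ * (x' : G)⁻¹, hC.com _ hy _ x'.2⟩ := h1
    rw [h2, map_mul] at h5
    have h6 : χ ⟨y * x * y⁻¹ * (x : G)⁻¹, hC.com _ hy _ x.2⟩ ≠ 0 := by
      intro h0
      have h7 : χ (⟨y * x * y⁻¹ * (x : G)⁻¹, hC.com _ hy _ x.2⟩ * (⟨y * x * y⁻¹ * (x : G)⁻¹, hC.com _ hy _ x.2⟩)⁻¹) = 1 := by
        rw [mul_inv_cancel, map_one]
      rw [map_mul, h0, zero_mul] at h7
      exact zero_ne_one h7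
    exact (left_eq_mul₀ h6).1 h5
  have hli : LinearIndependent E u := by
    apply linIndep T hX
    · intro q h0
      obtain ⟨w, hw⟩ := exists_ne (0 : W)
      apply hw
      have h1 : u q w = 0 := by rw [h0]; rfl
      have h2 : σ ((Quotient.out q : R) : G) (w : U) = 0 := congrArg Subtype.val h1
      apply Subtype.ext
      have h3 : σ ((Quotient.out q : R) : G)⁻¹ (σ ((Quotient.out q : R) : G) (w : U)) = 0 := by rw [h2, map_zero]
      rw [← Module.End.mul_apply, ← map_mul, inv_mul_cancel, map_one, Module.End.one_apply] at h3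
      exact h3
    · intro q y
      ext w
      show σ (y : G) (σ ((Quotient.out q : R) : G) (σ ((y⁻¹ : R) : G) (w : U))) = X q y • σ ((Quotient.out q : R) : G) (w : U)
      have h1 : (y : G) * (Quotient.out q : R) * (y : G)⁻¹ =
          (Quotient.out q : R) * ((y : G) * (Quotient.out q : R) * (y : G)⁻¹ * ((Quotient.out q : R) : G)⁻¹) := by
        rw [hC.cen _ (hC.com _ y.2 _ (Quotient.out q : R).2) _ (Quotient.out q : R).2]
        group
      rw [← Module.End.mul_apply, ← map_mul, ← Module.End.mul_apply, ← map_mul]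
      have h2 : (y : G) * ((Quotient.out q : R) * ((y⁻¹ : R) : G)) = (y : G) * (Quotient.out q : R) * (y : G)⁻¹ := by
        rw [Subgroup.coe_inv]; group
      rw [Subgroup.coe_inv, h1, map_mul, Module.End.mul_apply]
      have h3 := w.2 ⟨_, hC.com _ y.2 _ (Quotient.out q : R).2⟩
      rw [h3, map_smul]
  have h1 := hli.fintype_card_le_finrank
  rw [Module.finrank_linearMap] at h1
  rw [Nat.card_eq_fintype_card, pow_two]
  exact h1

/-- the stabiliser of the radical is small -/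
theorem stab_card_lt [Finite G] {S : Subgroup G} {z : G} (χ : Z →* E) (hinv : ∀ s ∈ S, ∀ x ∈ R, s * x * s⁻¹ ∈ R)
    (hpow : ∀ x ∈ S, x ≠ 1 → ∃ j : ℕ, x ^ j = z) (hodd : Odd (Nat.card R)) (hzR : ∀ x ∈ R, z * x * z⁻¹ * x ∈ Z)
    (hnt : ∃ x ∈ R, ∃ y ∈ R, ∃ h : x * y * x⁻¹ * y⁻¹ ∈ Z, χ ⟨_, h⟩ ≠ 1) :
    Nat.card ↥(S ⊓ normalizer (Rad hC χ : Set G)) + 1 ≤ Nat.card (R ⧸ (Rad hC χ).subgroupOf R) := by
  classical
  obtain ⟨y₀, hy₀, x₀, hx₀, h₀, hχ₀⟩ := hnt
  have hx₀' : x₀ ∉ Rad hC χ := fun h => hχ₀ (h.2 y₀ hy₀ h₀)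
  have hZR : Z ≤ Rad hC χ := by
    intro c hc
    refine ⟨hC.le hc, fun y hy h => ?_⟩
    have : (⟨y * c * y⁻¹ * c⁻¹, h⟩ : Z) = 1 := by
      apply Subtype.ext
      show y * c * y⁻¹ * c⁻¹ = 1
      rw [hC.cen c hc y hy]; group
    rw [this, map_one]
  set N := S ⊓ normalizer (Rad hC χ : Set G) with hN
  let f : Option N → (R ⧸ (Rad hC χ).subgroupOf R) := fun o => match o with
    | none => QuotientGroup.mk 1
    | some s => QuotientGroup.mk ⟨(s : G) * x₀ * (s : G)⁻¹, hinv _ (Subgroup.mem_inf.1 s.2).1 x₀ hx₀⟩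
  have hf : Function.Injective f := by
    have key : ∀ s : N, f (some s) ≠ f none := by
      intro s h
      have h1 := (QuotientGroup.eq.1 h.symm)
      rw [Subgroup.mem_subgroupOf] at h1
      have h2 : (s : G) * x₀ * (s : G)⁻¹ ∈ Rad hC χ := by simpa using h1
      have h3 := (Subgroup.mem_inf.1 s.2).2
      exact hx₀' ((mem_normalizer_iff.1 h3 x₀).2 h2)
    intro a b hab
    cases a with
    | none =>
      cases b with
      | none => rfl
      | some t => exact absurd hab.symm (key t)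
    | some s =>
      cases b with
      | none => exact absurd hab (key s)
      | some t =>
        congr 1
        by_contra hne
        have h1 := QuotientGroup.eq.1 hab
        rw [Subgroup.mem_subgroupOf] at h1
        have h2 : ((s : G) * x₀ * (s : G)⁻¹)⁻¹ * ((t : G) * x₀ * (t : G)⁻¹) ∈ Rad hC χ := by simpa using h1
        -- `u = s⁻¹ t`
        set u : G := (s : G)⁻¹ * t with hu
        have huS : u ∈ S := mul_mem (inv_mem (Subgroup.mem_inf.1 s.2).1) (Subgroup.mem_inf.1 t.2).1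
        have huN : u ∈ normalizer (Rad hC χ : Set G) :=
          mul_mem (inv_mem (Subgroup.mem_inf.1 s.2).2) (Subgroup.mem_inf.1 t.2).2
        have hu1 : u ≠ 1 := by
          intro h
          apply hne
          apply Subtype.ext
          rw [hu, inv_mul_eq_one] at h
          exact h
        have h3 : x₀⁻¹ * (u * x₀ * u⁻¹) ∈ Rad hC χ := by
          have h4 := (mem_normalizer_iff.1 (inv_mem (Subgroup.mem_inf.1 s.2).2) _).1 h2
          have h5 : (s : G)⁻¹ * (((s : G) * x₀ * (s : G)⁻¹)⁻¹ * ((t : G) * x₀ * (t : G)⁻¹)) * (s : G)⁻¹⁻¹ =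
              x₀⁻¹ * (u * x₀ * u⁻¹) := by
            rw [hu]; group
          rwa [h5] at h4
        have h4 : ∀ j : ℕ, x₀⁻¹ * (u ^ j * x₀ * (u ^ j)⁻¹) ∈ Rad hC χ := by
          intro j
          induction j with
          | zero => simp
          | succ j ih =>
            have h5 := (mem_normalizer_iff.1 huN _).1 ih
            have h6 := mul_mem h3 h5
            have h7 : x₀⁻¹ * (u * x₀ * u⁻¹) * (u * (x₀⁻¹ * (u ^ j * x₀ * (u ^ j)⁻¹)) * u⁻¹) =
                x₀⁻¹ * (u ^ (j + 1) * x₀ * (u ^ (j + 1))⁻¹) := by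
              rw [pow_succ']; group
            rwa [h7] at h6
        obtain ⟨j, hj⟩ := hpow u huS hu1
        have h5 := h4 j
        rw [hj] at h5
        have h6 := hZR (hzR x₀ hx₀)
        -- x₀ * x₀ ∈ Rad
        have h7 : x₀ * x₀ ∈ Rad hC χ := by
          have hcz := hC.cen _ (hzR x₀ hx₀) x₀ hx₀
          have h8 : (z * x₀ * z⁻¹ * x₀)⁻¹ * (x₀⁻¹ * (z * x₀ * z⁻¹)) = (x₀ * x₀)⁻¹ := by
            generalize z * x₀ * z⁻¹ = A at hcz
            calc (A * x₀)⁻¹ * (x₀⁻¹ * A) = (x₀ * (A * x₀))⁻¹ * A := by group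
              _ = (A * x₀ * x₀)⁻¹ * A := by rw [hcz]
              _ = (x₀ * x₀)⁻¹ := by group
          have h9 := mul_mem (inv_mem h6) h5
          rw [h8] at h9
          exact (inv_mem_iff).1 h9
        obtain ⟨i, hi⟩ := hodd
        have h8 : x₀ = (x₀ * x₀) ^ (i + 1) := by
          have h9 : x₀ ^ Nat.card R = 1 := by
            have := pow_card_eq_one' (x := (⟨x₀, hx₀⟩ : R))
            exact congrArg Subtype.val this
          rw [← pow_two, ← pow_mul]
          have : 2 * (i + 1) = Nat.card R + 1 := by omega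
          rw [this, pow_succ, h9, one_mul]
        apply hx₀'
        rw [h8]
        exact pow_mem h7 _
  have h1 := Nat.card_le_card_of_injective f hf
  rwa [Finite.card_option] at h1

end H67.SE
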