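import Cfsg.Agent.Lib.H67.SE4

/-! S3841, part 5: the bound in the case of a class two group. -/

set_option autoImplicit false

namespace H67.SE

open Module Subgroup

variable {G E U : Type*} [Group G] [Field E] [AddCommGroup U] [Module E U]

/-- twisting a character of `Z` by conjugation and Frobenius -/
def tw {Z : Subgroup G} (χ : Z →* E) (s : G) (hs : ∀ y ∈ Z, s⁻¹ * y * s ∈ Z) (n : ℕ) : Z →* E where
  toFun y := χ ⟨s⁻¹ * y * s, hs y y.2⟩ ^ n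
  map_one' := by
    have : (⟨s⁻¹ * ((1 : Z) : G) * s, hs _ (1 : Z).2⟩ : Z) = 1 := Subtype.ext (by simp)
    rw [this, map_one, one_pow]
  map_mul' := by
    intro a b
    have : (⟨s⁻¹ * ((a * b : Z) : G) * s, hs _ (a * b : Z).2⟩ : Z) = ⟨s⁻¹ * a * s, hs a a.2⟩ * ⟨s⁻¹ * b * s, hs b b.2⟩ :=
      Subtype.ext (by show s⁻¹ * ((a : G) * b) * s = s⁻¹ * a * s * (s⁻¹ * b * s); group)
    rw [this, map_mul, mul_pow]

theorem tw_apply {Z : Subgroup G} (χ : Z →* E) (s : G) (hs : ∀ y ∈ Z, s⁻¹ * y * s ∈ Z) (n : ℕ) (y : Z) :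
    tw χ s hs n y = χ ⟨s⁻¹ * y * s, hs y y.2⟩ ^ n := rfl

theorem char_ne_zero {Z : Subgroup G} (χ : Z →* E) (y : Z) : χ y ≠ 0 := by
  intro h
  have h1 : χ (y * y⁻¹) = 1 := by rw [mul_inv_cancel, map_one]
  rw [map_mul, h, zero_mul] at h1
  exact zero_ne_one h1

variable {R Z : Subgroup G} (hC : Cls R Z)

theorem mem_Rad_tw [CharP E 2] {χ : Z →* E} {s : G} (hs : ∀ y ∈ Z, s⁻¹ * y * s ∈ Z) (hR : ∀ y ∈ R, s⁻¹ * y * s ∈ R)
    (hR' : ∀ y ∈ R, s * y * s⁻¹ ∈ R) {n : ℕ} (hn : n = 1 ∨ n = 2) {x : G} :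
    x ∈ Rad hC (tw χ s hs n) ↔ s⁻¹ * x * s ∈ Rad hC χ := by
  rw [mem_Rad, mem_Rad]
  constructor
  · rintro ⟨h1, h2⟩
    refine ⟨hR x h1, fun y hy h => ?_⟩
    have h3 := h2 (s * y * s⁻¹) (hR' y hy) (hC.com _ (hR' y hy) _ h1)
    rw [tw_apply] at h3
    have h4 : (⟨s⁻¹ * (s * y * s⁻¹ * x * (s * y * s⁻¹)⁻¹ * x⁻¹) * s, hs _ (hC.com _ (hR' y hy) _ h1)⟩ : Z) = ⟨_, h⟩ := by
      apply Subtype.ext
      show s⁻¹ * (s * y * s⁻¹ * x * (s * y * s⁻¹)⁻¹ * x⁻¹) * s = y * (s⁻¹ * x * s) * y⁻¹ * (s⁻¹ * x * s)⁻¹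
      group
    have h5 : χ (⟨_, h⟩ : Z) ^ n = 1 := by rw [← h4]; exact h3
    rcases hn with rfl | rfl
    · rwa [pow_one] at h5
    · rw [pow_two] at h5
      exact sq_eq_one_char_two h5
  · rintro ⟨h1, h2⟩
    have hxR : x ∈ R := by
      have := hR' _ h1
      have e : s * (s⁻¹ * x * s) * s⁻¹ = x := by group
      rwa [e] at this
    refine ⟨hxR, fun y hy h => ?_⟩
    rw [tw_apply]
    have h3 := h2 (s⁻¹ * y * s) (hR y hy) (hC.com _ (hR y hy) _ h1)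
    have h4 : (⟨s⁻¹ * (y * x * y⁻¹ * x⁻¹) * s, hs _ h⟩ : Z) =
        ⟨s⁻¹ * y * s * (s⁻¹ * x * s) * (s⁻¹ * y * s)⁻¹ * (s⁻¹ * x * s)⁻¹, hC.com _ (hR y hy) _ h1⟩ := by
      apply Subtype.ext
      show s⁻¹ * (y * x * y⁻¹ * x⁻¹) * s = s⁻¹ * y * s * (s⁻¹ * x * s) * (s⁻¹ * y * s)⁻¹ * (s⁻¹ * x * s)⁻¹
      group
    have h5 : χ (⟨s⁻¹ * (y * x * y⁻¹ * x⁻¹) * s, hs _ h⟩ : Z) = 1 := by rw [h4]; exact h3
    show χ (⟨s⁻¹ * (y * x * y⁻¹ * x⁻¹) * s, hs _ h⟩ : Z) ^ n = 1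
    rw [h5, one_pow]

theorem arith (a b : ℕ) : a + b ≤ 2 ^ b * (Nat.sqrt (2 ^ a) + 1) := by
  have h1 : a ≤ Nat.sqrt (2 ^ a) + 1 := by
    rcases a with _ | a
    · exact Nat.zero_le _
    · rw [Nat.add_le_add_iff_right, Nat.le_sqrt]
      -- a * a ≤ 2 ^ (a+1)
      induction a with
      | zero => norm_num
      | succ a ih =>
        rcases Nat.lt_or_ge a 3 with h | h
        · interval_cases a <;> norm_num
        · have : (a + 1) * (a + 1) ≤ 2 * (a * a) := by nlinarith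
          calc (a + 1) * (a + 1) ≤ 2 * (a * a) := this
            _ ≤ 2 * 2 ^ (a + 1) := by omega
            _ = 2 ^ (a + 1 + 1) := by ring
  have h2 : b < 2 ^ b := Nat.lt_two_pow_self
  have h3 : 1 ≤ 2 ^ b := Nat.one_le_two_pow
  obtain ⟨c, hc⟩ : ∃ c, 2 ^ b = c + 1 := ⟨2 ^ b - 1, by omega⟩
  rw [hc] at h2 ⊢
  set w := Nat.sqrt (2 ^ a) + 1
  have hw : 1 ≤ w := by omega
  have : (c + 1) * w = c * w + w := by ring
  rw [this]
  have : c ≤ c * w := Nat.le_mul_of_pos_right c hw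
  omega

include hC in
/-- CASE B -/
theorem caseB [Finite G] [IsAlgClosed E] [CharP E 2] [FiniteDimensional E U] (σ : G →* Module.End E U)
    (hσ : Function.Injective σ) (φ : U → U) (hφ0 : ∀ v, φ v = 0 → v = 0) (hφs : ∀ (a : E) (v : U), φ (a • v) = a ^ 2 • φ v)
    (hφσ : ∀ (g : G) (v : U), φ (σ g v) = σ g (φ v))
    {S : Subgroup G} {k : ℕ} (hSk : Nat.card S = 2 ^ k) {z : G} (hpow : ∀ x ∈ S, x ≠ 1 → ∃ j : ℕ, x ^ j = z)
    (hodd : Odd (Nat.card R)) (hinv : ∀ s ∈ S, ∀ x ∈ R, s * x * s⁻¹ ∈ R) (hinvZ : ∀ s ∈ S, ∀ x ∈ Z, s * x * s⁻¹ ∈ Z)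
    (hzR : ∀ x ∈ R, z * x * z⁻¹ * x ∈ Z) (hnc : ∃ x ∈ R, ∃ y ∈ R, x * y * x⁻¹ * y⁻¹ ≠ 1) : 2 * k ≤ finrank E U := by
  classical
  let P : (Z →* E) → Prop := fun χ => wt (fun y : Z => σ y) χ ≠ ⊥ ∧
    ∃ x ∈ R, ∃ y ∈ R, ∃ h : x * y * x⁻¹ * y⁻¹ ∈ Z, χ ⟨_, h⟩ ≠ 1
  let N : (Z →* E) → Subgroup G := fun χ => S ⊓ normalizer (Rad hC χ : Set G)
  have hne : ∃ χ, P χ := by
    obtain ⟨x, hx, y, hy, hxy⟩ := hnc
    have hcZ := hC.com x hx y hy
    have hcn : (x * y * x⁻¹ * y⁻¹) ^ Nat.card R = 1 := by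
      have := pow_card_eq_one' (x := (⟨_, hC.le hcZ⟩ : R))
      exact congrArg Subtype.val this
    obtain ⟨v, hv0, χ, hχ, hχc⟩ := exists_weight σ (Z := Z) (fun a ha b hb => hC.cen b hb a (hC.le ha)) hcZ hodd hcn (by
      intro h
      apply hxy
      apply hσ
      rw [h, map_one])
    let χ' : Z →* E :=
      { toFun := χ
        map_one' := weight_one hv0 hχ
        map_mul' := weight_mul hv0 hχ }
    refine ⟨χ', ?_, x, hx, y, hy, hcZ, hχc⟩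
    rw [Submodule.ne_bot_iff]
    exact ⟨v, hχ, hv0⟩
  obtain ⟨χ, hPχ, hmin⟩ : ∃ χ, P χ ∧ ∀ χ', P χ' → Nat.card (N χ) ≤ Nat.card (N χ') := by
    obtain ⟨χ, h1, h2⟩ := WellFounded.has_min (measure (fun χ : Z →* E => Nat.card (N χ))).wf {χ | P χ} hne
    exact ⟨χ, h1, fun χ' h => not_lt.1 (h2 χ' h)⟩
  have hw : ∀ χ', P χ' → Nat.sqrt (Nat.card (N χ)) + 1 ≤ finrank E (wt (fun y : Z => σ y) χ') := by
    intro χ' hP
    have h1 := stab_card_lt hC χ' hinv hpow hodd hzR hP.2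
    have h2 := card_le_sq hC σ χ' hP.1
    have h3 := hmin χ' hP
    rw [Nat.succ_le_iff, Nat.sqrt_lt']
    have h4 : Nat.card (N χ') + 1 ≤ _ := h1
    omega
  have hSi : ∀ s ∈ S, ∀ y ∈ Z, s⁻¹ * y * s ∈ Z := by
    intro s hs y hy
    have := hinvZ s⁻¹ (inv_mem hs) y hy
    rwa [inv_inv] at this
  have hRi : ∀ s ∈ S, ∀ y ∈ R, s⁻¹ * y * s ∈ R := by
    intro s hs y hy
    have := hinv s⁻¹ (inv_mem hs) y hy
    rwa [inv_inv] at this
  obtain ⟨hW, x₀, hx₀, y₀, hy₀, h₀, hχ₀⟩ := id hPχ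
  obtain ⟨v, hv, hv0⟩ := (Submodule.ne_bot_iff _).1 hW
  -- the twisted characters
  have hPtw : ∀ (s : G) (hs : s ∈ S) (n : ℕ), n = 1 ∨ n = 2 → P (tw χ s (hSi s hs) n) := by
    intro s hs n hn
    constructor
    · rw [Submodule.ne_bot_iff]
      have hsv : ∀ y : Z, σ (y : G) (σ s v) = χ ⟨s⁻¹ * y * s, hSi s hs y y.2⟩ • σ s v := by
        intro y
        have h1 : (y : G) * s = s * (s⁻¹ * y * s) := by group
        rw [← Module.End.mul_apply, ← map_mul, h1, map_mul, Module.End.mul_apply]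
        have h2 := hv ⟨s⁻¹ * y * s, hSi s hs y y.2⟩
        rw [h2, map_smul]
      have hsv0 : σ s v ≠ 0 := by
        intro h
        apply hv0
        have h1 : σ s⁻¹ (σ s v) = 0 := by rw [h, map_zero]
        rw [← Module.End.mul_apply, ← map_mul, inv_mul_cancel, map_one, Module.End.one_apply] at h1
        exact h1
      rcases hn with rfl | rfl
      · refine ⟨σ s v, ?_, hsv0⟩
        intro y
        show σ (y : G) (σ s v) = tw χ s (hSi s hs) 1 y • σ s v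
        rw [tw_apply, pow_one]
        exact hsv y
      · refine ⟨φ (σ s v), ?_, fun h => hsv0 (hφ0 _ h)⟩
        intro y
        show σ (y : G) (φ (σ s v)) = tw χ s (hSi s hs) 2 y • φ (σ s v)
        rw [tw_apply, ← hφσ, hsv y, hφs]
    · refine ⟨s * x₀ * s⁻¹, hinv s hs x₀ hx₀, s * y₀ * s⁻¹, hinv s hs y₀ hy₀, ?_, ?_⟩
      · exact hC.com _ (hinv s hs x₀ hx₀) _ (hinv s hs y₀ hy₀)
      · rw [tw_apply]
        intro h
        apply hχ₀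
        have h4 : (⟨s⁻¹ * (s * x₀ * s⁻¹ * (s * y₀ * s⁻¹) * (s * x₀ * s⁻¹)⁻¹ * (s * y₀ * s⁻¹)⁻¹) * s,
            hSi s hs _ (hC.com _ (hinv s hs x₀ hx₀) _ (hinv s hs y₀ hy₀))⟩ : Z) = ⟨_, h₀⟩ := by
          apply Subtype.ext
          show s⁻¹ * (s * x₀ * s⁻¹ * (s * y₀ * s⁻¹) * (s * x₀ * s⁻¹)⁻¹ * (s * y₀ * s⁻¹)⁻¹) * s = x₀ * y₀ * x₀⁻¹ * y₀⁻¹
          group
        have h5 : χ (⟨_, h₀⟩ : Z) ^ n = 1 := by rw [← h4]; exact h
        rcases hn with rfl | rfl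
        · rwa [pow_one] at h5
        · rw [pow_two] at h5
          exact sq_eq_one_char_two h5
  -- the index set
  have hfinI : Fintype (S ⧸ (N χ).subgroupOf S) := Fintype.ofFinite _
  let X : (S ⧸ (N χ).subgroupOf S) × Bool → Z → E := fun p =>
    tw χ ((Quotient.out p.1 : S) : G) (hSi _ (Quotient.out p.1 : S).2) (if p.2 then 2 else 1)
  have hif : ∀ b : Bool, ((if b then 2 else 1 : ℕ) = 1 ∨ (if b then 2 else 1 : ℕ) = 2) := by
    intro b; cases b <;> simp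
  have hX : Function.Injective X := by
    rintro ⟨q, ε⟩ ⟨q', ε'⟩ h
    set s : S := Quotient.out q with hs
    set t : S := Quotient.out q' with ht
    have hq : q = (QuotientGroup.mk s : S ⧸ (N χ).subgroupOf S) := (Quotient.out_eq q).symm
    have hq' : q' = (QuotientGroup.mk t : S ⧸ (N χ).subgroupOf S) := (Quotient.out_eq q').symm
    have h1 : tw χ (s : G) (hSi _ s.2) (if ε then 2 else 1) = tw χ (t : G) (hSi _ t.2) (if ε' then 2 else 1) :=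
      MonoidHom.ext (fun y => congrFun h y)
    have hrad : ∀ x, (s : G)⁻¹ * x * s ∈ Rad hC χ ↔ (t : G)⁻¹ * x * t ∈ Rad hC χ := by
      intro x
      rw [← mem_Rad_tw hC (hSi _ s.2) (hRi _ s.2) (hinv _ s.2) (hif ε),
        ← mem_Rad_tw hC (hSi _ t.2) (hRi _ t.2) (hinv _ t.2) (hif ε'), h1]
    have hqq : q = q' := by
      rw [hq, hq', QuotientGroup.eq, Subgroup.mem_subgroupOf]
      refine Subgroup.mem_inf.2 ⟨(s⁻¹ * t).2, ?_⟩
      rw [mem_normalizer_iff]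
      intro x
      have h2 := hrad (t * x * (t : G)⁻¹)
      have e1 : (t : G)⁻¹ * (t * x * (t : G)⁻¹) * t = x := by group
      have e2 : (s : G)⁻¹ * (t * x * (t : G)⁻¹) * s = ((s⁻¹ * t : S) : G) * x * ((s⁻¹ * t : S) : G)⁻¹ := by
        rw [Subgroup.coe_mul, Subgroup.coe_inv]; group
      rw [e1, e2] at h2
      exact h2.symm
    subst hqq
    congr 1
    by_contra hεε
    apply hχ₀
    have key : ∀ y : Z, χ ⟨(s : G)⁻¹ * y * s, hSi _ s.2 y y.2⟩ = 1 := by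
      intro y
      have h3 := congrFun h y
      have h4 : χ ⟨(s : G)⁻¹ * y * s, hSi _ s.2 y y.2⟩ ^ (if ε then 2 else 1) =
          χ ⟨(s : G)⁻¹ * y * s, hSi _ s.2 y y.2⟩ ^ (if ε' then 2 else 1) := h3
      have h5 := char_ne_zero χ ⟨(s : G)⁻¹ * y * s, hSi _ s.2 y y.2⟩
      generalize χ ⟨(s : G)⁻¹ * y * s, hSi _ s.2 y y.2⟩ = a at h4 h5
      cases ε <;> cases ε' <;> simp at h4 hεε
      · rw [pow_two] at h4
        exact ((left_eq_mul₀ h5).1 h4)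
      · rw [pow_two] at h4
        exact ((left_eq_mul₀ h5).1 h4.symm)
    have h6 := key ⟨(s : G) * (x₀ * y₀ * x₀⁻¹ * y₀⁻¹) * (s : G)⁻¹, hinvZ _ s.2 _ h₀⟩
    rw [← h6]
    congr 1
    apply Subtype.ext
    show x₀ * y₀ * x₀⁻¹ * y₀⁻¹ = (s : G)⁻¹ * ((s : G) * (x₀ * y₀ * x₀⁻¹ * y₀⁻¹) * (s : G)⁻¹) * s
    group
  have h1 := card_mul_le (E := E) (U := U) (fun y : Z => σ y) hX (w := Nat.sqrt (Nat.card (N χ)) + 1) (by
    rintro ⟨q, ε⟩
    exact hw _ (hPtw _ (Quotient.out q : S).2 _ (hif ε)))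
  rw [Fintype.card_prod, Fintype.card_bool, ← Nat.card_eq_fintype_card] at h1
  have h2 := Subgroup.card_eq_card_quotient_mul_card_subgroup ((N χ).subgroupOf S)
  have h3 : Nat.card ((N χ).subgroupOf S) = Nat.card (N χ) := by
    apply Nat.card_congr
    exact (Subgroup.subgroupOfEquivOfLe (inf_le_left)).toEquiv
  rw [h3, hSk] at h2
  have h4 : Nat.card (N χ) ∣ 2 ^ k := Dvd.intro_left _ h2.symm
  have h5 : Nat.card (S ⧸ (N χ).subgroupOf S) ∣ 2 ^ k := Dvd.intro _ h2.symm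
  obtain ⟨a, -, ha⟩ := (Nat.dvd_prime_pow Nat.prime_two).1 h4
  obtain ⟨b, -, hb⟩ := (Nat.dvd_prime_pow Nat.prime_two).1 h5
  rw [ha, hb, ← pow_add] at h2
  have h6 : k = b + a := Nat.pow_right_injective le_rfl h2
  rw [ha, hb] at h1
  have h7 := arith a b
  calc 2 * k = 2 * (a + b) := by rw [h6, add_comm]
    _ ≤ 2 * (2 ^ b * (Nat.sqrt (2 ^ a) + 1)) := Nat.mul_le_mul_left 2 h7
    _ = 2 ^ b * 2 * (Nat.sqrt (2 ^ a) + 1) := by ring
    _ ≤ _ := h1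

end H67.SE
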