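import Cfsg.Agent.Lib.H67.SE5

/-! S3841, part 6: representations over the field with two elements; the rank one bound. -/

set_option autoImplicit false

namespace H67.SE

open Module Subgroup

variable {G V : Type*} [Group G] [AddCommGroup V] [Module (ZMod 2) V]

/-- extension of scalars to the algebraic closure -/
theorem exists_ext [Module.Finite (ZMod 2) V] (ρ : Representation (ZMod 2) G V) (hρ : Function.Injective ρ) :
    ∃ (n : ℕ) (σ : G →* Module.End (AlgebraicClosure (ZMod 2)) (Fin n → AlgebraicClosure (ZMod 2)))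
      (φ : (Fin n → AlgebraicClosure (ZMod 2)) → (Fin n → AlgebraicClosure (ZMod 2))),
      n = finrank (ZMod 2) V ∧ Function.Injective σ ∧ (∀ v, φ v = 0 → v = 0) ∧
      (∀ (a : AlgebraicClosure (ZMod 2)) v, φ (a • v) = a ^ 2 • φ v) ∧ ∀ g v, φ (σ g v) = σ g (φ v) := by
  classical
  have hch : CharP (AlgebraicClosure (ZMod 2)) 2 := charP_of_injective_algebraMap (algebraMap (ZMod 2) (AlgebraicClosure (ZMod 2))).injective 2
  let b := Module.finBasis (ZMod 2) V
  let τ : G →* Matrix (Fin (finrank (ZMod 2) V)) (Fin (finrank (ZMod 2) V)) (AlgebraicClosure (ZMod 2)) :=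
    ((algebraMap (ZMod 2) (AlgebraicClosure (ZMod 2))).mapMatrix : Matrix (Fin (finrank (ZMod 2) V)) (Fin (finrank (ZMod 2) V)) (ZMod 2) →+* _).toMonoidHom.comp
      ((LinearMap.toMatrixAlgEquiv b).toMulEquiv.toMonoidHom.comp ρ)
  refine ⟨finrank (ZMod 2) V, (Matrix.toLinAlgEquiv' (R := AlgebraicClosure (ZMod 2))).toMulEquiv.toMonoidHom.comp τ,
    fun v i => v i ^ 2, rfl, ?_, ?_, ?_, ?_⟩
  · intro g h hgh
    have h1 : τ g = τ h := (Matrix.toLinAlgEquiv' (R := AlgebraicClosure (ZMod 2))).injective hgh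
    have h2 : LinearMap.toMatrixAlgEquiv b (ρ g) = LinearMap.toMatrixAlgEquiv b (ρ h) := by
      ext i j
      have h3 := congrFun (congrFun h1 i) j
      exact (algebraMap (ZMod 2) (AlgebraicClosure (ZMod 2))).injective h3
    exact hρ ((LinearMap.toMatrixAlgEquiv b).injective h2)
  · intro v hv
    ext i
    have := congrFun hv i
    exact pow_eq_zero_iff (two_ne_zero) |>.1 this
  · intro a v
    ext i
    simp [mul_pow]
  · intro g v
    ext i
    have e1 : ∀ w : Fin (finrank (ZMod 2) V) → AlgebraicClosure (ZMod 2),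
        ((Matrix.toLinAlgEquiv' (R := AlgebraicClosure (ZMod 2))).toMulEquiv.toMonoidHom.comp τ) g w i =
          ∑ j, algebraMap (ZMod 2) (AlgebraicClosure (ZMod 2)) (LinearMap.toMatrixAlgEquiv b (ρ g) i j) * w j := fun w => rfl
    show (((Matrix.toLinAlgEquiv' (R := AlgebraicClosure (ZMod 2))).toMulEquiv.toMonoidHom.comp τ) g v i) ^ 2 = _
    rw [e1, e1, sum_pow_char]
    apply Finset.sum_congr rfl
    intro j _
    rw [mul_pow, ← map_pow]
    congr 2
    exact ZMod.pow_card _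

/-- the rank one bound -/
theorem rank_one_bound [Finite G] [Module.Finite (ZMod 2) V] (ρ : Representation (ZMod 2) G V) (hρ : Function.Injective ρ)
    {S K : Subgroup G} {z : G} {k : ℕ} (hSk : Nat.card S = 2 ^ k) (hz : z * z = 1) (hzS : z ∈ S)
    (hpow : ∀ x ∈ S, x ≠ 1 → ∃ j : ℕ, x ^ j = z) (hK : Odd (Nat.card K)) (hSK : ∀ s ∈ S, ∀ x ∈ K, s * x * s⁻¹ ∈ K)
    (hne : ∃ x ∈ K, z * x * z⁻¹ ≠ x) : 2 * k ≤ finrank (ZMod 2) V := by
  have hch : CharP (AlgebraicClosure (ZMod 2)) 2 := charP_of_injective_algebraMap (algebraMap (ZMod 2) (AlgebraicClosure (ZMod 2))).injective 2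
  have hfact2 : Fact (Nat.Prime 2) := ⟨Nat.prime_two⟩
  have hzc : ∀ s ∈ S, s * z = z * s := by
    intro s hs
    by_cases h : s = 1
    · rw [h, one_mul, mul_one]
    · obtain ⟨j, hj⟩ := hpow s hs h
      rw [← hj, ← pow_succ, ← pow_succ']
  obtain ⟨R, hRK, hM⟩ := exists_minR (IsPGroup.of_card hSk) hz hzS hzc hK hSK hne
  obtain ⟨n, σ, φ, hn, hσ, hφ0, hφs, hφσ⟩ := exists_ext ρ hρ
  have hfr : finrank (AlgebraicClosure (ZMod 2)) (Fin n → AlgebraicClosure (ZMod 2)) = finrank (ZMod 2) V := by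
    rw [Module.finrank_fin_fun, hn]
  rw [← hfr]
  rcases hM.alt with h | ⟨h1, h2, h3, h4⟩
  · have h5 := caseA σ hσ hpow hM.odd hM.inv hM.ne h
    rw [hSk] at h5
    refine le_trans ?_ h5
    rcases k with _ | k
    · norm_num
    · have : k < 2 ^ k := Nat.lt_two_pow_self
      rw [pow_succ]; omega
  · have hC : Cls R (R ⊓ centralizer (R : Set G)) :=
      { le := inf_le_left
        cen := fun c hc x hx => (mem_centralizer_iff.1 (Subgroup.mem_inf.1 hc).2) x hx
        com := h3 }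
    refine caseB hC σ hσ φ hφ0 hφs hφσ hSk hpow hM.odd hM.inv ?_ h2 h4
    intro s hs x hx
    obtain ⟨hx1, hx2⟩ := Subgroup.mem_inf.1 hx
    refine Subgroup.mem_inf.2 ⟨hM.inv s hs x hx1, ?_⟩
    rw [mem_centralizer_iff] at hx2 ⊢
    intro w hw
    have h5 := hM.inv s⁻¹ (inv_mem hs) w hw
    rw [inv_inv] at h5
    have h6 := hx2 _ h5
    calc w * (s * x * s⁻¹) = s * ((s⁻¹ * w * s) * x) * s⁻¹ := by group
      _ = s * (x * (s⁻¹ * w * s)) * s⁻¹ := by rw [h6]
      _ = s * x * s⁻¹ * w := by group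

end H67.SE
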