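import Cfsg.Agent.Lib.H67.SE6
import Cfsg.Agent.S0215
import Cfsg.Prelude.Def_Involutions
import Cfsg.Agent.Lib.H25.StrEmb

/-! S3841, part 7: the case of 2-rank one. -/

set_option autoImplicit false

namespace H67.SE

open Module Subgroup

variable {G V : Type*} [Group G] [AddCommGroup V] [Module (ZMod 2) V]

theorem rank_one [Finite G] [Module.Finite (ZMod 2) V] (ρ : Representation (ZMod 2) G V) (hρ : Function.Injective ρ)
    {H : Subgroup G} (hH : Cfsg.IsStronglyEmbedded H) (S : Sylow 2 G)
    (hone : ∀ x y : G, orderOf x = 2 → orderOf y = 2 → x * y = y * x → x = y) :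
    (∀ k : ℕ, Nat.card ↥(S : Subgroup G) = 2 ^ k → 2 * k ≤ Module.finrank (ZMod 2) V) ∧
    ∀ n : ℕ, (∀ z ∈ (S : Subgroup G) ⊓ Subgroup.centralizer ((S : Subgroup G) : Set G), z ^ 2 = 1) →
      Nat.card ↥((S : Subgroup G) ⊓ Subgroup.centralizer ((S : Subgroup G) : Set G)) = 2 ^ n →
        ∀ s ∈ (S : Subgroup G), s ≠ 1 → n ≤ Module.finrank (ZMod 2) ↥(LinearMap.range (ρ s - 1)) := by
  classical
  have hf2 : Fact (Nat.Prime 2) := ⟨Nat.prime_two⟩
  obtain ⟨hHt, hHe, hHo⟩ := id hH
  -- the involution of `S`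
  obtain ⟨t, htH, ht⟩ := H25.StrEmb.exists_involution hH
  have hdvd : 2 ∣ Nat.card G := by rw [← ht]; exact orderOf_dvd_natCard t
  have hSne : Nontrivial (S : Subgroup G) := by
    rw [Subgroup.nontrivial_iff_ne_bot]
    intro h
    have h1 := S.card_eq_multiplicity
    rw [h, Subgroup.card_bot] at h1
    have h2 : 0 < (Nat.card G).factorization 2 := (Nat.prime_two.dvd_iff_one_le_factorization Nat.card_pos.ne').1 hdvd
    have h3 : 1 < 2 ^ (Nat.card G).factorization 2 := Nat.one_lt_two_pow h2.ne'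
    omega
  have hcen := S.isPGroup'.center_nontrivial
  obtain ⟨z, hzord⟩ : ∃ z : Subgroup.center (S : Subgroup G), orderOf z = 2 := by
    apply exists_prime_orderOf_dvd_card' 2
    obtain ⟨k, hk⟩ := (S.isPGroup'.to_subgroup (Subgroup.center (S : Subgroup G))).exists_card_eq
    have h1 : 1 < Nat.card (Subgroup.center (S : Subgroup G)) := Finite.one_lt_card
    rw [hk] at h1 ⊢
    rcases k with _ | k
    · simp at h1
    · exact dvd_pow_self 2 (Nat.succ_ne_zero k)
  set z' : G := ((z : (S : Subgroup G)) : G) with hz'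
  have hzo : orderOf z' = 2 := by rw [hz', Subgroup.orderOf_coe, Subgroup.orderOf_coe]; exact hzord
  have hzS : z' ∈ (S : Subgroup G) := (z : (S : Subgroup G)).2
  have hzc : ∀ s ∈ (S : Subgroup G), s * z' = z' * s := by
    intro s hs
    have := (Subgroup.mem_center_iff.1 z.2) ⟨s, hs⟩
    exact congrArg Subtype.val this
  have hun : ∀ x ∈ (S : Subgroup G), orderOf x = 2 → x = z' := fun x hx hxo => hone x z' hxo hzo (hzc x hx)
  have hzz : z' * z' = 1 := by rw [← pow_two, ← hzo, pow_orderOf_eq_one]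
  have hpow : ∀ x ∈ (S : Subgroup G), x ≠ 1 → ∃ j : ℕ, x ^ j = z' := by
    intro x hx hx1
    obtain ⟨j, hj⟩ : ∃ j, orderOf x = 2 ^ j := by
      obtain ⟨j, hj⟩ := (IsPGroup.iff_orderOf.1 S.isPGroup') ⟨x, hx⟩
      exact ⟨j, by rw [← hj]; exact (Subgroup.orderOf_mk x hx).symm⟩
    rcases j with _ | j
    · rw [pow_zero, orderOf_eq_one_iff] at hj
      exact absurd hj hx1
    · refine ⟨2 ^ j, ?_⟩
      apply hun _ (pow_mem hx _)
      rw [orderOf_pow_of_dvd (by positivity) (by rw [hj]; exact pow_dvd_pow _ (by omega)), hj, pow_succ,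
        Nat.mul_div_cancel_left _ (by positivity)]
  constructor
  · intro k hk
    obtain ⟨N, hNn, hNo, hN⟩ := Cfsg.Agent.S0215.result S z' hzo hzS (by
      intro g hg
      apply hun _ hg
      have := MulEquiv.orderOf_eq (MulAut.conj g) z'
      rw [← hzo]
      simpa [MulAut.conj_apply] using this)
    refine rank_one_bound ρ hρ hk hzz hzS hpow hNo (fun s _ x hx => hNn.conj_mem x hx s) ?_
    by_contra hcon
    push Not at hcon
    -- `z'` is central
    have hzi : z'⁻¹ = z' := inv_eq_of_mul_eq_one_left hzz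
    have hcent : ∀ g : G, z' * g = g * z' := by
      intro g
      have h1 := hcon _ (hN g)
      have h2 : z' * (z' * g * z'⁻¹ * g⁻¹) * z'⁻¹ = (z' * g * z'⁻¹ * g⁻¹)⁻¹ := by
        rw [hzi]
        calc z' * (z' * g * z' * g⁻¹) * z' = (z' * z') * g * z' * g⁻¹ * z' := by group
          _ = g * z' * g⁻¹ * z' := by rw [hzz, one_mul]
          _ = g * z'⁻¹ * g⁻¹ * z'⁻¹ := by rw [hzi]
          _ = _ := by group
      rw [h2] at h1
      have h3 : z' * g * z'⁻¹ * g⁻¹ = 1 := by
        apply eq_one_of_sq_of_odd hNo (hN g)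
        nth_rewrite 1 [← h1]
        rw [inv_mul_cancel]
      calc z' * g = (z' * g * z'⁻¹ * g⁻¹) * (g * z') := by group
        _ = g * z' := by rw [h3, one_mul]
    -- `t` is conjugate to `z'`, so equal to `z'`
    have htz : t = z' := by
      have h1 : IsPGroup 2 (Subgroup.zpowers t) := IsPGroup.of_card (n := 1) (by rw [Nat.card_zpowers, ht, pow_one])
      obtain ⟨P, hP⟩ := h1.exists_le_sylow
      obtain ⟨g, hg⟩ := MulAction.exists_smul_eq G P S
      have h2 : g * t * g⁻¹ ∈ (S : Subgroup G) := by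
        rw [← hg, Sylow.coe_subgroup_smul]
        exact Subgroup.smul_mem_pointwise_smul t (MulAut.conj g) _ (hP (Subgroup.mem_zpowers t))
      have h3 : g * t * g⁻¹ = z' := by
        apply hun _ h2
        have := MulEquiv.orderOf_eq (MulAut.conj g) t
        rw [← ht]
        simpa [MulAut.conj_apply] using this
      calc t = g⁻¹ * (g * t * g⁻¹) * g := by group
        _ = g⁻¹ * z' * g := by rw [h3]
        _ = g⁻¹ * (z' * g) := by rw [mul_assoc]
        _ = g⁻¹ * (g * z') := by rw [hcent]
        _ = z' := by group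
    rw [htz] at htH
    obtain ⟨g, hg⟩ : ∃ g, g ∉ H := by
      by_contra h
      push Not at h
      exact hHt ((Subgroup.eq_top_iff' H).2 h)
    have h1 := hHo g hg
    have h2 : z' ∈ H ⊓ H.map (MulAut.conj g).toMonoidHom := by
      refine Subgroup.mem_inf.2 ⟨htH, z', htH, ?_⟩
      show g * z' * g⁻¹ = z'
      rw [← hcent g]; group
    have h3 : 2 ∣ Nat.card ↥(H ⊓ H.map (MulAut.conj g).toMonoidHom) := by
      have := orderOf_dvd_natCard (⟨z', h2⟩ : ↥(H ⊓ H.map (MulAut.conj g).toMonoidHom))
      rwa [← Subgroup.orderOf_coe, hzo] at this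
    exact (Nat.not_even_iff_odd.2 h1) (even_iff_two_dvd.2 h3)
  · intro n hsq hcard s hs hs1
    have hn1 : n ≤ 1 := by
      by_contra hn
      have h4 : 2 < Nat.card ↥((S : Subgroup G) ⊓ Subgroup.centralizer ((S : Subgroup G) : Set G)) := by
        rw [hcard]
        calc 2 < 2 ^ 2 := by norm_num
          _ ≤ 2 ^ n := Nat.pow_le_pow_right (by norm_num) (by omega)
      have hfin : Fintype ↥((S : Subgroup G) ⊓ Subgroup.centralizer ((S : Subgroup G) : Set G)) := Fintype.ofFinite _
      rw [Nat.card_eq_fintype_card, Fintype.two_lt_card_iff] at h4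
      obtain ⟨a, b, c, hab, hac, hbc⟩ := h4
      have key : ∀ x : ↥((S : Subgroup G) ⊓ Subgroup.centralizer ((S : Subgroup G) : Set G)), x = 1 ∨ (x : G) = z' := by
        intro x
        by_cases hx : (x : G) = 1
        · left; exact Subtype.ext hx
        · right
          apply hun _ (Subgroup.mem_inf.1 x.2).1
          exact orderOf_eq_prime (hsq _ x.2) hx
      rcases key a with ha | ha <;> rcases key b with hb | hb <;> rcases key c with hc | hc
      · exact hab (ha.trans hb.symm)
      · exact hab (ha.trans hb.symm)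
      · exact hac (ha.trans hc.symm)
      · exact hbc (Subtype.ext (hb.trans hc.symm))
      · exact hbc (hb.trans hc.symm)
      · exact hac (Subtype.ext (ha.trans hc.symm))
      · exact hab (Subtype.ext (ha.trans hb.symm))
      · exact hab (Subtype.ext (ha.trans hb.symm))
    refine hn1.trans ?_
    rw [Nat.one_le_iff_ne_zero]
    intro h0
    rw [Submodule.finrank_eq_zero, LinearMap.range_eq_bot] at h0
    apply hs1
    apply hρ
    rw [map_one]
    exact sub_eq_zero.1 h0

end H67.SE
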