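import Mathlib

/-! S3841, part 8: the semidirect product `V ⋊ G`. -/

set_option autoImplicit false

namespace H67.SE

open Module Subgroup

variable {G V : Type*} [Group G] [AddCommGroup V] [Module (ZMod 2) V]

/-- the action on the multiplicative group -/
def th (ρ : Representation (ZMod 2) G V) : G →* MulAut (Multiplicative V) where
  toFun g :=
    { toFun := fun v => Multiplicative.ofAdd (ρ g v.toAdd)
      invFun := fun v => Multiplicative.ofAdd (ρ g⁻¹ v.toAdd)
      left_inv := fun v => by
        show Multiplicative.ofAdd (ρ g⁻¹ (ρ g v.toAdd)) = v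
        rw [← Module.End.mul_apply, ← map_mul, inv_mul_cancel, map_one]; rfl
      right_inv := fun v => by
        show Multiplicative.ofAdd (ρ g (ρ g⁻¹ v.toAdd)) = v
        rw [← Module.End.mul_apply, ← map_mul, mul_inv_cancel, map_one]; rfl
      map_mul' := fun v w => by
        show Multiplicative.ofAdd (ρ g (v.toAdd + w.toAdd)) = _
        rw [map_add]; rfl }
  map_one' := by
    ext v
    show Multiplicative.ofAdd (ρ 1 v.toAdd) = v
    rw [map_one]; rfl
  map_mul' g h := by
    ext v
    show Multiplicative.ofAdd (ρ (g * h) v.toAdd) = Multiplicative.ofAdd (ρ g (ρ h v.toAdd))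
    rw [map_mul, Module.End.mul_apply]

theorem th_apply (ρ : Representation (ZMod 2) G V) (g : G) (v : Multiplicative V) :
    th ρ g v = Multiplicative.ofAdd (ρ g v.toAdd) := rfl

/-- the ambient group -/
abbrev SD (ρ : Representation (ZMod 2) G V) : Type _ := SemidirectProduct (Multiplicative V) G (th ρ)

/-- the normal subgroup `V` -/
def VV (ρ : Representation (ZMod 2) G V) : Subgroup (SD ρ) := (SemidirectProduct.inl : Multiplicative V →* SD ρ).range

/-- the image of a subgroup of `G` -/
def LL (ρ : Representation (ZMod 2) G V) (L : Subgroup G) : Subgroup (SD ρ) := L.map (SemidirectProduct.inr : G →* SD ρ)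

instance [Finite G] [Module.Finite (ZMod 2) V] (ρ : Representation (ZMod 2) G V) : Finite (SD ρ) := by
  have : Finite V := Module.finite_of_finite (ZMod 2)
  have : Finite (Multiplicative V) := inferInstanceAs (Finite V)
  exact Finite.of_equiv (Multiplicative V × G) (SemidirectProduct.equivProd (φ := th ρ)).symm

theorem card_V [Module.Finite (ZMod 2) V] : Nat.card V = 2 ^ finrank (ZMod 2) V := by
  have : Finite V := Module.finite_of_finite (ZMod 2)
  rw [Module.natCard_eq_pow_finrank (K := ZMod 2) (V := V), Nat.card_zmod]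

theorem card_VV [Module.Finite (ZMod 2) V] (ρ : Representation (ZMod 2) G V) : Nat.card (VV ρ) = 2 ^ finrank (ZMod 2) V := by
  rw [← card_V]
  exact (Nat.card_congr (MonoidHom.ofInjective (SemidirectProduct.inl_injective (φ := th ρ))).toEquiv).symm

theorem isPGroup_VV [Module.Finite (ZMod 2) V] (ρ : Representation (ZMod 2) G V) : IsPGroup 2 (VV ρ) :=
  IsPGroup.of_card (card_VV ρ)

theorem inr_conj_inl (ρ : Representation (ZMod 2) G V) (g : G) (v : Multiplicative V) :
    (SemidirectProduct.inr g : SD ρ) * SemidirectProduct.inl v * (SemidirectProduct.inr g)⁻¹ =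
      SemidirectProduct.inl (Multiplicative.ofAdd (ρ g v.toAdd)) := by
  rw [← map_inv, ← SemidirectProduct.inl_aut]; rfl

theorem LL_le (ρ : Representation (ZMod 2) G V) (L : Subgroup G) : LL ρ L ≤ normalizer (VV ρ : Set (SD ρ)) := by
  have : (VV ρ).Normal := by
    rw [VV, SemidirectProduct.range_inl_eq_ker_rightHom]
    infer_instance
  rw [normalizer_eq_top]
  exact le_top

theorem LL_faithful (ρ : Representation (ZMod 2) G V) (hρ : Function.Injective ρ) (L : Subgroup G) :
    LL ρ L ⊓ centralizer (VV ρ : Set (SD ρ)) = ⊥ := by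
  rw [eq_bot_iff]
  intro x hx
  obtain ⟨h1, h2⟩ := Subgroup.mem_inf.1 hx
  obtain ⟨g, -, rfl⟩ := h1
  rw [mem_centralizer_iff] at h2
  have h3 : ρ g = 1 := by
    ext v
    have h4 := h2 (SemidirectProduct.inl (Multiplicative.ofAdd v)) ⟨_, rfl⟩
    have h5 := inr_conj_inl ρ g (Multiplicative.ofAdd v)
    rw [← h4, mul_assoc, mul_inv_cancel, mul_one] at h5
    have h6 := SemidirectProduct.inl_injective h5
    exact h6.symm
  rw [mem_bot]
  have : g = 1 := hρ (by rw [h3, map_one])
  rw [this, map_one]

/-- the iso `LL ρ L ≃* L` -/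
noncomputable def eLL (ρ : Representation (ZMod 2) G V) (L : Subgroup G) : LL ρ L ≃* L :=
  (L.equivMapOfInjective (SemidirectProduct.inr : G →* SD ρ) SemidirectProduct.inr_injective).symm

theorem eLL_symm_coe (ρ : Representation (ZMod 2) G V) (L : Subgroup G) (x : L) :
    (((eLL ρ L).symm x : LL ρ L) : SD ρ) = SemidirectProduct.inr (x : G) := rfl

theorem relIndex_eq [Finite G] [Module.Finite (ZMod 2) V] (ρ : Representation (ZMod 2) G V) (g : G) :
    (VV ρ ⊓ centralizer ({(SemidirectProduct.inr g : SD ρ)} : Set (SD ρ))).relIndex (VV ρ) =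
      2 ^ finrank (ZMod 2) (LinearMap.range (ρ g - 1)) := by
  have hfV : Finite V := Module.finite_of_finite (ZMod 2)
  set C := VV ρ ⊓ centralizer ({(SemidirectProduct.inr g : SD ρ)} : Set (SD ρ)) with hC
  have hmem : ∀ v : V, (SemidirectProduct.inl (Multiplicative.ofAdd v) : SD ρ) ∈ C ↔ v ∈ LinearMap.ker (ρ g - 1) := by
    intro v
    rw [hC, Subgroup.mem_inf, mem_centralizer_singleton_iff, LinearMap.mem_ker, LinearMap.sub_apply, Module.End.one_apply,
      sub_eq_zero]
    have h1 := inr_conj_inl ρ g (Multiplicative.ofAdd v)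
    constructor
    · rintro ⟨-, h2⟩
      rw [← h2, mul_assoc, mul_inv_cancel, mul_one] at h1
      exact (SemidirectProduct.inl_injective h1).symm
    · intro h2
      refine ⟨⟨_, rfl⟩, ?_⟩
      have h3 : (SemidirectProduct.inr g : SD ρ) * SemidirectProduct.inl (Multiplicative.ofAdd v) * (SemidirectProduct.inr g)⁻¹ =
          SemidirectProduct.inl (Multiplicative.ofAdd v) := by
        rw [h1]
        show SemidirectProduct.inl (Multiplicative.ofAdd (ρ g v)) = _
        rw [h2]
      calc SemidirectProduct.inl (Multiplicative.ofAdd v) * SemidirectProduct.inr g =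
          (SemidirectProduct.inr g : SD ρ) * SemidirectProduct.inl (Multiplicative.ofAdd v) * (SemidirectProduct.inr g)⁻¹ *
            SemidirectProduct.inr g := by rw [h3]
        _ = _ := by group
  have hcard : Nat.card C = Nat.card (LinearMap.ker (ρ g - 1)) := by
    symm
    apply Nat.card_congr
    refine Equiv.ofBijective (fun v : LinearMap.ker (ρ g - 1) =>
      (⟨SemidirectProduct.inl (Multiplicative.ofAdd (v : V)), (hmem _).2 v.2⟩ : C)) ⟨?_, ?_⟩
    · intro a b hab
      apply Subtype.ext
      have h1 : (SemidirectProduct.inl (Multiplicative.ofAdd (a : V)) : SD ρ) = SemidirectProduct.inl (Multiplicative.ofAdd (b : V)) :=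
        congrArg Subtype.val hab
      exact Multiplicative.ofAdd.injective (SemidirectProduct.inl_injective h1)
    · rintro ⟨x, hx⟩
      obtain ⟨v, rfl⟩ := (Subgroup.mem_inf.1 hx).1
      exact ⟨⟨v.toAdd, (hmem _).1 hx⟩, rfl⟩
  have h1 : Nat.card C * C.relIndex (VV ρ) = Nat.card (VV ρ) := by
    have h2 := (C.subgroupOf (VV ρ)).card_mul_index
    have h3 : Nat.card (C.subgroupOf (VV ρ)) = Nat.card C :=
      Nat.card_congr (Subgroup.subgroupOfEquivOfLe inf_le_left).toEquiv
    rw [h3] at h2
    exact h2
  have h5 := LinearMap.finrank_range_add_finrank_ker (ρ g - 1 : V →ₗ[ZMod 2] V)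
  rw [hcard, card_VV, Module.natCard_eq_pow_finrank (K := ZMod 2) (V := LinearMap.ker (ρ g - 1)), Nat.card_zmod,
    ← h5, pow_add, mul_comm] at h1
  exact Nat.eq_of_mul_eq_mul_right (pow_pos (by norm_num) _) h1

end H67.SE
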