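import Mathlib
import Cfsg.Agent.Lib.H25.QD
import Cfsg.Agent.Lib.H64.Prim

/-!
# Data of semidihedral groups
-/

set_option autoImplicit false
set_option linter.unusedSectionVars false
set_option linter.unusedVariables false

namespace H67.SdData

open Cfsg H25.QD

universe u

section
variable {D : Type u} [Group D] [Finite D] {T : ℤ} {x y : D}

theorem four_part (hd : Data D T x y) (d : D) (h1 : d ≠ 1) (hz : d ≠ x ^ (4 * T))
    (h : ∀ w, w * d * w⁻¹ = d ∨ w * d * w⁻¹ = d * x ^ (4 * T)) : d * d = x ^ (4 * T) := by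
  have hT0 := hd.pos
  rcases cases hd d with ⟨i, rfl⟩ | ⟨i, rfl⟩
  · have h2 := h y
    have h3 : y * x ^ i * y⁻¹ = x ^ ((4 * T - 1) * i) := by
      have := conj_y_x hd i 0
      rwa [zpow_zero, one_mul] at this
    rw [h3] at h2
    rcases h2 with h2 | h2
    · rw [zpow_eq_iff hd] at h2
      exfalso
      have h4 : 2 * (4 * T) ∣ (2 - 4 * T) * i := by
        obtain ⟨c, hc⟩ := h2
        exact ⟨-c, by linear_combination -hc⟩
      rw [dvd_key hd i (4 * T) dvd_rfl] at h4
      rcases mem_one_z hd h4 with h5 | h5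
      · exact h1 h5
      · exact hz h5
    · rw [← zpow_add, zpow_eq_iff hd] at h2
      obtain ⟨c, hc⟩ := h2
      have h4 : i = 2 * T * (i - 1 - 2 * c) := by linarith
      rw [← zpow_add, zpow_eq_iff hd]
      set e := i - 1 - 2 * c with he
      have h5 : (2 * T) * ((2 * T - 1) * e) = (2 * T) * (1 + 2 * c) := by
        have h6 : (2 * T - 1) * i = 2 * T * (1 + 2 * c) := by linarith
        rw [h4] at h6
        linarith
      have h6 := mul_left_cancel₀ (by omega) h5
      have h7 : e = 2 * (T * e - c) - 1 := by linarith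
      refine ⟨T * e - c - 1, ?_⟩
      have h8 : i + i - 4 * T = 4 * T * (e - 1) := by linear_combination 2 * h4
      have h9 : e - 1 = 2 * (T * e - c - 1) := by linarith
      linear_combination h8 + 4 * T * h9
  · exfalso
    have h2 := h x
    have h3 : x * (x ^ i * y) * x⁻¹ = x ^ (i + (2 - 4 * T)) * y := by
      have := conj_xy hd i 1
      rwa [zpow_one, mul_one] at this
    rw [h3] at h2
    rcases h2 with h2 | h2
    · rw [mul_left_inj, zpow_eq_iff hd] at h2
      obtain ⟨c, hc⟩ := h2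
      have : 2 - 4 * T = 8 * T * c := by linarith
      have h4 : 2 * (2 * T + 4 * (T * c)) = 2 := by linarith
      omega
    · rw [mul_yx hd, mul_left_inj, zpow_eq_iff hd] at h2
      obtain ⟨c, hc⟩ := h2
      have h4 : 2 - 16 * (T * T) = 8 * (T * c) := by linarith
      omega

end

/-- (S) -/
theorem sd_data {D : Type u} [Group D] [Finite D] (hsd : IsQuasiDihedral D) {n : ℕ} (hn : 4 ≤ n)
    (hcard : Nat.card D = 2 ^ n) : ∃ s t z y τ : D, orderOf s = 2 ^ (n - 1) ∧ t ∈ Subgroup.zpowers s ∧ orderOf t = 4 ∧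
      t * t = z ∧ orderOf z = 2 ∧ (∀ d, d * z = z * d) ∧ (∀ d, d * t * d⁻¹ = t ∨ d * t * d⁻¹ = t⁻¹) ∧
      y * t * y⁻¹ = t⁻¹ ∧ orderOf τ = 2 ∧ τ ≠ z ∧ (∀ d, d ≠ 1 → z ∈ Subgroup.zpowers d ∨ ∃ x, d = x * τ * x⁻¹) ∧
      (∀ d, d ≠ 1 → d ≠ z → (∀ x, x * d * x⁻¹ = d ∨ x * d * x⁻¹ = d * z) → d * d = z) ∧
      ∀ (E : Type u) [Group E] (f : D →* E), Function.Surjective f → (∀ d, f d = 1 ↔ d = 1 ∨ d = z) →
        Nonempty (E ≃* DihedralGroup (2 ^ (n - 2))) := by
  obtain ⟨m, x, y, hcard', hd⟩ := exists_data hsd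
  have hnm : n = m + 4 := by
    rw [hcard] at hcard'
    exact Nat.pow_right_injective (le_refl 2) hcard'
  subst hnm
  set T : ℤ := 2 ^ m with hT
  have hT0 : 0 < T := hd.pos
  have hpg : IsPGroup 2 D := IsPGroup.of_card hcard
  have hzone := z_ne_one hd
  have hconj : ∀ j : ℤ, (x ^ j * y) * x ^ (2 * T) * (x ^ j * y)⁻¹ = (x ^ (2 * T))⁻¹ := by
    intro j
    rw [conj_y_x hd, ← zpow_neg]
    exact zpow_congr hd T (by ring)
  have hy1 : y ≠ 1 := by
    intro h
    exact zpow_ne_y hd 0 (by rw [zpow_zero, h])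
  refine ⟨x, x ^ (2 * T), x ^ (4 * T), y, y, ?_, Subgroup.zpow_mem _ (Subgroup.mem_zpowers _) _, ?_, ?_, ?_,
    z_central hd, ?_, ?_, ?_, ?_, ?_, ?_, ?_⟩
  · have h1 := hd.ox
    have h2 : (orderOf x : ℤ) = ((2 ^ (m + 3) : ℕ) : ℤ) := by rw [h1, hT]; push_cast; ring
    have h3 : orderOf x = 2 ^ (m + 3) := by exact_mod_cast h2
    rw [h3]; rfl
  · have h1 : ¬ (x ^ (2 * T)) ^ (2 ^ 1) = 1 := by
      rw [← zpow_natCast, ← zpow_mul]
      have : 2 * T * ((2 ^ 1 : ℕ) : ℤ) = 4 * T := by push_cast; ring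
      rw [this]; exact hzone
    have h2 : (x ^ (2 * T)) ^ (2 ^ (1 + 1)) = 1 := by
      rw [← zpow_natCast, ← zpow_mul, zpow_eq_one_iff hd]
      exact ⟨1, by push_cast; ring⟩
    have := orderOf_eq_prime_pow h1 h2
    simpa using this
  · rw [← zpow_add]; congr 1; ring
  · apply orderOf_eq_prime
    · rw [pow_two]; exact zz hd
    · exact hzone
  · intro d
    rcases cases hd d with ⟨i, rfl⟩ | ⟨i, rfl⟩
    · left
      rw [← zpow_add, ← zpow_neg, ← zpow_add]
      congr 1; ring
    · right; exact hconj i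
  · have := hconj 0
    rwa [zpow_zero, one_mul] at this
  · apply orderOf_eq_prime
    · rw [pow_two]; exact hd.yy
    · exact hy1
  · exact fun h => zpow_ne_y hd (4 * T) h.symm
  · intro d hd1
    rcases cases hd d with ⟨i, rfl⟩ | ⟨i, rfl⟩
    · left
      obtain ⟨b, hb⟩ := IsPGroup.iff_orderOf.1 hpg (x ^ i)
      have hb0 : b ≠ 0 := by
        rintro rfl
        rw [pow_zero, orderOf_eq_one_iff] at hb
        exact hd1 hb
      obtain ⟨b', rfl⟩ := Nat.exists_eq_succ_of_ne_zero hb0
      have h1 : (x ^ i) ^ (2 ^ b') ≠ 1 := by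
        intro h
        have h2 := orderOf_dvd_of_pow_eq_one h
        rw [hb] at h2
        have h3 := Nat.le_of_dvd (by positivity) h2
        have h4 : 2 ^ b'.succ = 2 * 2 ^ b' := by rw [pow_succ']
        have h5 : 0 < 2 ^ b' := by positivity
        omega
      have h2 : (x ^ i) ^ (2 ^ b') * (x ^ i) ^ (2 ^ b') = 1 := by
        rw [← pow_add]
        have : 2 ^ b' + 2 ^ b' = 2 ^ b'.succ := by rw [pow_succ']; ring
        rw [this, ← hb, pow_orderOf_eq_one]
      have h3 : (x ^ i) ^ (2 ^ b') = x ^ (i * (2 ^ b' : ℕ)) := by rw [zpow_mul, zpow_natCast]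
      rw [h3] at h1 h2
      rcases mem_one_z hd ((sq_x_iff hd _).1 h2) with h4 | h4
      · exact absurd h4 h1
      · rw [← h4, ← h3]
        exact Subgroup.pow_mem _ (Subgroup.mem_zpowers _) _
    · by_cases hi : (2 : ℤ) ∣ i
      · right
        obtain ⟨j, hj⟩ := exists_conj hd (i := 0) (k := i) (by simpa using hi)
        refine ⟨x ^ j, ?_⟩
        rw [← hj, zpow_zero, one_mul]
      · left
        have h1 := sq_xy hd i
        rw [zpow_4T_odd hd hi] at h1
        rw [← h1]
        exact Subgroup.mul_mem _ (Subgroup.mem_zpowers _) (Subgroup.mem_zpowers _)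
  · exact fun d h1 h2 h3 => four_part hd d h1 h2 h3
  · intro E _ f hfs hf1
    haveI : Finite E := Finite.of_surjective f hfs
    have hfz : f (x ^ (4 * T)) = 1 := (hf1 _).2 (Or.inr rfl)
    have hzz := zz hd
    have hoz : orderOf (x ^ (4 * T)) = 2 := orderOf_eq_prime (by rw [pow_two]; exact hzz) hzone
    have hker : f.ker = Subgroup.zpowers (x ^ (4 * T)) := by
      apply le_antisymm
      · intro d hd'
        rcases (hf1 d).1 hd' with h1 | h1
        · rw [h1]; exact Subgroup.one_mem _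
        · rw [h1]; exact Subgroup.mem_zpowers _
      · rw [Subgroup.zpowers_le]
        exact (hf1 _).2 (Or.inr rfl)
    have hcardE : Nat.card E = 2 ^ (m + 3) := by
      have h1 := Subgroup.card_mul_index f.ker
      rw [Subgroup.index_ker, MonoidHom.range_eq_top.2 hfs, Subgroup.card_top, hker, Nat.card_zpowers, hcard,
        hoz] at h1
      have h2 : 2 ^ (m + 4) = 2 * 2 ^ (m + 3) := by rw [← pow_succ']
      rw [h2] at h1
      exact Nat.eq_of_mul_eq_mul_left (by norm_num) h1
    have hq : ((2 ^ (m + 2) : ℕ) : ℤ) = 4 * T := by rw [hT]; push_cast; ring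
    have hr : orderOf (f x) = 2 ^ (m + 2) := by
      apply Nat.dvd_antisymm
      · rw [orderOf_dvd_iff_pow_eq_one, ← map_pow]
        have h1 : x ^ (2 ^ (m + 2)) = x ^ (4 * T) := by rw [← zpow_natCast, hq]
        rw [h1]; exact hfz
      · have h1 : f x ^ orderOf (f x) = 1 := pow_orderOf_eq_one _
        rw [← map_pow, hf1] at h1
        have h2 : x ^ (orderOf (f x)) * x ^ (orderOf (f x)) = 1 := by
          rcases h1 with h1 | h1
          · rw [h1, mul_one]
          · rw [h1]; exact hzz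
        have h3 : x ^ ((orderOf (f x) : ℕ) : ℤ) * x ^ ((orderOf (f x) : ℕ) : ℤ) = 1 := by
          rw [zpow_natCast]; exact h2
        rw [sq_x_iff hd, ← hq] at h3
        exact_mod_cast h3
    have hns : f y ∉ Subgroup.zpowers (f x) := by
      intro hc
      obtain ⟨i, hi⟩ := Subgroup.mem_zpowers_iff.1 hc
      have h1 : f (x ^ (-i) * y) = 1 := by
        rw [map_mul, map_zpow, ← hi, ← zpow_add, neg_add_cancel, zpow_zero]
      rcases (hf1 _).1 h1 with h2 | h2
      · apply zpow_ne_y hd i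
        have : y = x ^ i * (x ^ (-i) * y) := by group
        rw [this, h2, mul_one]
      · apply zpow_ne_y hd (i + 4 * T)
        have : y = x ^ i * (x ^ (-i) * y) := by group
        rw [this, h2, ← zpow_add]
    haveI : NeZero (2 ^ (m + 2)) := ⟨by positivity⟩
    have h := H64.Prim.Dihedral.equiv_of (2 ^ (m + 2)) (f x) (f y) hr
      (by rw [← map_mul, hd.yy, map_one])
      (by
        have h1 : y * x * y = x ^ (4 * T) * x⁻¹ := by
          have h2 := hd.yx
          rw [y_inv hd] at h2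
          rw [h2, zpow_sub, zpow_one]
        rw [← map_mul, ← map_mul, h1, map_mul, hfz, one_mul, map_inv]) hns
      (by rw [hcardE, ← pow_succ'])
    exact h

end H67.SdData
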